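import Cfsg.Agent.Tw.BN
import Cfsg.Agent.Chev.St

/-! The largest Bruhat cell met by a conjugacy class (of a Levi subgroup of a possibly twisted group). -/

set_option autoImplicit false

namespace Cfsg.Agent.AH

open Cfsg.Lie Cfsg.Lie.ChevalleyDatum Cfsg.Agent.Chev Cfsg.Agent.Tw Equiv

variable {D : ChevalleyDatum} {C : Cert D} {F : Type*} [Field F] {G : Type*} [Group G] {S : Sys C F G}

theorem cell_mul_cell {J : Set (Nd D)} {v w : Perm (Rt D)} (h : ∀ j ∈ J, C.Pos (w (C.sp j))) {z t : G}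
    (ht : S.Cell w t) (hv : v ∈ C.WJ J) (hz : S.Cell v z) : S.Cell (w * v) (t * z) := by
  obtain ⟨u, hu, m, hm, u', hu', rfl⟩ := hz
  simpa [mul_assoc] using (cell_mul_over h (ht.mul_B (S.Up_le_B hu)) hv hm).mul_B (S.Up_le_B hu')

theorem cell_mul_cell' {J : Set (Nd D)} {v w : Perm (Rt D)} (h : ∀ j ∈ J, C.Pos (w⁻¹ (C.sp j))) {z t : G}
    (ht : S.Cell w t) (hv : v ∈ C.WJ J) (hz : S.Cell v z) : S.Cell (v * w) (z * t) := by
  simpa using (cell_mul_cell h ht.inv (inv_mem hv) hz.inv).inv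

theorem L_mono {J M : Set (Nd D)} (h : J ⊆ M) : S.L J ≤ S.L M :=
  sup_le_sup_right (S.U_mono fun _ hr => by exact Cert.InJ.mono h hr) _

variable {T : Stb S} {K : Subgroup G}

theorem Xp_le_L (i : Nd D) : T.Xp K i ≤ S.L (T.orb i) := inf_le_left.trans (U_pos_le_L _)

theorem cell_of_Xm (hK : T.Good K) {i : Nd D} {v : G} (hv : v ∈ T.Xm K i) (h1 : v ≠ 1) :
    S.Cell (C.w0 (T.orb i)) v := by
  obtain ⟨u, hu, m, -, hm, u', hu', rfl⟩ := hK.cell_Xm hv h1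
  exact ⟨u, Stb.Xp_le_Up i hu, m, hm, u', Stb.Xp_le_Up i hu', rfl⟩

/-- normal form with the orbit part split off on the left -/
theorem nf_left (hK : T.Good K) {t : G} (ht : t ∈ K) {w : Perm (Rt D)} (hw : S.Cell w t) (i : Nd D) :
    ∃ v ∈ S.UJ (T.orb i), ∃ a ∈ T.Xp K i, ∃ m ∈ K, S.Over m w ∧ ∃ u' ∈ S.Up, t = v * a * m * u' := by
  obtain ⟨-, u, huK, hu, m, hmK, hm, u', -, hu', rfl⟩ := hK.nf ht hw
  obtain ⟨v, hv, a, ha, rfl⟩ := split_levi' (T.orb i) hu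
  exact ⟨v, hv, a, ⟨ha, hK.up a (S.U_le_Up (fun _ h => h.1) ha)
    ((T.stable_orb i).levi hv (U_pos_le_L _ ha) (hK.fix _ huK)).2⟩, m, hmK, hm, u', S.Uw_le_Up _ hu', rfl⟩

/-- an orbit in the left but not in the right descent set can be moved to the right -/
theorem move (hK : T.BN K) {t : G} (ht : t ∈ K) {w : Perm (Rt D)} (hw : S.Cell w t) {i : Nd D}
    (h1 : ∀ j ∈ T.orb i, C.Pos (w (C.sp j))) (h2 : ∀ j ∈ T.orb i, ¬ C.Pos (w⁻¹ (C.sp j))) :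
    ∃ y ∈ K, y ∈ S.L (T.orb i) ∧ S.Cell (w * C.w0 (T.orb i)) (y * t * y⁻¹) := by
  obtain ⟨v, hv, a, ha, m, -, hm, u', hu', rfl⟩ := nf_left hK.toGood ht hw i
  obtain ⟨n, hnK, hn⟩ := hK.toGood.ex_orb i
  obtain ⟨y, hy, hya⟩ : ∃ y ∈ T.Xp K i, y * a ≠ 1 := by
    obtain ⟨y, hy, h⟩ := hK.ne i
    by_cases h0 : a = 1
    · exact ⟨y, hy, by simpa [h0] using h⟩
    · exact ⟨1, one_mem _, by simpa using h0⟩
  have hA := hm.mem_Aut
  have hO := C.w0_mem (T.orb i)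
  have p1 : ∀ j ∈ T.orb i, C.Pos ((C.w0 (T.orb i) * w) (C.sp j)) := fun j hj => by
    refine Cert.pos_map_of_not_inJ hO (h1 j hj) fun h => ?_
    exact (Cert.neg_iff_of_max (inv_mem hA) h2 h).1 (by simpa using C.pos_sp j) (h1 j hj)
  have p2 : ∀ j ∈ T.orb i, C.Pos ((C.w0 (T.orb i) * w * C.w0 (T.orb i))⁻¹ (C.sp j)) := fun j hj => by
    have h3 := (Cert.inJ_map hO _).2 (C.inJ_sp.2 hj)
    have h4 := (Cert.neg_iff_of_max (inv_mem hA) h2 h3).2 (C.w0_sp hj)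
    simp only [mul_inv_rev, Cert.w0_inv, Perm.mul_apply]
    refine Cert.pos_map_of_not_inJ hO h4 fun h => C.w0_sp hj ?_
    simpa using Cert.pos_of_min hA h1 h4 h
  have hn' := Stb.over_w0_inv hn
  have c1 := cell_mul_over p1 ((hn.mul hm).cell.mul_B (S.Up_le_B (mul_mem hu' (inv_mem (Stb.Xp_le_Up i hy))))) hO hn'
  have c2 := cell_mul_cell' p2 c1 hO (cell_of_Xm hK.toGood (Stb.conj_Xp hnK hn (mul_mem hy ha)) (by simpa using hya))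
  have c3 := c2.B_mul (S.Up_le_B (S.UJ_le_Up _ (S.P_conj_UJ (mul_mem (hn.mem_P hO)
    (S.Up_le_P _ (Stb.Xp_le_Up i hy))) hv)))
  refine ⟨n * y, mul_mem hnK hy.2, mul_mem (hn.mem_L hO) (Xp_le_L i hy), ?_⟩
  rw [← mul_assoc, ← mul_assoc, Cert.w0_mul_self, one_mul] at c3
  convert c3 using 1
  group

theorem ln_lt_mul_w0 {w : Perm (Rt D)} (hw : w ∈ C.Aut) {i : Nd D} (h1 : ∀ j ∈ T.orb i, C.Pos (w (C.sp j))) :
    C.ln w < C.ln (w * C.w0 (T.orb i)) := by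
  rw [Cert.ln_min_mul hw h1 (C.w0_mem _)]
  exact Nat.lt_add_of_pos_right (Nat.pos_of_ne_zero fun h =>
    Stb.w0_orb_ne_one (T := T) i (Cert.eq_one_of_ln (C.w0_mem_W _) h))

/-- the data attached to an element of `K ∩ L M` lying in the largest cell met by its class -/
structure MaxC (T : Stb S) (K : Subgroup G) (M J : Set (Nd D)) (m v : G) : Prop where
  sub : J ⊆ M
  stab : T.Stable J
  mK : m ∈ K
  vK : v ∈ K
  ov : S.Over m (C.w0 M * C.w0 J)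
  vU : v ∈ S.U {r | C.Pos r ∧ C.InJ M r ∧ ¬ C.InJ J r}
  inv : (C.w0 M * C.w0 J)⁻¹ = C.w0 M * C.w0 J
  neg : ∀ y ∈ K, y ∈ S.U {r | ¬ C.Pos r ∧ C.InJ J r} → m * y = y * m
  pos : ∀ y ∈ K, y ∈ S.U {r | C.Pos r ∧ C.InJ J r} → m * y = y * m
  max : ∀ y ∈ K, y ∈ S.L M → ∀ w, S.Cell w (y * (m * v) * y⁻¹) → C.ln w ≤ C.ln (C.w0 M * C.w0 J)

theorem exists_max (hK : T.BN K) {M : Set (Nd D)} (hM : T.Stable M) {t : G} (ht : t ∈ K) (hL : t ∈ S.L M) :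
    ∃ g ∈ K, g ∈ S.L M ∧ ∃ J m v, MaxC T K M J m v ∧ g * t * g⁻¹ = m * v := by
  have h := hK.toGood
  obtain ⟨⟨w, g0, hg0, hg0L, hw⟩, hmax⟩ := @Finite.exists_max
    {w : Perm (Rt D) // ∃ g ∈ K, g ∈ S.L M ∧ S.Cell w (g * t * g⁻¹)} ℕ _
    (by obtain ⟨w, -, hw⟩ := S.exists_cell t; exact ⟨⟨w, 1, one_mem _, one_mem _, by simpa using hw⟩⟩) _
    fun x => C.ln x.1
  obtain ⟨hcj, u, huK, hu, m, hmK, hm, u', hu'K, hu', e⟩ := h.nf (mul_mem (mul_mem hg0 ht) (inv_mem hg0)) hw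
  obtain ⟨w', hWM, u1, hu1, m1, hm1, u1', hu1', e1⟩ := S.mem_L_iff.1 (mul_mem (mul_mem hg0L hL) (inv_mem hg0L))
  obtain ⟨rfl, rfl, rfl, rfl⟩ := Sys.nfU_unique hm hm1 hu (S.U_le_Up (fun _ h => h.1) hu1) hu' hu1' (e.symm.trans e1)
  have hW := hw.mem_W
  have hA := C.W_le_Aut hW
  set g := u⁻¹ * g0
  have hg : g ∈ K := mul_mem (inv_mem huK) hg0
  have hgL : g ∈ S.L M := mul_mem (inv_mem (U_pos_le_L _ hu1)) hg0L
  set t1 := g * t * g⁻¹ with ht1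
  have ht1K : t1 ∈ K := mul_mem (mul_mem hg ht) (inv_mem hg)
  have hz : u' * u ∈ S.U {r | C.Pos r ∧ C.InJ M r} := mul_mem (S.U_mono (fun r hr => by
    exact ⟨hr.1, by_contra fun h => hr.2 (Cert.pos_map_of_not_inJ hWM hr.1 h)⟩) hu') hu1
  have e2 : t1 = m * (u' * u) := by
    calc u⁻¹ * g0 * t * (u⁻¹ * g0)⁻¹ = u⁻¹ * (g0 * t * g0⁻¹) * u := by group
      _ = _ := by rw [e]; group
  have hc1 : S.Cell w t1 := e2 ▸ hm.cell.mul_B (S.Up_le_B (S.U_le_Up (fun _ h => h.1) hz))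
  have hmax' : ∀ y ∈ K, y ∈ S.L M → ∀ w', S.Cell w' (y * t1 * y⁻¹) → C.ln w' ≤ C.ln w := fun y hy hyL w' hc =>
    hmax ⟨_, y * g, mul_mem hy hg, mul_mem hyL hgL, by simpa [ht1, mul_assoc] using hc⟩
  have s1 := Stb.stable_desc hcj
  have s2 := Stb.stable_desc (w := w⁻¹) (by rw [T.cj_inv, hcj])
  have oM : ∀ i ∈ M, T.orb i ⊆ M := fun i hi j hj => (hM.orb_iff hj).2 hi
  have hLR : ∀ i ∈ M, C.Pos (w (C.sp i)) ↔ C.Pos (w⁻¹ (C.sp i)) := fun i hi => by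
    constructor
    · intro h1
      by_contra h2
      have h3 : ∀ j ∈ T.orb i, C.Pos (w (C.sp j)) := fun j hj => (s1.orb_iff hj).2 h1
      obtain ⟨y, hy, hyL, hc⟩ := move hK ht1K hc1 h3 fun j hj h => h2 ((s2.orb_iff hj).1 h)
      exact absurd (hmax' y hy (L_mono (oM i hi) hyL) _ hc) (not_le.2 (ln_lt_mul_w0 hA h3))
    · intro h1
      by_contra h2
      have h3 : ∀ j ∈ T.orb i, C.Pos (w⁻¹ (C.sp j)) := fun j hj => (s2.orb_iff hj).2 h1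
      obtain ⟨y, hy, hyL, hc⟩ := move hK (inv_mem ht1K) hc1.inv h3 fun j hj h => h2 ((s1.orb_iff hj).1 h)
      have h4 := hmax' y hy (L_mono (oM i hi) hyL) _ (by simpa [mul_assoc] using hc.inv)
      have h5 := ln_lt_mul_w0 (inv_mem hA) h3
      rw [← Cert.Aut.ln_inv (mul_mem (inv_mem hA) (C.w0_mem_Aut _)), Cert.Aut.ln_inv hA] at h5
      simp only [mul_inv_rev, inv_inv] at h5
      omega
  set J := M ∩ {j | C.Pos (w (C.sp j))}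
  have hJM : J ⊆ M := Set.inter_subset_left
  have hJ : T.Stable J := fun i => and_congr (hM i) (s1 i)
  have hpJ : ∀ j ∈ J, C.Pos (w (C.sp j)) := fun _ h => h.2
  have hpJ' : ∀ j ∈ J, C.Pos (w⁻¹ (C.sp j)) := fun j h => (hLR j h.1).1 h.2
  have hx : ∀ y ∈ K, y ∈ S.L M → ∀ a ∈ C.WJ J, ∀ b ∈ C.WJ J, S.Cell (a * w * b) (y * t1 * y⁻¹) → a * w * b = w :=
    fun y hy hyL a ha b hb hc => dcoset_eq hW hpJ' hpJ ha hb (hmax' y hy hyL _ hc)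
  have hP : ∀ y ∈ K, y ∈ S.L J → S.Cell w (y * t1 * y⁻¹) := fun y hy hyP => by
    obtain ⟨a, ha, h4⟩ := cell_P_mul (S.L_le_P J hyP) hc1
    obtain ⟨b, hb, h5⟩ := cell_mul_P h4 (inv_mem (S.L_le_P J hyP))
    exact hx y hy (L_mono hJM hyP) a ha b hb h5 ▸ h5
  obtain ⟨n, hnK, hn⟩ := h.ex_over _ (C.w0_mem_W J) hJ.cj_w0
  have hn' := Stb.over_w0_inv hn
  have hnL := hn.mem_L (C.w0_mem J)
  have h6 : ∀ j ∈ J, C.InJ J (w (C.sp j)) := fun j hj => by_contra fun h6 => by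
    obtain ⟨a, ha, h4⟩ := cell_over_mul (C.w0_mem J) hn (cell_mul_over hpJ hc1 (C.w0_mem J) hn')
    have h5 := hx n hnK (L_mono hJM hnL) a ha _ (C.w0_mem J) (by simpa [mul_assoc] using h4)
    have h7 := Cert.pos_map_of_not_inJ (inv_mem ha) (hpJ j hj) h6
    rw [← h5] at h7
    simp only [Perm.mul_apply, Perm.coe_inv, Equiv.symm_apply_apply] at h7
    exact C.w0_sp hj ((Cert.pos_iff_of_min hA hpJ ((Cert.inJ_map (C.w0_mem J) _).2 (C.inJ_sp.2 hj))).1 h7)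
  have e3 : w = C.w0 J * C.w0 M := Cert.eq_w0_w0 hJM hWM hpJ' fun j hj hp => h6 j ⟨hj, hp⟩
  have h7 : ∀ k ∈ J, C.InJ J (w⁻¹ (C.sp k)) := fun k hk => by
    obtain ⟨j, hj, h8⟩ := Cert.exists_w0_w0_sp (C := C) hJM hk
    rw [← e3] at h8
    rw [← h8, ← Perm.mul_apply, inv_mul_cancel, Perm.one_apply]
    exact C.inJ_sp.2 ⟨hj, show C.Pos _ from h8 ▸ C.pos_sp k⟩
  have hwi : w⁻¹ = w := (Cert.eq_w0_w0 hJM (inv_mem hWM) hpJ fun j hj hp => h7 j ⟨hj, (hLR j hj).2 hp⟩).trans e3.symm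
  have hw0 : w = C.w0 M * C.w0 J := by rw [← hwi, e3, mul_inv_rev, Cert.w0_inv, Cert.w0_inv]
  have hIn : ∀ r, C.InJ J r → C.InJ J (w r) := fun r => inJ_map_of_sp hA h6
  obtain ⟨l, hl, v, hv, e4⟩ := S.split (T1 := {r | C.InJ J r}) (T2 := {r | ¬ C.InJ J r})
    (Cert.closed_pos.inter (Cert.closed_inJ M)) (Cert.nil_of_pos fun _ h => h.1) (fun _ _ => em _) hz
  have hvJ : v ∈ S.UJ J := S.U_mono (fun r hr => by exact ⟨hr.1.1, hr.2⟩) hv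
  have key : ∀ m', S.Over m' w → ∀ z ∈ S.U {r | ¬ C.Pos r ∧ C.InJ J r}, ∀ v ∈ S.UJ J, S.Cell w (m' * z * v) → z = 1 := by
    intro m' hm' z hz v hv hc
    obtain ⟨b, hb, h4⟩ := Sys.mem_P_iff.1 (S.L_le_P J (U_neg_le_L J hz))
    have h5 := ((cell_mul_L hpJ hm' hb h4 (U_neg_le_L J hz)).mul_B (S.Up_le_B (S.UJ_le_Up J hv))).unique hc
    rw [mul_eq_left] at h5
    subst h5
    exact S.eq_one_of_mem_Um_B (S.U_le_Um (fun _ h => h.1) hz) (Sys.cell_one_iff.1 h4)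
  have h4 : C.w0 J * w * (C.w0 J)⁻¹ = w := by
    rw [Cert.w0_inv]
    nth_rw 1 [e3]
    rw [← mul_assoc, Cert.w0_mul_self, one_mul, ← hw0]
  have hnm := h4 ▸ (hn.mul hm).mul hn.inv
  have hnv := S.P_conj_UJ (S.L_le_P J hnL) hvJ
  have hl1 : l = 1 := by
    have := key (n * m * n⁻¹) hnm (n * l * n⁻¹) (hn.acts.conj_mem (fun r hr => by
      exact ⟨fun h => (Cert.pos_w0_iff hr.2).1 h hr.1.1, (Cert.inJ_map (C.w0_mem J) r).2 hr.2⟩) hl) _ hnv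
      (by simpa [e2, e4, mul_assoc] using hP n hnK hnL)
    simpa using this
  rw [hl1, one_mul] at e4
  rw [e4] at e2
  have cm : ∀ z ∈ K, z ∈ S.L J → S.Over (z * m * z⁻¹) w → ∀ y ∈ K, y ∈ S.U {r | ¬ C.Pos r ∧ C.InJ J r} →
      z * m * z⁻¹ * y = y * (z * m * z⁻¹) := fun z hz hzL hm' y hy hyU => by
    have hyL := mul_mem (U_neg_le_L J hyU) hzL
    have := key _ hm' ((z * m * z⁻¹)⁻¹ * y * (z * m * z⁻¹) * y⁻¹) (mul_mem (hm'.acts.inv_conj_mem (fun r hr => by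
      rw [hwi]
      exact ⟨fun h => hr.1 ((Cert.pos_iff_of_min hA hpJ hr.2).1 h), hIn r hr.2⟩) hyU) (inv_mem hyU)) _
      (S.P_conj_UJ (S.L_le_P J hyL) hvJ) (by simpa [e2, mul_assoc] using hP _ (mul_mem hy hz) hyL)
    calc z * m * z⁻¹ * y = z * m * z⁻¹ * ((z * m * z⁻¹)⁻¹ * y * (z * m * z⁻¹) * y⁻¹) * y := by rw [this, mul_one]
      _ = _ := by group
  refine ⟨g, hg, hgL, J, m, v, ⟨hJM, hJ, hmK, e4 ▸ mul_mem hu'K huK, hw0 ▸ hm,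
    S.U_mono (fun r hr => by exact ⟨hr.1.1, hr.1.2, hr.2⟩) hv, by rw [← hw0, hwi], fun y hy hyU => ?_,
    fun y hy hyU => ?_, fun y hy hyL w' hc => hw0 ▸ hmax' y hy hyL w' (e2 ▸ hc)⟩, e2⟩
  · simpa using cm 1 (one_mem _) (one_mem _) (by simpa using hm) y hy hyU
  · have := cm n hnK hnL hnm (n * y * n⁻¹) (mul_mem (mul_mem hnK hy) (inv_mem hnK)) (hn.acts.conj_mem (fun r hr => by
      exact ⟨fun h => (Cert.pos_w0_iff hr.2).1 h hr.1, (Cert.inJ_map (C.w0_mem J) r).2 hr.2⟩) hyU)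
    calc m * y = n⁻¹ * (n * m * n⁻¹ * (n * y * n⁻¹)) * n := by group
      _ = y * m := by rw [this]; group

end Cfsg.Agent.AH
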