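import Cfsg.Agent.AH.Md
import Cfsg.Agent.AH.Max
import Cfsg.Agent.Tw.Isog

/-! The adjoint module with its invariant form; matrix entries of unipotent elements. -/

set_option autoImplicit false

namespace Cfsg.Agent.AH

open Cfsg.Lie Cfsg.Lie.ChevalleyDatum Cfsg.Agent.Chev Cfsg.Agent.Tw Matrix Equiv

variable {D : ChevalleyDatum} (C : Cert D)

/-- ratio of the squared lengths of a long root and of `r` -/
def mu (r : Rt D) : ℤ := C.len C.top / C.len r

theorem mu_len (r : Rt D) : mu C r * C.len r = C.len C.top := by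
  rcases (C.len_le_top r).eq_or_lt with h | h
  · rw [mu, ← h, Int.ediv_self (C.len_pos r).ne', one_mul]
  · rw [mu, Cert.len_eq_one_of_lt h]; simp

theorem mu_rev (r : Rt D) : mu C r.rev = mu C r := by rw [mu, mu, C.len_rev]

theorem mu_long {r : Rt D} (h : C.len r = C.len C.top) : mu C r = 1 := by
  rw [mu, h, Int.ediv_self (C.len_pos _).ne']

theorem mu_cancel {r s : Rt D} {a b : ℤ} (h : a * C.len r = b * C.len s) : a * mu C s = b * mu C r := by
  have h1 := mu_len C r
  have h2 := mu_len C s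
  refine mul_right_cancel₀ (mul_pos (C.len_pos r) (C.len_pos s)).ne' ?_
  linear_combination (C.len C.top) * h + a * C.len r * h2 - b * C.len s * h1

/-- the invariant form -/
def Om : Matrix D.Idx D.Idx ℤ
  | .inl i, .inl j => C.A (C.sp i) (C.sp j) * mu C (C.sp j)
  | .inr r, .inr s => if s = r.rev then mu C r else 0
  | _, _ => 0

theorem Om_symm : (Om C)ᵀ = Om C := by
  ext (i | r) (j | s)
  · exact mu_cancel C (by rw [mul_comm, C.A_symm, mul_comm])
  · rfl
  · rfl
  · simp only [transpose_apply, Om]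
    by_cases h : s = r.rev
    · simp [h, mu_rev]
    · rw [if_neg h, if_neg fun h' => h (by rw [h', Fin.rev_rev])]

theorem Om_eb (r : Rt D) : Om C *ᵥ C.eb r = mu C r • C.eb r.rev := by
  rw [← Om_symm, Cert.eb, mulVec_single_one]
  funext a
  rcases a with i | s <;> simp [Om, Cert.eb, Pi.single_apply]

theorem Om_hv (r : Rt D) (i : Nd D) : (Om C *ᵥ C.hv r) (.inl i) = C.A (C.sp i) r * mu C r := by
  simp only [mulVec, dotProduct, Fintype.sum_sum_type, Cert.hv, Om, Sum.elim_inl, Sum.elim_inr, mul_zero,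
    Finset.sum_const_zero, add_zero]
  rw [C.A_eq_sum', Finset.sum_mul]
  refine Finset.sum_congr rfl fun j _ => ?_
  linear_combination C.A (C.sp i) (C.sp j) * mu_cancel C (C.cr_len r j)

theorem Om_hv' (r s : Rt D) : (Om C *ᵥ C.hv r) (.inr s) = 0 := by
  simp [mulVec, dotProduct, Cert.hv, Om]

theorem Om_E (r : Rt D) : (C.E r)ᵀ * Om C = - (Om C * C.E r) := by
  have key : ∀ a b, ((C.E r)ᵀ * Om C) a b = (Om C * C.E r) b a := fun a b => by
    rw [← transpose_apply (Om C * C.E r), transpose_mul, Om_symm]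
  have e : ∀ a b, (Om C * C.E r) a b = (Om C *ᵥ C.br (C.eb r) (Pi.single b 1)) a := fun a b => by
    rw [← C.E_mulVec, mulVec_mulVec, mulVec_single_one]; rfl
  have eh : ∀ a i, (Om C * C.E r) a (.inl i) = (- (C.A (C.sp i) r * mu C r)) * C.eb r.rev a := fun a i => by
    rw [e, ← Cert.hb, C.br_eh, mulVec_smul, Om_eb]; simp [mul_assoc]
  have ee : ∀ a s, (Om C * C.E r) a (.inr s) = C.N r s * (Om C *ᵥ C.ev (C.rc r + C.rc s)) a +
      if s = r.rev then (Om C *ᵥ C.hv r) a else 0 := fun a s => by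
    rw [e, ← Cert.eb, C.br_ee, mulVec_add, mulVec_smul]; split_ifs <;> simp
  have ev : ∀ x a, (Om C *ᵥ C.ev x) a = Sum.elim (fun _ => 0) (fun u => if x + C.rc u = 0 then mu C u else 0) a := by
    intro x a
    by_cases h : ∃ u, C.rc u = x
    · obtain ⟨u, rfl⟩ := h
      rw [C.ev_rc, Om_eb]
      rcases a with i | s
      · simp [Cert.eb]
      · simp only [Cert.eb, Pi.smul_apply, Pi.single_apply, Sum.inr.injEq, Sum.elim_inr, add_eq_zero_iff_neg_eq,
          eq_comm (a := - C.rc u), C.rc_eq_neg_iff]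
        split_ifs with h <;> simp [h, mu_rev]
    · rw [C.ev_eq_zero fun u e => h ⟨u, e⟩, mulVec_zero]
      rcases a with i | s
      · rfl
      · exact (if_neg fun e => h ⟨s.rev, by rw [C.rc_neg, neg_eq_iff_add_eq_zero, add_comm, e]⟩).symm
  ext (i | s) (j | u) <;> rw [key, Matrix.neg_apply]
  · simp [eh, Cert.eb]
  · rw [eh, ee, ev, Om_hv]; simp [Cert.eb, Pi.single_apply, apply_ite Neg.neg]
  · rw [eh, ee, ev, Om_hv]; simp [Cert.eb, Pi.single_apply, apply_ite Neg.neg]
  · simp only [ee, ev, Om_hv', ite_self, add_zero, Sum.elim_inr]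
    rw [add_right_comm (C.rc r) (C.rc u)]
    split_ifs with h
    · have h1 := C.N_cyc3 (a := s) (b := r) (c := u) (by rw [← h]; abel) (C.N_ne_zero_of_add (u := u.rev)
        (by rw [C.rc_neg, neg_eq_iff_add_eq_zero, ← h]; abel))
      rw [C.N_anti] at h1
      linear_combination - mu_cancel C h1
    · simp

theorem X_comm_E (r : Rt D) (k : ℕ) : C.X r k * C.E r = C.E r * C.X r k := by
  induction k with
  | zero => simp [C.X_zero]
  | succ k ih =>
    refine smul_right_injective _ (show ((k : ℤ) + 1) ≠ 0 by omega) ?_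
    simp only
    rw [← smul_mul_assoc, ← mul_smul_comm, ← C.E_mul_X, mul_assoc, ih]

theorem Om_X (r : Rt D) (k : ℕ) : (C.X r k)ᵀ * Om C = (-1 : ℤ) ^ k • (Om C * C.X r k) := by
  induction k with
  | zero => simp [C.X_zero]
  | succ k ih =>
    refine smul_right_injective _ (show ((k : ℤ) + 1) ≠ 0 by omega) ?_
    simp only
    rw [← smul_mul_assoc, ← transpose_smul, smul_comm, ← mul_smul_comm, ← C.E_mul_X, transpose_mul, mul_assoc, Om_E, mul_neg, ← mul_assoc,
      ih, smul_mul_assoc, mul_assoc, X_comm_E, pow_succ, mul_neg_one, neg_smul]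

/-- sparse columns of the divided powers -/
def adc (D : ChevalleyDatum) (r : Rt D) (k : ℕ) (b : D.Idx) : List (D.Idx × ℤ) :=
  (supp D r k b).map fun a => (a, Xf D r k a b)

theorem supp_nodup (r : Rt D) (k : ℕ) (b : D.Idx) : (supp D r k b).Nodup := by
  rcases b with i | s
  · simp [supp]
  · simp only [supp]
    split_ifs
    · exact List.nodup_cons.2 ⟨by simp, (List.nodup_finRange _).map Sum.inl_injective⟩
    · split
      · simp
      · split_ifs <;> simp

variable {C} {F : Type*} [Field F] {G : Type*} [Group G]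

/-- the adjoint module -/
def ad (S : Sys C F G) : Md S D.Idx where
  X r k := cst F (C.X r k)
  ρ := S.φ
  wt := C.wI
  Ω := cst F (Om C)
  col := adc D
  ρ_x r t := S.φ_x r t
  X_wt r k a b h := C.X_weight r k a b fun e => h (by simp [e])
  Ω_symm := by ext a b; exact congrArg (Int.cast (R := F)) (congrFun₂ (Om_symm C) a b)
  Ω_X r k := by
    have := congrArg (cst F) (Om_X C r (k + 1))
    rw [map_mul, cst_zsmul, map_mul] at this
    push_cast at this
    exact this
  col_spec r k b := by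
    funext a
    rw [adc, List.map_map, ← List.sum_toFinset _ (supp_nodup r _ b), mulVec_single_one]
    simp only [Finset.sum_apply, Function.comp_apply, Pi.smul_apply, Pi.single_apply, smul_eq_mul, mul_ite, mul_one,
      mul_zero, Finset.sum_ite_eq, List.mem_toFinset]
    change ((C.X r (k + 1) a b : ℤ) : F) = _
    rw [X_eq_Xf]
    split_ifs with h
    · rfl
    · rw [Xf_eq_zero C (by simpa using h), Int.cast_zero]

namespace Md

variable {S : Sys C F G} {ι : Type} [Fintype ι] [DecidableEq ι] (V : Md S ι) {f : (Nd D → ℤ) →ₗ[ℤ] ℤ} {k : ℤ}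

theorem fil_mul {d : ι → ℤ} (hk : 0 ≤ k) {A B : Matrix ι ι F} (hA : Fil d k (A - 1)) (hB : Fil d k (B - 1)) :
    Fil d k (A * B - 1) ∧ Fil d (2 * k) (A * B - 1 - (A - 1) - (B - 1)) := by
  have e : A * B - 1 - (A - 1) - (B - 1) = (A - 1) * (B - 1) := by noncomm_ring
  have h := (hA.mul hB).mono (show 2 * k ≤ _ by omega)
  refine ⟨?_, e ▸ h⟩
  rw [show A * B - 1 = (A - 1) * (B - 1) + (A - 1) + (B - 1) by noncomm_ring]
  exact ((h.mono (by omega)).add hA).add hB

theorem fil_U (hk : 0 ≤ k) {T : Set (Rt D)} (hT : ∀ r ∈ T, k ≤ f (C.rc r)) {u : G} (hu : u ∈ S.U T) :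
    Fil (fun a => f (V.wt a)) k (V.ρ u - 1) := by
  refine S.U_induction (P := fun u => Fil (fun a => f (V.wt a)) k (V.ρ u - 1)) (by simpa using Fil.zero)
    (fun r hr t g _ ih => ?_) hu
  rw [map_mul]
  exact (fil_mul hk ((V.fil_x' (hk.trans (hT r hr)) t).mono (hT r hr)) ih).1

theorem diag_U {T : Set (Rt D)} (hT : ∀ r ∈ T, 1 ≤ f (C.rc r)) {u : G} (hu : u ∈ S.U T) (a : ι) : V.ρ u a a = 1 := by
  simpa [sub_eq_zero] using V.fil_U zero_le_one hT hu a a (by simp)

theorem diag_Up {u : G} (hu : u ∈ S.Up) (a : ι) : V.ρ u a a = 1 :=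
  V.diag_U (f := Cert.ordL D) (fun _ h => Cert.ordL_pos h) hu a

/-- entries of low degree are additive -/
theorem ent_nf {d : ι → ℤ} (hk : 0 ≤ k) {t : Rt D → F} {l : List (Rt D)}
    (h : ∀ r ∈ l, Fil d k (V.ρ (S.x r (t r)) - 1)) : Fil d k (V.ρ (S.nf l t) - 1) ∧
      Fil d (2 * k) (V.ρ (S.nf l t) - 1 - (l.map fun r => V.ρ (S.x r (t r)) - 1).sum) := by
  induction l with
  | nil => simpa [S.nf_nil] using ⟨Fil.zero, Fil.zero⟩
  | cons r l ih =>
    obtain ⟨h1, h2⟩ := ih fun r hr => h r (List.mem_cons_of_mem _ hr)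
    obtain ⟨h3, h4⟩ := fil_mul hk (h r List.mem_cons_self) h1
    rw [S.nf_cons, map_mul]
    refine ⟨h3, ?_⟩
    convert h4.add h2 using 1
    simp only [List.map_cons, List.sum_cons]
    abel

/-- linear entries -/
theorem ent_lin (hk : 0 < k) {t : Rt D → F} (ht : ∀ r, f (C.rc r) < k → t r = 0) {a b : ι}
    (h : f (V.wt a) - f (V.wt b) < 2 * k) :
    (V.ρ (S.nf (List.finRange D.nroots) t) - 1) a b = ∑ r, t r * V.X r 1 a b := by
  have h1 := (V.ent_nf (d := fun a => f (V.wt a)) hk.le (t := t) (l := List.finRange D.nroots) fun r _ => by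
    by_cases h0 : f (C.rc r) < k
    · simpa [ht r h0, S.x_zero] using Fil.zero
    · exact (V.fil_x' (by omega) _).mono (by omega)).2 a b h
  rw [Matrix.sub_apply, sub_eq_zero, ← Fin.sum_univ_def, Matrix.sum_apply] at h1
  rw [h1]
  refine Finset.sum_congr rfl fun r _ => ?_
  by_cases h0 : f (C.rc r) < k
  · simp [ht r h0, S.x_zero]
  · simpa [sub_eq_zero] using V.fil_x (f := f) (r := r) (by omega) (t r) a b (by simp only; omega)

theorem sum_X {a b : ι} {r : Rt D} (h : V.wt a = V.wt b + C.rc r) (t : Rt D → F) :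
    ∑ s, t s * V.X s 1 a b = t r * V.X r 1 a b :=
  Finset.sum_eq_single r (fun s _ hs => by_contra fun h0 => hs (C.rc_inj (by
    have := V.X_wt s 0 a b (right_ne_zero_of_mul h0)
    simpa [h] using this.symm))) (by simp)

theorem sum_X_zero {a b : ι} (h : ∀ r, V.wt a ≠ V.wt b + C.rc r) (t : Rt D → F) : ∑ s, t s * V.X s 1 a b = 0 :=
  Finset.sum_eq_zero fun s _ => by_contra fun h0 => h s (by simpa using V.X_wt s 0 a b (right_ne_zero_of_mul h0))

end Md

/-- root vectors -/
abbrev eR (F : Type*) [Field F] (r : Rt D) : D.Idx → F := Pi.single (Sum.inr r) 1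

theorem vc_eb (r : Rt D) : vc F (C.eb r) = eR F r := vc_single F _

variable {S : Sys C F G}

theorem Ω_eR (r : Rt D) : (ad S).Ω *ᵥ eR F r = (mu C r : F) • eR F r.rev := by
  rw [← vc_eb (C := C), ← vc_eb (C := C), ← vc_smul, ← Om_eb]
  exact cst_mulVec F _ _

theorem Ω_long {r : Rt D} (h : C.len r = C.len C.top) : (ad S).Ω *ᵥ eR F r = (1 : F) • eR F r.rev := by
  rw [Ω_eR, mu_long C h, Int.cast_one]

theorem κ_eR (r : Rt D) (v : D.Idx → F) : (ad S).κ (eR F r) v = mu C r * v (.inr r.rev) := by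
  rw [Md.κ_comm, Md.κ, Ω_eR]; simp

theorem B_eR (g : G) (r : Rt D) (b : D.Idx) : (ad S).B g (eR F r) (Pi.single b 1) = mu C r * S.φ g (.inr r.rev) b :=
  (ad S).B_single (Ω_eR r) g b

theorem over_eR {m : G} {w : Perm (Rt D)} (h : S.Over m w) (r : Rt D) :
    ∃ c : Fˣ, S.φ m *ᵥ eR F r = (c : F) • eR F (w r) := by
  obtain ⟨c, h1, -⟩ := (over_φ h).1 r
  exact ⟨c, by rwa [vc_eb, vc_eb] at h1⟩

/-- entries of an element `m v` with `m` monomial -/
theorem B_over {m : G} {w : Perm (Rt D)} (h : S.Over m w) (r : Rt D) :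
    ∃ c : Fˣ, ∀ v u, (ad S).B (m * v) (eR F r) u = c * (ad S).B v (eR F (w⁻¹ r)) u := by
  obtain ⟨c, h1⟩ := over_eR h.inv r
  refine ⟨c, fun v u => ?_⟩
  rw [Md.B, map_mul, ← mulVec_mulVec, ← inv_inv m, ← Md.κ_ρ]
  exact (congrArg ((ad S).κ · _) h1).trans (Md.κ_smul_left _ _ _ _)

theorem B_ne_zero {m v : G} {w : Perm (Rt D)} (h : S.Over m w) (hv : v ∈ S.Up) {r : Rt D}
    (hr : C.len r = C.len C.top) (hw : w r.rev = r) : (ad S).B (m * v) (eR F r) (eR F r) ≠ 0 := by
  obtain ⟨c, h1⟩ := B_over h r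
  rw [h1, ← hw, ← Perm.mul_apply, inv_mul_cancel, Perm.one_apply, hw, B_eR, Fin.rev_rev, mu_rev, mu_long C hr]
  simpa using (ad S).diag_Up hv (.inr r) ▸ one_ne_zero

end Cfsg.Agent.AH
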