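import Cfsg.Agent.AH.D4a
import Cfsg.Agent.Tw.Eqv

/-! The groups `³D₄(q)`: the case `q = 2` and the conclusion. -/

set_option autoImplicit false

namespace Cfsg.Agent.AH.D4

open Cfsg.Lie Cfsg.Lie.ChevalleyDatum Cfsg.Agent.Chev Cfsg.Agent.Tw Matrix Equiv

section Gen

variable {D : ChevalleyDatum} {C : Cert D} {F : Type*} [Field F] {G : Type*} [Group G] {S : Sys C F G}
  {ι : Type} [Fintype ι] [DecidableEq ι] (V : Md S ι) {f : (Nd D → ℤ) →ₗ[ℤ] ℤ} {K : Subgroup G}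

theorem fil3 {r s u : Rt D} {k : ℤ} (hk : 0 < k) (hr : f (C.rc r) = k) (hs : f (C.rc s) = k) (hu : f (C.rc u) = k)
    (a b c : F) : Fil (fun a => f (V.wt a)) (k + 1)
      (V.ρ (S.x r a * (S.x s b * S.x u c)) - 1 - (a • V.X r 1 + b • V.X s 1 + c • V.X u 1)) := by
  obtain ⟨h1, h2⟩ := Md.fil_mul hk.le (hs ▸ V.fil_x' (hs ▸ hk.le) b) (hu ▸ V.fil_x' (hu ▸ hk.le) c)
  have h3 := (Md.fil_mul hk.le (hr ▸ V.fil_x' (hr ▸ hk.le) a) h1).2
  have := (((h3.add h2).add (hr ▸ V.fil_x (hr ▸ hk.le) a)).add (hs ▸ V.fil_x (hs ▸ hk.le) b)).add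
    (hu ▸ V.fil_x (hu ▸ hk.le) c)
  refine Fil.mono ?_ (show k + 1 ≤ 2 * k by omega)
  convert this using 1
  rw [map_mul, map_mul]
  abel

theorem av3 {r s u : Rt D} (hr : 0 < f (C.rc r)) (hs : f (C.rc s) = f (C.rc r)) (hu : f (C.rc u) = f (C.rc r))
    {φ ψ : F →* F} {ω : F} (h1 : ω ≠ φ ω) (h2 : ω ≠ ψ ω) (hK : ∀ t, S.x r t * (S.x s (φ t) * S.x u (ψ t)) ∈ K) :
    V.Av K f (r, false) := fun b k M τ h => by
  have l := fun t => h.diff (hK t) hr ((((V.fil_X f r 0).mono (by simp)).smul t).add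
    (((V.fil_X f s 0).mono (by simp [hs])).smul (φ t)) |>.add (((V.fil_X f u 0).mono (by simp [hu])).smul (ψ t)))
    (fil3 V hr rfl hs hu _ _ _) (by
      convert fil3 V hr hu hs rfl (-ψ t) (-φ t) (-t) using 1
      simp only [S.x_neg, _root_.mul_inv_rev, mul_assoc, neg_smul]
      abel)
  have := (((l (ω * ω)).add ((l ω).smul (-(φ ω + ψ ω)))).add ((l 1).smul (φ ω * ψ ω))).smul ((ω - φ ω) * (ω - ψ ω))⁻¹
  convert this using 1
  · simp [Md.dg]
  · rw [eq_comm, inv_smul_eq_iff₀ (mul_ne_zero (sub_ne_zero.2 h1) (sub_ne_zero.2 h2))]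
    simp only [Md.opM, LinearMap.coe_mk, AddHom.coe_mk, add_mul, mul_add, smul_mul_assoc, mul_smul_comm, map_mul, map_one]
    simp only [Bool.false_eq_true, if_false]
    module

theorem refl_eq {r s u : Rt D} (h : C.rc u = C.rc s - C.A r s • C.rc r) : C.refl r s = u :=
  C.rc_inj ((C.rc_refl r s).trans h.symm)

variable [CharP F 2]

theorem n_two (r : Rt D) : (S.n r 1)⁻¹ = S.n r 1 := by
  rw [← S.n_neg, show (-1 : Fˣ) = 1 from Units.ext (CharTwo.neg_eq 1)]

theorem n_eR2 {r s u : Rt D} (h : C.rc u = C.rc s - C.A r s • C.rc r) : S.φ (S.n r 1) *ᵥ eR F s = eR F u := by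
  rw [n_eR, refl_eq h]
  rcases C.eta_unit r s with e | e <;> simp [e, CharTwo.neg_eq]

theorem chi_sq {m : G} {w : Perm (Rt D)} (hm : S.Over m w) (hw : w * w = 1) {r : Rt D} (hr : w r = r.rev) :
    m * m ∈ S.H ∧ S.chi (m * m) r = 1 := by
  have h1 : m * m ∈ S.H := (hw ▸ hm.mul hm).mem_H
  have h2 := Sys.chi_conj hm h1 r
  rw [hr, mul_assoc m, mul_inv_cancel_right, (Sys.isChar_chi h1).1, inv_eq_iff_mul_eq_one] at h2
  exact ⟨h1, Units.ext ((mul_self_eq_one_iff.1 (congrArg Units.val h2)).elim id fun h => h.trans (CharTwo.neg_eq 1))⟩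

end Gen

variable {F : Type*} [Field F] [Finite F] [CharP F 2] {φ : F ≃+* F} {K : Subgroup (chevD4.group F)}
  {a b c x : chevD4.group F}

theorem ops2 : ∀ i j : Fin 2, Same 2 ([(R 12, false), (R 16, false), (R 17, false), (R 19, false), (R 20, false),
    (R 21, false), (R 23, false)].foldl (fun L o => opL (adc chevD4) o L) [(![.inr (R 0), .inr (R 1)] i,
      ![.inr (R 0), .inr (R 1)] j, 1)]) (if i = j then [] else [(.inr certD4.top, .inr certD4.top, 1)]) := by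
  decide +kernel

theorem St.av (h : St φ 2 K) {r : Rt chevD4} (h1 : triD4.ρ (triD4.ρ (triD4.ρ r)) = r ∧ r ≠ (triD4.ρ r).rev ∧
    r ≠ (triD4.ρ (triD4.ρ r)).rev ∧ (∀ v, certD4.rc v ≠ certD4.rc (triD4.ρ r) + certD4.rc r ∧
      certD4.rc v ≠ certD4.rc (triD4.ρ (triD4.ρ r)) + certD4.rc r) ∧
    0 < certD4.A certD4.top r + certD4.A (R 22) r ∧ ∀ s ∈ [triD4.ρ r, triD4.ρ (triD4.ρ r)],
      certD4.A certD4.top s + certD4.A (R 22) s = certD4.A certD4.top r + certD4.A (R 22) r) :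
    (ad (SS F)).Av K lv (r, false) := by
  obtain ⟨ω, h2⟩ := exists_ne_frob (d := 1) h.pw h.card
  obtain ⟨a1, a2, a3, a4, a5, a6⟩ := h1
  simp only [← lv_rc, List.forall_mem_cons] at a5 a6
  exact av3 _ a5 a6.1 a6.2.1 (φ := φ) (ψ := (φ.trans φ : F ≃+* F)) h2.symm
    (fun e => h2 (by simpa [frob3 h.pw h.card] using congrArg φ e))
    (h.tr_mem ⟨rfl, rfl, a1, a2, a3, a4⟩ fun v _ => congrArg Units.val (triD4.e_two triD4_ok φ v))

theorem St.two (h : St φ 2 K) (H : HK K a b c) (hb : ¬ Dm (ad (SS F)) K b (eR F certD4.top)) (hx : Cj K a x) :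
    SyAt (SS F) 1 x certD4.top := h.sy (fun x hx => by
  unfold Dm at hb
  push Not at hb
  obtain ⟨y, hy, h1⟩ := hb
  have := (ad (SS F)).rel H hx hy (n := 2) (p := ![.inr certD4.top, .inr (R 22)]) (m := ![.inr (R 0), .inr (R 1)])
    (e := 1) (one_mul 1) (fun i => by fin_cases i <;> exact Ω_long (lenT _))
    (fun i => by fin_cases i <;> exact Ω_long (lenT _)) (f := lv) (k := 3)
    ⟨by decide +kernel, by decide +kernel, fun i => by
      fin_cases i <;> exact ⟨(lv_rc _).trans (by decide +kernel), (lv_rc _).trans (by decide +kernel)⟩, fun a => by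
      rcases a with i | r
      · simp [ad]
      · rw [show lv ((ad (SS F)).wt (.inr r)) = _ from lv_rc r]
        revert r
        decide +kernel⟩ (by
      simp only [List.forall_mem_cons]
      exact ⟨h.av (by decide +kernel), h.av (by decide +kernel), h.av (by decide +kernel), h.av (by decide +kernel),
        h.av (by decide +kernel), h.av (by decide +kernel), (ad _).av_lin (by rw [lv_rc]; decide +kernel)
        (h.x_mem (by decide +kernel) (map_one φ)), by simp⟩)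
    (by simp only [List.map, Md.dg, lv_rc]; decide +kernel) (q := 2) (by exact_mod_cast CharP.cast_eq_zero F 2) ops2
  simp only [Fin.sum_univ_two, Md.evB, cons_val, if_true, zero_ne_one, one_ne_zero, if_false, List.map, List.sum_cons,
    List.sum_nil, mul_zero, add_zero, zero_add, Int.cast_one, one_mul, ← add_mul, mul_eq_zero] at this
  exact (CharTwo.add_eq_zero.1 (this.resolve_right h1)).trans (one_mul _).symm) hx

/-- the Levi nodes -/
abbrev MM (φ : F ≃+* F) : Set (Nd chevD4) := (stbD4 φ).orb (Nn 0)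

omit [Finite F] [CharP F 2] in
theorem memM {j : Nd chevD4} : j ∈ MM φ ↔ j ≠ Nn 1 :=
  (by decide +kernel : ∀ j, triD4.nodes.SameCycle (Nn 0) j ↔ j ≠ Nn 1) j

omit [Finite F] [CharP F 2] in
theorem inM {r : Rt chevD4} : certD4.InJ (MM φ) r ↔ certD4.A certD4.top r = 0 := by
  simp only [Cert.InJ, memM]
  revert r
  decide +kernel

omit [Finite F] [CharP F 2] in
theorem St.zo (h : St φ 2 K) {t : F} (e : φ t = t) : t = 0 ∨ t = 1 :=
  (mul_eq_zero.1 (show t * (t - 1) = 0 by linear_combination e - h.pw t)).imp_right sub_eq_zero.1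

omit [Finite F] [CharP F 2] in
theorem St.x_cases (h : St φ 2 K) {r : Rt chevD4} (hr : triD4.ρ r = r ∧ triD4.ε r = 1) {t : F} (ht : (SS F).x r t ∈ K) :
    t = 0 ∨ t = 1 := by
  have := h.good.fix _ ht
  rw [σx, hr.1, hr.2, Int.cast_one, one_mul] at this
  exact h.zo ((SS F).x_inj _ this)

omit [Finite F] [CharP F 2] in
theorem St.H_one (h : St φ 2 K) (ha : a ∈ K) (h1 : a ∈ (SS F).H) (h2 : ∀ j ∈ MM φ, (SS F).chi a (certD4.sp j) = 1) :
    a = 1 := (SS F).eq_of_chi (certD4.sys_φ_inj F) h1 (one_mem _) fun i => by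
  rw [Sys.chi_one]
  by_cases hi : i = Nn 1
  · have := congrArg Units.val (Stb.chi_σ (T := stbD4 φ) h1 (certD4.sp i))
    rw [h.good.fix a ha, Stb.sp, hi] at this
    exact hi ▸ Units.ext ((h.zo this.symm).resolve_left (Units.ne_zero _))
  · exact h2 i (memM.2 hi)

omit [Finite F] in
theorem St.sq (h : St φ 2 K) (ha : a ∈ K) {w : Perm (Rt chevD4)} (hm : (SS F).Over a w) (hw : w * w = 1)
    (h1 : ∀ j ∈ MM φ, w (certD4.sp j) = (certD4.sp j).rev) : a * a = 1 :=
  h.H_one (mul_mem ha ha) (hw ▸ hm.mul hm).mem_H fun j hj => (chi_sq hm hw (h1 j hj)).2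

omit [CharP F 2] in
theorem St.comm (h : St φ 2 K) {g : chevD4.group F} (hg : g ∈ K) (hL : g ∈ (SS F).L (MM φ)) {r : Rt chevD4}
    (hr : (triD4.ρ r = r ∧ triD4.ε r = 1) ∧ (∀ s, certD4.A certD4.top s = 0 → 0 ≤ certD4.A r s) ∧
      ∀ s, 2 ≤ certD4.A r s ↔ s = r) : Commute g ((SS F).x r 1) := by
  have e : {s | 2 ≤ certD4.prL r (certD4.rc s)} = {r} := Set.ext fun s => by simp [Cert.prL_rc, hr.2.2]
  have h1 := (SS F).conj_ge (certD4.prL r) two_pos (sup_le_sup_right ((SS F).U_mono fun s hs => by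
    exact (hr.2.1 s (inM.1 hs)).trans_eq (certD4.prL_rc r s).symm) _ hL) (e ▸ (SS F).x_mem_U (Set.mem_singleton r) 1)
  obtain ⟨t, ht⟩ := (SS F).mem_U_singleton.1 (e ▸ h1)
  rcases h.x_cases hr.1 (ht ▸ mul_mem (mul_mem hg (h.x_mem hr.1 (map_one φ))) (inv_mem hg)) with rfl | rfl
  · rw [Sys.x_zero, conj_eq_one_iff, ← (SS F).x_zero r] at ht
    exact absurd ((SS F).x_inj _ ht) one_ne_zero
  · exact mul_inv_eq_iff_eq_mul.1 ht

/-- the monomial element of the highest root -/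
noncomputable abbrev nT (F : Type*) [Field F] : chevD4.group F := (SS F).n certD4.top 1

theorem St.comm_n (h : St φ 2 K) {g : chevD4.group F} (hg : g ∈ K) (hL : g ∈ (SS F).L (MM φ)) : Commute g (nT F) := by
  have h1 := h.comm hg hL (r := certD4.top) (by decide +kernel)
  have h2 := h.comm hg hL (r := certD4.top.rev) (by decide +kernel)
  simp only [nT, Sys.n, inv_one, Units.val_one, CharTwo.neg_eq]
  exact (h1.mul_right h2).mul_right h1

theorem St.not3 (h : St φ 2 K) (hs : ∀ x, Cj K a x → SyAt (SS F) 1 x certD4.top) :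
    ¬ Cj K a (nT F * (SS F).x certD4.top 1) := fun hx => by
  have := h.sy' hs (hx.conj' (h.x_mem (r := R 14) (by decide +kernel) (map_one φ))) (R 14).rev (by decide +kernel)
  have e1 := fun r s => κ_ee (S := SS F) r s
  have e2 := fun r s => κ_eh (S := SS F) r s
  have e3 := fun r s => ((ad (SS F)).κ_comm _ _).trans (κ_eh (S := SS F) r s)
  rw [bl_conj, bl_conj, bl_mul, bl_mul' _ _ _ (_ *ᵥ eR F (R 22)), ← B_eq, ← B_eq, Md.B, Md.B, n_two] at this
  simp only [show (ad (SS F)).ρ = (SS F).φ from rfl, mulVec_add, mulVec_sub, mulVec_smul, x_eR_rev, x_hR, x_eR_self,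
    xa (S := SS F) (r := R 14) (s := R 22) (u := certD4.top) (n := 1) (by decide +kernel),
    xa (S := SS F) (r := certD4.top) (s := (R 14).rev) (u := R 22) (n := -1) (by decide +kernel),
    x_eR_fix (S := SS F) (r := certD4.top) (s := R 14) (by decide +kernel) (by decide +kernel),
    x_eR_fix (S := SS F) (r := certD4.top) (s := R 22) (by decide +kernel) (by decide +kernel),
    n_eR2 (S := SS F) (r := certD4.top) (s := R 22) (u := R 9) (by decide +kernel),
    n_eR2 (S := SS F) (r := certD4.top) (s := certD4.top) (u := R 0) (by decide +kernel), Md.κ_add_left, Md.κ_add_right,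
    Md.κ_sub_left, Md.κ_sub_right, Md.κ_smul_left, Md.κ_smul_right, e1, e2, e3, mu_long _ (lenT _),
    (by decide +kernel : certD4.A (R 14) certD4.top = 1), nT] at this
  simp +decide [show certD4.top = R 23 from rfl] at this

theorem St.nT_mem {q : ℕ} (h : St φ q K) : nT F ∈ K := h.n_mem (by decide +kernel)

theorem sT_sp (j : Nd chevD4) (hj : j ∈ MM φ) : certD4.sr certD4.top (certD4.sp j) = certD4.sp j :=
  certD4.refl_of_A_zero (inM.1 (certD4.inJ_sp.2 hj))

/-- first reduction -/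
theorem St.red (h : St φ 2 K) (ha : a ∈ K) (h1 : a ≠ 1) (hs : ∀ x, Cj K a x → SyAt (SS F) 1 x certD4.top) :
    ∃ y ∈ K, y ∈ (SS F).L (MM φ) ∧ ∃ d, (d = 0 ∨ d = 1) ∧ Cj K a (y * (nT F * (SS F).x certD4.top d)) := by
  have h2 := h.not_dm ha h1
  unfold Dm at h2
  push Not at h2
  obtain ⟨x, hx, h2⟩ := h2
  obtain ⟨w, hW, hw⟩ := (SS F).exists_cell x
  obtain ⟨-, u, huK, hu, m, hmK, hm, u', hu'K, hu', rfl⟩ := h.good.nf (hx.mem ha) hw
  have f1 : ∀ {v}, v ∈ (SS F).Up → (SS F).φ v *ᵥ eR F certD4.top = eR F certD4.top := fun hv =>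
    U_fix (T := {r | certD4.Pos r}) (by simp only [Set.mem_ofPred_eq, certD4.pos_iff_val]; decide +kernel) hv
  have hv0 := mul_mem ((SS F).Uw_le_Up w hu') hu
  obtain ⟨l, hl, v, hv, e⟩ := split_levi (MM φ) hv0
  have hx1 : Cj K a (m * (l * v)) := by
    convert hx.conj' huK using 1
    rw [← e]; group
  have h3 : w certD4.top = certD4.top.rev := by_contra fun h3 => h2 (by
    rw [B_eq, bl_mul', f1 ((SS F).Uw_le_Up w hu'), bl_mul, f1 (inv_mem hu), bl_over hm h3])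
  have h4 : w certD4.top.rev = certD4.top := by rw [Cert.Aut.map_rev hm.mem_Aut, h3, Fin.rev_rev]
  have h5 := ((stbD4 φ).stable_orb (Nn 0)).levi (inv_mem hv) (inv_mem (U_pos_le_L _ hl))
    (by rw [← _root_.mul_inv_rev, ← e]; exact h.good.fix _ (inv_mem (mul_mem hu'K huK)))
  have hv1 : v ∈ (SS F).U {r | 1 ≤ certD4.prL certD4.top (certD4.rc r)} := (SS F).U_mono (fun r hr => by
    rw [Set.mem_ofPred_eq, Cert.prL_rc]
    exact (by decide +kernel : ∀ r : Rt chevD4, chevD4.nroots ≤ 2 * (r : ℕ) → ¬ certD4.A certD4.top r = 0 →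
      1 ≤ certD4.A certD4.top r) r ((certD4.pos_iff_val r).1 hr.1) (mt inM.2 hr.2)) hv
  obtain ⟨d, rfl⟩ := (SS F).mem_U_singleton.1 (peel (B := {certD4.top}) zero_le_one (Cert.closed_ge _ zero_le_one)
    (Cert.nil_of_fun _ fun _ h => h) (fun _ h => h) hv1 fun ρ hρ => or_iff_not_imp_left.2 fun h6 => by
      rw [Set.mem_ofPred_eq, Cert.prL_rc] at hρ
      obtain ⟨b1, r, b2, b3, b4⟩ := (by decide +kernel : ∀ ρ, 1 ≤ certD4.A certD4.top ρ → ρ ≠ certD4.top →
        certD4.A certD4.top ρ < 2 * 1 ∧ ∃ r, certD4.A certD4.top r = 1 ∧ certD4.top.rev ≠ r.rev ∧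
        certD4.len certD4.top = certD4.len certD4.top ∧ certD4.rc certD4.top = certD4.rc r + certD4.rc ρ ∧
        (Xf chevD4 ρ 1 (.inr certD4.top) (.inr r)) ^ 2 = 1) ρ hρ h6
      rw [← Cert.prL_rc] at b1
      exact ⟨b1, kill one_pos (fun _ h => h) hv1 ((hs _ hx1).zero hm b2 (h3 ▸ b3) (Perm.inv_eq_iff_eq.2 h4.symm)
        (f1 (e ▸ hv0)) (U_fix (by simp only [Set.mem_ofPred_eq, inM, certD4.pos_iff_val]; decide +kernel)
          (inv_mem hl))) b1 b4⟩)
  have hn := (SS F).over_n certD4.top 1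
  refine ⟨m * (nT F)⁻¹ * (nT F * l * (nT F)⁻¹), mul_mem (mul_mem hmK (inv_mem h.nT_mem)) (mul_mem (mul_mem h.nT_mem
    (inv_mem_iff.1 (h.mem h5.2))) (inv_mem h.nT_mem)), mul_mem ((hm.mul hn.inv).mem_L (certD4.WJ_mono ?_
      (Cert.mem_WJ_of_fix (r := certD4.top) (by decide +kernel) (hm.mul hn.inv).mem_W ?_)))
    (Subgroup.mem_sup_left (hn.acts.conj_mem (fun r hr => ?_) hl)), d,
    h.x_cases (by decide +kernel) (inv_mem_iff.1 (h.mem h5.1)), by convert hx1 using 1; group⟩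
  · rintro j ⟨-, hj⟩
    exact memM.2 (by rintro rfl; revert hj; decide +kernel)
  · rw [Perm.mul_apply, Cert.sr_inv, Cert.sr_apply, Cert.refl_self, h4]
  · rw [Cert.sr_apply, certD4.refl_of_A_zero (inM.1 hr.2)]
    exact hr.2

theorem St.cls (h : St φ 2 K) (ha : a ∈ K) (h1 : a ≠ 1) (hs : ∀ x, Cj K a x → SyAt (SS F) 1 x certD4.top) :
    (∃ x, Cj K a x ∧ (SS F).Over x (certD4.w0 Set.univ)) ∨ Cj K a (nT F) := by
  obtain ⟨y, hy, hL, d, hd, hx⟩ := h.red ha h1 hs
  obtain ⟨g, hg, hgL, J, m, v, hm, e⟩ := exists_max h.ok.bn ((stbD4 φ).stable_orb _) hy hL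
  have c1 : Commute g ((SS F).x certD4.top d) := by
    rcases hd with rfl | rfl
    · rw [Sys.x_zero]; exact Commute.one_right g
    · exact h.comm hg hgL (by decide +kernel)
  have hx1 : Cj K a (m * v * (nT F * (SS F).x certD4.top d)) := by
    convert hx.conj hg using 1
    rw [← e, mul_assoc _ g⁻¹, ((h.comm_n hg hgL).mul_right c1).inv_left.eq]; group
  by_cases h2 : Nn 0 ∈ J
  · obtain rfl : J = MM φ := hm.sub.antisymm fun j hj => (hm.stab.orb_iff hj).2 h2
    obtain ⟨rfl, h3, h4⟩ := hm.torus h.ok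
    obtain rfl := h.H_one hm.mK h3 h4
    rw [one_mul, one_mul] at hx1
    rcases hd with rfl | rfl
    · exact Or.inr (by simpa [Sys.x_zero] using hx1)
    · exact absurd hx1 (h.not3 hs)
  obtain rfl : J = ∅ := Set.eq_empty_of_forall_notMem fun j hj => h2 ((hm.stab.orb_iff (hm.sub hj)).1 hj)
  have hv := (SS F).U_mono (T' := {r | certD4.Pos r ∧ certD4.InJ (MM φ) r}) (fun r hr => by exact ⟨hr.1, hr.2.1⟩) hm.vU
  rw [mul_assoc, ← mul_assoc v, (h.comm_n hm.vK (U_pos_le_L _ hv)).eq, mul_assoc, ← mul_assoc m] at hx1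
  have hn := hm.ov.mul ((SS F).over_n certD4.top 1)
  rw [show certD4.w0 ∅ = 1 by simpa [Cert.WJ_empty] using certD4.w0_mem ∅, mul_one,
    Cert.eq_w0 (J := Set.univ) (mul_mem (certD4.w0_mem_W _) (certD4.sr_mem_W _)) fun j _ => by
      by_cases hj : j ∈ MM φ
      · rw [Perm.mul_apply, sT_sp j hj]; exact certD4.w0_sp hj
      · rw [not_not.1 (mt memM.2 hj), Perm.mul_apply, Cert.sr_apply, refl_eq (u := (R 22).rev) (by decide +kernel),
          Cert.Aut.map_rev (certD4.w0_mem_Aut _)]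
        exact certD4.not_pos_rev (Cert.pos_map_of_not_inJ (certD4.w0_mem _) ((certD4.pos_iff_val _).2 (by decide))
          (by rw [inM]; decide +kernel))] at hn
  have hv1 : v * (SS F).x certD4.top d ∈ (SS F).U {r | r ∈ [R 12, R 13, R 18, R 23]} :=
    mul_mem ((SS F).U_mono (by
      simp only [Set.subset_def, Set.mem_ofPred_eq, inM, certD4.pos_iff_val]; decide +kernel) hv)
      ((SS F).x_mem_U (by exact List.mem_of_getLast? rfl) d)
  have h3 : ∀ r ∈ {r | r ∈ [R 12, R 13, R 18, R 23]}, 1 ≤ certD4.prL (R 22) (certD4.rc r) := by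
    simp only [Cert.prL_rc, Set.mem_ofPred_eq]; decide +kernel
  have h4 := peel (B := ∅) zero_le_one (by unfold Cert.Closed Cert.Stab; decide +kernel)
    (Cert.nil_of_fun _ fun r hr => h3 r hr) h3 hv1 fun ρ hρ => Or.inr (by
      obtain ⟨b1, r, b2, b3, b4⟩ := (by decide +kernel : ∀ ρ ∈ [R 12, R 13, R 18, R 23],
        certD4.A (R 22) ρ < 2 * 1 ∧ ∃ r, certD4.A (R 22) r = 1 ∧ (R 22).rev ≠ r.rev ∧
        certD4.len (R 22) = certD4.len certD4.top ∧ certD4.rc (R 22) = certD4.rc r + certD4.rc ρ ∧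
        (Xf chevD4 ρ 1 (.inr (R 22)) (.inr r)) ^ 2 = 1) ρ hρ
      rw [← Cert.prL_rc] at b1
      exact ⟨b1, kill one_pos h3 hv1 (SyAt.zero (l := 1) (by rw [one_mul]; exact h.sy' hs hx1) hn b2 (by rwa [w0D4])
        (by rw [Cert.w0_inv, w0D4]) (by rw [one_mul, U_fix (by decide +kernel) hv1])
        (by rw [inv_one, map_one, one_mulVec])) b1 b4⟩)
  rw [Sys.U_empty, Subgroup.mem_bot] at h4
  rw [h4, mul_one] at hx1
  exact Or.inl ⟨_, hx1, hn⟩

theorem St.sq0 (h : St φ 2 K) (ha : a ∈ K) (hm : (SS F).Over a (certD4.w0 Set.univ)) : a * a = 1 :=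
  h.sq ha hm (Cert.w0_mul_self _) fun _ _ => w0D4 _

theorem St.mixed (h : St φ 2 K) (H : HK K a b c) (ha : a ∈ K) (hx : Cj K a x)
    (hm : (SS F).Over x (certD4.w0 Set.univ)) (hb : Cj K b (nT F)) : False := by
  have hxK := hx.mem ha
  have h1 := h.sq (mul_mem hxK h.nT_mem) (hm.mul ((SS F).over_n _ 1)) (Equiv.ext fun r => by
    simp only [Perm.mul_apply, w0D4, Cert.sr_apply, Cert.refl_rev, Cert.refl_refl, Fin.rev_rev, Perm.one_apply])
    fun j hj => by rw [Perm.mul_apply, sT_sp j hj, w0D4]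
  have h2 : Cj K b ((SS F).x certD4.top.rev 1) := by
    convert hb.conj' (h.x_mem (r := certD4.top) (by decide +kernel) (map_one φ)) using 1
    simp only [nT, Sys.n, inv_one, Units.val_one, CharTwo.neg_eq, mul_assoc, inv_mul_cancel_left, ← Sys.x_add,
      CharTwo.add_self_eq_zero, Sys.x_zero, mul_one]
  have h3 := (H _ _ hx h2).pow_eq_one ((H _ _ hx hb).symm.pow_eq_one ((pow_two _).trans h1))
  obtain ⟨t, ht⟩ := hm.acts certD4.top.rev
  rw [pow_two, ← mul_assoc] at h3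
  nth_rw 2 [← inv_eq_of_mul_eq_one_right (h.sq0 hxK hm)] at h3
  rw [ht, mul_eq_one_iff_eq_inv, ← Sys.x_neg, w0D4] at h3
  exact absurd ((SS F).eq_of_x_eq (by simp) (congrArg (SS F).φ h3)) (by decide +kernel)

theorem St.no2 (h : St φ 2 K) (H : HK K a b c) (ha : a ∈ K) (hb : b ∈ K) (ha1 : a ≠ 1) (hb1 : b ≠ 1) (hc : c ≠ 1) :
    False := by
  rcases h.cls ha ha1 fun _ => h.two H (h.not_dm hb hb1) with ⟨x, hx, hm⟩ | hx <;>
    rcases h.cls hb hb1 fun _ => h.two (H.symm ha) (h.not_dm ha ha1) with ⟨y, hy, hm'⟩ | hy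
  · have h1 := h.sq0 (hy.mem hb) hm'
    obtain ⟨g, hg, e⟩ := conj_of_over (certD4.sys_φ_inj F) hm hm' (hx.mem ha) (hy.mem hb) (h.sq0 (hx.mem ha) hm) h1
    exact H.not_inv hc (hx.conj hg) (by rwa [e, inv_eq_of_mul_eq_one_right h1])
  · exact h.mixed H ha hx hm hy
  · exact h.mixed (H.symm ha) hb hy hm' hx
  · exact H.not_inv hc hx (by rwa [n_two])

end Cfsg.Agent.AH.D4

namespace Cfsg.Agent.AH

open Cfsg.Lie Cfsg.Agent.Chev Cfsg.Agent.Tw

theorem mix_3D4 {F : Type*} [Field F] [Finite F] {q : ℕ} (h : Nat.card F = q ^ 3) (p : ℕ) : Mix p (twistedD4 F q) := by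
  obtain ⟨φ, hφ⟩ := exists_frob F h
  have H : D4.St φ q _ := ⟨goodD4 hφ (frob3 hφ h), hφ, h⟩
  refine (MixK.mix fun a ha b hb c _ ha1 hb1 hc1 hK => False.elim ?_).congr (eqD4 F q).symm
  rcases H.two_le.eq_or_lt with rfl | hq
  · obtain ⟨r, hr⟩ := CharP.exists F
    have : Fact r.Prime := ⟨CharP.char_is_prime F r⟩
    obtain ⟨k, hk, e⟩ := Sys.exists_card_pow F r
    obtain rfl : r = 2 := (Nat.prime_dvd_prime_iff_eq Fact.out Nat.prime_two).1
      ((Fact.out : r.Prime).dvd_of_dvd_pow (h ▸ e ▸ dvd_pow_self r hk.ne'))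
    exact H.no2 hK ha hb ha1 hb1 hc1
  · exact (H.three hq hK).elim (H.not_dm ha ha1) (H.not_dm hb hb1)

end Cfsg.Agent.AH
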