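import Cfsg.Agent.AH.Top
import Cfsg.Agent.Tw.TwFix
import Cfsg.Agent.Tw.InvTw
import Cfsg.Agent.Chev.Order

/-! The groups `³D₄(q)`: no nontrivial element is domestic. -/

set_option autoImplicit false

namespace Cfsg.Agent.AH.D4

open Cfsg.Lie Cfsg.Lie.ChevalleyDatum Cfsg.Agent.Chev Cfsg.Agent.Tw Matrix Equiv

theorem coef {F : Type*} [Field F] [Finite F] {ι : Type*} [Fintype ι] {e : ι → ℕ} {c : ι → F}
    (h : ∀ t : F, t ≠ 0 → ∑ j, t ^ e j * c j = 0) (i : ι)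
    (hi : ∀ j, j ≠ i → c j = 0 ∨ (e j ≠ e i ∧ e j + 1 < e i + Nat.card F ∧ e i + 1 < e j + Nat.card F)) : c i = 0 := by
  classical
  have := Fintype.ofFinite F
  rw [Nat.card_eq_fintype_card] at hi
  obtain ⟨N, hN⟩ : ∃ N, Fintype.card F = N + 2 := Nat.exists_eq_add_of_le' Fintype.one_lt_card
  have h1 := coeff_zero (RingHom.id F) Finset.univ e c h (N * e i)
  rw [hN] at h1 hi
  rwa [Finset.sum_filter, Finset.sum_eq_single i (fun j _ hj => ?_) (by simp), if_pos ⟨e i, by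
    simp [add_mul, add_comm]⟩] at h1
  refine (hi j hj).elim (fun h => by simp [h]) fun h => if_neg fun h2 => ?_
  have h3 : ((N : ℤ) + 1) ∣ (e j : ℤ) - e i := by
    have := Int.natCast_dvd_natCast.2 h2
    push_cast at this
    rw [show (e j : ℤ) - e i = (e j + N * e i) - (N + 1) * e i by ring]
    exact dvd_sub this (dvd_mul_right _ _)
  have := Int.eq_zero_of_abs_lt_dvd h3 (abs_lt.2 ⟨by omega, by omega⟩)
  omega

section Gen

variable {D : ChevalleyDatum} {C : Cert D} {F : Type*} [Field F] {G : Type*} [Group G] {S : Sys C F G}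

/-- the form of a group element -/
def bl (S : Sys C F G) (g : G) : (D.Idx → F) →ₗ[F] (D.Idx → F) →ₗ[F] F :=
  LinearMap.mk₂ F ((ad S).B g) (fun _ _ _ => (ad S).κ_add_left ..) (fun _ _ _ => (ad S).κ_smul_left ..)
    (fun _ _ _ => by rw [Md.B, mulVec_add]; exact (ad S).κ_add_right ..)
    (fun _ _ _ => by rw [Md.B, mulVec_smul]; exact (ad S).κ_smul_right ..)

theorem B_eq (g : G) (u v : D.Idx → F) : (ad S).B g u v = bl S g u v := rfl

theorem bl_conj (g x : G) (u v : D.Idx → F) : bl S (g⁻¹ * x * g) u v = bl S x (S.φ g *ᵥ u) (S.φ g *ᵥ v) :=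
  (ad S).B_conj g x u v

theorem bl_mul (g x : G) (u v : D.Idx → F) : bl S (g * x) u v = bl S x (S.φ g⁻¹ *ᵥ u) v := by
  change (ad S).κ u (S.φ (g * x) *ᵥ v) = (ad S).κ ((ad S).ρ g⁻¹ *ᵥ u) (S.φ x *ᵥ v)
  rw [Md.κ_ρ, inv_inv, map_mul, ← mulVec_mulVec]; rfl

theorem bl_mul' (g x : G) (u v : D.Idx → F) : bl S (g * x) u v = bl S g u (S.φ x *ᵥ v) := by
  change (ad S).κ u (S.φ (g * x) *ᵥ v) = (ad S).κ u (S.φ g *ᵥ S.φ x *ᵥ v)
  rw [map_mul, ← mulVec_mulVec]

theorem bl_over {m : G} {w : Perm (Rt D)} (h : S.Over m w) {r s : Rt D} (hr : w s ≠ r.rev) :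
    bl S m (eR F r) (eR F s) = 0 := by
  obtain ⟨c, hc⟩ := over_eR h s
  change (ad S).κ _ (S.φ m *ᵥ _) = 0
  rw [hc, Md.κ_smul_right, κ_ee, if_neg hr, mul_zero]

theorem U_fix {T : Set (Rt D)} {s : Rt D} (h : ∀ r ∈ T, s ≠ r.rev ∧ ∀ u, C.rc u ≠ C.rc r + C.rc s) {v : G}
    (hv : v ∈ S.U T) : S.φ v *ᵥ eR F s = eR F s :=
  S.U_induction (P := fun v => S.φ v *ᵥ eR F s = eR F s) (by rw [map_one, one_mulVec])
    (fun r hr t g _ ih => by rw [map_mul, ← mulVec_mulVec, ih, x_eR_fix (h r hr).1 (h r hr).2]) hv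

/-- the symmetry relation at a root -/
def SyAt (S : Sys C F G) (ε : F) (x : G) (p : Rt D) : Prop :=
  ∀ r, C.A p r = 1 → bl S x (eR F p) (eR F r) = ε * bl S x (eR F r) (eR F p)

theorem SyAt.map {ε : F} {x n : G} {w : Perm (Rt D)} {p : Rt D} (hn : S.Over n w) (h : SyAt S ε (n⁻¹ * x * n) p) :
    SyAt S ε x (w p) := fun r hr => by
  obtain ⟨r, rfl⟩ := w.surjective r
  obtain ⟨c, hc⟩ := over_eR hn p
  obtain ⟨d, hd⟩ := over_eR hn r
  have := h r (by rwa [Cert.Aut.A_map hn.mem_Aut] at hr)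
  simp only [bl_conj, hc, hd, map_smul, LinearMap.smul_apply, smul_eq_mul] at this
  exact mul_left_cancel₀ (mul_ne_zero c.ne_zero d.ne_zero) (by linear_combination this)

theorem kill {v : G} {f : (Nd D → ℤ) →ₗ[ℤ] ℤ} {k : ℤ} {T : Set (Rt D)} (hk : 0 < k) (hT : ∀ r ∈ T, k ≤ f (C.rc r))
    (hv : v ∈ S.U T) {r s ρ : Rt D} (h : bl S v (eR F s.rev) (eR F r) = 0) (hρ : f (C.rc ρ) < 2 * k)
    (h1 : C.len s = C.len C.top ∧ C.rc s = C.rc r + C.rc ρ ∧ (Xf D ρ 1 (.inr s) (.inr r)) ^ 2 = 1) : S.cd ρ v = 0 := by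
  rw [← B_eq, B_eR, Fin.rev_rev, mu_rev, mu_long C h1.1, Int.cast_one, one_mul] at h
  have h2 := (ad S).ent_root hk hT hv (a := .inr s) (b := .inr r) h1.2.1 hρ
  refine (mul_eq_zero.1 (h2.symm.trans h)).resolve_right fun h3 => ?_
  have h4 := congrArg (Int.cast : ℤ → F) h1.2.2
  rw [← X_eq_Xf C ρ 0, Int.cast_pow, show ((C.X ρ (0 + 1) (.inr s) (.inr r) : ℤ) : F) = 0 from h3] at h4
  simp at h4

theorem SyAt.zero {ε : F} {m l v : G} {w : Perm (Rt D)} {p r s : Rt D} (h : SyAt S ε (m * (l * v)) p) (hm : S.Over m w)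
    (hr : C.A p r = 1) (h1 : w p ≠ r.rev) (h2 : w⁻¹ p = s) (h3 : S.φ (l * v) *ᵥ eR F p = eR F p)
    (h4 : S.φ l⁻¹ *ᵥ eR F s = eR F s) : bl S v (eR F s) (eR F r) = 0 := by
  obtain ⟨c, hc⟩ := over_eR hm.inv p
  have := h r hr
  rwa [bl_mul' m _ _ (eR F p), h3, bl_over hm h1, mul_zero, bl_mul, hc, h2, map_smul, LinearMap.smul_apply, bl_mul, h4,
    smul_eq_mul, mul_eq_zero, or_iff_right c.ne_zero] at this

theorem ent2 {v : G} {f : (Nd D → ℤ) →ₗ[ℤ] ℤ} (hv : v ∈ S.U {r | 2 ≤ f (C.rc r)}) {r s : Rt D} (h0 : r ≠ s)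
    (h1 : f (C.rc r) - f (C.rc s) < 4) (h2 : f (C.rc r) - f (C.rc s) < 2 ∨ ∀ u, C.rc r ≠ C.rc s + C.rc u) :
    S.φ v (.inr r) (.inr s) = 0 :=
  have h3 : (Sum.inr r : D.Idx) ≠ .inr s := fun e => h0 (Sum.inr_injective e)
  h2.elim (fun h2 => ((ad S).ent_lt (a := .inr r) (b := .inr s) zero_le_two (fun _ h => h) hv h2).trans (if_neg h3))
    fun h2 => (ad S).ent_zero two_pos (fun _ h => h) hv h3 h2 h1

theorem xa {r s u : Rt D} {n : ℤ} (h : C.rc u = C.rc r + C.rc s ∧ (∀ v, C.rc v ≠ C.rc r + C.rc u) ∧ C.N r s = n)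
    (t : F) : S.φ (S.x r t) *ᵥ eR F s = eR F s + (n * t) • eR F u := h.2.2 ▸ x_eR_add h.1 h.2.1 t

end Gen

/-- roots by number -/
abbrev R (n : Fin 24) : Rt chevD4 := n

/-- nodes by number -/
abbrev Nn (n : Fin 4) : Nd chevD4 := n

/-- the system of root elements -/
noncomputable abbrev SS (F : Type*) [Field F] := certD4.sys F

/-- the setting -/
structure St {F : Type*} [Field F] (φ : F ≃+* F) (q : ℕ) (K : Subgroup (chevD4.group F)) : Prop where
  good : (stbD4 φ).Good K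
  pw : ∀ t, φ t = t ^ q
  card : Nat.card F = q ^ 3

theorem lenT : ∀ r, certD4.len r = certD4.len certD4.top := by decide +kernel

variable {F : Type*} [Field F] [Finite F] {φ : F ≃+* F} {q : ℕ} {K : Subgroup (chevD4.group F)}
  {a b c x : chevD4.group F}

omit [Finite F] in
theorem σx (r : Rt chevD4) (t : F) : (stbD4 φ).σ ((SS F).x r t) = (SS F).x (triD4.ρ r) (triD4.ε r * φ t) := Stb.σ_x ..

namespace St

variable (h : St φ q K)
include h

theorem mem {g : chevD4.group F} (e : (stbD4 φ).σ g = g) : g ∈ K := fixD4 h.good (frob3 h.pw h.card) e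

theorem two_le : 2 ≤ q := by
  have := Finite.one_lt_card (α := F)
  by_contra h1
  rw [h.card] at this
  interval_cases q <;> simp at this

theorem x_mem {r : Rt chevD4} (hr : triD4.ρ r = r ∧ triD4.ε r = 1) {t : F} (ht : φ t = t) : (SS F).x r t ∈ K :=
  h.mem (by rw [σx, hr.1, hr.2, ht]; simp)

theorem n_mem {r : Rt chevD4} (hr : (triD4.ρ r = r ∧ triD4.ε r = 1) ∧ triD4.ρ r.rev = r.rev ∧ triD4.ε r.rev = 1) :
    (SS F).n r 1 ∈ K :=
  mul_mem (mul_mem (h.x_mem hr.1 (by simp)) (h.x_mem hr.2 (by simp))) (h.x_mem hr.1 (by simp))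

theorem tr_mem {r s u : Rt chevD4} (h1 : triD4.ρ r = s ∧ triD4.ρ s = u ∧ triD4.ρ u = r ∧ r ≠ s.rev ∧ r ≠ u.rev ∧
    ∀ v, certD4.rc v ≠ certD4.rc s + certD4.rc r ∧ certD4.rc v ≠ certD4.rc u + certD4.rc r)
    (h2 : ∀ v ∈ [r, s, u], (triD4.ε v : F) = 1) (t : F) :
    (SS F).x r t * ((SS F).x s (φ t) * (SS F).x u (φ (φ t))) ∈ K := h.mem (by
  obtain ⟨a1, a2, a3, a4, a5, a6⟩ := h1
  simp only [List.forall_mem_cons] at h2
  rw [map_mul, map_mul, σx, σx, σx, a1, a2, a3, h2.1, h2.2.1, h2.2.2.1, one_mul, one_mul, one_mul, frob3 h.pw h.card,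
    (SS F).commute_of_not_add a5 (fun v => (a6 v).2), ← mul_assoc, (SS F).commute_of_not_add a4 (fun v => (a6 v).1),
    mul_assoc])

theorem ok : Ok (stbD4 φ) K := by
  refine ⟨h.good, certD4.sys_φ_inj F, fun i => ?_⟩
  by_cases hi : i = Nn 1
  · subst hi
    exact ⟨_, ⟨(SS F).x_mem_U (by exact ⟨certD4.pos_sp _, certD4.inJ_sp.2 (Stb.mem_orb _ _)⟩) 1,
      h.x_mem (by decide +kernel) (map_one φ)⟩, by simp [Sys.cd_x_self]⟩
  · have h1 := (parD4_s (frob3 h.pw h.card) _).2 ⟨1, rfl⟩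
    refine ⟨_, ⟨?_, h.mem h1.2⟩, ?_⟩
    · rw [orbD4, (by decide +kernel : ∀ i : Nd chevD4, i ≠ Nn 1 →
        [[12, 13, 18], [14], [12, 13, 18], [12, 13, 18]].getD i [] = [12, 13, 18]) i hi]
      exact h1.1
    · rw [(cd_wd _ (f := Cert.lev ∅) (k := 1) zero_le_one (A := {r | certD4.Pos r}) (fun r hr => Sys.ht_pos hr)
        (by rw [Sys.ht_sp]; omega) (by
          simp only [List.forall_mem_cons, Set.mem_ofPred_eq, certD4.pos_iff_val]
          exact ⟨fun _ => by decide, fun _ => by decide, fun _ => by decide, by simp⟩)).2]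
      rcases (by decide +kernel : ∀ i : Nd chevD4, i ≠ Nn 1 → (certD4.sp i : ℕ) = 12 ∨ (certD4.sp i : ℕ) = 13 ∨
        (certD4.sp i : ℕ) = 18) i hi with e | e | e <;> rw [e] <;> simp

end St

/-- a root group of the twisted group -/
noncomputable def gg (φ : F ≃+* F) (t : F) : chevD4.group F :=
  (SS F).x (R 5) t * ((SS F).x (R 10) (φ t) * (SS F).x (R 11) (φ (φ t)))

/-- roots of the cube -/
def rr : Fin 8 → Rt chevD4 := ![R 22, R 17, R 20, R 21, R 15, R 16, R 19, R 14]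

/-- exponents -/
def ex (q : ℕ) : Fin 8 → ℕ := ![0, 1, q, q * q, 1 + q, 1 + q * q, q + q * q, 1 + q + q * q]

/-- signs -/
def sg : Fin 8 → ℤ := ![1, -1, 1, 1, -1, -1, 1, -1]

omit [Finite F] in
theorem sg_ne (i : Fin 8) : (sg i : F) ≠ 0 := by fin_cases i <;> simp [sg]

theorem St.gg_mem (h : St φ q K) (t : F) : gg φ t ∈ K := h.tr_mem (by decide +kernel) (by
  rw [← Int.cast_one]
  exact fun v hv => congrArg _ ((by decide +kernel : ∀ v ∈ [R 5, R 10, R 11], triD4.ε v = 1) v hv)) t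

omit [Finite F] in
theorem St.gg_eR (h : St φ q K) (t : F) :
    (SS F).φ (gg φ t) *ᵥ eR F (R 22) = ∑ i, (t ^ ex q i * sg i) • eR F (rr i) := by
  simp only [gg, map_mul, ← mulVec_mulVec, mulVec_add, mulVec_smul, h.pw,
    xa (S := SS F) (r := R 11) (s := R 22) (u := R 21) (n := 1) (by decide +kernel),
    xa (S := SS F) (r := R 10) (s := R 22) (u := R 20) (n := 1) (by decide +kernel),
    xa (S := SS F) (r := R 10) (s := R 21) (u := R 19) (n := 1) (by decide +kernel),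
    xa (S := SS F) (r := R 5) (s := R 22) (u := R 17) (n := -1) (by decide +kernel),
    xa (S := SS F) (r := R 5) (s := R 21) (u := R 16) (n := -1) (by decide +kernel),
    xa (S := SS F) (r := R 5) (s := R 20) (u := R 15) (n := -1) (by decide +kernel),
    xa (S := SS F) (r := R 5) (s := R 19) (u := R 14) (n := -1) (by decide +kernel), Fin.sum_univ_eight]
  simp only [ex, sg, rr, cons_val, pow_add, pow_mul]
  push_cast
  module

omit [Finite F] in
theorem gg_top (t : F) : (SS F).φ (gg φ t) *ᵥ eR F certD4.top = eR F certD4.top :=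
  U_fix (T := {r | r ∈ [R 5, R 10, R 11]}) (by decide +kernel) (mul_mem ((SS F).x_mem_U (by simp) _)
    (mul_mem ((SS F).x_mem_U (by simp) _) ((SS F).x_mem_U (by simp) _)))

theorem St.bd (h : St φ q K) : 2 ≤ q ∧ 2 * q ≤ q * q ∧ 2 * (q * q) ≤ Nat.card F := by
  have := h.two_le
  rw [h.card, pow_three]
  exact ⟨this, Nat.mul_le_mul_right _ this, Nat.mul_le_mul_right _ this⟩

theorem St.sy (h : St φ q K) {ε : F} (hs : ∀ x, Cj K a x → bl (SS F) x (eR F certD4.top) (eR F (R 22)) =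
    ε * bl (SS F) x (eR F (R 22)) (eR F certD4.top)) (hx : Cj K a x) : SyAt (SS F) ε x certD4.top := fun r hr => by
  obtain ⟨i, rfl⟩ := (by decide +kernel : ∀ r, certD4.A certD4.top r = 1 → ∃ i, rr i = r) r hr
  have h0 := hs x hx
  by_cases hi : i = 0
  · subst hi; exact h0
  have := coef (e := ex q) (c := fun i => sg i * (bl (SS F) x (eR F certD4.top) (eR F (rr i)) -
      ε * bl (SS F) x (eR F (rr i)) (eR F certD4.top))) (fun t _ => by
    have := hs _ (hx.conj' (h.gg_mem t))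
    simp only [bl_conj, gg_top, h.gg_eR, map_sum, map_smul, LinearMap.sum_apply, LinearMap.smul_apply, smul_eq_mul,
      Finset.mul_sum] at this
    rw [← sub_eq_zero.2 this, ← Finset.sum_sub_distrib]
    exact Finset.sum_congr rfl fun _ _ => by ring) i fun j hj => by
      by_cases h1 : j = 0
      · subst h1; exact Or.inl (mul_eq_zero_of_right _ (sub_eq_zero.2 h0))
      · have := h.bd
        right
        fin_cases i <;> fin_cases j <;> simp [ex] at hi hj h1 ⊢ <;> omega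
  exact sub_eq_zero.1 ((mul_eq_zero.1 this).resolve_left (sg_ne i))

theorem s1_top : certD4.sr (R 14) certD4.top = R 22 := Fin.ext (ssD4 (Nn 1) _)

theorem St.sy' (h : St φ q K) {ε : F} (hs : ∀ x, Cj K a x → SyAt (SS F) ε x certD4.top) (hx : Cj K a x) :
    SyAt (SS F) ε x (R 22) :=
  s1_top ▸ (hs _ (hx.conj' (h.n_mem (r := R 14) (by decide +kernel)))).map ((SS F).over_n _ 1)

theorem St.dm (h : St φ q K) (hd : Dm (ad (SS F)) K a (eR F certD4.top)) : Dm (ad (SS F)) K a (eR F (R 22)) :=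
  fun _ hx => by_contra fun e => B_ne_conj ((SS F).over_n (R 14) 1) (s1_top.symm ▸ e)
    (hd _ (hx.conj' (h.n_mem (by decide +kernel))))

theorem St.sy_of_dm (h : St φ q K) (hd : Dm (ad (SS F)) K a (eR F certD4.top)) (hx : Cj K a x) :
    SyAt (SS F) (-1) x certD4.top := h.sy (fun x hx => by
  have h1 := h.dm hd _ (hx.conj' (h.x_mem (r := R 14) (by decide +kernel) (map_one φ)))
  have h2 := h.dm hd x hx
  have h3 := hd x hx
  rw [B_eq] at h1 h2 h3
  simp only [bl_conj, xa (S := SS F) (r := R 14) (s := R 22) (u := certD4.top) (n := 1) (by decide +kernel), map_add,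
    map_smul, LinearMap.add_apply, LinearMap.smul_apply, h2, h3, smul_eq_mul] at h1
  linear_combination (norm := (push_cast; ring1)) h1) hx

/-- the grading -/
noncomputable def lv : (Nd chevD4 → ℤ) →ₗ[ℤ] ℤ := certD4.prL certD4.top + certD4.prL (R 22)

theorem lv_rc (r : Rt chevD4) : lv (certD4.rc r) = certD4.A certD4.top r + certD4.A (R 22) r := by
  simp [lv, Cert.prL_rc]

/-- the reflection in the central node -/
def s1 (r : Rt chevD4) : Rt chevD4 := ⟨reflD4 1 r % 24, Nat.mod_lt _ (by decide)⟩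

theorem s1_eq (r : Rt chevD4) : certD4.ss (Nn 1) r = s1 r :=
  Fin.ext ((ssD4 _ r).trans (by revert r; decide +kernel))

theorem St.not_dm (h : St φ q K) (ha : a ∈ K) (h1 : a ≠ 1) : ¬ Dm (ad (SS F)) K a (eR F certD4.top) := fun hd => by
  obtain ⟨g, hg, -, J, m, v, hm, e⟩ := exists_max h.ok.bn (Stb.stable_univ _) ha (mem_L_univ a)
  have hx : Cj K a (m * v) := e ▸ Cj.of hg a
  by_cases h2 : Nn 1 ∈ J
  swap
  · refine B_ne_zero hm.ov hm.vUp rfl ?_ (hd _ hx)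
    rw [Perm.mul_apply, Cert.fix_of_mem_WJ (fun j hj => (by decide +kernel : ∀ j, j ≠ Nn 1 →
      certD4.A (certD4.sp j) certD4.top.rev = 0) j (by rintro rfl; exact h2 hj)) (certD4.w0_mem J), w0D4, Fin.rev_rev]
  have o : ∀ j, j ≠ Nn 1 → (j ∈ J ↔ Nn 0 ∈ J) := fun j hj => hm.stab.orb_iff
    ((by decide +kernel : ∀ j, j ≠ Nn 1 → triD4.nodes.SameCycle (Nn 0) j) j hj)
  by_cases h3 : Nn 0 ∈ J
  · obtain rfl : J = Set.univ := Set.eq_univ_of_forall fun j => if e : j = Nn 1 then e ▸ h2 else (o j e).2 h3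
    exact hx.ne_one h1 (hm.eq_one h.ok)
  obtain rfl : J = {Nn 1} := Set.ext fun j => ⟨fun e => by_contra fun e' => h3 ((o j e').1 e), fun e => e ▸ h2⟩
  have hw : ∀ r, (certD4.w0 Set.univ * certD4.w0 {Nn 1}) r = (s1 r).rev := fun r => by
    rw [Perm.mul_apply, w0D4, ← s1_eq, ← Cert.eq_w0 (certD4.ss_mem_WJ (Set.mem_singleton _)) fun j hj => by
      rw [Set.mem_singleton_iff.1 hj, certD4.ss_sp]; exact certD4.not_pos_rev (certD4.pos_sp _)]
  have hv : v ∈ (SS F).U {r | 1 ≤ lv (certD4.rc r)} := (SS F).U_mono (fun r hr => by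
    rw [Set.mem_ofPred_eq, lv_rc]
    exact (by decide +kernel : ∀ r : Rt chevD4, chevD4.nroots ≤ 2 * (r : ℕ) → ¬ (∀ i, i ≠ Nn 1 → certD4.rc r i = 0) →
      1 ≤ certD4.A certD4.top r + certD4.A (R 22) r) r ((certD4.pos_iff_val r).1 hr.1) hr.2.2) hm.vU
  have k : ∀ p r ρ, SyAt (SS F) (-1) (m * v) p → lv (certD4.rc ρ) < 2 * 1 → certD4.A p r = 1 ∧ (s1 p).rev ≠ r.rev ∧
      (∀ s, 1 ≤ certD4.A certD4.top s + certD4.A (R 22) s → p ≠ s.rev ∧ ∀ u, certD4.rc u ≠ certD4.rc s + certD4.rc p) ∧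
      certD4.len (s1 p) = certD4.len certD4.top ∧ certD4.rc (s1 p) = certD4.rc r + certD4.rc ρ ∧
      (Xf chevD4 ρ 1 (.inr (s1 p)) (.inr r)) ^ 2 = 1 → (SS F).cd ρ v = 0 := fun p r ρ a0 a1 ⟨a2, a3, a4, a5⟩ => by
    exact kill one_pos (fun _ h => h) hv (SyAt.zero (l := 1) (by rwa [one_mul]) hm.ov a2 (hw p ▸ a3) (by rw [hm.inv, hw])
      (by rw [one_mul, U_fix (fun s hs => a4 s (lv_rc s ▸ hs)) hv]) (by rw [inv_one, map_one, one_mulVec])) a1 a5
  have y1 := h.sy_of_dm hd hx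
  have y2 := h.sy' (fun _ => h.sy_of_dm hd) hx
  have hv2 : v ∈ (SS F).U {r | 2 ≤ lv (certD4.rc r)} := peel zero_le_one (Cert.closed_ge lv zero_le_one)
    (Cert.nil_of_fun lv fun _ h => h) (fun _ h => h) hv fun ρ hρ => or_iff_not_imp_left.2 fun h4 => by
      have h5 : lv (certD4.rc ρ) < 2 * 1 := not_le.1 h4
      refine ⟨h5, ?_⟩
      rw [Set.mem_ofPred_eq, lv_rc] at hρ h4
      rcases (by decide +kernel : ∀ ρ, 1 ≤ certD4.A certD4.top ρ + certD4.A (R 22) ρ →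
        ¬ 2 ≤ certD4.A certD4.top ρ + certD4.A (R 22) ρ → ρ = R 12 ∨ ρ = R 13 ∨ ρ = R 18 ∨ ρ = R 15 ∨ ρ = R 16 ∨ ρ = R 19)
        ρ hρ h4 with rfl | rfl | rfl | rfl | rfl | rfl
      exacts [k _ (R 21) _ y1 h5 (by decide +kernel), k _ (R 20) _ y1 h5 (by decide +kernel),
        k _ (R 17) _ y1 h5 (by decide +kernel), k _ (R 21) _ y2 h5 (by decide +kernel),
        k _ (R 20) _ y2 h5 (by decide +kernel), k _ (R 17) _ y2 h5 (by decide +kernel)]
  have := coef (ι := Fin 8 × Fin 8) (e := fun z => ex q z.1 + ex q z.2)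
    (c := fun z => sg z.1 * sg z.2 * bl (SS F) (m * v) (eR F (rr z.1)) (eR F (rr z.2))) (fun t _ => by
      have := h.dm hd _ (hx.conj' (h.gg_mem t))
      simp only [B_eq, bl_conj, h.gg_eR, map_sum, map_smul, LinearMap.sum_apply, LinearMap.smul_apply, smul_eq_mul,
        Finset.mul_sum] at this
      rw [← this, Fintype.sum_prod_type_right]
      exact Finset.sum_congr rfl fun _ _ => Finset.sum_congr rfl fun _ _ => by ring) (1, 1) fun ⟨i, j⟩ hj => by
    have h4 := (by decide +kernel : ∀ i j, (i, j) ≠ (1, 1) → (s1 (rr i) ≠ rr j ∧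
      (certD4.A certD4.top (s1 (rr i)) + certD4.A (R 22) (s1 (rr i)) -
        (certD4.A certD4.top (rr j) + certD4.A (R 22) (rr j)) < 4) ∧
      (certD4.A certD4.top (s1 (rr i)) + certD4.A (R 22) (s1 (rr i)) -
        (certD4.A certD4.top (rr j) + certD4.A (R 22) (rr j)) < 2 ∨
        ∀ ρ, certD4.rc (s1 (rr i)) ≠ certD4.rc (rr j) + certD4.rc ρ)) ∨
      (i, j) ∈ [(2, 2), (3, 3), (0, 4), (0, 5), (0, 6), (0, 7)]) i j hj
    refine h4.imp (fun b0 => ?_) fun h4 => ?_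
    · obtain ⟨b1, b2, b3⟩ := b0
      obtain ⟨c, hc⟩ := B_over hm.ov (rr i)
      rw [← B_eq, hc, hm.inv, hw, B_eR, Fin.rev_rev]
      rw [← lv_rc, ← lv_rc] at b2 b3
      rw [ent2 hv2 b1 b2 b3, mul_zero, mul_zero, mul_zero]
    · have := h.bd
      simp only [List.mem_cons, Prod.mk.injEq, List.not_mem_nil, or_false] at h4
      rcases h4 with ⟨rfl, rfl⟩ | ⟨rfl, rfl⟩ | ⟨rfl, rfl⟩ | ⟨rfl, rfl⟩ | ⟨rfl, rfl⟩ | ⟨rfl, rfl⟩ <;> simp [ex] <;> omega
  exact B_ne_zero hm.ov hm.vUp (lenT _) ((hw _).trans (by decide +kernel))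
    ((mul_eq_zero.1 this).resolve_left (mul_ne_zero (sg_ne _) (sg_ne _)))

theorem St.three (h : St φ q K) (hq : 3 ≤ q) (H : HK K a b c) :
    Dm (ad (SS F)) K a (eR F certD4.top) ∨ Dm (ad (SS F)) K b (eR F certD4.top) := by
  classical
  obtain ⟨t, h1⟩ : ∃ t : {t : F // φ t = t}, t ∉ ({⟨0, map_zero φ⟩, ⟨1, map_one φ⟩} : Finset _) := by
    have := Fintype.ofFinite {t : F // φ t = t}
    refine (Finset.exists_mem_notMem_of_card_lt_card (t := Finset.univ) ?_).imp fun _ h => h.2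
    rw [Finset.card_univ, ← Nat.card_eq_fintype_card, card_fixed' h.pw h.card]
    exact Finset.card_le_two.trans_lt hq
  simp only [Finset.mem_insert, Finset.mem_singleton, Subtype.ext_iff, not_or] at h1
  have k : ∀ r, triD4.ρ r = r ∧ triD4.ε r = 1 → Two (SS F) K r := fun r hr =>
    ⟨t, 1, h1.1, one_ne_zero, h1.2, h.x_mem hr t.2, h.x_mem hr (map_one φ)⟩
  exact top_ad H (α := R 14) (β := R 22) (by decide +kernel) (by decide +kernel) (k _ (by decide +kernel))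
    (k _ (by decide +kernel)) (k _ (by decide +kernel)) (Or.inl rfl) (by decide +kernel)

end Cfsg.Agent.AH.D4
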