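import Cfsg.Agent.AH.Geo

/-!
Products of two conjugacy classes: isometries that are domestic on the totally singular lines.
-/

set_option autoImplicit false

namespace Cfsg.Agent.AH.Cls

open Module Cfsg.Agent.Polar Cfsg.Agent.Polar.PQ

variable {F : Type*} [Field F] {τ : F →+* F} {π : FP F τ} {V : Type*} [AddCommGroup V] [Module F V]
variable {P : PQ π V} [FiniteDimensional F V]

variable (P) in
/-- the determinant of the form `B(y u, v)` on a pair of vectors -/
def dt (y : End F V) (a b : V) : F := P.B (y a) a * P.B (y b) b - P.B (y a) b * P.B (y b) a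

omit [FiniteDimensional F V] in
theorem TS.of_perp {a f b : V} (hf : P.Hyp a f) (hb : P.Sing b) (hb0 : b ≠ 0) (h1 : P.B b a = 0) (h2 : P.B b f = 0) :
    TS P a b :=
  ⟨hf.left, hb, h1, hf.left_ne_zero, fun h3 => hb0 (by
    obtain ⟨c, rfl⟩ := Submodule.mem_span_singleton.1 h3
    rw [B_smul_left, hf.pair, mul_one] at h2
    rw [h2, zero_smul])⟩

theorem Geo.dom_eigen (G : Geo P) {y : P.EG} (h : ∀ a b, TS P a b → dt P (rho y) a b = 0) {a : V} (ha : P.Sing a)
    (h0 : P.B (rho y a) a = 0) : rho y a ∈ F ∙ a := by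
  by_contra hne
  have ha0 : a ≠ 0 := by rintro rfl; simp at hne
  obtain ⟨f, hf⟩ := G.nd.exists_hyp ha ha0
  have key : ∀ p, P.Sing p → P.B p a = 0 → p ∉ F ∙ a → ∃ q : P.perp {a, f}, (P.res _).Sing q ∧ q ≠ 0 ∧
      ∀ b : P.perp {a, f}, (P.res _).B q b = P.B p b := fun p hp h1 h2 => by
    have e : P.hproj a f p = p + (-P.B p f) • a := by rw [hproj_apply, h1]; module
    refine ⟨⟨_, hf.hproj_mem p⟩, ?_, fun h3 => h2 ?_, fun b => Hyp.B_hproj_right p b.2⟩
    · change P.Sing (P.hproj a f p)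
      rw [e]
      exact hp.add (ha.smul _) (by simp [h1])
    · have h4 : P.hproj a f p = 0 := congrArg Subtype.val h3
      exact Submodule.mem_span_singleton.2 ⟨P.B p f, by rw [e] at h4; linear_combination (norm := module) -h4⟩
  obtain ⟨q, q1, q2, q3⟩ := key _ (sing_rho y ha) h0 hne
  obtain ⟨q', q1', q2', q3'⟩ := key _ (sing_rho y⁻¹ ha) (by rw [← B_rho_right]; exact B_swap_zero h0) (fun h1 => by
    obtain ⟨s, hs⟩ := Submodule.mem_span_singleton.1 h1
    have hs0 : s ≠ 0 := by rintro rfl; exact rho_ne_zero y⁻¹ ha0 (by rw [← hs, zero_smul])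
    have h2 := congrArg (rho y) hs
    rw [map_smul, rho_rho_inv] at h2
    exact hne (Submodule.mem_span_singleton.2 ⟨s⁻¹, by
      rw [eq_comm, eq_inv_smul_iff₀ hs0, h2]⟩))
  obtain ⟨b, hb, e1, e2⟩ := exists_sing_ne₂ (hf.emb.nd G.nd) (G.rich2 _ _ hf) q1 q1' q2 q2'
  rw [q3] at e1
  rw [q3'] at e2
  have hb' := mem_perp_pair.1 b.2
  have := h a b (TS.of_perp hf hb (fun h => e1 (by simp [h])) hb'.1 hb'.2)
  rw [dt, h0, zero_mul, zero_sub, neg_eq_zero, mul_eq_zero, B_rho_left y b] at this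
  exact this.elim e1 (B_swap_ne e2)

theorem Geo.dom_perp (G : Geo P) {y : P.EG} (h : ∀ a b, TS P a b → dt P (rho y) a b = 0) {a : V} (ha : P.Sing a)
    (h0 : P.B (rho y a) a ≠ 0) : ∃ (l : F) (e f : V), P.Hyp e f ∧ P.B e a = 0 ∧ P.B e (rho y a) = 0 ∧
      P.B f a = 0 ∧ P.B f (rho y a) = 0 ∧ ∀ b, P.B b a = 0 → P.B b (rho y a) = 0 → rho y b = l • b := by
  have h1 := B_swap_ne h0
  have hf := hyp_of_ne ha (sing_rho y ha) h1
  have ht : τ (τ (P.B a (rho y a))⁻¹) ≠ 0 := by rw [π.tau_tau]; exact inv_ne_zero h1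
  have mem : ∀ b, b ∈ P.perp {a, τ (P.B a (rho y a))⁻¹ • rho y a} ↔ P.B b a = 0 ∧ P.B b (rho y a) = 0 := fun b => by
    rw [mem_perp_pair, B_smul_right, mul_eq_zero, or_iff_right ht]
  obtain ⟨z, hz0, hz, z1, z2⟩ := G.idx a (rho y a)
  obtain ⟨z', hz'⟩ := (hf.emb.nd G.nd).exists_hyp (e := ⟨z, (mem z).2 ⟨z1, z2⟩⟩) hz
    (fun h => hz0 (congrArg Subtype.val h))
  obtain ⟨l, hl⟩ := sc_of_eigen_aux hz' (G.conn2.imp id fun h4 c d => by
      obtain ⟨w, w0, w1, w2, w3, w4, w5⟩ := h4 a (rho y a) c d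
      exact ⟨⟨w, (mem w).2 ⟨w2, w3⟩⟩, fun h => w0 (congrArg Subtype.val h), w1, w4, w5⟩)
    (Submodule.subtype _) (rho y ∘ₗ Submodule.subtype _) Subtype.val_injective (fun b hb => by
      by_cases hb0 : (b : V) = 0
      · simp [hb0]
      have hb' := mem_perp_pair.1 b.2
      have := h a b (TS.of_perp hf hb hb0 hb'.1 hb'.2)
      rw [dt, B_swap_zero ((mem b).1 b.2).2, zero_mul, sub_zero, mul_eq_zero, or_iff_right h0] at this
      exact G.dom_eigen h hb this)
  exact ⟨l, z, z', ⟨hz'.left, hz'.right, hz'.pair⟩, z1, z2, ((mem _).1 z'.2).1, ((mem _).1 z'.2).2,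
    fun b h1 h2 => hl ⟨b, (mem b).2 ⟨h1, h2⟩⟩⟩

theorem Geo.domestic (G : Geo P) {y : P.EG} (hy : ¬ Sc (rho y)) (h : ∀ a b, TS P a b → dt P (rho y) a b = 0) :
    ∃ (l k : F) (d : V), l * τ l = 1 ∧ k ≠ 0 ∧ d ≠ 0 ∧ rho y = l • (1 : End F V) + k • rr P d d := by
  obtain ⟨a, ha, h0⟩ : ∃ a, P.Sing a ∧ P.B (rho y a) a ≠ 0 := by
    by_contra h1
    push Not at h1
    exact hy (G.sc_of_eigen fun a ha => G.dom_eigen h ha (h1 a ha))
  obtain ⟨l, e, f, hef, e1, e2, f1, f2, hl⟩ := G.dom_perp h ha h0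
  have he := hl e e1 e2
  have hf := hl f f1 f2
  have h1 : l * τ l = 1 := by
    have := B_rho y e f
    rwa [he, hf, B_smul_left, B_smul_right, hef.pair, mul_one] at this
  have hy2 : rho y (a + f) = rho y a + l • f := by rw [map_add, hf]
  obtain ⟨l', -, -, -, -, -, -, -, hl'⟩ := G.dom_perp h (ha.add hef.right (B_swap_zero f1)) (by
    simpa [hy2, f1, B_swap_zero f2, hef.right.B_self] using h0)
  have h2 : l' = l := smul_left_injective F hef.right_ne_zero
    ((hl' f (by simp [f1, hef.right.B_self]) (by simp [hy2, f2, hef.right.B_self])).symm.trans hf)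
  subst h2
  have key : ∀ v, P.B v (rho y a - l' • a) = 0 → rho y v = l' • v := fun v hv => by
    rw [map_sub, B_smul_right] at hv
    have := hl' (v - (P.B v a + P.B v f) • e) (by simp [e1, hef.pair]) (by
      simp only [hy2, map_add, map_sub, LinearMap.sub_apply, B_smul_left, B_smul_right, e2, hef.pair]
      linear_combination hv)
    rw [map_sub, map_smul, he] at this
    linear_combination (norm := module) this
  have h3 : P.B a (rho y a - l' • a) ≠ 0 := by simpa [ha.B_self] using B_swap_ne h0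
  refine ⟨l', (P.B a (rho y a - l' • a))⁻¹, rho y a - l' • a, h1, inv_ne_zero h3, fun h4 => h3 (by simp [h4]), ?_⟩
  ext v
  have := key (v - (P.B v (rho y a - l' • a) / P.B a (rho y a - l' • a)) • a) (by
    rw [map_sub P.B, LinearMap.sub_apply, B_smul_left, div_mul_cancel₀ _ h3, sub_self])
  rw [map_sub, map_smul] at this
  simp only [LinearMap.add_apply, LinearMap.smul_apply, End.one_apply, rr_apply, smul_smul, ← div_eq_inv_mul]
  linear_combination (norm := module) this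

theorem Geo.dichotomy (G : Geo P) {x y : P.EG}
    (h : ∀ y', IsConj y y' → ∀ a b, TS P a b → dt P (rho x) a b * dt P (rho y') a b = 0) :
    (∀ a b, TS P a b → dt P (rho x) a b = 0) ∨ ∀ a b, TS P a b → dt P (rho y) a b = 0 := by
  by_contra h1
  push Not at h1
  obtain ⟨⟨a, b, hab, h1⟩, a', b', hab', h2⟩ := h1
  obtain ⟨y', c, e1, e2, e3, e4⟩ := G.conj_pair hab hab' y
  refine mul_ne_zero h1 h2 ?_
  rw [← h y' c a b hab, dt, dt, dt, e1, e2, e3, e4]

/-- in characteristic two the polar relation makes both elements quadratic -/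
theorem Geo.quadratic (G : Geo P) (h2 : (2 : F) = 0) (hs : ∀ u v, P.B u v = P.B v u) {x y : P.EG}
    (hx : ¬ Sc (rho x)) (hy : ¬ Sc (rho y))
    (k1 : ∀ a b a' b', TS P a b → TS P a' b' →
      P.B (rho y b') a' * P.B (rho x b) a + P.B (rho y a') b' * P.B (rho x a) b = 0) :
    Sc (rho x + rho x⁻¹) ∧ Sc (rho y + rho y⁻¹) := by
  have k2 : ∀ z : P.EG, ¬ Sc (rho z) → ∃ a b, TS P a b ∧ P.B (rho z a) b ≠ 0 := fun z hz => by
    by_contra h1
    push Not at h1
    exact hz (G.sc_of_TS h1)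
  have k3 : ∀ z : P.EG, (∀ a b, TS P a b → P.B (rho z a) b + P.B (rho z b) a = 0) → Sc (rho z + rho z⁻¹) :=
    fun z hz => G.sc_of_TS fun a b hab => by
      rw [LinearMap.add_apply, map_add, LinearMap.add_apply, ← B_rho_right, hs a]
      exact hz a b hab
  obtain ⟨a, b, hab, h3⟩ := k2 x hx
  obtain ⟨a', b', hab', h4⟩ := k2 y hy
  have k4 : (∀ a b, TS P a b → P.B (rho x a) b + P.B (rho x b) a = 0) ↔
      (∀ a b, TS P a b → P.B (rho y a) b + P.B (rho y b) a = 0) := by
    constructor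
    · intro h5 c d hcd
      refine (mul_eq_zero.1 ?_).resolve_left h3
      linear_combination k1 a b c d hab hcd - P.B (rho y d) c * h5 a b hab + P.B (rho y d) c * P.B (rho x a) b * h2
    · intro h5 c d hcd
      refine (mul_eq_zero.1 ?_).resolve_left h4
      linear_combination k1 c d a' b' hcd hab' - P.B (rho x d) c * h5 a' b' hab' +
        P.B (rho y a') b' * P.B (rho x d) c * h2
  have k5 : ∀ a b, TS P a b → P.B (rho x a) b + P.B (rho x b) a = 0 := by
    by_contra h5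
    have h6 := k4.not.1 h5
    push Not at h5 h6
    obtain ⟨c, d, hcd, h5⟩ := h5
    obtain ⟨c', d', hcd', h6⟩ := h6
    refine mul_ne_zero h5 h6 ?_
    linear_combination k1 c d c' d' hcd hcd' + k1 c d d' c' hcd hcd'.symm
  exact ⟨k3 x k5, k3 y (k4.1 k5)⟩

omit [FiniteDimensional F V] in
theorem quad_conj {y y' : P.EG} (c : IsConj y y') {m : F} (h : rho y + rho y⁻¹ = m • (1 : End F V)) (v : V) :
    rho y'⁻¹ v = m • v - rho y' v := by
  obtain ⟨k, rfl⟩ := isConj_iff.1 c
  have h1 := congrArg (rho k) (LinearMap.congr_fun h (rho k⁻¹ v))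
  have h2 : (k * y * k⁻¹)⁻¹ = k * y⁻¹ * k⁻¹ := by group
  rw [LinearMap.add_apply, map_add, LinearMap.smul_apply, End.one_apply, map_smul, rho_rho_inv] at h1
  rw [h2, ← h1]
  simp

omit [FiniteDimensional F V] in
theorem SS_rr (x y : End F V) (a b c d : V) :
    SS x y (rr P a b) (rr P c d) = P.B (y c) b • rr P (x a) d + P.B (y a) d • rr P (x c) b := by
  simp only [SS, mul_assoc, mul_rr, mul_add, rr_apply, rr_smul_left, mul_smul_comm]

omit [FiniteDimensional F V] in
theorem SS_sub_left (x y A A' B : End F V) : SS x y (A - A') B = SS x y A B - SS x y A' B := by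
  simp only [SS]; noncomm_ring

omit [FiniteDimensional F V] in
theorem SS_sub_right (x y A B B' : End F V) : SS x y A (B - B') = SS x y A B - SS x y A B' := by
  simp only [SS]; noncomm_ring

omit [FiniteDimensional F V] in
theorem MM_closure {A : Set (End F V)} (h1 : ∀ N ∈ A, ∃ g : P.EG, rho g = 1 + N) (h2 : ∀ N ∈ A, ∀ M ∈ A, N * M = 0)
    (x y : P.EG) {N : End F V} (hN : N ∈ AddSubmonoid.closure A) :
    ∃ y', IsConj y y' ∧ rho x * rho y' = MM (rho x) (rho y) N := by
  have k1 : ∀ N ∈ AddSubmonoid.closure A, ∀ M ∈ AddSubmonoid.closure A, N * M = 0 := fun N hN M hM => by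
    induction hN, hM using AddSubmonoid.closure_induction₂ with
    | mem N M hN hM => exact h2 N hN M hM
    | zero_left => exact zero_mul _
    | zero_right => exact mul_zero _
    | add_left _ _ _ _ _ _ e1 e2 => rw [add_mul, e1, e2, add_zero]
    | add_right _ _ _ _ _ _ e1 e2 => rw [mul_add, e1, e2, add_zero]
  have k2 : ∃ g : P.EG, rho g = 1 + N := by
    induction hN using AddSubmonoid.closure_induction with
    | mem N hN => exact h1 N hN
    | zero => exact ⟨1, by simp⟩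
    | add N M hN hM e1 e2 =>
      obtain ⟨g, hg⟩ := e1
      obtain ⟨g', hg'⟩ := e2
      refine ⟨g * g', ?_⟩
      rw [map_mul, hg, hg']
      calc (1 + N) * (1 + M) = 1 + (N + M) + N * M := by noncomm_ring
        _ = _ := by rw [k1 N hN M hM, add_zero]
  obtain ⟨g, hg⟩ := k2
  exact ⟨_, isConj_mk g y, rho_conj_MM hg (k1 N hN N hN) x y⟩

theorem T4_EG {A : Set (End F V)} (h1 : ∀ N ∈ A, ∃ g : P.EG, rho g = 1 + N) (h2 : ∀ N ∈ A, ∀ M ∈ A, N * M = 0)
    {x y : P.EG} (l : End F V →+ F) (k : F) (h : ∀ y', IsConj y y' → e2 (rho x * rho y') + l (rho x * rho y') = k)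
    {N1 N2 N3 N4 : End F V} (m1 : N1 ∈ A) (m2 : N2 ∈ A) (m3 : N3 ∈ A) (m4 : N4 ∈ A) :
    b2 (SS (rho x) (rho y) N1 N2) (SS (rho x) (rho y) N3 N4) + b2 (SS (rho x) (rho y) N1 N3) (SS (rho x) (rho y) N2 N4) +
      b2 (SS (rho x) (rho y) N1 N4) (SS (rho x) (rho y) N2 N3) = 0 :=
  T4 _ _ l k (AddSubmonoid.closure A) (fun N hN => by
    obtain ⟨y', c, e⟩ := MM_closure h1 h2 x y hN
    rw [← e]; exact h y' c) (AddSubmonoid.subset_closure m1) (AddSubmonoid.subset_closure m2)
    (AddSubmonoid.subset_closure m3) (AddSubmonoid.subset_closure m4)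

omit [FiniteDimensional F V] in
theorem T2_EG {A : Set (End F V)} (h1 : ∀ N ∈ A, ∃ g : P.EG, rho g = 1 + N) (h2 : ∀ N ∈ A, ∀ M ∈ A, N * M = 0)
    {x y : P.EG} (k : F) (h : ∀ y', IsConj y y' → tr (rho x * rho y') = k)
    {N1 N2 : End F V} (m1 : N1 ∈ A) (m2 : N2 ∈ A) : tr (SS (rho x) (rho y) N1 N2) = 0 := by
  have key : ∀ N ∈ AddSubmonoid.closure A, tr (MM (rho x) (rho y) N) = k := fun N hN => by
    obtain ⟨y', c, e⟩ := MM_closure h1 h2 x y hN
    rw [← e]; exact h y' c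
  exact T2 _ _ k (h y (IsConj.refl y)) (key _ (AddSubmonoid.subset_closure m1))
    (key _ (AddSubmonoid.subset_closure m2))
    (key _ (add_mem (AddSubmonoid.subset_closure m1) (AddSubmonoid.subset_closure m2)))

omit [FiniteDimensional F V] in
theorem one_add_pow_sq {N : End F V} (hN : N * N = 0) (n : ℕ) : (1 + N) ^ n = 1 + (n : F) • N := by
  induction n with
  | zero => simp
  | succ n ih =>
    rw [pow_succ, ih, add_mul, mul_add, mul_add, smul_mul_assoc, smul_mul_assoc, hN, Nat.cast_succ, add_smul]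
    simp only [mul_one, one_mul, smul_zero, one_smul]
    abel

theorem not_sc_rr (hP : P.ND) (h2 : 1 < finrank F V) {l k : F} {d : V} (hk : k ≠ 0) (hd : d ≠ 0) :
    ¬ Sc (l • (1 : End F V) + k • rr P d d) := by
  rintro ⟨s, hs⟩
  obtain ⟨v, hv, h1⟩ := exists_ne_zero_ker₁ (P.B.flip d) h2
  have e1 := LinearMap.congr_fun hs v
  obtain ⟨w, hw⟩ := hP.exists_eq' hd 1
  have e2 := LinearMap.congr_fun hs w
  rw [LinearMap.flip_apply] at h1
  simp only [LinearMap.add_apply, LinearMap.smul_apply, rr_apply, h1, hw, End.one_apply, zero_smul, smul_zero,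
    add_zero, one_smul] at e1 e2
  rw [smul_left_injective F hv e1, add_eq_left] at e2
  exact smul_ne_zero hk hd e2

theorem exists_zero_quad [Finite F] (β : V →ₗ[F] V →ₗ[F] F) (h3 : 3 ≤ finrank F V) : ∃ w, w ≠ 0 ∧ β w w = 0 := by
  obtain ⟨w, h0, hw⟩ := o_exists_sing (ofQuad (LinearMap.BilinMap.toQuadraticMap β)) h3
  exact ⟨w, h0, o_sing_iff.1 hw⟩

theorem finite_EG [Finite F] : Finite P.EG := by
  have : Finite V := Module.finite_of_finite F
  exact Finite.of_injective (fun g : P.EG => (rho g : V → V)) fun g h e => rho_inj (DFunLike.coe_injective e)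

omit [FiniteDimensional F V] in
theorem conj_tv {y : P.EG} {l k : F} {d w : V} (hy : rho y = l • (1 : End F V) + k • rr P d d)
    (h : ∃ g ∈ P.EG, g • d = w) : ∃ y', IsConj y y' ∧ rho y' = l • (1 : End F V) + k • rr P w w := by
  obtain ⟨g, hg, rfl⟩ := h
  refine ⟨_, isConj_mk ⟨g, hg⟩ y, ?_⟩
  rw [map_mul, map_mul, hy, mul_add, add_mul, mul_smul_comm, mul_smul_comm, smul_mul_assoc, smul_mul_assoc, conj_rr,
    mul_one, rho_mul_inv]
  rfl

end Cfsg.Agent.AH.Cls
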