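import Cfsg.Agent.AH.SL
import Cfsg.Agent.Tw.InvE7
import Cfsg.Agent.Chev.DataE6
import Cfsg.Agent.Chev.DataE8

/-! Types E6, E7, E8. -/

set_option autoImplicit false

namespace Cfsg.Agent.AH

open Cfsg.Lie Cfsg.Lie.ChevalleyDatum Cfsg.Agent.Chev Cfsg.Agent.Tw Matrix Equiv

/-- roots of E6 -/
def r6 (n : ℕ) : Rt chevE6 := (Fin.ofNat 72 n : Fin 72)
/-- roots of E7 -/
def r7 (n : ℕ) : Rt chevE7 := (Fin.ofNat 126 n : Fin 126)
/-- roots of E8 -/
def r8 (n : ℕ) : Rt chevE8 := (Fin.ofNat 240 n : Fin 240)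

/-- nodes of E6 -/
def n6 (n : ℕ) : Nd chevE6 := (Fin.ofNat 6 n : Fin 6)
/-- nodes of E7 -/
def n7 (n : ℕ) : Nd chevE7 := (Fin.ofNat 7 n : Fin 7)
/-- nodes of E8 -/
def n8 (n : ℕ) : Nd chevE8 := (Fin.ofNat 8 n : Fin 8)

theorem slE6 : SL certE6 (n6 1) (r6 70) (r6 60) := by
  constructor <;> (try simp only [A_fast dataOKE6]) <;> decide +kernel

theorem slE7 : SL certE7 (n7 0) (r7 124) (r7 92) := by
  constructor <;> (try simp only [A_fast dataOKE7]) <;> decide +kernel

theorem slE8 : SL certE8 (n8 7) (r8 238) (r8 226) := by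
  constructor <;> (try simp only [A_fast dataOKE8]) <;> decide +kernel

variable {F : Type*} [Field F] [Finite F] {p : ℕ} [Fact p.Prime] [CharP F p]

theorem mix_E6 : Mix p (chevE6.group F) :=
  mix_sl (certE6.sys_φ_inj F) slE6.len (α := r6 46) (β := r6 70) (by decide +kernel) (by decide +kernel)
    (by decide +kernel) fun hF => slE6.mix hF (certE6.sys_φ_inj F) (o := (r6 39, false))
      (os := [51, 53, 63, 65, 69, 71].map fun n => (r6 n, false)) (by decide +kernel) (by decide +kernel)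
      (by decide +kernel) (y := 1) fun _ _ h => (slE6.full hF (certE6.sys_φ_inj F) h (by
        simp only [A_fast dataOKE6]; decide +kernel)).elim

theorem mix_E8 : Mix p (chevE8.group F) :=
  mix_sl (certE8.sys_φ_inj F) slE8.len (α := r8 120) (β := r8 238) (by decide +kernel) (by decide +kernel)
    (by decide +kernel) fun hF => slE8.mix hF (certE8.sys_φ_inj F) (o := (r8 121, false))
      (os := [160, 161, 227, 228, 237, 239].map fun n => (r8 n, false)) (by decide +kernel) (by decide +kernel)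
      (by decide +kernel) (y := 1) fun _ _ h => (slE8.full hF (certE8.sys_φ_inj F) h (by
        simp only [A_fast dataOKE8]; decide +kernel)).elim

theorem inv_E7 [CharP F 2] {t : chevE7.group F} (h2 : t * t = 1) (h1 : t ≠ 1) :
    ∃ t', Cj ⊤ t t' ∧ t' ∈ (certE7.sys F).L {j | j ≠ (n7 0)} := by
  have hf := fitE7 (S := certE7.sys F)
  obtain ⟨y, hy, g, -, e⟩ := hf.reps (certE7.sys_φ_inj F) okCE7 okJE7 okRE7 (t := t) trivial h2 h1
  obtain ⟨l, hl, a1, a2⟩ := (by decide +kernel : ∀ y ∈ repsE7, ∃ l ∈ [[], [0, 2]], (∀ r ∈ y, r < chevE7.nroots) ∧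
    ∀ r ∈ y.map (actN tabE7.f l), rcE7 r 0 = 0) y hy
  refine ⟨_, (Cj.of (Subgroup.mem_top g) t).conj (g := nW (certE7.sys F) l) trivial, ?_⟩
  rw [e, (pure_nW l).conj_pw (hf.act ((by decide : ∀ l ∈ [[], [0, 2]], ∀ i ∈ l, i < 7) l hl)) a1]
  exact Subgroup.mem_sup_left (pw_mem_U fun r hr _ => inJ_ne.2 (a2 r hr))

theorem mix_E7 : Mix p (chevE7.group F) :=
  mix_sl (certE7.sys_φ_inj F) slE7.len (α := r7 93) (β := r7 124) (by decide +kernel) (by decide +kernel)
    (by decide +kernel) fun hF => slE7.mix hF (certE7.sys_φ_inj F) (o := (r7 73, false))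
      (os := [95, 100, 108, 123, 124, 125].map fun n => (r7 n, false)) (by decide +kernel) (by decide +kernel)
      (by decide +kernel) fun _ _ h => ⟨slE7.iso hF (certE7.sys_φ_inj F) h (k := n7 6) (ν := r7 98)
        (by decide +kernel) (by decide +kernel) (by simp only [A_fast dataOKE7]; decide +kernel)
        (by simp only [A_fast dataOKE7]; decide +kernel) (by decide +kernel) (by decide +kernel),
        slE7.real (by decide +kernel) (by decide +kernel), fun _ _ => inv_E7⟩

end Cfsg.Agent.AH
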