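import Cfsg.Agent.AH.Top

/-! General lemmas on coordinates and matrix entries, used for type F4. -/

set_option autoImplicit false

namespace Cfsg.Agent.AH.F4

open Cfsg.Lie Cfsg.Lie.ChevalleyDatum Cfsg.Agent.Chev Cfsg.Agent.Tw Matrix Equiv

variable {D : ChevalleyDatum} {C : Cert D} {F : Type*} [Field F] {G : Type*} [Group G] {S : Sys C F G}

section Mod

variable {ι : Type} [Fintype ι] [DecidableEq ι] (V : Md S ι) {f : (Nd D → ℤ) →ₗ[ℤ] ℤ} {k : ℤ} {T : Set (Rt D)}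
  {v : G} {a b : ι}

theorem B_add_left (x : G) (u u' y : ι → F) : V.B x (u + u') y = V.B x u y + V.B x u' y := V.κ_add_left _ _ _

theorem B_add_right (x : G) (u y y' : ι → F) : V.B x u (y + y') = V.B x u y + V.B x u y' := by
  rw [Md.B, mulVec_add, V.κ_add_right]; rfl

theorem B_smul_left (x : G) (c : F) (u y : ι → F) : V.B x (c • u) y = c * V.B x u y := V.κ_smul_left _ _ _

theorem B_smul_right (x : G) (c : F) (u y : ι → F) : V.B x u (c • y) = c * V.B x u y := by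
  rw [Md.B, mulVec_smul, V.κ_smul_right]; rfl

theorem B_mul (m x : G) (u y : ι → F) : V.B (m * x) u y = V.κ (V.ρ m⁻¹ *ᵥ u) (V.ρ x *ᵥ y) := by
  rw [Md.B, map_mul, ← mulVec_mulVec, V.κ_ρ, inv_inv]

theorem dm_vec {e : ι → F} {x y : G} (h : Dm V ⊤ x e) (hy : Cj ⊤ x y) (g : G) :
    V.B y (V.ρ g *ᵥ e) (V.ρ g *ᵥ e) = 0 := by
  rw [← V.B_conj]; exact h _ (hy.conj' trivial)

theorem dm_smul {e e' : ι → F} {x g : G} (h : Dm V ⊤ x e) {c : F} (hc : c ≠ 0) (he : V.ρ g *ᵥ e = c • e') :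
    Dm V ⊤ x e' := fun y hy => by
  have := dm_vec V h hy g
  rw [he, B_smul_left, B_smul_right] at this
  simpa [hc] using this

/-- weights of vanishing entries -/
def Van (C : Cert D) (f : (Nd D → ℤ) →ₗ[ℤ] ℤ) (k : ℤ) (x y : Nd D → ℤ) : Prop :=
  x ≠ y ∧ f x - f y < 2 * k ∧ ∀ r, k ≤ f (C.rc r) → x ≠ y + C.rc r

instance decVan (x y : Nd D → ℤ) : Decidable (Van C f k x y) := inferInstanceAs (Decidable (_ ∧ _ ∧ _))

theorem ent_van (hk : 0 < k) (hT : ∀ r ∈ T, k ≤ f (C.rc r)) (hv : v ∈ S.U T) (h : Van C f k (V.wt a) (V.wt b)) :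
    V.ρ v a b = 0 := by
  have h0 : a ≠ b := fun e => h.1 (by rw [e])
  by_cases h1 : f (V.wt a) - f (V.wt b) < k
  · rw [V.ent_lt hk.le hT hv h1, if_neg h0]
  · exact V.ent_zero hk hT hv h0 (fun r e => h.2.2 r (by rw [e, map_add] at h1; omega) e) h.2.1

theorem ent_sq' (hk : 0 < k) (hT : C.Closed T) {r : Rt D} (h0 : f (C.rc r) = k)
    (h1 : ∀ s ∈ T, s ≠ r → k < f (C.rc s)) (hv : v ∈ S.U T) (h : V.wt a = V.wt b + (2 : ℤ) • C.rc r) :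
    V.ρ v a b = S.cd r v ^ 2 * V.X r 2 a b := by
  have h2 : ∀ s ∈ T ∪ {r}, k ≤ f (C.rc s) := by
    rintro s (hs | rfl)
    · by_cases e : s = r
      · rw [e, h0]
      · exact (h1 s hs e).le
    · exact h0.ge
  obtain ⟨y, hy, z, hz, rfl⟩ := S.split (T1 := {r}) (T2 := {s | s ≠ r}) hT
    (Cert.nil_of_fun f fun s hs => hk.trans_le (h2 s (Or.inl hs))) (fun s _ => em _) hv
  obtain ⟨t, rfl⟩ := S.mem_U_singleton.1 (S.U_mono Set.inter_subset_right hy)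
  have h3 : ∀ s ∈ T ∩ {s | s ≠ r}, k + 1 ≤ f (C.rc s) := fun s hs => h1 s hs.1 hs.2
  rw [V.ent_sq h3 hz (by omega) (by omega) h, S.cd_mul hk.le h2 (by omega) (S.x_mem_U (Or.inr rfl) t)
    (S.U_mono (fun s hs => Or.inl hs.1) hz), S.cd_x_self, S.cd_eq_zero (by omega) h3 (by omega) hz, add_zero]

end Mod

theorem mem_U_of_cd {f : (Nd D → ℤ) →ₗ[ℤ] ℤ} {k : ℤ} (hk : 0 < k) {T T' : Set (Rt D)} (hT : C.Closed T)
    (hf : ∀ r ∈ T, k ≤ f (C.rc r)) {v : G} (hv : v ∈ S.U T)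
    (h : ∀ r ∈ T, r ∉ T' → f (C.rc r) < 2 * k ∧ S.cd r v = 0) : v ∈ S.U T' := by
  obtain ⟨t, h1, rfl⟩ := S.exists_nf hT (Cert.nil_of_fun f fun r hr => hk.trans_le (hf r hr))
    (List.nodup_finRange _) (fun r _ => List.mem_finRange r) hv
  refine S.nf_mem fun r _ hr => ?_
  by_cases h2 : r ∈ T
  · obtain ⟨h3, h4⟩ := h r h2 hr
    rwa [S.cd_nf hk.le hf h3 (List.nodup_finRange _) fun s _ => h1 s, if_pos (List.mem_finRange r)] at h4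
  · exact h1 r h2

theorem cd_conj_x {f : (Nd D → ℤ) →ₗ[ℤ] ℤ} {T : Set (Rt D)} {ρ σ r : Rt D} (h0 : f (C.rc ρ) = 0)
    (h1 : C.rc r = C.rc ρ + C.rc σ) (h2 : f (C.rc r) = 1)
    (hT : ∀ s ∈ T, 1 ≤ f (C.rc s) ∧ s ≠ r ∧ ∀ u, C.rc u = C.rc ρ + C.rc s →
      (∀ w, C.rc w ≠ C.rc u + C.rc ρ) ∧ ∀ w, C.rc w ≠ C.rc u + C.rc s) {v : G} (hv : v ∈ S.U T) :
    (S.x ρ 1)⁻¹ * v * S.x ρ 1 ∈ S.U {s | 1 ≤ f (C.rc s)} ∧
      S.cd r ((S.x ρ 1)⁻¹ * v * S.x ρ 1) = - C.N ρ σ * S.cd σ v := by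
  have h3 : f (C.rc σ) = 1 := by rw [h1, map_add] at h2; omega
  refine S.U_induction (P := fun v => (S.x ρ 1)⁻¹ * v * S.x ρ 1 ∈ S.U {s | 1 ≤ f (C.rc s)} ∧
    S.cd r ((S.x ρ 1)⁻¹ * v * S.x ρ 1) = - C.N ρ σ * S.cd σ v) (by simp [S.cd_one]) ?_ hv
  rintro s hs t g hg ⟨i1, i2⟩
  obtain ⟨a1, a2, a3⟩ := hT s hs
  have m1 := S.x_mem_U (T := {s | 1 ≤ f (C.rc s)}) a1 t
  have key : (S.x ρ 1)⁻¹ * S.x s t * S.x ρ 1 ∈ S.U {s | 1 ≤ f (C.rc s)} ∧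
      S.cd r ((S.x ρ 1)⁻¹ * S.x s t * S.x ρ 1) = - C.N ρ σ * S.cd σ (S.x s t) := by
    by_cases h4 : ∃ u, C.rc u = C.rc ρ + C.rc s
    · obtain ⟨u, h4⟩ := h4
      have m2 := S.x_mem_U (T := {s | 1 ≤ f (C.rc s)}) (r := u) (by
        rw [Set.mem_ofPred_eq, h4, map_add]; omega) (-(C.N ρ s * 1 * t))
      have e : (S.x ρ 1)⁻¹ * S.x s t * S.x ρ 1 = S.x s t * S.x u (-(C.N ρ s * 1 * t)) := by
        rw [← S.comm_simple h4 (a3 u h4).1 (a3 u h4).2]; group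
      rw [e, S.cd_mul zero_le_one (fun _ h => h) (by omega) m1 m2, S.cd_x_ne a2, S.cd_x, S.cd_x]
      refine ⟨mul_mem m1 m2, ?_⟩
      by_cases h5 : s = σ
      · subst h5
        rw [if_pos (C.rc_inj (h4.trans h1.symm)), if_pos rfl]; ring
      · rw [if_neg h5, if_neg fun e => h5 (C.rc_inj (by rw [e, h1] at h4; exact (add_left_cancel h4).symm))]; ring
    · have e := S.commute_of_not_add (r := ρ) (s := s) (by
        rintro rfl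
        rw [C.rc_neg, map_neg] at a1; omega) (not_exists.1 h4) 1 t
      rw [mul_assoc, ← e, inv_mul_cancel_left, S.cd_x_ne a2, S.cd_x_ne (r := σ) fun e => h4 ⟨r, by rw [e, h1]⟩, mul_zero]
      exact ⟨m1, rfl⟩
  rw [show (S.x ρ 1)⁻¹ * (S.x s t * g) * S.x ρ 1 =
    (S.x ρ 1)⁻¹ * S.x s t * S.x ρ 1 * ((S.x ρ 1)⁻¹ * g * S.x ρ 1) by group]
  refine ⟨mul_mem key.1 i1, ?_⟩
  rw [S.cd_mul zero_le_one (fun _ h => h) (by omega) key.1 i1, key.2, i2,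
    S.cd_mul zero_le_one (fun _ h => h) (by omega) m1 (S.U_mono (fun s hs => (hT s hs).1) hg), mul_add]

theorem dm_long {a : G} (h : Dm (ad S) ⊤ a (eR F C.top)) {r : Rt D} (hr : C.len r = C.len C.top) :
    Dm (ad S) ⊤ a (eR F r) := by
  obtain ⟨w, hw, rfl⟩ := Cert.exists_conj_of_len hr.symm
  obtain ⟨n, hn⟩ := S.exists_over hw
  obtain ⟨c, hc⟩ := over_eR hn C.top
  exact dm_smul _ h c.ne_zero hc

theorem cj_x {r s : Rt D} (h : C.len r = C.len s) (t : F) : ∃ c : Fˣ, Cj ⊤ (S.x r t) (S.x s (c * t)) := by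
  obtain ⟨w, hw, rfl⟩ := Cert.exists_conj_of_len h
  obtain ⟨n, hn⟩ := S.exists_over hw
  obtain ⟨c, hc⟩ := hn.acts r
  exact ⟨c, n, trivial, (hc t).symm⟩

theorem x_eR_two {d g e h : Rt D} (h0 : g ≠ d.rev) (h1 : C.rc e = C.rc d + C.rc g)
    (h2 : C.rc h = (2 : ℤ) • C.rc d + C.rc g) (h3 : C.M d g 3 = 0) (t : F) :
    S.φ (S.x d t) *ᵥ eR F g = eR F g + (C.M d g 1 * t) • eR F e + (C.M d g 2 * t ^ 2) • eR F h := by
  rw [← vc_eb (C := C), S.φ_x, C.xR_eb h0, h3, ← h1, ← h2, C.ev_rc, C.ev_rc, vc_eb, vc_eb, vc_eb]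
  simp

/-- the weight `- s_γ i` -/
def om (C : Cert D) (γ i : Rt D) : Nd D → ℤ := C.A γ i • C.rc γ - C.rc i

theorem rc_om (γ i : Rt D) : C.rc ((C.sr γ)⁻¹ i).rev = om C γ i := by
  rw [C.rc_neg, C.sr_inv, C.sr_apply, C.rc_refl, om, neg_sub]

theorem unit_ne {c : ℤ} (h : c = 1 ∨ c = -1) : (c : F) ≠ 0 := by rcases h with rfl | rfl <;> simp

/-- the check for a test vector with three terms -/
def Tri (C : Cert D) (γ : Rt D) (f : (Nd D → ℤ) →ₗ[ℤ] ℤ) (k : ℤ) (ρ d g e h h' : Rt D) : Prop :=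
  (C.len g = C.len C.top ∧ C.len h = C.len C.top ∧ g ≠ d.rev ∧ C.rc e = C.rc d + C.rc g ∧
    C.rc h = (2 : ℤ) • C.rc d + C.rc g ∧ C.M d g 3 = 0 ∧ (C.M d g 2 = 1 ∨ C.M d g 2 = -1)) ∧
  (C.rc h' = om C γ h ∧ C.rc h' = C.rc g + (2 : ℤ) • C.rc ρ ∧
    (Xf D ρ 2 (.inr h') (.inr g) = 1 ∨ Xf D ρ 2 (.inr h') (.inr g) = -1)) ∧
  (∀ i ∈ [g, e, h], ∀ j ∈ [g, e, h], (i = h ∧ j = g) ∨ Van C f k (om C γ i) (C.rc j)) ∧
  0 < 3 * f (C.rc ρ) - 2 ∧ ∀ s, k ≤ f (C.rc s) → s ≠ ρ → 3 * f (C.rc ρ) - 2 < 3 * f (C.rc s) - C.A ρ s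

set_option synthInstance.maxSize 2048 in
instance decTri (γ : Rt D) (f : (Nd D → ℤ) →ₗ[ℤ] ℤ) (k : ℤ) (ρ d g e h h' : Rt D) :
    Decidable (Tri C γ f k ρ d g e h h') := inferInstanceAs (Decidable (_ ∧ _ ∧ _ ∧ _))

theorem Tri.cd {γ : Rt D} {f : (Nd D → ℤ) →ₗ[ℤ] ℤ} {k : ℤ} {ρ d g e h h' : Rt D} (H : Tri C γ f k ρ d g e h h')
    (hk : 0 < k) {a m v : G} (ha : Dm (ad S) ⊤ a (eR F C.top)) (hc : Cj ⊤ a (m * v)) (hm : S.Over m (C.sr γ))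
    (hv : v ∈ S.U {r | k ≤ f (C.rc r)}) : S.cd ρ v = 0 := by
  obtain ⟨⟨a1, a2, a3, a4, a5, a6, a7⟩, ⟨b1, b2, b3⟩, c1, d1, d2⟩ := H
  have z : ∀ i ∈ [g, e, h], ∀ j ∈ [g, e, h], ¬ (i = h ∧ j = g) → (ad S).B (m * v) (eR F i) (eR F j) = 0 :=
    fun i hi j hj hij => by
      obtain ⟨c, h1⟩ := B_over hm i
      rw [h1, B_eR, show S.φ v _ _ = 0 from ent_van (ad S) hk (fun _ h => h) hv
        (by simpa only [ad, Cert.wI_inr, rc_om] using (c1 i hi j hj).resolve_left hij), mul_zero, mul_zero]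
  have n1 : g ≠ h := fun e => C.rc_ne_zero d (by
    rw [← e, eq_comm, add_eq_right] at a5
    exact (smul_eq_zero.1 a5).resolve_left two_ne_zero)
  have n2 : e ≠ h := fun e' => C.rc_ne_zero d (by
    rw [← e', a4, two_smul, add_left_inj, left_eq_add] at a5
    exact a5)
  have n3 : e ≠ g := fun e' => C.rc_ne_zero d (by rwa [e', eq_comm, add_eq_right] at a4)
  have := dm_vec _ (dm_long ha a1) hc (S.x d 1)
  rw [show (ad S).ρ = S.φ from rfl, x_eR_two a3 a4 a5 a6] at this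
  simp only [B_add_left, B_add_right, B_smul_left, B_smul_right] at this
  rw [z g (by simp) g (by simp) (by simp [n1]), z g (by simp) e (by simp) (by simp [n1]),
    z g (by simp) h (by simp) (by simp [n1]), z e (by simp) g (by simp) (by simp [n2]),
    z e (by simp) e (by simp) (by simp [n2]), z e (by simp) h (by simp) (by simp [n2]),
    z h (by simp) e (by simp) (by simp [n3]), z h (by simp) h (by simp) (by simp [n1.symm])] at this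
  obtain ⟨c, h1⟩ := B_over hm h
  have e1 : ((C.sr γ)⁻¹ h).rev = h' := C.rc_inj (by rw [rc_om, b1])
  have e2 := ent_sq' (ad S) (f := (3 : ℤ) • f - C.prL ρ) (a := .inr h') (b := .inr g) d1 (Cert.closed_ge f hk.le)
    (by simp [C.prL_rc, C.A_self]) (fun s hs h => by simpa [C.prL_rc] using d2 s hs h) hv b2
  rw [h1, B_eR, e1, mu_long C (by rw [Cert.Aut.len_map (inv_mem hm.mem_Aut), a2]), show S.φ v _ _ = _ from e2,
    show (ad S).X ρ 2 _ _ = ((C.X ρ 2 _ _ : ℤ) : F) from rfl, X_eq_Xf C ρ 1] at this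
  simpa [unit_ne a7, unit_ne b3] using this

end Cfsg.Agent.AH.F4
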