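import Cfsg.Agent.AH.F4a
import Cfsg.Agent.Tw.InvF4
import Cfsg.Agent.Tw.IsogF4
import Cfsg.Agent.Tw.Stbs

/-! Type F4: elements domestic on the long root vectors; characteristic two. -/

set_option autoImplicit false

namespace Cfsg.Agent.AH

open Cfsg.Lie Cfsg.Lie.ChevalleyDatum Cfsg.Agent.Chev Cfsg.Agent.Tw Matrix Equiv

namespace F4

/-- roots -/
def rt (n : ℕ) : Rt chevF4 := Fin.ofNat 48 n

/-- nodes -/
def nd (n : ℕ) : Nd chevF4 := Fin.ofNat 4 n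

/-- levels -/
def lv (n : ℕ) : (Nd chevF4 → ℤ) →ₗ[ℤ] ℤ := LinearMap.proj (nd n)

theorem lv_apply (n : ℕ) (x : Nd chevF4 → ℤ) : lv n x = x (nd n) := rfl

/-- words -/
def wJ (n : ℕ) : List ℕ := (dJF4.getD n ([], 0, [])).1

/-- the word acts as the reflection -/
def IsRefl (l : List ℕ) (γ : ℕ) : Prop := ∀ j i : Fin 4, rcF4 (actN reflF4 l (chevF4.simple j)) i =
  rcF4 (chevF4.simple j) i - chevF4.pairing γ (chevF4.simple j) * rcF4 γ i

noncomputable instance decIsRefl (l : List ℕ) (γ : ℕ) : Decidable (IsRefl l γ) :=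
  inferInstanceAs (Decidable (∀ _ _, _))

theorem cell_chk : ∀ n : Fin 16, tabF4.okL chevF4 n (wJ n) = true ∧ (n = 15 ∨
    (∃ j : Fin 4, n.val.testBit j = true ∧ actN reflF4 (tabF4.l0 ++ wJ n) (chevF4.simple j) ≠ chevF4.simple j) ∨
    (((∃ r : Fin 48, lenF4 r = 2 ∧ actN reflF4 (tabF4.l0 ++ wJ n) r.rev = r) ∨
      (n = 14 ∧ IsRefl (tabF4.l0 ++ wJ n) 44)) ∧
    ((∃ r : Fin 48, lenF4 r = 1 ∧ actN reflF4 (tabF4.l0 ++ wJ n) r.rev = r) ∨
      (n = 7 ∧ IsRefl (tabF4.l0 ++ wJ n) 47)))) := by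
  decide +kernel

variable {F : Type*} [Field F] {G : Type*} [Group G] {S : Sys certF4 F G}

/-- the normal form in the cell of a reflection -/
def Nf (S : Sys certF4 F G) (γ i : ℕ) (m v : G) : Prop := S.Over m (certF4.sr (rt γ)) ∧
  v ∈ S.U {r | 1 ≤ lv i (certF4.rc r)} ∧ ∀ r, lv i (certF4.rc r) = 0 → ∀ t, m * S.x r t = S.x r t * m

theorem cell (hφ : Function.Injective S.φ) {a : G} (ha : a ≠ 1) : ∃ m v w, Cj ⊤ a (m * v) ∧ S.Over m w ∧ v ∈ S.Up ∧
    ((∃ r, certF4.len r = 2 ∧ w r.rev = r) ∨ Nf S 44 0 m v) ∧ ((∃ r, certF4.len r = 1 ∧ w r.rev = r) ∨ Nf S 47 3 m v) := by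
  obtain ⟨g, -, -, J, m, v, h, e⟩ := exists_max (ok_one hφ).bn (Stb.one S).stable_univ (Subgroup.mem_top a)
    (mem_L_univ a)
  have hc : Cj ⊤ a (m * v) := ⟨g, trivial, e.symm⟩
  obtain ⟨n, hn, hJ⟩ := Tab.exists_mask J
  obtain ⟨c1, c2⟩ := cell_chk ⟨n, hn⟩
  obtain ⟨a1, a2⟩ := (fitF4 (S := S)).w0 l0F4 (J := Set.univ) fun j => by simp [Nat.testBit_two_pow_sub_one]
  obtain ⟨b1, b2⟩ := (fitF4 (S := S)).w0 c1 hJ
  have hw : ∀ r, ((certF4.w0 Set.univ * certF4.w0 J) r : ℕ) = actN reflF4 (tabF4.l0 ++ wJ n) r := fun r => by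
    rw [a2, b2, ← certF4.wd_append, ← toNd_append]
    exact (fitF4 (S := S)).act (fun i hi => (List.mem_append.1 hi).elim (a1 i) (b1 i)) r
  have key : ∀ γ i, γ < 48 → (∀ j, j ∈ J ↔ j ≠ nd i) → IsRefl (tabF4.l0 ++ wJ n) γ → Nf S γ i m v := fun γ i hγ h1 h2 => by
    have h3 : ∀ r, certF4.InJ J r ↔ lv i (certF4.rc r) = 0 := fun r =>
      ⟨fun h => h _ (by simp [h1]), fun h j hj => by
        obtain rfl : j = nd i := by simpa [h1] using hj
        exact h⟩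
    refine ⟨Cert.Aut.eq_of_sp h.ov.mem_Aut (certF4.sr_mem_Aut (rt γ)) (fun j => certF4.rc_inj (funext fun k => ?_)) ▸ h.ov,
      S.U_mono (fun r hr => ?_) h.vU, fun r hr t => ?_⟩
    · rw [certF4_rc, hw, certF4.sr_apply, certF4.rc_refl]
      have : (rt γ : ℕ) = γ := Nat.mod_eq_of_lt hγ
      simpa [certF4_rc, Cert.A_def, this] using h2 j k
    · exact lt_of_le_of_ne (hr.1 _) fun e => hr.2.2 ((h3 r).2 e.symm)
    · by_cases hp : certF4.Pos r
      · exact h.pos _ trivial (S.x_mem_U (by exact ⟨hp, (h3 r).2 hr⟩) t)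
      · exact h.neg _ trivial (S.x_mem_U (by exact ⟨hp, (h3 r).2 hr⟩) t)
  rcases c2 with c2 | ⟨j, c2, c3⟩ | ⟨c2, c3⟩
  · obtain rfl : n = 15 := congrArg Fin.val c2
    obtain rfl : J = Set.univ := Set.eq_univ_of_forall fun j => (hJ j).2 (by revert j; decide)
    exact absurd (h.eq_one (ok_one hφ)) (hc.ne_one ha)
  · exact absurd (by rw [← certF4.sp_val j, ← hw, h.fix Stb.sep_one j ((hJ j).2 c2)]) c3
  refine ⟨m, v, _, hc, h.ov, h.vUp, c2.imp (fun ⟨r, h1, h2⟩ => ⟨r, congrArg Nat.cast h1, Fin.ext ((hw _).trans h2)⟩)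
    fun ⟨h1, h2⟩ => key 44 0 (by decide) (fun j => ?_) h2,
    c3.imp (fun ⟨r, h1, h2⟩ => ⟨r, congrArg Nat.cast h1, Fin.ext ((hw _).trans h2)⟩)
    fun ⟨h1, h2⟩ => key 47 3 (by decide) (fun j => ?_) h2⟩
  · obtain rfl : n = 14 := congrArg Fin.val h1
    rw [hJ]; revert j; decide
  · obtain rfl : n = 7 := congrArg Fin.val h1
    rw [hJ]; revert j; decide

/-- test vectors -/
def tv (r : Rt chevF4) (i : ℕ) : Rt chevF4 := rt (([[34, 32, 40, 45, 43], [33, 32, 39, 43, 45], [33, 31, 38, 42, 46],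
  [33, 30, 37, 41, 47], [33, 6, 10, 17, 30], [33, 5, 9, 16, 31], [33, 4, 8, 15, 32], [34, 2, 7, 15, 32],
  [44, 6, 29, 47, 41], [44, 5, 28, 46, 42], [44, 4, 27, 45, 43], [], [44, 2, 20, 43, 45], [44, 1, 19, 42, 46],
  [44, 0, 18, 41, 47]].getD (r - 33) []).getD i 0)

theorem tv_chk : ∀ r : Rt chevF4, 1 ≤ lv 0 (certF4.rc r) → r ≠ rt 44 → lv 0 (certF4.rc r) ≤ 2 ∧
    Tri certF4 (rt 44) (lv 0) (lv 0 (certF4.rc r)) r (tv r 0) (tv r 1) (tv r 2) (tv r 3) (tv r 4) := by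
  decide +kernel

theorem sr_eq {γ r s : Rt chevF4} (h : certF4.rc s = certF4.rc r - certF4.A γ r • certF4.rc γ) :
    (certF4.sr γ)⁻¹ r = s := certF4.rc_inj (by rw [certF4.sr_inv, certF4.sr_apply, certF4.rc_refl, h])

theorem ld_last {a m : G} {s : F} (h : Dm (ad S) ⊤ a (eR F certF4.top)) (hc : Cj ⊤ a (m * S.x (rt 44) s))
    (hm : S.Over m (certF4.sr (rt 44))) : s = 0 := by
  have := dm_vec _ (dm_long h (r := (rt 47).rev) rfl) hc (S.x (rt 47) 1)
  obtain ⟨c1, h1⟩ := over_eR hm.inv (rt 47).rev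
  obtain ⟨c2, h2⟩ := over_eR hm.inv (rt 47)
  have h3 := (over_φ hm.inv).2 (rt 47)
  rw [sr_eq (s := rt 41) (by decide +kernel)] at h1
  rw [sr_eq (s := rt 6) (by decide +kernel)] at h2 h3
  have h4 := x_eR_two (S := S) (d := rt 44) (g := (rt 47).rev) (e := rt 18) (h := rt 41) (by decide) (by decide +kernel)
    (by decide +kernel) (by decide +kernel) s
  have h5 := x_eR_fix (S := S) (r := rt 44) (s := rt 47) (by decide) (by decide +kernel) s
  have h6 := unit_ne (F := F) (show certF4.M (rt 44) (rt 47).rev 2 = 1 ∨ _ by decide +kernel)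
  rw [B_mul, show (ad S).ρ = S.φ from rfl, x_eR_rev] at this
  simp only [mulVec_add, mulVec_sub, mulVec_smul, h1, h2, h3, h4, h5, x_hR, Md.κ_add_left, Md.κ_add_right,
    Md.κ_sub_left, Md.κ_sub_right, Md.κ_smul_left, Md.κ_smul_right, κ_ee, κ_eh, κ_hh,
    (ad S).κ_comm (hR F certF4 _) (eR F _)] at this
  simpa [show certF4.A (rt 6) (rt 47) = 0 by decide +kernel, show mu certF4 (rt 6) = 1 by decide +kernel, h6,
    show rt 41 = (rt 6).rev by decide, show (rt 47).rev ≠ rt 6 by decide, show (rt 47).rev ≠ (rt 6).rev by decide,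
    show rt 18 ≠ rt 6 by decide, show rt 18 ≠ (rt 6).rev by decide, show rt 44 ≠ rt 6 by decide,
    show rt 44 ≠ (rt 6).rev by decide, show rt 47 ≠ rt 6 by decide, show rt 47 ≠ (rt 6).rev by decide,
    show (rt 6).rev ≠ rt 6 by decide] using this

theorem ld_struct (hφ : Function.Injective S.φ) {a : G} (ha : a ≠ 1) (h : Dm (ad S) ⊤ a (eR F certF4.top)) :
    ∃ m, Cj ⊤ a m ∧ Nf S 44 0 m 1 := by
  obtain ⟨m, v, w, hc, hm, hv, ⟨r, h1, h2⟩ | ⟨h1, h2, h3⟩, -⟩ := cell hφ ha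
  · exact absurd (dm_long h h1 _ hc) (B_ne_zero hm hv h1 h2)
  have e44 : lv 0 (certF4.rc (rt 44)) = 2 := by decide +kernel
  have h4 : v ∈ S.U {r | 2 ≤ lv 0 (certF4.rc r)} :=
    mem_U_of_cd one_pos (Cert.closed_ge _ zero_le_one) (fun _ h => h) h2 fun r hr hr' => by
      have e : lv 0 (certF4.rc r) = 1 := by simp only [Set.mem_ofPred_eq] at hr hr'; omega
      exact ⟨by omega, (e ▸ (tv_chk r hr (by rintro rfl; omega)).2).cd one_pos h hc h1 h2⟩
  have h5 : v ∈ S.U {rt 44} :=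
    mem_U_of_cd two_pos (Cert.closed_ge _ zero_le_two) (fun _ h => h) h4 fun r hr hr' => by
      have h6 := tv_chk r (one_le_two.trans hr) hr'
      have e : lv 0 (certF4.rc r) = 2 := h6.1.antisymm hr
      exact ⟨by omega, (e ▸ h6.2).cd two_pos h hc h1 h4⟩
  obtain ⟨s, rfl⟩ := S.mem_U_singleton.1 h5
  obtain rfl := ld_last h hc h1
  exact ⟨m, by simpa [S.x_zero] using hc, h1, one_mem _, h3⟩

theorem chi_one_of {h : G} (hh : h ∈ S.H) {r : Rt chevF4} (e : h * S.x r 1 = S.x r 1 * h) : S.chi h r = 1 := by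
  have := Sys.H_conj_x hh r 1
  rw [e, mul_inv_cancel_right, mul_one] at this
  exact Units.ext (S.x_inj r this).symm

theorem hyp_of_hk {a b c : G} (H : HK ⊤ a b c) : Hyp a b c := fun _ _ =>
  (H _ _ (Cj.of (Subgroup.mem_top _) a) (Cj.of (Subgroup.mem_top _) b)).isConj

theorem not_ld_root {t : F} (ht : t ≠ 0) : (ad S).B (S.x (rt 0) t) (eR F certF4.top) (eR F certF4.top) ≠ 0 := by
  have := x_eR_rev (S := S) (rt 0) t
  rw [show (rt 0).rev = certF4.top by decide] at this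
  rw [Md.B, show (ad S).ρ = S.φ from rfl, this]
  simpa [Md.κ_add_right, Md.κ_sub_right, Md.κ_smul_right, κ_ee, κ_eh, mu_long,
    show rt 0 = certF4.top.rev by decide, show certF4.top ≠ certF4.top.rev by decide] using ht

section Two

variable [CharP F 2]

theorem x_sq (r : Rt chevF4) (t : F) : S.x r t * S.x r t = 1 := by
  rw [← S.x_add, CharTwo.add_self_eq_zero, S.x_zero]

theorem ld_two [Finite F] (hφ : Function.Injective S.φ) {a : G} (ha : a ≠ 1)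
    (h : Dm (ad S) ⊤ a (eR F certF4.top)) : Cj ⊤ a (S.x (rt 3) 1) := by
  obtain ⟨m, hc, hm, -, h1⟩ := ld_struct hφ ha h
  have h2 : m * m ∈ S.H := Sys.Over.mem_H (certF4.sr_mul_self _ ▸ hm.mul hm)
  have h3 : ∀ r, lv 0 (certF4.rc r) = 0 → S.chi (m * m) r = 1 := fun r hr =>
    chi_one_of h2 (by rw [mul_assoc, h1 r hr, ← mul_assoc, h1 r hr, mul_assoc])
  have h4 := Sys.chi_conj hm.inv h2 (rt 33)
  have h5 := Sys.isChar_chi h2
  rw [sr_eq (s := (rt 40).rev) (by decide +kernel), show m⁻¹ * (m * m) * m⁻¹⁻¹ = m * m by group, h5.1,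
    h5.2 (rt 37) (rt 29) (rt 40) (by decide +kernel), h5.2 (rt 34) (rt 28) (rt 37) (by decide +kernel),
    h5.2 (rt 33) (rt 27) (rt 34) (by decide +kernel), h3 (rt 27) (by decide +kernel), h3 (rt 28) (by decide +kernel),
    h3 (rt 29) (by decide +kernel), mul_one, mul_one, mul_one, inv_eq_iff_mul_eq_one] at h4
  have h6 : S.chi (m * m) (rt 33) = 1 := Units.ext (by
    simpa [CharTwo.neg_eq] using mul_self_eq_one_iff.1 (congrArg Units.val h4))
  have h7 : m * m = 1 := S.eq_of_chi hφ h2 (one_mem _) fun i => by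
    rw [S.chi_one]
    rcases (show ∀ i, certF4.sp i = rt 33 ∨ lv 0 (certF4.rc (certF4.sp i)) = 0 by decide +kernel) i with e | e
    · rw [e, h6]
    · exact h3 _ e
  have e : S.n (rt 44) 1 = S.x (rt 44) 1 * S.x (rt 3) 1 * (S.x (rt 44) 1)⁻¹ := by
    rw [inv_eq_of_mul_eq_one_right (x_sq _ _)]
    simp [Sys.n, CharTwo.neg_eq, show (rt 44).rev = rt 3 by decide]
  obtain ⟨g, -, h8⟩ := conj_of_over (K := ⊤) hφ hm (S.over_n (rt 44) 1) trivial trivial h7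
    (by rw [e, conj_mul, x_sq]; simp)
  exact hc.trans ((Cj.of (K := ⊤) (g := g) trivial m).trans (h8 ▸ e ▸ (Cj.of (Subgroup.mem_top _) _).symm))

theorem no_pair {a b c : G} (H : HK ⊤ a b c) (ha : Cj ⊤ a (S.x (rt 3) 1)) (hb : Cj ⊤ b (S.x (rt 0) 1)) : False := by
  obtain ⟨c1, h1⟩ := cj_x (S := S) (r := rt 3) (s := rt 27) rfl 1
  obtain ⟨c2, h2⟩ := cj_x (S := S) (r := rt 0) (s := rt 25) rfl 1
  have h3 := (hyp_of_hk (H.of_cj ha hb)).commute (x_sq _ _) (x_sq _ _)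
    (S.commute_of_not_add (by decide) (by decide +kernel) 1 1) h1.isConj h2.isConj
  obtain ⟨z, hz, e⟩ := S.comm_first (r := rt 27) (s := rt 25) (v := rt 28) (T := {rt 30}) (by decide +kernel)
    (by decide +kernel) (by
      rintro _ rfl r hr u hu
      exact absurd hu ((show ∀ r, r = rt 27 ∨ r = rt 25 → ∀ u,
        certF4.rc u ≠ certF4.rc (rt 30) + certF4.rc r by decide +kernel) r hr u)) (c1 * 1) (c2 * 1)
  obtain ⟨t, rfl⟩ := S.mem_U_singleton.1 hz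
  rw [mul_assoc, ← h3, mul_assoc, inv_mul_cancel_left, inv_mul_cancel, eq_comm, mul_eq_one_iff_eq_inv, ← S.x_neg] at e
  exact absurd (S.eq_of_x_eq (by
    simpa using unit_ne (F := F) (show certF4.N (rt 27) (rt 25) = 1 ∨ _ by decide +kernel)) (congrArg S.φ e)) (by decide)

end Two

theorem sd_two [Finite F] [CharP F 2] {a : chevF4.group F} (ha : a ≠ 1)
    (h : Dm (ad (certF4.sys F)) ⊤ (isogF4.τ F a) (eR F certF4.top)) : Cj ⊤ a ((certF4.sys F).x (rt 0) 1) := by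
  have hτ := isogF4.τ_bij (F := F)
  obtain ⟨g, -, e⟩ := ld_two (certF4.sys_φ_inj F) ((map_ne_one_iff _ hτ.1).2 ha) h
  obtain ⟨g, rfl⟩ := hτ.2 g
  refine ⟨g, trivial, hτ.1 ?_⟩
  rw [map_mul, map_mul, map_inv, ← e]
  exact (isogF4.τ_xG (K := F) (rt 0) 1).trans (by rw [one_pow, show isogF4.bar (rt 0) = rt 3 by decide]; rfl)

end F4

open F4

theorem f4_two {F : Type*} [Field F] [Finite F] [CharP F 2] {a b c : chevF4.group F} (H : HK ⊤ a b c) (ha : a ≠ 1)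
    (hb : b ≠ 1) (h1 : Dm (ad (certF4.sys F)) ⊤ a (eR F certF4.top) ∨ Dm (ad (certF4.sys F)) ⊤ b (eR F certF4.top))
    (h2 : Dm (ad (certF4.sys F)) ⊤ (isogF4.τ F a) (eR F certF4.top) ∨
      Dm (ad (certF4.sys F)) ⊤ (isogF4.τ F b) (eR F certF4.top)) : False := by
  rcases h1 with h1 | h1 <;> rcases h2 with h2 | h2
  · exact not_ld_root one_ne_zero (h1 _ (sd_two ha h2))
  · exact no_pair H (ld_two (certF4.sys_φ_inj F) ha h1) (sd_two hb h2)
  · exact no_pair (H.symm trivial) (ld_two (certF4.sys_φ_inj F) hb h1) (sd_two ha h2)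
  · exact not_ld_root one_ne_zero (h1 _ (sd_two hb h2))

end Cfsg.Agent.AH
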