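import Cfsg.Agent.AH.VF4

/-! The modules `mdG2` (dimension 7) and `mdF4` (dimension 26) over finite fields. -/

set_option autoImplicit false

namespace Cfsg.Agent.AH

open Cfsg.Lie Cfsg.Lie.ChevalleyDatum Cfsg.Agent.Chev Matrix VM

variable {F : Type*} [Field F] [Finite F]

theorem mdF4_over {m : chevF4.group F} {w : Equiv.Perm (Rt chevF4)} (h : (certF4.sys F).Over m w)
    {s : Rt chevF4} (hs : certF4.len s = 1) :
    ∃ c : Fˣ, (mdF4 F).ρ m *ᵥ Pi.single (ixF4 s) 1 = (c : F) • Pi.single (ixF4 (w s)) 1 :=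
  (vF4.over_ix h s hs).2

theorem mdG2_over {m : chevG2.group F} {w : Equiv.Perm (Rt chevG2)} (h : (certG2.sys F).Over m w)
    {s : Rt chevG2} (hs : certG2.len s = 1) :
    ∃ c : Fˣ, (mdG2 F).ρ m *ᵥ Pi.single (ixG2 s) 1 = (c : F) • Pi.single (ixG2 (w s)) 1 :=
  (vG2.over_ix h s hs).2

theorem mdF4_Ω_ix {s : Rt chevF4} (hs : certF4.len s = 1) :
    (mdF4 F).Ω *ᵥ Pi.single (ixF4 s) 1 = (epsF4 s : F) • Pi.single (ixF4 s.rev) 1 := vF4.md_Ω_ix F hs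

theorem mdG2_Ω_ix {s : Rt chevG2} (hs : certG2.len s = 1) :
    (mdG2 F).Ω *ᵥ Pi.single (ixG2 s) 1 = (epsG2 s : F) • Pi.single (ixG2 s.rev) 1 := vG2.md_Ω_ix F hs

end Cfsg.Agent.AH
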