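import Cfsg.Agent.AH.F4b
import Cfsg.Agent.AH.Vmod

/-! Type F4: elements domestic on the short weight vectors; the mixed property. -/

set_option autoImplicit false

namespace Cfsg.Agent.AH

open Cfsg.Lie Cfsg.Lie.ChevalleyDatum Cfsg.Agent.Chev Cfsg.Agent.Tw Matrix Equiv VM

namespace F4

variable {F : Type*} [Field F] [Finite F]

/-- weight vectors -/
abbrev eV (F : Type*) [Field F] (r : Rt chevF4) : Fin 26 → F := Pi.single (ixF4 r) 1

omit [Finite F] in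
theorem two_of_card (h : 3 ≤ Nat.card F) {G : Type*} [Group G] (S : Sys certF4 F G) (r : Rt chevF4) : Two S ⊤ r := by
  obtain ⟨t, h0, h1⟩ : ∃ t : F, t ≠ 0 ∧ t ≠ 1 := by
    by_contra h2
    have := Nat.card_le_card_of_surjective (fun b : Bool => if b then (0 : F) else 1) fun t => by
      by_cases h0 : t = 0
      · exact ⟨true, h0.symm⟩
      · exact ⟨false, by_contra fun h1 => h2 ⟨t, h0, fun e => h1 e.symm⟩⟩
    simp at this
    omega
  exact ⟨t, 1, h0, one_ne_zero, h1, trivial, trivial⟩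

omit [Finite F] in
theorem top_ld (h : 3 ≤ Nat.card F) {G : Type*} [Group G] (S : Sys certF4 F G) {a b c : G} (H : HK ⊤ a b c) :
    Dm (ad S) ⊤ a (eR F certF4.top) ∨ Dm (ad S) ⊤ b (eR F certF4.top) :=
  top_ad H (α := rt 24) (β := rt 46) (by decide +kernel) (by decide +kernel) (two_of_card h S _) (two_of_card h S _)
    (two_of_card h S _) (Or.inl rfl) (by decide +kernel)

variable {a b c m v : chevF4.group F}

theorem top_sd (h : 3 ≤ Nat.card F) (H : HK ⊤ a b c) :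
    Dm (mdF4 F) ⊤ a (eV F (rt 44)) ∨ Dm (mdF4 F) ⊤ b (eV F (rt 44)) := by
  refine or_iff_not_imp_left.2 fun h1 y hy => ?_
  obtain ⟨x, h1⟩ := not_forall.1 h1
  obtain ⟨hx, h1⟩ := Classical.not_imp.1 h1
  have av : ∀ r, 0 < lv 0 (certF4.rc r) → (mdF4 F).Av ⊤ (lv 0) (r, true) := fun r hr => by
    obtain ⟨s, t, a1, a2, a3, a4, a5⟩ := two_of_card h (certF4.sys F) r
    exact (mdF4 F).av_sq hr a1 a2 a3 a4 a5
  have := (mdF4 F).rel H hx hy (n := 1) (p := fun _ => ixF4 (rt 44)) (m := fun _ => ixF4 (rt 44).rev) (e := 1)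
    (one_mul 1) (fun _ => by simpa [show epsF4 (rt 44) = 1 by decide +kernel] using mdF4_Ω_ix (F := F) (s := rt 44) rfl)
    (fun _ => by
      simpa only [show epsF4 (rt 44).rev = 1 by decide +kernel, Fin.rev_rev, Int.cast_one]
        using mdF4_Ω_ix (F := F) (s := (rt 44).rev) rfl)
    (f := lv 0) (k := 2) ⟨Function.injective_of_subsingleton _, Function.injective_of_subsingleton _,
      fun _ => (by decide +kernel : wtF4 (ixF4 44) 0 = 2 ∧ wtF4 (ixF4 3) 0 = -2),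
      (by decide +kernel : ∀ a, (-2 < wtF4 a 0 ∨ ∃ _ : Fin 1, a = ixF4 3) ∧ (wtF4 a 0 < 2 ∨ ∃ _ : Fin 1, a = ixF4 44))⟩
    (o := (rt 41, true)) (os := [(rt 47, true)]) (by
      simp only [List.forall_mem_cons]
      exact ⟨av _ (by decide +kernel), av _ (by decide +kernel), by simp⟩)
    (by decide +kernel) Int.cast_zero (R := fun _ _ => [(ixF4 (rt 44), ixF4 (rt 44), 1)]) fun _ _ =>
      (by decide +kernel : Same 0 ([(rt 41, true), (rt 47, true)].foldl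
        (fun L o => opL (fun r : Rt chevF4 => colF4 r) o L) [(ixF4 3, ixF4 3, 1)]) [(ixF4 44, ixF4 44, 1)])
  simpa [Md.evB, h1] using this

theorem dm_short (h : Dm (mdF4 F) ⊤ a (eV F (rt 44))) {r : Rt chevF4} (hr : certF4.len r = 1) :
    Dm (mdF4 F) ⊤ a (eV F r) := by
  obtain ⟨w, hw, rfl⟩ := Cert.exists_conj_of_len (C := certF4) (r := rt 44) hr.symm
  obtain ⟨n, hn⟩ := (certF4.sys F).exists_over hw
  obtain ⟨c, hc⟩ := mdF4_over hn (s := rt 44) rfl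
  exact dm_smul _ h c.ne_zero hc

theorem BV_over {w : Perm (Rt chevF4)} (hm : (certF4.sys F).Over m w) {r : Rt chevF4} (hr : certF4.len r = 1) :
    ∃ c : F, c ≠ 0 ∧ ∀ v j, (mdF4 F).B (m * v) (eV F r) (Pi.single j 1) = c * (mdF4 F).ρ v (ixF4 (w⁻¹ r).rev) j := by
  obtain ⟨c, hc⟩ := mdF4_over hm.inv hr
  refine ⟨c * epsF4 (w⁻¹ r), mul_ne_zero c.ne_zero (unit_ne (vF4.eps_unit _)), fun v j => ?_⟩
  rw [B_mul, hc, Md.κ_smul_left, mul_assoc,
    ← (mdF4 F).B_single (mdF4_Ω_ix ((Cert.Aut.len_map (inv_mem hm.mem_Aut) r).trans hr))]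
  rfl

theorem BV_ne {w : Perm (Rt chevF4)} (hm : (certF4.sys F).Over m w) (hv : v ∈ (certF4.sys F).Up) {r : Rt chevF4}
    (hr : certF4.len r = 1) (hw : w r.rev = r) : (mdF4 F).B (m * v) (eV F r) (eV F r) ≠ 0 := by
  obtain ⟨c, h0, h1⟩ := BV_over hm hr
  rw [h1, Perm.inv_eq_iff_eq.2 hw.symm, Fin.rev_rev, (mdF4 F).diag_Up hv, mul_one]
  exact h0

/-- the check for a test vector with two terms -/
def Duo (ρ d g e e' : Rt chevF4) : Prop :=
  (certF4.len g = 1 ∧ certF4.len e = 1 ∧ certF4.len e' = 1 ∧ g ≠ e ∧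
    (colF4 d 1 (ixF4 g) = [(ixF4 e, 1)] ∨ colF4 d 1 (ixF4 g) = [(ixF4 e, -1)]) ∧ colF4 d 2 (ixF4 g) = []) ∧
  (certF4.rc e' = om certF4 (rt 47) e ∧ certF4.rc e' = certF4.rc g + certF4.rc ρ ∧
    (colF4 ρ 1 (ixF4 g) = [(ixF4 e', 1)] ∨ colF4 ρ 1 (ixF4 g) = [(ixF4 e', -1)])) ∧
  ∀ i ∈ [g, e], ∀ j ∈ [g, e], (i = e ∧ j = g) ∨ Van certF4 (lv 3) 1 (om certF4 (rt 47) i) (certF4.rc j)

set_option synthInstance.maxSize 2048 in
noncomputable instance decDuo (ρ d g e e' : Rt chevF4) : Decidable (Duo ρ d g e e') :=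
  inferInstanceAs (Decidable (_ ∧ _ ∧ _))

theorem col_one {r : Rt chevF4} {i j : Fin 26} (h : colF4 r 1 j = [(i, 1)] ∨ colF4 r 1 j = [(i, -1)]) :
    ∃ c : F, c ≠ 0 ∧ (mdF4 F).X r 1 *ᵥ Pi.single j 1 = c • Pi.single i 1 := by
  rw [(mdF4 F).col_spec r 0, mdF4_col]
  rcases h with h | h
  · exact ⟨1, one_ne_zero, by simp [h]⟩
  · exact ⟨-1, by simp, by simp [h]⟩

theorem Duo.cd {ρ d g e e' : Rt chevF4} (H : Duo ρ d g e e') (h0 : lv 3 (certF4.rc ρ) = 1)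
    (ha : Dm (mdF4 F) ⊤ a (eV F (rt 44))) (hc : Cj ⊤ a (m * v)) (hm : (certF4.sys F).Over m (certF4.sr (rt 47)))
    (hv : v ∈ (certF4.sys F).U {r | 1 ≤ lv 3 (certF4.rc r)}) : (certF4.sys F).cd ρ v = 0 := by
  obtain ⟨⟨a1, a2, a3, a4, a5, a6⟩, ⟨b1, b2, b3⟩, c1⟩ := H
  have wt : ∀ s, certF4.len s = 1 → (mdF4 F).wt (ixF4 s) = certF4.rc s := vF4.wt_ix
  have z : ∀ i ∈ [g, e], ∀ j ∈ [g, e], ¬ (i = e ∧ j = g) → (mdF4 F).B (m * v) (eV F i) (eV F j) = 0 :=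
    fun i hi j hj hij => by
      have l : ∀ i ∈ [g, e], certF4.len i = 1 := by simp [a1, a2]
      obtain ⟨c, -, h1⟩ := BV_over hm (l i hi)
      rw [h1, ent_van (mdF4 F) one_pos (fun _ h => h) hv (by
        rw [wt _ (l j hj), wt _ (by rw [certF4.len_rev, Cert.Aut.len_map (inv_mem hm.mem_Aut), l i hi]), rc_om]
        exact (c1 i hi j hj).resolve_left hij), mul_zero]
  obtain ⟨c, h1, h2⟩ := col_one (F := F) a5
  obtain ⟨c', h3, h4⟩ := col_one (F := F) b3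
  have := dm_vec _ (dm_short ha a1) hc ((certF4.sys F).x d 1)
  rw [(mdF4 F).ρ_x, add_mulVec, add_mulVec, add_mulVec, smul_mulVec, smul_mulVec, smul_mulVec, h2,
    (mdF4 F).col_spec d 1, (mdF4 F).col_spec d 2, mdF4_col, a6, show colF4 d (2 + 1) _ = [] from rfl] at this
  simp only [List.map_nil, List.sum_nil, smul_zero, add_zero, one_mulVec, one_smul, B_add_left, B_add_right,
    B_smul_left, B_smul_right] at this
  obtain ⟨k, h5, h6⟩ := BV_over hm a2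
  rw [z g (by simp) g (by simp) (by simp [a4]), z g (by simp) e (by simp) (by simp [a4]),
    z e (by simp) e (by simp) (by simp [a4.symm]), h6,
    show ((certF4.sr (rt 47))⁻¹ e).rev = e' from certF4.rc_inj (by rw [rc_om, b1]),
    (mdF4 F).ent_root one_pos (fun _ h => h) hv (r := ρ) (by rw [wt _ a3, wt _ a1, b2]) (by omega),
    show (mdF4 F).X ρ 1 (ixF4 e') (ixF4 g) = c' by simpa using congrFun h4 (ixF4 e')] at this
  simpa [h1, h3, h5] using this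

/-- test vectors -/
def tw (r : Rt chevF4) (i : ℕ) : Rt chevF4 := rt (([[26, 37, 39, 38], [], [24, 37, 38, 39], [], [], [19, 24], [],
  [24, 35, 36, 40], [24, 18, 19, 28], [], [], [], [12, 24], [], [10, 24], [10, 26], [12, 31], [], [24, 28, 29, 44],
  [24, 11, 12, 35], [19, 42], [24, 9, 10, 37], [26, 8, 10, 37]].getD (r - 24) []).getD i 0)

theorem tw_chk : ∀ r : Rt chevF4, lv 3 (certF4.rc r) = 1 → certF4.len r ≠ 1 →
    Duo r (tw r 0) (tw r 1) (tw r 2) (tw r 3) := by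
  decide +kernel

set_option synthInstance.maxSize 2048 in
theorem tw_chk' : ∀ r : Rt chevF4, 1 ≤ lv 3 (certF4.rc r) → r ≠ rt 47 → lv 3 (certF4.rc r) = 1 ∧ (certF4.len r = 1 →
    lv 3 (certF4.rc (tw r 0)) = 0 ∧ certF4.rc (tw r 1) = certF4.rc (tw r 0) + certF4.rc r ∧
    lv 3 (certF4.rc (tw r 1)) = 1 ∧ certF4.len (tw r 1) ≠ 1 ∧
    (certF4.N (tw r 0) r = 2 ∨ certF4.N (tw r 0) r = -2) ∧
    ∀ s, 1 ≤ lv 3 (certF4.rc s) ∧ (certF4.len s = 1 ∨ s = rt 47) → 1 ≤ lv 3 (certF4.rc s) ∧ s ≠ tw r 1 ∧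
      ∀ u, certF4.rc u = certF4.rc (tw r 0) + certF4.rc s →
        (∀ w, certF4.rc w ≠ certF4.rc u + certF4.rc (tw r 0)) ∧ ∀ w, certF4.rc w ≠ certF4.rc u + certF4.rc s) := by
  decide +kernel

omit [Finite F] in
theorem evL_coord {n : ℕ} (T U : F) (L : List (Tn n)) (i : Fin n) :
    evL T U L i = evL T U (L.filter fun τ => τ.1 = i) i := by
  induction L with
  | nil => rfl
  | cons τ L ih =>
    by_cases h : τ.1 = i
    · rw [List.filter_cons_of_pos (by simpa using h), evL_cons, evL_cons, Pi.add_apply, Pi.add_apply, ih]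
    · rw [List.filter_cons_of_neg (by simpa using h), evL_cons, Pi.add_apply, ih]
      simp [evT, Pi.single_eq_of_ne' h]

theorem sd_last {s t : F} (h : Dm (mdF4 F) ⊤ a (eV F (rt 44)))
    (hc : Cj ⊤ a ((certF4.sys F).x (rt 0) s * (certF4.sys F).x (rt 47) t)) : s * t = 0 := by
  have h1 := h _ (hc.conj' (g := (certF4.sys F).x (rt 3) 1) trivial)
  have h2 := congrFun (appW_spec (col := colF4) (T := s) (U := t) [(3, -1, 0, 0), (0, 1, 1, 0), (47, 1, 0, 1), (3, 1, 0, 0)]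
    [(ixF4 44, 1, 0, 0)]) (ixF4 3)
  rw [evL_one, evL_coord s t (appW _ _ _), same_spec (L' := [(ixF4 3, -1, 1, 1)]) (by decide +kernel),
    mulVec_single_one] at h2
  rw [(mdF4 F).B_single (mdF4_Ω_ix rfl), ← Sys.x_neg, map_mul, map_mul, map_mul,
    show (mdF4 F).ρ = vF4.rho F from rfl, vF4.rho_x, vF4.rho_x, vF4.rho_x, vF4.rho_x] at h1
  replace h1 := (mul_eq_zero.1 h1).resolve_left (unit_ne (vF4.eps_unit (rt 44)))
  simp only [List.map_cons, List.map_nil, List.prod_cons, List.prod_nil, Int.cast_one, Int.cast_neg, pow_zero, pow_one,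
    mul_one, one_mul, ← mul_assoc] at h2 h1
  have h3 := h1.symm.trans h2
  simpa [evL, evT] using h3

theorem sd_struct (h2 : (2 : F) ≠ 0) (ha : a ≠ 1) (h : Dm (mdF4 F) ⊤ a (eV F (rt 44))) :
    ∃ t : F, t ≠ 0 ∧ Cj ⊤ a ((certF4.sys F).x (rt 0) t) := by
  set S := certF4.sys F
  have hφ : Function.Injective S.φ := certF4.sys_φ_inj F
  obtain ⟨m, v, w, hc, hm, hv, -, ⟨r, h1, h3⟩ | ⟨h1, h3, h4⟩⟩ := cell hφ ha
  · exact absurd (dm_short h h1 _ hc) (BV_ne hm hv h1 h3)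
  have h5 : v ∈ S.U {s | 1 ≤ lv 3 (certF4.rc s) ∧ (certF4.len s = 1 ∨ s = rt 47)} :=
    mem_U_of_cd one_pos (Cert.closed_ge _ zero_le_one) (fun _ h => h) h3 fun r hr hr' => by
      have e := not_or.1 (not_and.1 hr' hr)
      have e' := (tw_chk' r hr e.2).1
      exact ⟨by omega, (tw_chk r e' e.1).cd e' h hc h1 h3⟩
  have h6 : v ∈ S.U {rt 47} :=
    mem_U_of_cd one_pos (Cert.closed_ge _ zero_le_one) (fun _ h => h) h3 fun r hr hr' => by
      obtain ⟨e, e'⟩ := tw_chk' r hr hr'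
      refine ⟨by omega, ?_⟩
      by_cases hl : certF4.len r = 1
      swap
      · exact (tw_chk r e hl).cd e h hc h1 h3
      obtain ⟨b1, b2, b3, b4, b5, b6⟩ := e' hl
      obtain ⟨k1, k2⟩ := cd_conj_x b1 b2 b3 b6 h5
      rw [(tw_chk _ b3 b4).cd b3 h (by
        have := hc.conj' (g := S.x (tw r 0) 1) trivial
        rwa [mul_assoc, mul_assoc, ← mul_inv_cancel_left (S.x (tw r 0) 1) (v * _), ← mul_assoc m, h4 _ b1,
          mul_assoc, inv_mul_cancel_left, ← mul_assoc _ v] at this) h1 k1] at k2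
      rcases b5 with b5 | b5 <;> simpa [b5, h2] using k2
  obtain ⟨t, rfl⟩ := S.mem_U_singleton.1 h6
  have h7 := h1.mul_inv_mem_H (S.over_n (rt 47) 1)
  set l := S.chi (m * (S.n (rt 47) 1)⁻¹) (rt 24)
  have h8 : m * (S.n (rt 47) 1)⁻¹ = S.h (rt 47) l := S.eq_of_chi hφ h7 (S.h_mem _ _) fun i => by
    rw [S.chi_h]
    rcases (show ∀ i, certF4.sp i = rt 24 ∧ certF4.A (rt 47) (rt 24) = 1 ∨ certF4.A (rt 47) (certF4.sp i) = 0 ∧
      lv 3 (certF4.rc (certF4.sp i)) = 0 ∧ (certF4.sp i ≠ (rt 47).rev ∧ ∀ u, certF4.rc u ≠ certF4.rc (rt 47) +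
      certF4.rc (certF4.sp i)) ∧ certF4.sp i ≠ (rt 47).rev.rev ∧ ∀ u, certF4.rc u ≠ certF4.rc (rt 47).rev +
      certF4.rc (certF4.sp i) by decide +kernel) i with ⟨e, e'⟩ | ⟨e1, e2, e3, e4⟩
    · rw [e, e', zpow_one]
    · rw [e1, zpow_zero]
      have c1 : ∀ t, Commute (S.x (rt 47) t) (S.x (certF4.sp i) 1) := fun t => S.commute_of_not_add e3.1 e3.2 t 1
      have c2 : ∀ t, Commute (S.x (rt 47).rev t) (S.x (certF4.sp i) 1) := fun t => S.commute_of_not_add e4.1 e4.2 t 1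
      exact chi_one_of h7 (Commute.mul_left (h4 _ e2 1) (((c1 _).mul_left (c2 _)).mul_left (c1 _)).inv_left)
  have h9 : m = S.n (rt 47) l := by rw [S.n_eq_h_mul, ← h8, inv_mul_cancel_right]
  have h10 : Cj ⊤ a (S.x (rt 0) (-(l⁻¹ : Fˣ)) * S.x (rt 47) (l + t + l)) := by
    convert hc.conj' (g := S.x (rt 47) l) trivial using 1
    rw [h9, Sys.n, S.x_add, S.x_add, show (rt 47).rev = rt 0 by decide]
    group
  have h11 := sd_last h h10
  rw [(mul_eq_zero.1 h11).resolve_left (by simp), S.x_zero, mul_one] at h10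
  exact ⟨_, by simp, h10⟩

theorem odd_case {p : ℕ} [Fact p.Prime] [CharP F p] (hp : p ≠ 2) (H : HK ⊤ a b c) (ha : a ≠ 1) (hb : b ≠ 1)
    (h1 : Dm (ad (certF4.sys F)) ⊤ a (eR F certF4.top)) (h2 : Dm (mdF4 F) ⊤ b (eV F (rt 44))) :
    Mixed p c ∧ p ∣ orderOf b := by
  set S := certF4.sys F
  have hφ : Function.Injective S.φ := certF4.sys_φ_inj F
  obtain ⟨m, hc, hm, -, h3⟩ := ld_struct hφ ha h1
  obtain ⟨t, ht, h4⟩ := sd_struct (Ring.two_ne_zero (by rwa [ringChar.eq F p])) hb h2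
  obtain ⟨k, h5⟩ := cj_x (S := S) (r := rt 0) (s := rt 24) rfl t
  have h6 : S.x (rt 24) (k * t) ≠ 1 := fun e => mul_ne_zero k.ne_zero ht (S.x_eq_one_iff.1 e)
  have h7 : S.x (rt 24) (k * t) ^ p = 1 := by rw [S.x_pow, CharP.cast_eq_zero, zero_mul, S.x_zero]
  refine ⟨(H.symm trivial).mixed (h4.trans h5) hc (mixed_of_commute (k := 1) (m := 2 * (Nat.card F - 1))
    (h3 _ (by decide +kernel) _).symm h6 (hc.ne_one ha) (by rwa [pow_one]) ?_ fun h => ?_), ?_⟩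
  · rw [pow_mul, pow_two]
    exact S.pow_card_sub_one hφ (Sys.Over.mem_H (certF4.sr_mul_self _ ▸ hm.mul hm))
  · rcases (Nat.Prime.dvd_mul Fact.out).1 h with h | h
    · exact hp ((Nat.prime_dvd_prime_iff_eq Fact.out Nat.prime_two).1 h)
    · exact (Nat.Prime.coprime_iff_not_dvd Fact.out).1 (Sys.coprime_card_sub_one F p) h
  · rw [(h4.trans h5).ord, orderOf_eq_prime h7 h6]

theorem not_both (ha : a ≠ 1) (h1 : Dm (ad (certF4.sys F)) ⊤ a (eR F certF4.top))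
    (h2 : Dm (mdF4 F) ⊤ a (eV F (rt 44))) : False := by
  obtain ⟨m, hc, hm, -, -⟩ := ld_struct (certF4.sys_φ_inj F) ha h1
  exact BV_ne hm (one_mem _) (r := rt 44) rfl (certF4.refl_self_rev _) (h2 _ (by rwa [mul_one]))

end F4

open F4

theorem mix_F4 {F : Type*} [Field F] [Finite F] {p : ℕ} [Fact p.Prime] [CharP F p] (h : 3 ≤ Nat.card F) :
    Mix p (chevF4.group F) := MixK.top fun a _ b _ c _ ha hb _ H => by
  by_cases hp : p = 2
  · subst hp
    have hτ := isogF4.τ_bij (F := F)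
    refine (f4_two H ha hb (top_ld h _ H) (top_ld h _ (c := isogF4.τ F c) ?_)).elim
    rintro _ _ ⟨u, -, rfl⟩ ⟨v, -, rfl⟩
    obtain ⟨u, rfl⟩ := hτ.2 u
    obtain ⟨v, rfl⟩ := hτ.2 v
    obtain ⟨g, -, e⟩ := H _ _ (Cj.of (Subgroup.mem_top u) a) (Cj.of (Subgroup.mem_top v) b)
    exact ⟨isogF4.τ F g, trivial, by simpa using congrArg (isogF4.τ F) e⟩
  rcases top_ld h (certF4.sys F) H with h1 | h1 <;> rcases top_sd h H with h2 | h2
  · exact (not_both ha h1 h2).elim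
  · exact (odd_case hp H ha hb h1 h2).imp_right Or.inr
  · exact (odd_case hp (H.symm trivial) hb ha h1 h2).imp_right Or.inl
  · exact (not_both hb h1 h2).elim

end Cfsg.Agent.AH
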