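import Cfsg.Agent.AH.Q2

/-! Groups over the field with two elements: elements of order three, and the endgame. -/

set_option autoImplicit false

namespace Cfsg.Agent.AH

open Cfsg.Lie Cfsg.Lie.ChevalleyDatum Cfsg.Agent.Chev Cfsg.Agent.Tw Matrix Equiv

variable {D : ChevalleyDatum} {C : Cert D} {F : Type*} [Field F] {G : Type*} [Group G] {S : Sys C F G}
  {T : Stb S} {K : Subgroup G} {a b c x z : G} {i0 : Nd D} {θ' γ δ : Rt D}

/-- the element of order three of a root `SL₂` -/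
def g3 (S : Sys C F G) (γ : Rt D) : G := S.n γ 1 * S.x γ 1

theorem g3_ne (γ : Rt D) : g3 S γ ≠ 1 := fun h => by
  obtain ⟨c, hc⟩ := over_eR (S.over_n γ 1) γ
  have := congrArg (fun g => (S.φ g *ᵥ eR F γ) (.inr γ)) h
  simp only [g3, φ_mul, x_eR_self, hc, C.sr_apply, C.refl_self] at this
  simp [(C.rev_ne γ).symm] at this

theorem n_mem_SL (γ : Rt D) : S.n γ 1 ∈ S.U {γ, γ.rev} :=
  mul_mem (mul_mem (S.x_mem_U (by simp) _) (S.x_mem_U (by simp) _)) (S.x_mem_U (by simp) _)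

theorem g3_mem_SL (γ : Rt D) : g3 S γ ∈ S.U {γ, γ.rev} := mul_mem (n_mem_SL γ) (S.x_mem_U (by simp) _)

theorem orth_comm (hγ : C.len γ = C.len C.top) (h : C.A γ δ = 0) {g g' : G} (hg : g ∈ S.U {γ, γ.rev})
    (hg' : g' ∈ S.U {δ, δ.rev}) : Commute g g' :=
  S.U_induction (P := fun g => Commute g g') (Commute.one_left _) (fun r hr t _ _ ih => Commute.mul_left
    (S.U_induction (P := fun g' => Commute _ g') (Commute.one_right _) (fun s hs u _ _ ih => Commute.mul_right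
      (comm_of_A (by rcases hr with rfl | rfl <;> simp [C.len_rev, hγ]) (by
        rcases hr with rfl | rfl <;> rcases hs with rfl | rfl <;> simp [C.A_rev_left, C.A_rev_right, h]) t u) ih) hg')
    ih) hg

theorem SL_le_L {J : Set (Nd D)} (h : C.InJ J γ) : S.U {γ, γ.rev} ≤ S.L J :=
  S.U_le.2 fun r hr t => S.x_mem_L (by rcases hr with rfl | rfl <;> simpa [C.inJ_rev] using h) t

theorem SL_fix (hγ : C.len γ = C.len C.top) (h : C.A γ δ = 0) {g : G} (hg : g ∈ S.U {γ, γ.rev}) :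
    S.φ g *ᵥ eR F δ = eR F δ :=
  U_fix (fun r hr => x_fix (by rcases hr with rfl | rfl <;> simp [C.len_rev, hγ])
    (by rcases hr with rfl | rfl <;> simp [C.A_rev_left, h])) hg

theorem SL_Wl {f : (Nd D → ℤ) →ₗ[ℤ] ℤ} (h : f (C.rc γ) = 0) {g : G} (hg : g ∈ S.U {γ, γ.rev}) {k : ℤ}
    {v : D.Idx → F} (hv : v ∈ Wl C F f k) : S.φ g *ᵥ v ∈ Wl C F f k := by
  have h0 : ∀ r ∈ ({γ, γ.rev} : Set (Rt D)), f (C.rc r) = 0 := by
    rintro r (rfl | rfl) <;> simp [C.rc_neg, h]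
  intro a ha
  simp only [mulVec, dotProduct]
  refine Finset.sum_eq_zero fun b _ => by_contra fun h2 => right_ne_zero_of_mul h2 (hv b fun hb => ?_)
  have hab : a ≠ b := fun e => ha (e ▸ hb)
  refine left_ne_zero_of_mul h2 ?_
  rcases (hb ▸ ha).lt_or_gt with h3 | h3
  · exact ((ad S).ent_lt (f := f) le_rfl (fun r hr => (h0 r hr).ge) hg (sub_neg.2 h3)).trans (if_neg hab)
  · exact ((ad S).ent_lt (f := -f) (a := a) (b := b) le_rfl (fun r hr => by simp [h0 r hr]) hg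
      (by simpa [ad] using h3)).trans (if_neg hab)

theorem H_triv (hF : ∀ t : F, t = 0 ∨ t = 1) (hφ : Function.Injective S.φ) {h : G} (hh : h ∈ S.H) : h = 1 :=
  hφ (by rw [map_one, Sys.φ_eq_one_of_chi hh fun j => Units.ext ((hF _).resolve_left (Units.ne_zero _))])

/-- the grading by two orthogonal long roots -/
def f2 (C : Cert D) (γ : Rt D) : (Nd D → ℤ) →ₗ[ℤ] ℤ := (5 : ℤ) • C.prL C.top + C.prL γ

theorem f2_rc (γ r : Rt D) : f2 C γ (C.rc r) = 5 * C.A C.top r + C.A γ r := by simp [f2, C.prL_rc]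

theorem f2_le (hγ : C.len γ = C.len C.top) {k j : ℤ} (hk : k ≠ 0) (h : -2 ≤ k - 5 * j ∧ k - 5 * j ≤ 2) :
    Wl C F (f2 C γ) k ≤ Wl C F (C.prL C.top) j := Wl_le hk fun r hr => eR_mem (by
  have := A_bd hγ r
  rw [f2_rc] at hr
  rw [C.prL_rc]
  omega)

theorem n_f2 (hγ : C.len γ = C.len C.top) (h0 : C.A C.top γ = 0) {k j l : ℤ} (hk : k ≠ 0)
    (h : -2 ≤ k - 5 * j ∧ k - 5 * j ≤ 2 ∧ l = 10 * j - k) {v : D.Idx → F} (hv : v ∈ Wl C F (f2 C γ) k) :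
    S.φ (S.n γ 1) *ᵥ v ∈ Wl C F (f2 C γ) l := n_Wl hk (fun r hr => by
  have := A_bd hγ r
  rw [f2_rc] at hr
  rw [f2_rc, h0, C.A_self]
  omega) hv

theorem DW.zero {g : G} (h : DW S 1 g) [CharP F 2] {r : Rt D} (h1 : C.len r = C.len C.top) (h2 : C.A C.top r = 1)
    (h3 : S.φ g *ᵥ eR F r = eR F r) : False := by
  have := h _ (eR_mem (r := r.rev) (by rw [C.prL_rc, C.A_rev_right, h2])) _ (eR_mem (r := r) (by rw [C.prL_rc, h2]))
  rw [show S.φ g⁻¹ *ᵥ eR F r = eR F r by nth_rw 1 [← h3]; exact φ_inv _ _, h3, κ_ee, Fin.rev_rev, mu_rev,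
    mu_long C h1, CharTwo.add_self_eq_zero] at this
  simp at this

variable [CharP F 2]

theorem x_sq2 (r : Rt D) (t : F) : S.x r t * S.x r t = 1 := by rw [mul_eq_one_iff_inv_eq, x_inv]

theorem n_sq2 (r : Rt D) : S.n r 1 * S.n r 1 = 1 := by rw [mul_eq_one_iff_inv_eq, n_inv]

theorem g3_eq (γ : Rt D) : g3 S γ = S.x γ 1 * S.x γ.rev 1 := by
  simp [g3, Sys.n, CharTwo.neg_eq, mul_assoc, x_sq2]

theorem g3_inv (γ : Rt D) : S.n γ 1 * g3 S γ * (S.n γ 1)⁻¹ = (g3 S γ)⁻¹ := by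
  rw [g3, ← mul_assoc, n_sq2, one_mul, _root_.mul_inv_rev, x_inv]

theorem g3_cube (γ : Rt D) : g3 S γ ^ 3 = 1 := by
  have h := (pure_n (S := S) γ).2 γ 1
  rw [C.sr_apply, C.refl_self, n_inv] at h
  rw [pow_three]
  nth_rw 1 [g3_eq]
  rw [← h, g3]
  calc _ = S.x γ 1 * (S.n γ 1 * S.x γ 1 * (S.n γ 1 * S.n γ 1) * S.x γ 1 * S.n γ 1) * S.x γ 1 := by group
    _ = 1 := by simp [n_sq2, mul_assoc, ← mul_assoc (S.x γ 1), x_sq2]

theorem g3_pow (γ : Rt D) (k : ℕ) : g3 S γ ^ 2 ^ k = g3 S γ ∨ g3 S γ ^ 2 ^ k = (g3 S γ)⁻¹ := by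
  have h := g3_cube (S := S) γ
  have h2 : g3 S γ ^ 2 = (g3 S γ)⁻¹ := by rw [eq_inv_iff_mul_eq_one, ← pow_succ, h]
  induction k with
  | zero => simp
  | succ k ih => rcases ih with e | e <;> simp [pow_succ 2, pow_mul, e, h2]

theorem not_comm (γ : Rt D) : ¬ Commute (S.x γ 1) (S.x γ.rev 1) := fun h => g3_ne (S := S) γ (by
  have h1 := g3_cube (S := S) γ
  rwa [pow_succ, g3_eq, h.mul_pow, pow_two, pow_two, x_sq2, x_sq2, one_mul, one_mul, ← g3_eq] at h1)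

/-- a product of `g3` with an element centralising the root subgroup is not a `2`-element -/
theorem g3_not_two {d : G} (h1 : Commute d (S.x γ 1)) (h2 : Commute d (S.n γ 1)) {j : ℕ} (k : ℕ) :
    (g3 S γ ^ 2 ^ j * d) ^ 2 ^ k ≠ 1 := fun h => by
  rw [((show Commute d (g3 S γ) from h2.mul_right h1).symm.pow_left _).mul_pow, ← pow_mul, ← pow_add, mul_eq_one_iff_eq_inv] at h
  have h3 : Commute (g3 S γ) (S.x γ 1) := by
    have := (h1.pow_left (2 ^ k)).inv_left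
    rw [← h] at this
    rcases g3_pow (S := S) γ (j + k) with e | e <;> simpa [e] using this
  rw [g3_eq] at h3
  refine not_comm (S := S) γ (Commute.symm ?_)
  simpa using (Commute.refl (S.x γ 1)).inv_left.mul_left h3

theorem kill2 (hγ : C.len γ = C.len C.top) (h0 : C.A C.top γ = 0) {J J' : Set (Nd D)}
    (hJ : ∀ j ∈ J, C.A C.top (C.sp j) = 0) (hJ' : ∀ j ∈ J', f2 C γ (C.rc (C.sp j)) = 0) (hz : z ∈ S.L J') {q : G}
    (hq : q ∈ S.U {r | C.InJ J r ∧ 1 ≤ C.A γ r}) {s : F} (h : DW S s (S.n γ 1 * z * q)) {r μ ν : Rt D}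
    (h1 : C.len r = C.len C.top) (h2 : C.len ν = C.len C.top) (h3 : C.A C.top μ = 1) (h4 : C.A γ μ = 0)
    (h5 : C.rc ν = C.rc r + C.rc μ) (h6 : C.InJ J r) (h7 : C.A γ r = 1) (h8 : C.A r μ < 0) : S.cd r q = 0 := by
  have w1 : eR F μ ∈ Wl C F (f2 C γ) 5 := eR_mem (by rw [f2_rc, h3, h4]; rfl)
  have w2 : eR F ν.rev ∈ Wl C F (f2 C γ) (-6) := eR_mem (by
    rw [f2_rc, C.A_rev_right, C.A_rev_right, A_add h5, A_add h5, h3, h4, h7, A_inJ hJ h6]; rfl)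
  have w3 : S.φ (S.n γ 1 * z) *ᵥ eR F ν.rev ∈ Wl C F (f2 C γ) (-4) :=
    φ_mul (S := S) _ _ _ ▸ n_f2 hγ h0 (j := -1) (by simp) (by simp) (L_Wl hJ' hz w2)
  have w4 := n_f2 (S := S) hγ h0 (j := -1) (l := -6) (by simp) (by simp) (L_Wl hJ' hz w3)
  have := h _ (f2_le hγ (by simp) (by simp) w3) _ (f2_le hγ (by simp) (by simp) w1)
  rw [← κ_φ, φ_mul _ q, φ_mul _ q, κ_inv, fix_Wl (by simp) (fun ρ hρ => U_fix (fun r' hr' t => ?_) hq) w3,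
    φ_mul (S.n γ 1) z (S.φ _ *ᵥ _), κ_lev w4 w1 (by simp), κ_lev w3 w1 (by simp), ← B_def, B_eR, Fin.rev_rev,
    show S.φ q _ _ = _ from (ad S).ent_root (f := C.prL γ) one_pos (fun r hr => C.prL_rc _ r ▸ hr.2) hq
      (a := .inr ν) (b := .inr _) (r := r) (h5.trans (add_comm _ _)) (by rw [C.prL_rc]; omega), X_one h5,
    N_one h1 h5 h8, mu_rev, mu_long C h2] at this
  · simpa using this
  have b1 := A_bd hγ ρ
  have b2 := A_inJ hJ hr'.1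
  rw [f2_rc] at hρ
  have b5 := hr'.2
  have b6 := A_bd hγ r'
  refine x_eR_fix (fun e => by rw [e, C.A_rev_right, C.A_rev_right] at hρ; omega) (fun u hu => ?_) t
  have b3 := A_add hu γ
  have b4 := A_add hu C.top
  by_cases h9 : u = γ
  · rw [h9] at b4
    omega
  · have := (C.A_abs_le_one h9 (ne_rev_of_A (show 0 ≤ C.A γ u by omega)) (hγ ▸ C.len_le_top u)).2
    omega

theorem DW.two (hγ : C.len γ = C.len C.top) (h0 : C.A C.top γ = 0)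
    (hz : ∀ k, ∀ v ∈ Wl C F (f2 C γ) k, S.φ z *ᵥ v ∈ Wl C F (f2 C γ) k) {s : F} (hs : s = 0 ∨ s = 1)
    (h : DW S 1 (S.n γ 1 * S.x γ s * z)) {ν : Rt D} (h1 : C.len ν = C.len C.top) (h2 : C.A C.top ν = 1)
    (h3 : C.A γ ν = 1) : s = 1 ∧ Triv S (f2 C γ) 6 z := by
  have key : ∀ u ∈ Wl C F (f2 C γ) (-6), ∀ v ∈ Wl C F (f2 C γ) 6,
      s * (ad S).κ (S.φ z *ᵥ u) v = (ad S).κ u v := fun u hu v hv => by
    have := h _ (f2_le hγ (by simp) (by simp) hu) _ (f2_le hγ (by simp) (by simp) hv)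
    have e1 : S.φ (S.x γ s) *ᵥ S.φ z *ᵥ v = S.φ z *ᵥ v := fix_Wl (by simp) (fun r hr => x_fix hγ (by
      have := A_bd hγ r; rw [f2_rc] at hr; omega) s) (hz _ v hv)
    have e2 : ∀ y ∈ Wl C F (f2 C γ) (-6), S.φ (S.x γ s) *ᵥ y = y + s • S.φ (S.n γ 1) *ᵥ y := fun y hy =>
      (LinearMap.mem_eqLocus.1 (Wl_le (N := LinearMap.eqLocus (S.φ (S.x γ s)).mulVecLin
        (LinearMap.id + s • (S.φ (S.n γ 1)).mulVecLin)) (by simp) (fun r hr => (x_eR2 hγ (by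
          have := A_bd hγ r; rw [f2_rc] at hr; omega) s).trans (by rw [← n_eR2 (S := S)]; rfl)) hy)).trans rfl
    rwa [← κ_φ, φ_mul, φ_mul, φ_mul, φ_mul, e1, e2 _ (hz _ u hu), mulVec_add, mulVec_smul, nn, Md.κ_add_left, Md.κ_smul_left,
      κ_lev hu (n_f2 hγ h0 (j := 1) (l := 4) (by simp) (by simp) (hz _ v hv)) (by simp),
      κ_lev (n_f2 hγ h0 (j := -1) (l := -4) (by simp) (by simp) (hz _ u hu)) hv (by simp), zero_add, zero_add,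
      one_mul] at this
  obtain rfl : s = 1 := hs.resolve_left (by
    rintro rfl
    have := key _ (eR_mem (r := ν.rev) (by rw [f2_rc, C.A_rev_right, C.A_rev_right, h2, h3]; rfl)) _
      (eR_mem (r := ν) (by rw [f2_rc, h2, h3]; rfl))
    rw [κ_ee, Fin.rev_rev, mu_rev, mu_long C h1] at this
    simp at this)
  exact ⟨rfl, fun u hu v hv => by rw [B_def, ← key u hu _ (hz _ v hv), κ_inv, one_mul]⟩

namespace Q2

variable (Q : Q2 T K i0 θ')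
include Q

theorem dw_H (h : Sp S K i0 a 1 z) (hz : z ∈ S.H) (h1 : ∀ j ∈ {j | j ≠ i0}, S.chi z (C.sp j) = 1) : False := by
  have h2 := (Q.comm Q.fx Q.lev0 h.mem h.lev).2.2.2
  rw [H_eR hz, (Sys.isChar_chi hz).eq_chr, Cert.chr, Finset.prod_eq_single i0 (fun j _ hj => by simp [h1 j hj])
    (by simp)] at h2
  have h3 := C.A_eq_sum' C.top C.top
  simp only [Q.lev, mul_ite, mul_one, mul_zero, Finset.sum_ite_eq', Finset.mem_univ, if_true, C.A_self] at h3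
  have h4 : S.chi z (C.sp i0) = 1 ∨ S.chi z (C.sp i0) = -1 := by
    simpa [← h3, zpow_two] using congrFun h2 (.inr C.top)
  refine h.dw.zero Q.fα.2 Q.levα ?_
  rcases h4 with e | e <;> simp [H_eR hz, e, CharTwo.neg_eq, -mulVec_single]

/-- the second splitting -/
theorem second (h : Sp S K i0 a 1 z) (hs : T.Sep K) (hγ : Fx T γ) (hn : ND T {j | j ≠ i0} γ)
    (h1 : C.InJ {j | j ≠ i0} γ) (h2 : ∀ j ∈ {j | j ≠ i0}, 0 ≤ C.A γ (C.sp j)) {J : Set (Nd D)}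
    (hJ : J = {j | j ∈ {j | j ≠ i0} ∧ C.A γ (C.sp j) = 0}) (h3 : T.Stable J)
    (hk : ∀ z ∈ K, z ∈ S.L J → ∀ q ∈ S.U {r | C.InJ {j | j ≠ i0} r ∧ 1 ≤ C.A γ r},
      Sp S K i0 a 1 (S.n γ 1 * z * q) → ∀ r, C.InJ {j | j ≠ i0} r → C.A γ r = 1 → S.cd r q = 0)
    {ν : Rt D} (h4 : C.len ν = C.len C.top) (h5 : C.A C.top ν = 1) (h6 : C.A γ ν = 1) (hK : Ok T K) :
    ∃ J' m v, MaxC T K J J' m v ∧ Sp S K i0 a 1 (g3 S γ * (m * v)) ∧ Triv S (f2 C γ) 6 (m * v) ∧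
      ∀ j ∈ J, (∃ r, C.len r = C.len C.top ∧ C.A C.top r = 1 ∧ C.A γ r = 1 ∧ C.A (C.sp j) r ≠ 0) →
        j ∈ J' ∧ (C.w0 J * C.w0 J') (C.sp j) = C.sp j := by
  obtain ⟨g, hg, hgL, ⟨h7, h8⟩ | h7⟩ := hn.conj Q.toOk hs Q.stab hγ.2 h.mem h.lev
  · exact (Q.dw_H (Q.sp_conj h hg hgL) h7 h8).elim
  have h8 := Q.sp_conj h hg hgL
  obtain ⟨g', hg', hg'L, z', hz, hL, q, hqK, hq, e⟩ := split Q.toGood hγ.2 h1 h2 hJ h3 (Q.n_mem hγ) h8.mem h8.lev h7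
  have h9 : Sp S K i0 a 1 (S.n γ 1 * z' * q) := e ▸ Q.sp_conj h8 hg' hg'L
  obtain ⟨s, rfl⟩ := eq_x_of_cd hγ.2 hq (hk z' hz hL q hq h9)
  have j1 : ∀ j ∈ J, C.A γ (C.sp j) = 0 := fun j hj => (hJ ▸ hj).2
  have j2 : J ⊆ {j | j ≠ i0} := fun j hj => (hJ ▸ hj).1
  have j3 : ∀ j ∈ J, f2 C γ (C.rc (C.sp j)) = 0 := fun j hj => by rw [f2_rc, j1 j hj, Q.lev0 j (j2 hj)]; rfl
  rw [mul_assoc, ((Q.comm hγ j1 hz hL).1 s).eq, ← mul_assoc] at h9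
  obtain ⟨rfl, h10⟩ := h9.dw.two hγ.2 (A_inJ Q.lev0 h1) (fun _ _ => L_Wl j3 hL) ((Q.two _ hγ s).1 hqK) h4 h5 h6
  obtain ⟨g, hg, hgL, J', m, v, hm, e, h11, h12⟩ := h10.max hK h3 j3 hz hL
  refine ⟨J', m, v, hm, ?_, h11, fun j hj ⟨r, a1, a2, a3, a4⟩ => h12 j hj ⟨r, a1, by rw [f2_rc, a2, a3]; rfl, a4⟩⟩
  obtain ⟨c1, c2, -⟩ := Q.comm hγ j1 hg hgL
  convert Q.sp_conj h9 hg (L_mono j2 hgL) using 1
  simp only [← e, ← mul_assoc, g3, (c2.mul_right (c1 1)).eq]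

theorem mix [Finite G] (H : HK K a b c) (ha : a ∈ K) (hb : b ∈ K) (ha1 : a ≠ 1) (hb1 : b ≠ 1) (hc1 : c ≠ 1) {s s' : F}
    {z' : G} (hs : s = 0 ∨ s = 1) (hs' : s' = 0 ∨ s' = 1) (h : Sp S K i0 a s z) (h' : Sp S K i0 b s' z')
    (h1 : s = 1 → s' = 1 → False) (h2 : s = 1 ∨ s' = 1 → ∀ t ∈ K, t * t = 1 → t ≠ 1 →
      ∃ t', Cj K t t' ∧ t' ∈ S.L {j | j ≠ i0}) : Mixed 2 c ∧ (2 ∣ orderOf a ∨ 2 ∣ orderOf b) := by
  have ev : ∀ {a : G}, a * a = 1 → a ≠ 1 → 2 ∣ orderOf a := fun h h1 =>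
    (orderOf_eq_prime (p := 2) (by rwa [pow_two]) h1).symm.dvd
  have np : ∀ {d : G} (j : ℕ), d ∈ K → d ∈ S.L {j | j ≠ i0} → Cj K c (g3 S C.top ^ 2 ^ j * d) →
      ¬ ∃ k, orderOf c = 2 ^ k := fun j h1 h2 h3 ⟨k, hk⟩ => by
    obtain ⟨c1, c2, -⟩ := Q.comm Q.fx Q.lev0 h1 h2
    exact g3_not_two (c1 1) c2 k (h3.pow_eq_one (hk ▸ pow_orderOf_eq_one c))
  have key : ∀ {a b z z' : G}, HK K a b c → a ∈ K → a ≠ 1 → Sp S K i0 a 0 z → Sp S K i0 b 1 z' →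
      (∀ t ∈ K, t * t = 1 → t ≠ 1 → ∃ t', Cj K t t' ∧ t' ∈ S.L {j | j ≠ i0}) → Mixed 2 c ∧ 2 ∣ orderOf a :=
    fun {a b z z'} H ha ha1 h h' h2 => by
      obtain ⟨t, h3, h4⟩ := h2 a ha (Q.sq_one h) ha1
      obtain ⟨c1, c2, -⟩ := Q.comm Q.fx Q.lev0 (h3.mem ha) h4
      obtain ⟨d1, d2, -⟩ := Q.comm Q.fx Q.lev0 h.mem h.lev
      obtain ⟨e1, -, e3, -⟩ := Q.comm Q.fx Q.lev0 (mul_mem h.mem h'.mem) (mul_mem h.lev h'.lev)
      refine ⟨⟨by_contra fun h5 => ?_, np 0 (mul_mem (h3.mem ha) h'.mem) (mul_mem h4 h'.lev) ?_⟩, ev (Q.sq_one h) ha1⟩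
      · obtain ⟨m, hm⟩ : Odd (orderOf c) := Nat.odd_iff.2 (by omega)
        have h6 := (H _ _ h.cj h'.cj).pow_eq_one (pow_orderOf_eq_one c)
        rw [S.x_zero, mul_one, show S.n C.top 1 * z * (S.n C.top 1 * S.x C.top 1 * z') = S.x C.top 1 * (z * z') by
          rw [mul_assoc, ← mul_assoc z, (d2.mul_right (d1 1)).eq]; simp [← mul_assoc, n_sq2], (e1 1).symm.mul_pow, hm,
          pow_succ, pow_mul, pow_two, x_sq2, one_pow, one_mul, mul_eq_one_iff_eq_inv] at h6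
        exact not_comm C.top (h6 ▸ ((e3 1).pow_left _).inv_left)
      · simpa [← mul_assoc, (c2.mul_right (c1 1)).eq, g3] using H _ _ h3 h'.cj
  rcases hs with rfl | rfl <;> rcases hs' with rfl | rfl
  · obtain ⟨d1, d2, -⟩ := Q.comm Q.fx Q.lev0 h.mem h.lev
    obtain ⟨e1, -⟩ := Q.comm Q.fx Q.lev0 h'.mem h'.lev
    refine ⟨⟨H.even ha hb hc1 (Q.sq_one h) (Q.sq_one h'), np 1 (mul_mem h.mem h'.mem) (mul_mem h.lev h'.lev) ?_⟩,
      Or.inl (ev (Q.sq_one h) ha1)⟩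
    convert H _ _ h.cj (h'.cj.conj (Q.x_mem Q.fx)) using 1
    rw [S.x_zero, mul_one, x_inv, mul_assoc (S.x _ _), mul_assoc _ z', (e1 1).eq, mul_assoc _ z, ← mul_assoc (S.n _ _) _ z',
      ← mul_assoc (S.x _ _), ← mul_assoc z, ((d1 1).mul_right (d2.mul_right (d1 1))).eq]
    simp only [g3, pow_one, pow_two, mul_assoc]
  · exact (key H ha ha1 h h' (h2 (Or.inr rfl))).imp_right Or.inl
  · exact (key (H.symm ha) hb hb1 h' h (h2 (Or.inl rfl))).imp_right Or.inr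
  · exact (h1 rfl rfl).elim

end Q2

end Cfsg.Agent.AH
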