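import Cfsg.Agent.AH.F4b
import Cfsg.Agent.AH.Q3

/-! Type F4 in characteristic two: the symmetric relations on pairs of long roots. -/

set_option autoImplicit false

namespace Cfsg.Agent.AH

open Cfsg.Lie Cfsg.Lie.ChevalleyDatum Cfsg.Agent.Chev Cfsg.Agent.Tw Matrix Equiv

namespace F4

variable {F : Type*} [Field F] [CharP F 2]

/-- sparse columns on the quotient -/
def colL (r : Rt chevF4) (k : ℕ) (j : Fin 26) : List (Fin 26 × ℤ) :=
  ((adc chevF4 r k (eLF4 j)).filter fun p => eLF4 (invF4 p.1) = p.1).map fun p => (invF4 p.1, p.2)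

theorem om_short (i : Fin 26) (b : chevF4.Idx) : ((Om certF4 (eSF4 i) b : ℤ) : F) = 0 :=
  (CharP.intCast_eq_zero_iff F 2 _).2 ((by decide +kernel : ∀ i b, ((2 : ℕ) : ℤ) ∣ Om certF4 (eSF4 i) b) i b)

theorem eL_inj : Function.Injective eLF4 := isogF4.eL_inj

variable (F) in
/-- the quotient of the adjoint module by the short ideal -/
noncomputable def mdL : Md (certF4.sys F) (Fin 26) where
  X r k := ((ad (certF4.sys F)).X r k).submatrix eLF4 eLF4
  ρ := isogF4.ρL F
  wt i := certF4.wI (eLF4 i)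
  Ω := (ad (certF4.sys F)).Ω.submatrix eLF4 eLF4
  col := colL
  ρ_x r t := by
    rw [← submatrix_one _ eL_inj]
    exact congrArg (fun M => M.submatrix eLF4 eLF4) ((ad (certF4.sys F)).ρ_x r t)
  X_wt r k a b h := (ad (certF4.sys F)).X_wt r k _ _ h
  Ω_symm := by rw [transpose_submatrix, Md.Ω_symm]
  Ω_X r k := by
    ext i j
    have h1 : ∀ i b, (ad (certF4.sys F)).Ω (isogF4.eS i) b = 0 := om_short
    have h2 : ∀ i b, (ad (certF4.sys F)).Ω b (isogF4.eS i) = 0 := fun i b => by
      rw [← (ad (certF4.sys F)).Ω_symm]; exact h1 i b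
    have := congrFun₂ ((ad (certF4.sys F)).Ω_X r k) (eLF4 i) (eLF4 j)
    simp only [mul_apply, Matrix.smul_apply, isogF4.sum_idx, h1, h2, mul_zero, zero_mul, Finset.sum_const_zero,
      zero_add] at this
    exact this
  col_spec r k b := by
    funext i
    have := congrFun ((ad (certF4.sys F)).col_spec r k (eLF4 b)) (eLF4 i)
    rw [mulVec_single_one] at this ⊢
    refine this.trans ?_
    rw [show (ad (certF4.sys F)).col = adc chevF4 from rfl, colL]
    induction adc chevF4 r (k + 1) (eLF4 b) with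
    | nil => rfl
    | cons p L ih =>
      by_cases h : eLF4 (invF4 p.1) = p.1
      · rw [List.filter_cons_of_pos (by simpa using h)]
        simp only [List.map_cons, List.sum_cons, Pi.add_apply, ih, Pi.smul_apply, Pi.single_apply]
        simp only [← eL_inj.eq_iff (b := invF4 p.1), h]
      · rw [List.filter_cons_of_neg (by simpa using h), ← ih, List.map_cons, List.sum_cons, Pi.add_apply,
          Pi.smul_apply, Pi.single_eq_of_ne (fun e => h (by rw [← e]; exact congrArg eLF4 (isogF4.inv_eL i))),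
          smul_zero, zero_add]

/-- index of a long root -/
def ix (r : Rt chevF4) : Fin 26 := invF4 (.inr r)

theorem eL_ix : ∀ r, certF4.len r = certF4.len certF4.top → eLF4 (ix r) = .inr r := by decide +kernel

theorem Ω_ix {r : Rt chevF4} (h : certF4.len r = certF4.len certF4.top) :
    (mdL F).Ω *ᵥ Pi.single (ix r) 1 = (1 : F) • Pi.single (ix r.rev) 1 := by
  funext i
  have := congrFun (Ω_long (S := certF4.sys F) h) (eLF4 i)
  rw [mulVec_single_one] at this ⊢
  rw [← eL_ix r h, eR, ← eL_ix r.rev ((certF4.len_rev r).trans h)] at this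
  simp only [Pi.smul_apply, Pi.single_apply, eL_inj.eq_iff] at this ⊢
  exact this

theorem B_ix {r s : Rt chevF4} (h : certF4.len r = certF4.len certF4.top) (h' : certF4.len s = certF4.len certF4.top)
    (x : chevF4.group F) :
    (mdL F).B x (Pi.single (ix r) 1) (Pi.single (ix s) 1) = (ad (certF4.sys F)).B x (eR F r) (eR F s) := by
  rw [(mdL F).B_single (Ω_ix h), B_eR, mu_long _ h, ← eL_ix s h', ← eL_ix r.rev ((certF4.len_rev r).trans h),
    Int.cast_one]
  rfl

theorem av_short {f : (Nd chevF4 → ℤ) →ₗ[ℤ] ℤ} {s : Rt chevF4} (hs : lamF4 s = 2) (hf : 0 < f (certF4.rc s)) :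
    (mdL F).Av ⊤ f (s, true) := fun b k M τ h => by
  have h1 : ∀ k : Fin 3, k ≠ 1 → (mdL F).X s (k + 1) = 0 := fun k hk => by
    ext i j
    have := isogF4.rel s k i j
    rw [show isogF4.lam s = 2 from hs, if_neg (by simp), if_neg (by omega), sub_zero, ← X_eq_Xf certF4] at this
    exact (CharP.intCast_eq_zero_iff F 2 _).2 this
  have h2 : (mdL F).ρ ((certF4.sys F).x s 1) = 1 + (mdL F).X s 2 := by
    rw [Md.ρ_x, show (mdL F).X s 1 = 0 from h1 0 (by simp), show (mdL F).X s 3 = 0 from h1 2 (by simp)]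
    simp
  have := h.diff (g := (certF4.sys F).x s 1) trivial (l := 2 * f (certF4.rc s)) (by omega) ((mdL F).fil_X f s 1)
    (by simp [h2, Fil.zero]) (by simp [x_inv, h2, CharTwo.add_self_eq_zero, Fil.zero])
  simpa [Md.opM, Md.dg, show (mdL F).X s 1 = 0 from h1 0 (by simp), CharTwo.sub_eq_add] using this

/-- the top level -/
def pL (i : Fin 6) : Rt chevF4 := rt (![41, 42, 43, 45, 46, 47] i)

variable {a b c x y : chevF4.group F}

omit [CharP F 2] in
theorem pair {θ' : Rt chevF4} (h : ∀ x, Cj ⊤ a x → β (certF4.sys F) x (eR F certF4.top) (eR F θ') = 0) {k : ℤ}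
    (h1 : ∀ s, certF4.len s = certF4.len certF4.top → certF4.A certF4.top s = k →
      (∀ j, certF4.A certF4.top (certF4.sp j) = 0 → 0 ≤ certF4.A s (certF4.sp j)) → s = θ') (hx : Cj ⊤ a x)
    {r s : Rt chevF4} (hr : certF4.len r = certF4.len certF4.top) (hs : certF4.len s = certF4.len certF4.top)
    (h2 : certF4.A r s = k) : β (certF4.sys F) x (eR F r) (eR F s) = 0 := by
  obtain ⟨w, hw, rfl⟩ := Cert.exists_conj_of_len hr.symm
  obtain ⟨u, hu, h3⟩ := certF4.exists_dom {j | certF4.A certF4.top (certF4.sp j) = 0} (certF4.prL (w⁻¹ s))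
  have hA := certF4.WJ_le_Aut _ hu
  have h4 : ∀ r, certF4.A certF4.top (u r) = certF4.A certF4.top r := fun r => by
    rw [← certF4.prL_rc, Cert.Aut.rc_map hA, ← certF4.prL_rc]
    exact LinearMap.congr_fun (Cert.comp_lin_WJ (f := certF4.prL certF4.top) (by simp [certF4.prL_rc]) hu) _
  have h5 : u certF4.top = certF4.top := by_contra fun e => by
    have := certF4.A_top_le_one e
    rw [h4, certF4.A_self] at this
    omega
  have h6 := h1 (u⁻¹ (w⁻¹ s)) (by rw [Cert.Aut.len_map (inv_mem hA), Cert.Aut.len_map (inv_mem (certF4.W_le_Aut hw)), hs])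
    (by rw [← h4, ← h2, ← Cert.Aut.A_map (certF4.W_le_Aut hw)]; simp) fun j hj => by
      rw [← Cert.Aut.A_map hA]
      simpa [certF4.prL_rc] using h3 j hj
  obtain ⟨n, hn⟩ := (certF4.sys F).exists_over (mul_mem hw (certF4.WJ_le_W _ hu))
  obtain ⟨c, e⟩ := over_eR hn certF4.top
  obtain ⟨d, e'⟩ := over_eR hn θ'
  have := h _ (hx.conj' (g := n) trivial)
  rw [β_conj, e, e', ← h6, β, B_smul_left, B_smul_left, B_smul_right, B_smul_right] at this
  simpa [h5, ← mul_add, mul_left_comm (d : F), β] using this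

theorem sone (H : HK ⊤ a b c) (hb : ¬ Dm (ad (certF4.sys F)) ⊤ b (eR F certF4.top)) (hx : Cj ⊤ a x)
    {r s : Rt chevF4} (hr : certF4.len r = certF4.len certF4.top) (hs : certF4.len s = certF4.len certF4.top)
    (h : certF4.A r s = 1) : β (certF4.sys F) x (eR F r) (eR F s) = 0 :=
  pair (θ' := rt 46) (fun x => sec H (by decide +kernel) (by decide +kernel) two_zero (o := (rt 25, false))
    (os := [31, 32, 42, 43, 45, 47].map fun n => (rt n, false)) (fun ⟨r, e⟩ ho => by
      obtain ⟨rfl, e⟩ := (by decide +kernel : ∀ o ∈ (rt 25, false) :: [31, 32, 42, 43, 45, 47].map fun n => (rt n, false),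
        o.2 = false ∧ 0 < certF4.A certF4.top o.1 + certF4.A (rt 46) o.1) _ ho
      exact (ad _).av_lin (by simpa [certF4.prL_rc] using e) trivial) (by decide +kernel) (by decide +kernel) hb)
    (by decide +kernel) hx hr hs h

theorem srel (H : HK ⊤ a b c) (ha : ¬ Dm (ad (certF4.sys F)) ⊤ a (eR F certF4.top))
    (hb : ¬ Dm (ad (certF4.sys F)) ⊤ b (eR F certF4.top)) (hx : Cj ⊤ a x) (hy : Cj ⊤ b y) :
    β (certF4.sys F) x (eR F certF4.top) (eR F (rt 41)) * (ad (certF4.sys F)).B y (eR F certF4.top) (eR F certF4.top) =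
      (ad (certF4.sys F)).B x (eR F certF4.top) (eR F certF4.top) *
        β (certF4.sys F) y (eR F certF4.top) (eR F (rt 41)) := by
  have l : ∀ i, certF4.len (pL i) = certF4.len certF4.top := by decide +kernel
  have := (mdL F).rel H hx hy (n := 6) (p := fun i => ix (pL i)) (m := fun i => ix (pL i).rev) (e := 1) (one_mul 1)
    (fun i => Ω_ix (l i)) (fun i => by simpa using Ω_ix (F := F) ((certF4.len_rev _).trans (l i))) (f := lv 0) (k := 2)
    (by decide +kernel : _ ∧ _ ∧ (∀ i, certF4.wI (eLF4 (ix (pL i))) (nd 0) = 2 ∧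
      certF4.wI (eLF4 (ix (pL i).rev)) (nd 0) = -2) ∧ ∀ a, (-2 < certF4.wI (eLF4 a) (nd 0) ∨ _) ∧
        (certF4.wI (eLF4 a) (nd 0) < 2 ∨ _))
    (o := (rt 44, true)) (os := [(rt 36, true), (rt 40, true)]) (by
      simp only [List.forall_mem_cons]
      exact ⟨av_short rfl (by decide +kernel), av_short rfl (by decide +kernel), av_short rfl (by decide +kernel),
        by simp⟩) (by decide +kernel) (q := 2) (by simpa using two_zero)
    (R := fun i j => (if j = 5 then [(ix (pL i.rev), ix (pL 5), 1)] else []) ++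
      if i = 5 then [(ix (pL 5), ix (pL j.rev), 1)] else [])
    (by decide +kernel : ∀ i j, Same 2 (List.foldl (fun L o => opL colL o L) _ _) _)
  have s : ∀ i : Fin 6, i ≠ 0 → i ≠ 5 → certF4.A (pL 5) (pL i) = 1 := by decide +kernel
  have s1 := fun i h h' => CharTwo.add_eq_zero.1 (sone H hb hx (l 5) (l i) (s i h h'))
  have s2 := fun i h h' => CharTwo.add_eq_zero.1 (sone (H.symm trivial) ha hy (l 5) (l i) (s i h h'))
  simp [Fin.sum_univ_six, Md.evB, B_ix (l _) (l _), s1, s2, Fin.rev] at this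
  change β _ _ (eR F (pL 5)) (eR F (pL 0)) * (ad _).B _ (eR F (pL 5)) (eR F (pL 5)) =
    (ad _).B _ (eR F (pL 5)) (eR F (pL 5)) * β _ _ (eR F (pL 5)) (eR F (pL 0))
  rw [β, β, ← CharTwo.add_eq_zero, ← this, ← sub_eq_zero]
  ring_nf
  simp [show (2 : F) = 0 from two_zero]

/-- the symmetric relations -/
theorem splus (H : HK ⊤ a b c) (ha : ¬ Dm (ad (certF4.sys F)) ⊤ a (eR F certF4.top))
    (hb : ¬ Dm (ad (certF4.sys F)) ⊤ b (eR F certF4.top)) (hx : Cj ⊤ a x)
    {r s : Rt chevF4} (hr : certF4.len r = certF4.len certF4.top) (hs : certF4.len s = certF4.len certF4.top)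
    (h : certF4.A r s = 0 ∨ certF4.A r s = 1) : β (certF4.sys F) x (eR F r) (eR F s) = 0 := by
  refine h.elim (pair (θ' := rt 41) (fun x hx => ?_) (by decide +kernel) hx hr hs) (sone H hb hx hr hs)
  obtain ⟨y, h0⟩ := not_forall.1 hb
  obtain ⟨hy, h0⟩ := Classical.not_imp.1 h0
  have h1 := srel H ha hb (hx.conj' (g := (certF4.sys F).x (rt 14) 1) trivial) hy
  have h2 := srel H ha hb (hx.conj' (g := (certF4.sys F).n (rt 33) 1) trivial) hy
  have e : certF4.A certF4.top (rt 14) = 0 ∧ certF4.A (rt 33) certF4.top = 0 ∧ certF4.M (rt 14) (rt 41) 2 = -1 ∧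
    certF4.A (rt 33) (rt 41) = 2 ∧ mu certF4 (rt 37) = 2 := by decide +kernel
  rw [β_conj, Bc, x_fix' rfl e.1.ge, x_eR_two (e := rt 37) (h := rt 30) (by decide) (by decide +kernel)
    (by decide +kernel) (by decide +kernel), β_add, β_add, e.2.2.1, β_eq _ _ (_ • eR F (rt 37))] at h1
  rw [β_conj, Bc, n_eR2, n_eR2, certF4.refl_of_A_zero e.2.1, show certF4.refl (rt 33) (rt 41) = rt 30 from
    certF4.rc_inj (by rw [certF4.rc_refl, e.2.2.2.1]; decide +kernel), ← h1] at h2
  simpa [Md.κ_smul_right, (ad _).κ_comm _ (eR F (rt 37)), κ_eR, e.2.2.2.2, show (2 : F) = 0 from two_zero, h0,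
    CharTwo.neg_eq] using h2

end F4

end Cfsg.Agent.AH
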