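import Cfsg.Agent.AH.Q3

/-! Simply laced types. -/

set_option autoImplicit false

namespace Cfsg.Agent.AH

open Cfsg.Lie Cfsg.Lie.ChevalleyDatum Cfsg.Agent.Chev Cfsg.Agent.Tw Matrix Equiv

variable {D : ChevalleyDatum} {C : Cert D} {F : Type*} [Field F] {G : Type*} [Group G] {S : Sys C F G}
  {a b c x z : G} {i0 k : Nd D} {θ' γ δ : Rt D}

theorem real_mul {n n' g g' : G} (h : n * g * n⁻¹ = g⁻¹) (h' : n' * g' * n'⁻¹ = g'⁻¹) (c1 : Commute n g')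
    (c2 : Commute n' g) (c3 : Commute g g') : n * n' * (g * g') * (n * n')⁻¹ = (g * g')⁻¹ := by
  calc _ = n * (n' * g) * g' * n'⁻¹ * n⁻¹ := by group
    _ = n * g * (n' * g' * n'⁻¹ * n⁻¹) := by rw [c2.eq]; group
    _ = _ := by rw [h', ← c1.inv_inv.eq, ← mul_assoc, h, c3.eq, _root_.mul_inv_rev]

theorem not_dm_sl (hφ : Function.Injective S.φ) (hl : ∀ r, C.len r = C.len C.top) (ha : a ≠ 1) :
    ¬ Dm (ad S) ⊤ a (eR F C.top) :=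
  (nd_one fun r _ h => Cert.Dom.eq_of_len (fun j => C.A_nonneg_comm.1 (h j trivial)) C.dom_top (hl r)).not_dm
    (ok_one hφ) Stb.sep_one trivial ha

theorem two_of_ne {t : F} (h0 : t ≠ 0) (h1 : t ≠ 1) (r : Rt D) : Two S ⊤ r :=
  ⟨t, 1, h0, one_ne_zero, h1, trivial, trivial⟩

theorem inJ_ne {r : Rt D} : C.InJ {j | j ≠ i0} r ↔ C.rc r i0 = 0 := by simp [Cert.InJ]

/-- the data of a simply laced root system -/
structure SL (C : Cert D) (i0 : Nd D) (θ' γ : Rt D) : Prop where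
  len : ∀ r, C.len r = C.len C.top
  th : C.rc C.top = C.rc (C.sp i0) + C.rc θ'
  lev : ∀ j, C.A C.top (C.sp j) = if j = i0 then 1 else 0
  low : ∀ r, C.A C.top r = 1 → (∀ j ≠ i0, C.A (C.sp j) r ≤ 0) → r = C.sp i0
  conn : ∀ j ≠ i0, ∃ r, C.A C.top r = 1 ∧ C.A (C.sp j) r ≠ 0
  γ0 : C.rc γ i0 = 0
  dom : ∀ j ≠ i0, 0 ≤ C.A γ (C.sp j)
  uniq : ∀ r, C.rc r i0 = 0 → (∀ j ≠ i0, 0 ≤ C.A r (C.sp j)) → r = γ
  kill : ∀ r, C.rc r i0 = 0 → C.A γ r = 1 → ∃ μ, C.A C.top μ = 1 ∧ C.A γ μ = 0 ∧ C.A r μ = -1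
  ex1 : ∃ ν, C.A C.top ν = 1 ∧ C.A γ ν = 1
  ex0 : ∃ ν, C.A C.top ν = 1 ∧ C.A γ ν = 0

namespace SL

variable (P : SL C i0 θ' γ) [CharP F 2] (hF : ∀ t : F, t = 0 ∨ t = 1) (hφ : Function.Injective S.φ)
include P hF hφ

theorem q2 : Q2 (Stb.one S) ⊤ i0 θ' where
  toOk := ok_one hφ
  two _ _ t := by simpa using hF t
  fθ := rfl
  fα := ⟨rfl, P.len _⟩
  th := P.th
  lev := P.lev
  rad s h := absurd (P.len s) h
  low r _ := P.low r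
  conn j hj := (P.conn j hj).imp fun r h => ⟨P.len r, h⟩
  step N h1 _ j hj r _ h2 h3 h4 := by
    have h5 := (C.A_abs_le_one (r := C.sp j) (s := r) (by rintro rfl; simp [C.A_self] at h3)
      (by rintro rfl; simp [C.A_rev_right, P.lev, hj] at h2) (by simp [P.len])).1
    have := N.sub_mem (h1 (S.x (C.sp j) 1) trivial (S.x_mem_U (by exact ⟨C.pos_sp j, C.inJ_sp.2 hj⟩) 1) _ h4) h4
    rwa [x_eR2 (P.len _) (by omega), one_smul, add_sub_cancel_left] at this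

theorem three (h : Sp S ⊤ i0 a 1 z) {J : Set (Nd D)} (hJ : J = {j | j ∈ {j | j ≠ i0} ∧ C.A γ (C.sp j) = 0}) :
    ∃ J' m v, J' ≠ J ∧ MaxC (Stb.one S) ⊤ J J' m v ∧ Sp S ⊤ i0 a 1 (g3 S γ * (m * v)) ∧
      ∀ j ∈ J, (∃ r, C.A C.top r = 1 ∧ C.A γ r = 1 ∧ C.A (C.sp j) r ≠ 0) →
        j ∈ J' ∧ (C.w0 J * C.w0 J') (C.sp j) = C.sp j := by
  have Q := P.q2 hF hφ
  have h0 := A_inJ Q.lev0 (inJ_ne.2 P.γ0)
  obtain ⟨ν, h1, h2⟩ := P.ex1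
  obtain ⟨J', m, v, h3, h4, -, h5⟩ := Q.second h Stb.sep_one ⟨rfl, P.len γ⟩
    (nd_one fun r hr => P.uniq r (inJ_ne.1 hr)) (inJ_ne.2 P.γ0) P.dom hJ (fun _ => Iff.rfl)
    (fun z _ hz q hq h r hr e => by
      obtain ⟨μ, b1, b2, b3⟩ := P.kill r (inJ_ne.1 hr) e
      exact kill2 (P.len γ) h0 Q.lev0 (fun j hj => by rw [hJ] at hj; rw [f2_rc, hj.2, Q.lev0 j hj.1]; rfl) hz hq h.dw
        (P.len r) (P.len (C.refl r μ)) b1 b2 (by rw [C.rc_refl, b3]; module) hr e (by omega))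
    (P.len ν) h1 h2 Q.toOk
  refine ⟨J', m, v, ?_, h3, h4, fun j hj ⟨r, hr⟩ => h5 j hj ⟨r, P.len r, hr⟩⟩
  rintro rfl
  obtain ⟨rfl, h6, -⟩ := h3.torus Q.toOk
  obtain ⟨μ, b1, b2⟩ := P.ex0
  rw [H_triv hF hφ h6, one_mul, mul_one] at h4
  exact h4.dw.zero (P.len μ) b1 (SL_fix (P.len γ) b2 (g3_mem_SL γ))

theorem full (h : Sp S ⊤ i0 a 1 z)
    (h1 : ∀ j ≠ i0, C.A γ (C.sp j) = 0 → ∃ r, C.A C.top r = 1 ∧ C.A γ r = 1 ∧ C.A (C.sp j) r ≠ 0) : False := by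
  obtain ⟨J', m, v, h2, h3, -, h4⟩ := P.three hF hφ h rfl
  exact h2 (h3.sub.antisymm fun j hj => (h4 j hj (h1 j hj.1 hj.2)).1)

theorem iso (h : Sp S ⊤ i0 a 1 z) (k1 : k ≠ i0) (k2 : C.A γ (C.sp k) = 0)
    (h1 : ∀ j ≠ i0, C.A γ (C.sp j) = 0 → j ≠ k → C.A (C.sp k) (C.sp j) = 0 ∧
      ∃ r, C.A C.top r = 1 ∧ C.A γ r = 1 ∧ C.A (C.sp j) r ≠ 0)
    (h2 : ∀ r, (∀ j, j = i0 ∨ C.A γ (C.sp j) ≠ 0 → C.rc r j = 0) →
      (C.rc r k ≠ 0 ∨ ∀ j ≠ i0, C.A γ (C.sp j) = 0 → j ≠ k → C.A r (C.sp j) = 0) → r = C.sp k ∨ r = (C.sp k).rev)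
    {ν : Rt D} (h3 : C.A C.top ν = 1) (h4 : C.A (C.sp k) ν = 1) :
    Cj ⊤ a (g3 S C.top * (g3 S γ * g3 S (C.sp k))) := by
  have Q := P.q2 hF hφ
  obtain ⟨J, hJ⟩ : ∃ J, J = {j | j ∈ {j | j ≠ i0} ∧ C.A γ (C.sp j) = 0} := ⟨_, rfl⟩
  obtain ⟨J', m, v, b1, b2, b3, b4⟩ := P.three hF hφ h hJ
  have mem : ∀ {j}, j ∈ J ↔ j ≠ i0 ∧ C.A γ (C.sp j) = 0 := by simp [hJ]
  have b5 := fun j hj e => b4 j hj (h1 j (mem.1 hj).1 (mem.1 hj).2 e).2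
  have b6 : k ∉ J' := fun hk => b1 (b2.sub.antisymm fun j hj => by
    by_cases e : j = k
    exacts [e ▸ hk, (b5 j hj e).1])
  have kJ := mem.2 ⟨k1, k2⟩
  have inJ : ∀ {r}, C.InJ J r → ∀ j, j = i0 ∨ C.A γ (C.sp j) ≠ 0 → C.rc r j = 0 := fun hr j hj =>
    hr j fun e => hj.elim (mem.1 e).1 fun e' => e' (mem.1 e).2
  obtain ⟨s, rfl⟩ := S.mem_U_singleton.1 (S.U_mono (T' := {C.sp k}) (fun r hr => by
    obtain ⟨c1, c2, c3⟩ := hr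
    refine (h2 r (inJ c2) (Or.inl fun e => c3 fun j hj => ?_)).resolve_right fun e => C.not_pos_rev (C.pos_sp k) (e ▸ c1)
    by_cases e' : j = k
    exacts [e' ▸ e, c2 j fun hj' => hj (b5 j hj' e').1]) b2.vU)
  have hw := b2.memW
  have b7 : (C.w0 J * C.w0 J') (C.sp k) = (C.sp k).rev := by
    refine (h2 _ (inJ ((Cert.inJ_map hw _).2 (C.inJ_sp.2 kJ))) (Or.inr fun j c1 c2 c3 => ?_)).resolve_left fun e => ?_
    · rw [← (b5 j (mem.2 ⟨c1, c2⟩) c3).2, Cert.Aut.A_map (C.WJ_le_Aut J hw), (h1 j c1 c2 c3).1]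
    · refine (Cert.pos_w0_iff ((Cert.inJ_map (C.WJ_mono b2.sub (C.w0_mem J')) _).2 (C.inJ_sp.2 kJ))).1 ?_
        (Cert.pos_map_of_not_inJ (C.w0_mem J') (C.pos_sp k) (by rwa [C.inJ_sp]))
      rw [← Perm.mul_apply, e]
      exact C.pos_sp k
  have b8 : C.ss k * (C.w0 J * C.w0 J') = 1 := by_contra fun e => by
    obtain ⟨j, hj, c1⟩ := Cert.exists_neg_J (mul_mem (Cert.ss_mem_WJ_iff.2 kJ) hw) e
    refine c1 ?_
    rw [Perm.mul_apply, C.ss_apply]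
    by_cases e' : j = k
    · rw [e', b7, C.refl_self_rev]
      exact C.pos_sp k
    · rw [(b5 j hj e').2, C.refl_of_A_zero (h1 j (mem.1 hj).1 (mem.1 hj).2 e').1]
      exact C.pos_sp j
  obtain rfl : m = S.n (C.sp k) 1 := by
    have := H_triv hF hφ (Sys.Over.mem_H (b8 ▸ (S.over_ns k 1).mul b2.ov))
    rwa [mul_eq_one_iff_inv_eq, n_inv, eq_comm] at this
  have b9 := b3.dw
  rw [(orth_comm (P.len γ) k2 (g3_mem_SL γ) (mul_mem (n_mem_SL _) (S.x_mem_U (by simp) s))).eq] at b9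
  obtain ⟨rfl, -⟩ := b9.two (P.len _) (Q.lev0 k k1) (fun _ _ => SL_Wl (by
    rw [f2_rc, A_inJ Q.lev0 (inJ_ne.2 P.γ0), C.A_eq_zero_comm.1 k2]; rfl) (g3_mem_SL γ)) (hF s) (P.len ν) h3 h4
  exact b3.cj

omit hF hφ in
theorem real (k1 : k ≠ i0) (k2 : C.A γ (C.sp k) = 0) :
    Cj ⊤ (g3 S C.top * (g3 S γ * g3 S (C.sp k))) (g3 S C.top * (g3 S γ * g3 S (C.sp k)))⁻¹ := by
  have h1 : C.A C.top (C.sp k) = 0 := by rw [P.lev, if_neg k1]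
  have h2 : C.A C.top γ = 0 := A_inJ (J := {j | j ≠ i0}) (fun j hj => by rw [P.lev, if_neg hj]) (inJ_ne.2 P.γ0)
  have c := fun {γ δ} (h : C.A γ δ = 0) => And.intro (orth_comm (S := S) (P.len γ) h (n_mem_SL γ) (g3_mem_SL δ))
    (And.intro (orth_comm (S := S) (P.len γ) h (g3_mem_SL γ) (n_mem_SL δ)).symm
      (orth_comm (S := S) (P.len γ) h (g3_mem_SL γ) (g3_mem_SL δ)))
  exact ⟨_, trivial, (real_mul (g3_inv _) (real_mul (g3_inv _) (g3_inv _) (c k2).1 (c k2).2.1 (c k2).2.2)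
    ((c h2).1.mul_right (c h1).1) ((c h2).2.1.mul_left (c h1).2.1) ((c h2).2.2.mul_right (c h1).2.2)).symm⟩

theorem mix [Finite G] {o : Rt D × Bool} {os : List (Rt D × Bool)}
    (h4 : ∀ o' ∈ o :: os, o'.2 = false ∧ 0 < C.A C.top o'.1 + C.A θ' o'.1)
    (h5 : ((o :: os).map fun o => (if o.2 then 2 else 1) * (C.A C.top o.1 + C.A θ' o.1)).sum = 12)
    (h6 : ∀ i j : Fin 2, Same 2 ((o :: os).foldl (fun L o => opL (adc D) o L)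
      [(![.inr C.top.rev, .inr θ'.rev] i, ![.inr C.top.rev, .inr θ'.rev] j, 1)])
      (if i = j then [] else [(.inr C.top, .inr C.top, 1)])) {y : G}
    (h7 : ∀ a z, Sp S ⊤ i0 a 1 z → Cj ⊤ a y ∧ Cj ⊤ y y⁻¹ ∧ ∀ t ∈ (⊤ : Subgroup G), t * t = 1 → t ≠ 1 →
      ∃ t', Cj ⊤ t t' ∧ t' ∈ S.L {j | j ≠ i0}) : Mix 2 G := MixK.top fun a _ b _ c _ ha hb hc H => by
  have Q := P.q2 hF hφ
  have key : ∀ {a b : G}, HK ⊤ a b c → a ≠ 1 → b ≠ 1 → ∃ s z, (s = 0 ∨ s = 1) ∧ Sp S ⊤ i0 a s z := fun H ha hb =>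
    Q.struct trivial (fun x => sec H Q.len' Q.lev' two_zero (fun ⟨r, e⟩ ho => by
      obtain ⟨rfl, e⟩ := h4 _ ho
      exact (ad S).av_lin (by simpa [C.prL_rc] using e) trivial) h5 h6 (not_dm_sl hφ P.len hb))
      (not_dm_sl hφ P.len ha) fun _ _ _ _ _ _ _ r hr => absurd (P.len r) hr
  obtain ⟨s, z, hs, h⟩ := key H ha hb
  obtain ⟨s', z', hs', h'⟩ := key (H.symm trivial) hb ha
  refine Q.mix H trivial trivial ha hb hc hs hs' h h' ?_ ?_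
  · rintro rfl rfl
    exact H.not_inv hc (h7 _ _ h).1 ((h7 _ _ h').1.trans (h7 _ _ h).2.1)
  · rintro (rfl | rfl)
    exacts [(h7 _ _ h).2.2, (h7 _ _ h').2.2]

end SL

/-- simply laced types, all fields -/
theorem mix_sl {p : ℕ} [Fact p.Prime] [CharP F p] (hφ : Function.Injective S.φ) (hl : ∀ r, C.len r = C.len C.top)
    {α β : Rt D} (hα : C.A C.top α = 1) (hβ : C.A C.top β = 1)
    (h6 : Same 0 ([(β, true), (α, true), (C.top, true)].foldl (fun L o => opL (adc D) o L)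
      [(.inr C.top.rev, .inr C.top.rev, 1)]) [(.inr C.top, .inr C.top, 1)])
    (h : ∀ [CharP F 2], (∀ t : F, t = 0 ∨ t = 1) → Mix 2 G) : Mix p G := by
  by_cases hF : ∀ t : F, t = 0 ∨ t = 1
  · have h2 : (2 : F) = 0 := (hF 2).resolve_right fun e => one_ne_zero (α := F) (by linear_combination e)
    obtain rfl : p = 2 := (Nat.prime_dvd_prime_iff_eq Fact.out Nat.prime_two).1 ((CharP.cast_eq_zero_iff F p 2).1 h2)
    exact h hF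
  · push Not at hF
    obtain ⟨t, h0, h1⟩ := hF
    exact MixK.top fun a _ b _ c _ ha hb _ H => ((top_ad H hα hβ (two_of_ne h0 h1 _) (two_of_ne h0 h1 _)
      (two_of_ne h0 h1 _) (Or.inl rfl) h6).elim (not_dm_sl hφ hl ha) (not_dm_sl hφ hl hb)).elim

/-- fast evaluation of the Cartan integers -/
theorem A_fast {co ca : ℕ → ℕ → ℤ} (h : dataOK D co ca = true) (r s : Rt D) :
    C.A r s = sumLt D.rank fun i => co r i * ca i s := by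
  rw [C.A_eq_sum, sumLt_eq, ← Fin.sum_univ_eq_sum_range (fun i => co r i * ca i s)]
  exact Finset.sum_congr rfl fun i _ => by
    rw [C.A_sp, (dataOK_spec h).2.2 i i.2 s s.2, ← ((dataOK_spec h).2.1 r r.2).2 i i.2]; rfl

end Cfsg.Agent.AH
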