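import Cfsg.Agent.AH.D4
import Cfsg.Agent.AH.Q3
import Cfsg.Agent.Chev.Cent
import Cfsg.Agent.Chev.ReflE6

/-! The groups `²E₆(q)`: no nontrivial element is domestic. -/

set_option autoImplicit false

namespace Cfsg.Agent.AH.TE

open Cfsg.Lie Cfsg.Lie.ChevalleyDatum Cfsg.Agent.Chev Cfsg.Agent.Tw Matrix Equiv

/-- roots by number -/
abbrev R (n : Fin 72) : Rt chevE6 := n

/-- nodes by number -/
abbrev Nn (n : Fin 6) : Nd chevE6 := n

/-- the system of root elements -/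
noncomputable abbrev SS (F : Type*) [Field F] := certE6.sys F

/-- the setting -/
structure St {F : Type*} [Field F] (φ : F ≃+* F) (q : ℕ) (K : Subgroup (chevE6.group F)) : Prop where
  good : (stbE6 φ).Good K
  pw : ∀ t, φ t = t ^ q
  card : Nat.card F = q ^ 2

theorem lenT : ∀ r, certE6.len r = certE6.len certE6.top := by decide +kernel

theorem w0_eq {J : Set (Nd chevE6)} {L : List (Nd chevE6)} (hJ : ∀ j, j ∈ J ↔ j ∈ L) (l : List (Nd chevE6))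
    (h : (∀ j ∈ l, j ∈ L) ∧ ∀ j ∈ L, ¬ chevE6.nroots ≤ 2 * actN reflE6 (l.map Fin.val) (certE6.sp j)) (r : Rt chevE6) :
    (certE6.w0 J r : ℕ) = actN reflE6 (l.map Fin.val) r := by
  rw [← Cert.eq_w0 (certE6.wd_mem_WJ fun j hj => (hJ j).2 (h.1 j hj)) fun j hj => by
    rw [certE6.pos_iff_val, Cert.wd_table ssE6]; exact h.2 j ((hJ j).1 hj), Cert.wd_table ssE6]

/-- lists of nodes -/
def NL (l : List (Fin 6)) : List (Nd chevE6) := l

/-- word of the longest element -/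
def l0 : List (Nd chevE6) :=
  NL [0, 1, 2, 0, 3, 1, 2, 0, 3, 2, 4, 3, 1, 2, 0, 3, 2, 4, 3, 1, 5, 4, 3, 1, 2, 0, 3, 2, 4, 3, 1, 5, 4, 3, 2, 0]

theorem w0E6 (r : Rt chevE6) : certE6.w0 Set.univ r = (symE6.ρ r).rev :=
  Fin.ext ((w0_eq (L := List.finRange _) (by simp) l0 (by decide +kernel) r).trans (by revert r; decide +kernel))

theorem prP : ∀ i, symE6.ν i ≠ i → symE6.ρ (certE6.sp i) = certE6.sp (symE6.ν i) ∧
    symE6.ρ (certE6.sp (symE6.ν i)) = certE6.sp i ∧ certE6.sp i ≠ (certE6.sp (symE6.ν i)).rev ∧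
    ∀ v, certE6.rc v ≠ certE6.rc (certE6.sp (symE6.ν i)) + certE6.rc (certE6.sp i) := by decide +kernel

theorem prM : ∀ i, symE6.ν i ≠ i → symE6.ρ (certE6.sp i).rev = (certE6.sp (symE6.ν i)).rev ∧
    symE6.ρ (certE6.sp (symE6.ν i)).rev = (certE6.sp i).rev ∧ (certE6.sp i).rev ≠ (certE6.sp (symE6.ν i)).rev.rev ∧
    ∀ v, certE6.rc v ≠ certE6.rc (certE6.sp (symE6.ν i)).rev + certE6.rc (certE6.sp i).rev := by decide +kernel

theorem bad {J : Set (Nd chevE6)} (h0 : ∀ j ∈ J, (certE6.w0 Set.univ * certE6.w0 J) (certE6.sp j) = certE6.sp j)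
    (L l : List (Nd chevE6)) (hJ : ∀ j, j ∈ J ↔ j ∈ L) (h : ((∀ j ∈ l, j ∈ L) ∧
      ∀ j ∈ L, ¬ chevE6.nroots ≤ 2 * actN reflE6 (l.map Fin.val) (certE6.sp j)) ∧
      ∃ j ∈ L, actN reflE6 (l.map Fin.val) (certE6.sp j) ≠ (symE6.ρ (certE6.sp j)).rev) : False := by
  obtain ⟨j, hj, h1⟩ := h.2
  refine h1 ((w0_eq hJ l h.1 _).symm.trans (congrArg Fin.val ?_))
  rw [← w0E6]
  nth_rw 2 [← h0 j ((hJ j).2 hj)]
  rw [Perm.mul_apply, Cert.w0_w0]

variable {F : Type*} [Field F] [Finite F] {φ : F ≃+* F} {q : ℕ} {K : Subgroup (chevE6.group F)}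
  {a b c x : chevE6.group F}

omit [Finite F] in
theorem σx (r : Rt chevE6) (t : F) : (stbE6 φ).σ ((SS F).x r t) = (SS F).x (symE6.ρ r) (symE6.ε r * φ t) := Stb.σ_x ..

omit [Finite F] in
theorem nd : ND (stbE6 φ) Set.univ certE6.top := fun J _ hJ h1 h2 _ => by
  by_cases h3 : Nn 1 ∈ J
  swap
  · refine ⟨1, one_mem _, Stb.cj_one _, ?_⟩
    rw [Perm.one_apply, Perm.mul_apply, Cert.fix_of_mem_WJ (fun j hj => (by decide +kernel : ∀ j, j ≠ Nn 1 →
      certE6.A (certE6.sp j) certE6.top.rev = 0) j (by rintro rfl; exact h3 hj)) (certE6.w0_mem J), w0E6]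
    decide +kernel
  have h4 : Nn 5 ∈ J ↔ Nn 0 ∈ J := hJ (Nn 0)
  have h5 : Nn 4 ∈ J ↔ Nn 2 ∈ J := hJ (Nn 2)
  have k : ∀ L : List (Fin 6), (Nn 0 ∈ J ↔ 0 ∈ L) ∧ (Nn 2 ∈ J ↔ 2 ∈ L) ∧ (Nn 3 ∈ J ↔ 3 ∈ L) ∧ 1 ∈ L ∧ (5 ∈ L ↔ 0 ∈ L) ∧
      (4 ∈ L ↔ 2 ∈ L) → ∀ j, j ∈ J ↔ j ∈ NL L := fun L ⟨a0, a2, a3, a1, a5, a4⟩ (j : Fin 6) => by
    fin_cases j
    exacts [a0, iff_of_true h3 a1, a2, a3, h5.trans (a2.trans a4.symm), h4.trans (a0.trans a5.symm)]
  by_cases b0 : Nn 0 ∈ J <;> by_cases b2 : Nn 2 ∈ J <;> by_cases b3 : Nn 3 ∈ J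
  · exact absurd (Set.eq_univ_of_forall fun j => (k (List.finRange 6) (by simp [*]) j).2 (List.mem_finRange _)) h1
  · exact (bad h2 _ (NL [0, 1, 2, 0, 4, 5, 4]) (k [0, 1, 2, 4, 5] (by simp [*])) (by decide +kernel)).elim
  · exact (bad h2 _ (NL [0, 1, 3, 1, 5]) (k [0, 1, 3, 5] (by simp [*])) (by decide +kernel)).elim
  · exact (bad h2 _ (NL [0, 1, 5]) (k [0, 1, 5] (by simp [*])) (by decide +kernel)).elim
  · exact (bad h2 _ (NL [1, 2, 3, 1, 2, 3, 4, 3, 1, 2, 3, 4]) (k [1, 2, 3, 4] (by simp [*])) (by decide +kernel)).elim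
  · exact (bad h2 _ (NL [1, 2, 4]) (k [1, 2, 4] (by simp [*])) (by decide +kernel)).elim
  · exact (bad h2 _ (NL [1, 3, 1]) (k [1, 3] (by simp [*])) (by decide +kernel)).elim
  · refine ⟨certE6.sr (R 47), certE6.sr_mem_W _, (Stb.cj_sr _ _).trans (congrArg _ (by decide +kernel :
      symE6.ρ (R 47) = R 47)), ?_⟩
    rw [Cert.sr_apply, D4.refl_eq (u := R 69) (by decide +kernel), Perm.mul_apply, Cert.fix_of_mem_WJ
      (fun j hj => (by decide +kernel : ∀ j ∈ NL [1], certE6.A (certE6.sp j) (R 69).rev = 0) j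
        ((k [1] (by simp [*]) j).1 hj)) (certE6.w0_mem J), w0E6]
    decide +kernel

namespace St

variable (h : St φ q K)
include h

theorem mem {g : chevE6.group F} (e : (stbE6 φ).σ g = g) : g ∈ K := fixE6 h.good (frob2 h.pw h.card) e

theorem two_le : 2 ≤ q := by
  have := Finite.one_lt_card (α := F)
  by_contra h1
  rw [h.card] at this
  interval_cases q <;> simp at this

theorem x_mem {r : Rt chevE6} (hr : symE6.ρ r = r) (he : (symE6.ε r : F) = 1) {t : F} (ht : φ t = t) :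
    (SS F).x r t ∈ K := h.mem (by rw [σx, hr, he, ht, one_mul])

theorem pr_mem {r s : Rt chevE6} (h1 : symE6.ρ r = s ∧ symE6.ρ s = r ∧ r ≠ s.rev ∧
    ∀ v, certE6.rc v ≠ certE6.rc s + certE6.rc r) (h2 : (symE6.ε r : F) = 1) (h3 : (symE6.ε s : F) = 1) (t : F) :
    (SS F).x r t * (SS F).x s (φ t) ∈ K := h.mem (by
  rw [map_mul, σx, σx, h1.1, h1.2.1, h2, h3, one_mul, one_mul, frob2 h.pw h.card,
    (SS F).commute_of_not_add h1.2.2.1 h1.2.2.2])

theorem ok : Ok (stbE6 φ) K := by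
  refine ⟨h.good, certE6.sys_φ_inj F, fun i => ?_⟩
  have m : ∀ j ∈ (stbE6 φ).orb i, certE6.sp j ∈ {r | certE6.Pos r ∧ certE6.InJ ((stbE6 φ).orb i) r} :=
    fun j hj => ⟨certE6.pos_sp _, certE6.inJ_sp.2 hj⟩
  have e : ∀ j, (symE6.ε (certE6.sp j) : F) = 1 := fun j => by rw [(symE6_sp j).2.2.1, Int.cast_one]
  by_cases hi : symE6.ν i = i
  · exact ⟨_, ⟨(SS F).x_mem_U (m i (Stb.mem_orb _ _)) 1, h.x_mem ((symE6_sp i).1.trans (congrArg _ hi)) (e i)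
      (map_one φ)⟩, by simp [Sys.cd_x_self]⟩
  · have m1 := (SS F).x_mem_U (m i (Stb.mem_orb _ _)) 1
    have m2 := (SS F).x_mem_U (m _ (((stbE6 φ).stable_orb i i).2 (Stb.mem_orb _ _))) (φ 1)
    refine ⟨_, ⟨mul_mem m1 m2, h.pr_mem (prP i hi) (e _) (e _) 1⟩, ?_⟩
    rw [(SS F).cd_mul (f := Cert.lev ∅) (k := 1) zero_le_one (fun r hr => Sys.ht_pos hr.1) (by rw [Sys.ht_sp]; omega)
      m1 m2, Sys.cd_x_self, Sys.cd_x_ne _ (show certE6.sp ((stbE6 φ).π i) ≠ _ from fun e => hi (certE6.sp_inj e))]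
    simp

theorem sep : (stbE6 φ).Sep K := Stb.sep_of (map_one φ) (exists_ne_frob (d := 0) h.pw h.card) fun j => by
  have e : ∀ j, (symE6.ε (certE6.sp j).rev : F) = 1 := fun j => by rw [(symE6_sp j).2.2.2, Int.cast_one]
  by_cases hj : symE6.ν j = j
  · exact Or.inl ⟨hj, h.x_mem ((symE6_sp j).2.1.trans (congrArg (fun i => (certE6.sp i).rev) hj)) (e j) (map_one φ)⟩
  · exact Or.inr ⟨hj, h.pr_mem (prM j hj) (e _) (e _)⟩

theorem not_dm (ha : a ∈ K) (h1 : a ≠ 1) : ¬ Dm (ad (SS F)) K a (eR F certE6.top) := nd.not_dm h.ok h.sep ha h1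

theorem three (hq : 3 ≤ q) (H : HK K a b c) :
    Dm (ad (SS F)) K a (eR F certE6.top) ∨ Dm (ad (SS F)) K b (eR F certE6.top) := by
  classical
  obtain ⟨t, h1⟩ : ∃ t : {t : F // φ t = t}, t ∉ ({⟨0, map_zero φ⟩, ⟨1, map_one φ⟩} : Finset _) := by
    have := Fintype.ofFinite {t : F // φ t = t}
    refine (Finset.exists_mem_notMem_of_card_lt_card (t := Finset.univ) ?_).imp fun _ h => h.2
    rw [Finset.card_univ, ← Nat.card_eq_fintype_card, card_fixed' h.pw h.card]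
    exact Finset.card_le_two.trans_lt hq
  simp only [Finset.mem_insert, Finset.mem_singleton, Subtype.ext_iff, not_or] at h1
  have k : ∀ r, symE6.ρ r = r ∧ symE6.ε r = 1 → Two (SS F) K r := fun r hr =>
    ⟨t, 1, h1.1, one_ne_zero, h1.2, h.x_mem hr.1 (by simp [hr.2]) t.2, h.x_mem hr.1 (by simp [hr.2]) (map_one φ)⟩
  exact top_ad H (α := R 46) (β := R 70) (by decide +kernel) (by decide +kernel) (k _ (by decide +kernel))
    (k _ (by decide +kernel)) (k _ (by decide +kernel)) (Or.inl rfl) (by decide +kernel)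

end St

theorem A_ge {r s : Rt chevE6} (h : s ≠ r.rev) : -1 ≤ certE6.A r s := by
  by_cases e : s = r
  · rw [e, Cert.A_self]; omega
  · exact (certE6.A_abs_le_one e h ((lenT r).symm ▸ certE6.len_le_top s)).1

omit [Finite F] in
theorem x_add {r s u : Rt chevE6} (h : certE6.rc u = certE6.rc r + certE6.rc s) : (certE6.N r s : F) ≠ 0 ∧
    ∀ t, (SS F).φ ((SS F).x r t) *ᵥ eR F s = eR F s + (certE6.N r s * t) • eR F u := by
  have h1 : certE6.A r u = 2 + certE6.A r s := by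
    rw [← Cert.pr_rc, h, Cert.pr_add, Cert.pr_rc, Cert.pr_rc, Cert.A_self]
  have h2 := A_ge (r := r) (s := s) (by rintro rfl; exact certE6.rc_ne_zero u (by simp [h, Cert.rc_neg]))
  have h3 := A_ge (r := r) (s := u.rev) fun e => certE6.rc_ne_zero s (by simpa [Fin.rev_injective e] using h)
  rw [Cert.A_rev_right] at h3
  refine ⟨left_ne_zero_of_mul_eq_one (N_unit h (fun v e => not_add (lenT r.rev) (r := s)
    (by rw [Cert.A_rev_left]; omega) v (by rw [e, Cert.rc_neg]; abel)) ?_), x_eR_add h (not_add (lenT r) (by omega))⟩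
  rintro rfl
  rw [Cert.A_self] at h1
  omega

omit [Finite F] in
theorem x_lev {r s : Rt chevE6} (hr : certE6.A certE6.top r = 0) (hs : certE6.A certE6.top s = 1) :
    ∃ u, certE6.A certE6.top u = 1 ∧ ∃ c : F, ∀ t, (SS F).φ ((SS F).x r t) *ᵥ eR F s = eR F s + (c * t) • eR F u := by
  by_cases h : ∃ u, certE6.rc u = certE6.rc r + certE6.rc s
  · obtain ⟨u, h⟩ := h
    exact ⟨u, by rw [← Cert.pr_rc, h, Cert.pr_add, Cert.pr_rc, Cert.pr_rc, hr, hs, zero_add], _, (x_add h).2⟩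
  · exact ⟨s, hs, 0, fun t => by
      simp [x_eR_fix (by rintro rfl; rw [Cert.A_rev_right] at hs; omega) (not_exists.1 h)]⟩

theorem St.step [CharP F 2] (h : St φ 2 K) {N : Submodule F (chevE6.Idx → F)} (hN : ∀ u ∈ K,
    u ∈ (SS F).U {r | certE6.Pos r ∧ certE6.InJ {Nn 1}ᶜ r} → ∀ v ∈ N, (SS F).φ u *ᵥ v ∈ N) {j : Nd chevE6}
    (hj : j ≠ Nn 1) {μ : Rt chevE6} (h1 : certE6.A certE6.top μ = 1) (h2 : certE6.A (certE6.sp j) μ < 0)
    (h3 : eR F μ ∈ N) : eR F (certE6.refl (certE6.sp j) μ) ∈ N := by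
  have z : ∀ j, j ≠ Nn 1 → certE6.A certE6.top (certE6.sp j) = 0 := by decide +kernel
  have a1 := A_ge (r := certE6.sp j) (s := μ) (by rintro rfl; rw [Cert.A_rev_right, z j hj] at h1; omega)
  obtain ⟨a4, a2⟩ := x_add (F := F) (r := certE6.sp j) (s := μ) (u := certE6.refl (certE6.sp j) μ) (by
    rw [Cert.rc_refl, show certE6.A (certE6.sp j) μ = -1 by omega]; module)
  generalize certE6.refl (certE6.sp j) μ = u at a2 ⊢
  generalize (certE6.N (certE6.sp j) μ : F) = n at a2 a4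
  rw [← N.smul_mem_iff a4]
  have m : ∀ j, j ≠ Nn 1 → certE6.sp j ∈ {r | certE6.Pos r ∧ certE6.InJ {Nn 1}ᶜ r} :=
    fun j hj => ⟨certE6.pos_sp _, certE6.inJ_sp.2 hj⟩
  have e : ∀ j, (symE6.ε (certE6.sp j) : F) = 1 := fun j => by rw [(symE6_sp j).2.2.1, Int.cast_one]
  by_cases hi : symE6.ν j = j
  · have := hN _ (h.x_mem ((symE6_sp j).1.trans (congrArg _ hi)) (e j) (map_one φ)) ((SS F).x_mem_U (m j hj) 1) _ h3
    rwa [a2, mul_one, N.add_mem_iff_right h3] at this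
  have hj' : symE6.ν j ≠ Nn 1 := (by decide +kernel : ∀ j, j ≠ Nn 1 → symE6.ν j ≠ Nn 1) j hj
  obtain ⟨u1, b1, c1, b2⟩ := x_lev (F := F) (z _ hj') h1
  obtain ⟨u2, -, c2, b3⟩ := x_lev (F := F) (z _ hj) b1
  have k : ∀ t, t • n • eR F u + t ^ 2 • c1 • eR F u1 + t ^ 3 • (c1 * c2) • eR F u2 ∈ N := fun t => by
    have := N.sub_mem (hN _ (h.pr_mem (prP j hi) (e _) (e _) t) (mul_mem ((SS F).x_mem_U (m j hj) _)
      ((SS F).x_mem_U (m _ hj') _)) _ h3) h3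
    rw [φ_mul, b2, mulVec_add, mulVec_smul, a2, b3, h.pw] at this
    rwa [show ∀ a b c d : chevE6.Idx → F, a + (n * t) • b + (c1 * t ^ 2) • (c + (c2 * t) • d) - a =
      t • n • b + t ^ 2 • c1 • c + t ^ 3 • (c1 * c2) • d from fun _ _ _ _ => by module] at this
  obtain ⟨ω, h4⟩ := exists_ne_frob (d := 0) h.pw h.card
  have h5 := frob2 h.pw h.card ω
  simp only [h.pw] at h4 h5
  have h6 : ω ^ 2 + ω + 1 = 0 := mul_left_cancel₀ (sub_ne_zero.2 h4) (by linear_combination h5)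
  have h7 : (2 : F) = 0 := CharP.cast_eq_zero F 2
  convert N.add_mem (N.add_mem (k 1) (N.smul_mem (ω ^ 2) (k ω))) (N.smul_mem ω (k (ω ^ 2))) using 1
  generalize eR F u = a, eR F u1 = b, eR F u2 = c
  match_scalars <;> grind

theorem ops2 : ∀ i j : Fin 2, Same 2 ([(R 39, false), (R 51, false), (R 53, false), (R 63, false), (R 65, false),
    (R 69, false), (R 71, false)].foldl (fun L o => opL (adc chevE6) o L)
      [(![.inr certE6.top.rev, .inr (R 70).rev] i, ![.inr certE6.top.rev, .inr (R 70).rev] j, 1)])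
      (if i = j then [] else [(.inr certE6.top, .inr certE6.top, 1)]) := by
  decide +kernel

omit [Finite F] in
theorem eps2 [CharP F 2] (φ : F ≃+* F) (r : Rt chevE6) : (symE6.ε r : F) = 1 :=
  congrArg Units.val (symE6.e_two symE6_ok φ r)

theorem St.sec [CharP F 2] (h : St φ q K) (H : HK K a b c) (hb : ¬ Dm (ad (SS F)) K b (eR F certE6.top))
    (hx : Cj K a x) : β (SS F) x (eR F certE6.top) (eR F (R 70)) = 0 := by
  refine AH.sec H (lenT _) (by decide +kernel) two_zero (fun o ho => ?_) (by decide +kernel) ops2 hb hx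
  obtain ⟨h1, h2, h3⟩ := (by decide +kernel : ∀ o ∈ [(R 39, false), (R 51, false), (R 53, false), (R 63, false),
    (R 65, false), (R 69, false), (R 71, false)], o = (o.1, false) ∧ symE6.ρ o.1 = o.1 ∧
      0 < certE6.A certE6.top o.1 + certE6.A (R 70) o.1) o ho
  exact h1 ▸ (ad _).av_lin (by simpa [Cert.prL_rc] using h3) (h.x_mem h2 (eps2 φ _) (map_one φ))

theorem St.q2 [CharP F 2] (h : St φ 2 K) : Q2 (stbE6 φ) K (Nn 1) (R 70) where
  toOk := h.ok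
  two r hr t := by
    refine ⟨fun ht => ?_, fun ht => h.x_mem hr.1 (eps2 φ _) (by rcases ht with rfl | rfl <;> simp)⟩
    have := h.good.fix _ ht
    rw [σx, show symE6.ρ r = r from hr.1, eps2 φ, one_mul] at this
    exact (mul_eq_zero.1 (show t * (t - 1) = 0 by
      linear_combination (SS F).x_inj _ this - h.pw t)).imp_right sub_eq_zero.1
  fθ := (by decide +kernel : symE6.ρ certE6.top = certE6.top)
  fα := ⟨(by decide +kernel : symE6.ρ (certE6.sp (Nn 1)) = certE6.sp (Nn 1)), lenT _⟩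
  th := by decide +kernel
  lev := by decide +kernel
  rad s hs := absurd (lenT s) hs
  low r _ := by revert r; decide +kernel
  conn j hj := ((by decide +kernel : ∀ j ≠ Nn 1, ∃ r, certE6.A certE6.top r = 1 ∧ certE6.A (certE6.sp j) r ≠ 0)
    j hj).imp fun r hr => ⟨lenT r, hr⟩
  step _ hN _ _ hj _ _ := h.step hN hj

theorem chi_rel (h4 : Nat.card F = 2 ^ 2) (ha : a ∈ (SS F).H) (L : List (Rt chevE6))
    (hL : ∀ i, (3 : ℤ) ∣ (L.map (certE6.A (certE6.sp i))).sum) : (L.map ((SS F).chi a)).prod = 1 := by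
  obtain ⟨t, ht⟩ := (SS F).exists_chi_eq ha
  have : (L.map ((SS F).chi a)).prod = ∏ i, t i ^ (L.map (certE6.A (certE6.sp i))).sum := by
    clear hL
    induction L with
    | nil => simp
    | cons r L ih => simp [ih, ht, _root_.zpow_add, Finset.prod_mul_distrib]
  rw [this]
  refine Finset.prod_eq_one fun i _ => ?_
  obtain ⟨k, hk⟩ := hL i
  rw [hk, _root_.zpow_mul, show t i ^ (3 : ℤ) = 1 from mul_right_cancel (b := t i)
    (Units.ext (by simpa [← pow_succ] using pow_card' h4 (t i : F))), _root_.one_zpow]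

section Gen

variable {D : ChevalleyDatum} {C : Cert D} {F : Type*} [Field F] {G : Type*} [Group G] {S : Sys C F G}
  {T : Stb S} {K : Subgroup G} {M J : Set (Nd D)} {m v : G} {w : Perm (Rt D)} {μ : Rt D}

theorem maxc_chi (h : MaxC T K M J m v) (hK : Ok T K) (h1 : m * m ∈ S.H) {j : Nd D} (hj : j ∈ J) :
    S.chi (m * m) (C.sp j) = 1 := by
  obtain ⟨y, hy, h2⟩ := hK.cd j
  have := cd_H h1 (C.sp j) y
  have c := h.pos y hy.2 (S.U_mono (fun r hr => by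
    exact ⟨hr.1, hr.2.mono fun i hi => (h.stab.orb_iff hi).2 hj⟩) hy.1)
  rw [(Commute.mul_left c c).eq, mul_inv_cancel_right] at this
  exact Units.ext (mul_right_cancel₀ h2 (by rw [← this, Units.val_one, one_mul]))

theorem dw_ent (h : DW S 1 (m * v)) (hm : S.Over m w) (hw : w⁻¹ = w) {ν : Rt D} (h0 : C.len ν = C.len C.top)
    (h1 : C.A C.top μ = 1) (h2 : C.A C.top ν = 1) : ∃ c d : Fˣ, S.φ m⁻¹ *ᵥ eR F ν.rev = (c : F) • eR F (w ν).rev ∧
      S.φ m⁻¹ *ᵥ eR F μ = (d : F) • eR F (w μ) ∧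
      c * S.φ v (.inr (w ν)) (.inr μ) + d * S.φ v⁻¹ (.inr ν) (.inr (w μ)) = if μ = ν then 1 else 0 := by
  obtain ⟨c, hc⟩ := over_eR (hw ▸ hm.inv) ν.rev
  obtain ⟨d, hd⟩ := over_eR (hw ▸ hm.inv) μ
  rw [Cert.Aut.map_rev hm.mem_Aut] at hc
  refine ⟨c, d, hc, hd, ?_⟩
  have := h _ (eR_mem (r := ν.rev) (by rw [C.prL_rc, C.A_rev_right, h2])) _ (eR_mem (r := μ) (by rw [C.prL_rc, h1]))
  rwa [_root_.mul_inv_rev, φ_mul, φ_mul, κ_φ', hc, hd, mulVec_smul, Md.κ_smul_left, Md.κ_smul_right, ← B_def, ← B_def,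
    B_eR, B_eR, κ_ee, Fin.rev_rev, Fin.rev_rev, mu_rev, mu_rev, mu_long C h0,
    mu_long C ((Cert.Aut.len_map hm.mem_Aut _).trans h0), Int.cast_one, one_mul, one_mul, one_mul] at this

theorem dw_inc (h : DW S 1 (m * v)) (hm : S.Over m w) (hw : w⁻¹ = w) (hv : v ∈ S.Up) (h0 : C.len μ = C.len C.top)
    (h1 : C.A C.top μ = 1) {i k : Nd D} (h2 : C.rc (w μ) i < C.rc μ i) (h3 : C.rc μ k < C.rc (w μ) k) : False := by
  obtain ⟨c, d, -, -, e⟩ := dw_ent h hm hw h0 h1 h1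
  have z : ∀ {v}, v ∈ S.Up → ∀ {r s i}, C.rc r i < C.rc s i → S.φ v (.inr r) (.inr s) = 0 := fun hv r s i h =>
    ((ad S).ent_lt (f := LinearMap.proj i) (T := {r | C.Pos r}) (a := .inr r) (b := .inr s) le_rfl (fun _ h => h i) hv
      (sub_neg.2 h)).trans (if_neg (by rintro ⟨⟩; exact h.false))
  simp [z hv h2, z (inv_mem hv) h3] at e

theorem dw_chi [CharP F 2] (h : DW S 1 (m * v)) (hm : S.Over m w) (hw : w⁻¹ = w) (hv : v ∈ S.Up)
    (h0 : C.len μ = C.len C.top) (h1 : C.A C.top μ = 1) (h2 : C.A C.top (w μ) = 1) :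
    S.chi (m * m) μ = 1 ↔ w μ ≠ μ := by
  have e0 : w (w μ) = μ := by nth_rw 1 [← hw]; simp
  have hH : m * m ∈ S.H := (show w * w = 1 by nth_rw 1 [← hw]; simp) ▸ hm.mul hm |>.mem_H
  obtain ⟨c, d, hc, hd, e⟩ := dw_ent h hm hw h0 h2 h1
  rw [e0] at hd
  rw [e0, show S.φ v _ _ = 1 from (ad S).diag_Up hv _, show S.φ v⁻¹ _ _ = 1 from (ad S).diag_Up (inv_mem hv) _,
    mul_one, mul_one] at e
  have e1 := κ_inv (S := S) m⁻¹ (eR F μ.rev) (S.φ (m * m) *ᵥ S.φ m⁻¹ *ᵥ eR F (w μ))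
  rw [← φ_mul, ← φ_mul, mul_assoc, mul_inv_cancel_right, inv_mul_cancel, map_one, one_mulVec, hc, hd, mulVec_smul,
    H_eR hH] at e1
  simp only [Md.κ_smul_left, Md.κ_smul_right, κ_ee, Fin.rev_rev, if_true, mu_rev, mu_long C h0,
    mu_long C ((Cert.Aut.len_map hm.mem_Aut _).trans h0), Int.cast_one, mul_one] at e1
  rw [← Units.val_eq_one, ← mul_right_inj' d.ne_zero, ← e1, mul_one, ← CharTwo.add_eq_zero, e]
  simp

end Gen

/-- word of the longest element of the Levi part -/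
def l1 : List (Nd chevE6) := NL [0, 2, 0, 3, 2, 0, 4, 3, 2, 0, 5, 4, 3, 2, 0]

/-- the action of the product of the two longest elements -/
noncomputable def ww (l : List (Fin 6)) (r : Rt chevE6) : ℕ := actN reflE6 (l1.map Fin.val) (actN reflE6 ((NL l).map Fin.val) r)

/-- the check for one cell -/
def Chk (L l : List (Fin 6)) (μ ν : Rt chevE6) (Z : List (Rt chevE6)) : Prop :=
  ((∀ j ∈ NL l, j ∈ NL L) ∧ ∀ j ∈ NL L, ¬ chevE6.nroots ≤ 2 * actN reflE6 ((NL l).map Fin.val) (certE6.sp j)) ∧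
    certE6.A certE6.top μ = 1 ∧ ww l μ = ν ∧ (((∃ i, certE6.rc ν i < certE6.rc μ i) ∧ ∃ i, certE6.rc μ i < certE6.rc ν i) ∨
      ν = μ ∧ (∀ s ∈ Z, s = certE6.top ∨ (∃ j ∈ NL L, s = certE6.sp j) ∨ certE6.A certE6.top s = 1 ∧ ww l s ≠ s) ∧
        ∀ i, (3 : ℤ) ∣ ((μ :: Z).map (certE6.A (certE6.sp i))).sum)

theorem St.cell [CharP F 2] (h : St φ 2 K) {J : Set (Nd chevE6)} {m v : chevE6.group F}
    (hm : MaxC (stbE6 φ) K {j | j ≠ Nn 1} J m v) (hd : DW (SS F) 1 (m * v)) (L l : List (Fin 6))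
    (hJ : ∀ j, j ∈ J ↔ j ∈ NL L) (μ ν : Rt chevE6) (Z : List (Rt chevE6)) (hc : Chk L l μ ν Z) : False := by
  obtain ⟨h1, h2, h3, h4⟩ := hc
  have e : ∀ r, ((certE6.w0 {j | j ≠ Nn 1} * certE6.w0 J) r : ℕ) = ww l r := fun r => by
    rw [Perm.mul_apply, w0_eq (L := NL [0, 2, 3, 4, 5]) (by decide +kernel) l1 (by decide +kernel), w0_eq hJ _ h1, ww]
  obtain rfl : (certE6.w0 {j | j ≠ Nn 1} * certE6.w0 J) μ = ν := Fin.ext ((e μ).trans h3)
  rcases h4 with ⟨⟨i, h4⟩, k, h5⟩ | ⟨h4, h5, h6⟩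
  · exact dw_inc hd hm.ov hm.inv hm.vUp (lenT _) h2 h4 h5
  have hH : m * m ∈ (SS F).H := (mul_eq_one_iff_inv_eq.2 hm.inv ▸ hm.ov.mul hm.ov).mem_H
  have k : ∀ s, certE6.A certE6.top s = 1 → ((SS F).chi (m * m) s = 1 ↔ _) := fun s hs =>
    dw_chi hd hm.ov hm.inv hm.vUp (lenT s) hs (by
      rw [← hs, ← Cert.prL_rc, ← Cert.prL_rc, Cert.Aut.rc_map hm.ov.mem_Aut]
      exact LinearMap.congr_fun (Cert.comp_lin_WJ h.q2.lev0' hm.memW) _)
  have h7 := chi_rel h.card hH _ h6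
  rw [List.map_cons, List.prod_cons, List.prod_eq_one, mul_one] at h7
  · exact (k μ h2).1 h7 h4
  simp only [List.forall_mem_map]
  intro s hs
  rcases h5 s hs with rfl | ⟨j, hj, rfl⟩ | ⟨h8, h9⟩
  · have := (h.q2.comm h.q2.fx h.q2.lev0 (mul_mem hm.mK hm.mK) (Subgroup.mem_sup_right hH)).2.2.2
    rw [H_eR hH] at this
    exact Units.ext (by simpa using congrFun this (.inr certE6.top))
  · exact maxc_chi hm h.ok hH ((hJ j).2 hj)
  · exact (k s h8).2 fun h0 => h9 (by rw [← e, h0])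

set_option synthInstance.maxSize 1000 in
theorem St.one [CharP F 2] (h : St φ 2 K) {z : chevE6.group F} (hz : Sp (SS F) K (Nn 1) a 1 z) : False := by
  obtain ⟨g, hg, hgL, J, m, v, hm, e⟩ := exists_max h.ok.bn h.q2.stab hz.mem hz.lev
  have hd := e ▸ (h.q2.sp_conj hz hg hgL).dw
  have h3 : Nn 1 ∉ J := fun h3 => hm.sub h3 rfl
  have h4 : Nn 5 ∈ J ↔ Nn 0 ∈ J := hm.stab (Nn 0)
  have h5 : Nn 4 ∈ J ↔ Nn 2 ∈ J := hm.stab (Nn 2)
  have k : ∀ L : List (Fin 6), (Nn 0 ∈ J ↔ 0 ∈ L) ∧ (Nn 2 ∈ J ↔ 2 ∈ L) ∧ (Nn 3 ∈ J ↔ 3 ∈ L) ∧ 1 ∉ L ∧ (5 ∈ L ↔ 0 ∈ L) ∧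
      (4 ∈ L ↔ 2 ∈ L) → ∀ j, j ∈ J ↔ j ∈ NL L := fun L ⟨a0, a2, a3, a1, a5, a4⟩ (j : Fin 6) => by
    fin_cases j
    exacts [a0, iff_of_false h3 a1, a2, a3, h5.trans (a2.trans a4.symm), h4.trans (a0.trans a5.symm)]
  by_cases b0 : Nn 0 ∈ J <;> by_cases b2 : Nn 2 ∈ J <;> by_cases b3 : Nn 3 ∈ J
  · exact h.cell hm hd [0, 2, 3, 4, 5] [0, 2, 0, 3, 2, 0, 4, 3, 2, 0, 5, 4, 3, 2, 0] (k _ (by simp [*])) (R 70) (R 70)
      [R 71, R 56, R 56, R 42] (by unfold Chk; decide +kernel)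
  · exact h.cell hm hd [0, 2, 4, 5] [0, 2, 0, 4, 5, 4] (k _ (by simp [*])) (R 49) (R 67) [] (by unfold Chk; decide +kernel)
  · exact h.cell hm hd [0, 3, 5] [0, 3, 5] (k _ (by simp [*])) (R 52) (R 62) [] (by unfold Chk; decide +kernel)
  · exact h.cell hm hd [0, 5] [0, 5] (k _ (by simp [*])) (R 52) (R 64) [] (by unfold Chk; decide +kernel)
  · exact h.cell hm hd [2, 3, 4] [2, 3, 2, 4, 3, 2] (k _ (by simp [*])) (R 67) (R 67) [R 42, R 46, R 63]
      (by unfold Chk; decide +kernel)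
  · exact h.cell hm hd [2, 4] [2, 4] (k _ (by simp [*])) (R 53) (R 63) [] (by unfold Chk; decide +kernel)
  · exact h.cell hm hd [3] [3] (k _ (by simp [*])) (R 54) (R 54) [R 39, R 48, R 66] (by unfold Chk; decide +kernel)
  · exact h.cell hm hd [] [] (k _ (by simp [*])) (R 53) (R 63) [] (by unfold Chk; decide +kernel)

theorem St.sq [CharP F 2] (h : St φ 2 K) (H : HK K a b c) (ha : a ∈ K) (hb : b ∈ K) (ha1 : a ≠ 1) (hb1 : b ≠ 1) :
    ∃ z, Sp (SS F) K (Nn 1) a 0 z := by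
  obtain ⟨s, z, rfl | rfl, hz⟩ := h.q2.struct ha (fun _ => h.sec H (h.not_dm hb hb1)) (h.not_dm ha ha1)
    fun _ _ _ _ _ _ _ r hr => absurd (lenT r) hr
  exacts [⟨z, hz⟩, (h.one hz).elim]

end Cfsg.Agent.AH.TE

namespace Cfsg.Agent.AH

open Cfsg.Lie Cfsg.Agent.Chev Cfsg.Agent.Tw

theorem mix_2E6 {F : Type*} [Field F] [Finite F] {q : ℕ} (h : Nat.card F = q ^ 2) (p : ℕ) [Fact p.Prime] [CharP F p] :
    Mix p (twistedE6 F q) := by
  obtain ⟨φ, hφ⟩ := exists_frob F h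
  have H : TE.St φ q _ := ⟨goodE6 hφ (frob2 hφ h), hφ, h⟩
  refine (MixK.mix fun a ha b hb c _ ha1 hb1 hc1 hK => ?_).congr (eqE6 F q).symm
  rcases H.two_le.eq_or_lt with rfl | hq
  · obtain ⟨k, hk, e⟩ := Sys.exists_card_pow F p
    obtain rfl : p = 2 := (Nat.prime_dvd_prime_iff_eq Fact.out Nat.prime_two).1
      ((Fact.out : p.Prime).dvd_of_dvd_pow (h ▸ e ▸ dvd_pow_self p hk.ne'))
    obtain ⟨z, hz⟩ := H.sq hK ha hb ha1 hb1
    obtain ⟨z', hz'⟩ := H.sq (hK.symm ha) hb ha hb1 ha1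
    exact H.q2.mix hK ha hb ha1 hb1 hc1 (Or.inl rfl) (Or.inl rfl) hz hz' (fun e => absurd e zero_ne_one)
      fun e => absurd (e.elim id id) zero_ne_one
  · exact ((H.three hq hK).elim (H.not_dm ha ha1) (H.not_dm hb hb1)).elim

end Cfsg.Agent.AH
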