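import Cfsg.Agent.AH.F4s
import Cfsg.Agent.AH.SL
import Cfsg.Agent.AH.TE

/-! The group F4(2). -/

set_option autoImplicit false

namespace Cfsg.Agent.AH

open Cfsg.Lie Cfsg.Lie.ChevalleyDatum Cfsg.Agent.Chev Cfsg.Agent.Tw Matrix Equiv

section Gen

variable {D : ChevalleyDatum} {C : Cert D} {F : Type*} [Field F] {G : Type*} [Group G] {S : Sys C F G} [CharP F 2]

/-- killing the short coefficients -/
theorem kill_short {γ r δ : Rt D} (hγ : C.len γ = C.len C.top) {z q : G} (h1 : S.φ z *ᵥ eR F γ = eR F γ)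
    (h2 : Commute z (S.n γ 1)) {T : Set (Rt D)} (hT : C.Closed T) (h3 : ∀ s ∈ T, 1 ≤ C.A γ s)
    (h4 : ∀ s ∈ T, s ≠ r → 1 < 3 * C.A γ s - C.A r s) (hq : q ∈ S.U T) (h5 : C.A γ r = 1)
    (h6 : C.rc γ = C.rc δ + (2 : ℤ) • C.rc r) (h7 : C.A γ δ = 0) (h8 : (C.X r 2 (.inr γ) (.inr δ) : F) ≠ 0)
    (h : β S (S.n γ 1 * z * q) (eR F γ) (eR F δ) = 0) : S.cd r q = 0 := by
  have h9 : S.φ z⁻¹ *ᵥ eR F γ = eR F γ := by nth_rw 1 [← h1]; exact φ_inv _ _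
  rw [β, B_def, B_def, φ_mul _ q, φ_mul _ q, U_fix (fun s hs => x_fix' hγ (zero_le_one.trans (h3 s hs))) hq,
    φ_mul _ z (eR F γ), h1, n_eR2, C.refl_self, κ_ee, if_neg (by
      intro e; rw [Fin.rev_inj.1 e, C.A_self] at h7; omega), add_zero, ← h2.eq, κ_φ', _root_.mul_inv_rev, φ_mul, h9,
    n_inv, n_eR2, C.refl_self, ← B_def, B_eR, Fin.rev_rev, show S.φ q _ _ = _ from F4.ent_sq' (ad S)
      (f := (3 : ℤ) • C.prL γ - C.prL r) one_pos hT (by simp [C.prL_rc, h5, C.A_self])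
      (fun s hs e => by simpa [C.prL_rc] using h4 s hs e) hq (a := .inr γ) (b := .inr δ) h6, mu_rev, mu_long C hγ] at h
  simpa [show (ad S).X r 2 (.inr γ) (.inr δ) ≠ 0 from h8] using h

variable {T : Stb S} {K : Subgroup G} {a z : G} {i0 : Nd D} {θ' γ : Rt D}

/-- the second splitting -/
theorem Q2.second' (Q : Q2 T K i0 θ') (h : Sp S K i0 a 1 z) (hγ : Fx T γ)
    (h7 : (ad S).B z (eR F γ) (eR F γ) ≠ 0)
    (h1 : C.InJ {j | j ≠ i0} γ) (h2 : ∀ j ∈ {j | j ≠ i0}, 0 ≤ C.A γ (C.sp j)) {J : Set (Nd D)}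
    (hJ : J = {j | j ∈ {j | j ≠ i0} ∧ C.A γ (C.sp j) = 0}) (h3 : T.Stable J)
    (hk : ∀ z ∈ K, z ∈ S.L J → ∀ q ∈ S.U {r | C.InJ {j | j ≠ i0} r ∧ 1 ≤ C.A γ r},
      Sp S K i0 a 1 (S.n γ 1 * z * q) → ∀ r, C.InJ {j | j ≠ i0} r → C.A γ r = 1 → S.cd r q = 0)
    {ν : Rt D} (h4 : C.len ν = C.len C.top) (h5 : C.A C.top ν = 1) (h6 : C.A γ ν = 1) :
    ∃ J' m v, MaxC T K J J' m v ∧ Sp S K i0 a 1 (g3 S γ * (m * v)) ∧
      ∀ j ∈ J, (∃ r, C.len r = C.len C.top ∧ C.A C.top r = 1 ∧ C.A γ r = 1 ∧ C.A (C.sp j) r ≠ 0) → j ∈ J' := by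
  obtain ⟨g', hg', hg'L, z', hz, hL, q, hqK, hq, e⟩ := split Q.toGood hγ.2 h1 h2 hJ h3 (Q.n_mem hγ) h.mem h.lev h7
  have h9 : Sp S K i0 a 1 (S.n γ 1 * z' * q) := e ▸ Q.sp_conj h hg' hg'L
  obtain ⟨s, rfl⟩ := eq_x_of_cd hγ.2 hq (hk z' hz hL q hq h9)
  have j1 : ∀ j ∈ J, C.A γ (C.sp j) = 0 := fun j hj => (hJ ▸ hj).2
  have j2 : J ⊆ {j | j ≠ i0} := fun j hj => (hJ ▸ hj).1
  have j3 : ∀ j ∈ J, f2 C γ (C.rc (C.sp j)) = 0 := fun j hj => by rw [f2_rc, j1 j hj, Q.lev0 j (j2 hj)]; rfl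
  rw [mul_assoc, ((Q.comm hγ j1 hz hL).1 s).eq, ← mul_assoc] at h9
  obtain ⟨rfl, h10⟩ := h9.dw.two hγ.2 (A_inJ Q.lev0 h1) (fun _ _ => L_Wl j3 hL) ((Q.two _ hγ s).1 hqK) h4 h5 h6
  obtain ⟨g, hg, hgL, J', m, v, hm, e, -, h12⟩ := h10.max Q.toOk h3 j3 hz hL
  refine ⟨J', m, v, hm, ?_, fun j hj ⟨r, a1, a2, a3, a4⟩ => (h12 j hj ⟨r, a1, by rw [f2_rc, a2, a3]; rfl, a4⟩).1⟩
  obtain ⟨c1, c2, -⟩ := Q.comm hγ j1 hg hgL
  convert Q.sp_conj h9 hg (L_mono j2 hgL) using 1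
  simp only [← e, ← mul_assoc, g3, (c2.mul_right (c1 1)).eq]

end Gen

namespace F4

variable {F : Type*} [Field F] [CharP F 2] (hF : ∀ t : F, t = 0 ∨ t = 1)

set_option synthInstance.maxSize 2048 in
theorem step_chk : ∀ j ≠ nd 3, ∀ r, certF4.len r = certF4.len certF4.top → certF4.A certF4.top r = 1 →
    certF4.A (certF4.sp j) r < 0 → certF4.len (certF4.sp j) = certF4.len certF4.top ∧ certF4.A (certF4.sp j) r = -1 ∨
      certF4.A (certF4.sp j) r = -2 ∧ r ≠ (certF4.sp j).rev ∧ certF4.M (certF4.sp j) r 3 = 0 ∧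
        (certF4.M (certF4.sp j) r 2 = 1 ∨ certF4.M (certF4.sp j) r 2 = -1) ∧
        ∃ e, certF4.len e ≠ certF4.len certF4.top ∧ certF4.rc e = certF4.rc (certF4.sp j) + certF4.rc r := by
  decide +kernel

include hF

theorem q2 : Q2 (Stb.one (certF4.sys F)) ⊤ (nd 3) (rt 46) where
  toOk := ok_one (certF4.sys_φ_inj F)
  two _ _ t := by simpa using hF t
  fθ := rfl
  fα := ⟨rfl, rfl⟩
  th := by decide +kernel
  lev := by decide +kernel
  rad s h := by simp [(by decide +kernel : ∀ s, certF4.len s ≠ certF4.len certF4.top → mu certF4 s = 2) s h, two_zero]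
  low := by decide +kernel
  conn := by decide +kernel
  step N h1 h0 j hj r hr h2 h3 h4 := by
    have := N.sub_mem (h1 ((certF4.sys F).x (certF4.sp j) 1) trivial
      ((certF4.sys F).x_mem_U (by exact ⟨certF4.pos_sp j, certF4.inJ_sp.2 hj⟩) 1) _ h4) h4
    rcases step_chk j hj r hr h2 h3 with ⟨a1, a2⟩ | ⟨a1, a2, a3, a4, e, a5, a6⟩
    · rwa [x_eR2 a1 a2, one_smul, add_sub_cancel_left] at this
    · rw [x_eR_two (h := certF4.refl (certF4.sp j) r) a2 a6 (by rw [certF4.rc_refl, a1]; module) a3, add_assoc,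
        add_sub_cancel_left, N.add_mem_iff_right (N.smul_mem _ (h0 e a5))] at this
      rcases a4 with a4 | a4 <;> simpa [a4] using this

variable {a b c z : chevF4.group F}

omit hF [CharP F 2] in
theorem X_ne {r γ δ : Rt chevF4} (h : Xf chevF4 r 2 (.inr γ) (.inr δ) = 1 ∨ Xf chevF4 r 2 (.inr γ) (.inr δ) = -1) :
    (certF4.X r 2 (.inr γ) (.inr δ) : F) ≠ 0 := by
  rw [X_eq_Xf]; exact unit_ne h

theorem struct (H : HK ⊤ a b c) (ha : ¬ Dm (ad (certF4.sys F)) ⊤ a (eR F certF4.top))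
    (hb : ¬ Dm (ad (certF4.sys F)) ⊤ b (eR F certF4.top)) :
    ∃ s z, (s = 0 ∨ s = 1) ∧ Sp (certF4.sys F) ⊤ (nd 3) a s z := by
  have Q := q2 hF
  refine Q.struct trivial (fun x hx => splus H ha hb hx rfl rfl (Or.inr Q.lev')) ha fun z _ hz q hq hx h1 r h2 h3 => ?_
  obtain ⟨-, c2, -, c4⟩ := Q.comm Q.fx Q.lev0 trivial hz
  obtain ⟨δ, b1, b2, b3, b4, b5⟩ := (by decide +kernel : ∀ r, certF4.len r ≠ certF4.len certF4.top →
    certF4.A certF4.top r = 1 → ∃ δ, certF4.len δ = certF4.len certF4.top ∧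
      certF4.rc certF4.top = certF4.rc δ + (2 : ℤ) • certF4.rc r ∧ certF4.A certF4.top δ = 0 ∧
      (Xf chevF4 r 2 (.inr certF4.top) (.inr δ) = 1 ∨ Xf chevF4 r 2 (.inr certF4.top) (.inr δ) = -1) ∧
      ∀ s, (certF4.len s ≠ certF4.len certF4.top ∧ certF4.A certF4.top s = 1 ∨ s = certF4.top) → s ≠ r →
        1 < 3 * certF4.A certF4.top s - certF4.A r s) r h2 h3
  refine kill_short rfl c4 c2 (T := {s | certF4.len s ≠ certF4.len certF4.top ∧ certF4.A certF4.top s = 1 ∨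
    s = certF4.top}) (fun s hs t ht u e => ?_) (by rintro s (h | rfl); exacts [h.2.ge, by simp [certF4.A_self]]) b5
    (mem_U_of_cd (f := certF4.prL certF4.top) one_pos (T := {r | 1 ≤ certF4.prL certF4.top (certF4.rc r)})
      (Cert.closed_ge _ zero_le_one) (fun _ h => h) ((certF4.sys F).U_mono (fun s hs => by
        simpa [certF4.prL_rc] using hs.2) hq) fun s hs hs' => ?_) h3 b2 b3 (X_ne b4)
    (splus H ha hb hx rfl b1 (Or.inl b3))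
  · have h4 := A_add e certF4.top
    have h5 : ∀ s ∈ {s | certF4.len s ≠ certF4.len certF4.top ∧ certF4.A certF4.top s = 1 ∨ s = certF4.top},
        1 ≤ certF4.A certF4.top s := by rintro s (h | rfl); exacts [h.2.ge, by simp [certF4.A_self]]
    exact Or.inr (by_contra fun h => by
      have := certF4.A_top_le_one h; have := h5 s hs; have := h5 t ht; omega)
  · simp only [Set.mem_ofPred_eq, certF4.prL_rc, not_or, not_and] at hs hs' ⊢
    have := certF4.A_top_le_one hs'.2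
    exact ⟨by omega, h1 s (by_contra fun h => hs'.1 h (by omega)) (by omega)⟩

theorem c3_cell (h : Sp (certF4.sys F) ⊤ (nd 3) a 1 z) : ∃ z, Sp (certF4.sys F) ⊤ (nd 3) a 1 z ∧
    (ad (certF4.sys F)).B z (eR F (rt 41)) (eR F (rt 41)) ≠ 0 := by
  have Q := q2 hF
  obtain ⟨g, hg, hgL, J, m, v, hm, e⟩ := exists_max Q.toOk.bn Q.stab h.mem h.lev
  have h1 := e ▸ Q.sp_conj h hg hgL
  obtain ⟨n, hn, hJ⟩ := Tab.exists_mask J
  obtain ⟨a1, a2⟩ := (fitF4 (S := certF4.sys F)).w0 (cell_chk 7).1 (J := {j | j ≠ nd 3}) (by decide +kernel)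
  obtain ⟨b1, b2⟩ := (fitF4 (S := certF4.sys F)).w0 (cell_chk ⟨n, hn⟩).1 hJ
  have hw : ∀ r, ((certF4.w0 {j | j ≠ nd 3} * certF4.w0 J) r : ℕ) = actN reflF4 (wJ 7 ++ wJ n) r := fun r => by
    rw [a2, b2, ← certF4.wd_append, ← toNd_append]
    exact (fitF4 (S := certF4.sys F)).act (fun i hi => (List.mem_append.1 hi).elim (a1 i) (b1 i)) r
  obtain ⟨r, c1, ⟨c2, c3⟩ | ⟨c2, c3⟩⟩ := (by decide +kernel : ∀ n : Fin 16, n.val.testBit (nd 3) = false →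
    ∃ r, certF4.len r = certF4.len certF4.top ∧ (certF4.rc r (nd 3) = 0 ∧ actN reflF4 (wJ 7 ++ wJ n) r.rev = r ∨
      certF4.A certF4.top r = 1 ∧ actN reflF4 (wJ 7 ++ wJ n) r = r)) ⟨n, hn⟩
    (Bool.eq_false_iff.2 fun e => hm.sub ((hJ _).2 e) rfl)
  · have k : ∀ r, certF4.len r = certF4.len certF4.top → certF4.rc r (nd 3) = 0 →
        ∃ w ∈ certF4.WJ {j | j ≠ nd 3}, w (certF4.sp (nd 2)) = r := fun r h1 h2 => by
      obtain ⟨w, hw, j, hj, rfl⟩ := Cert.exists_sp_conj_J (inJ_ne.2 h2)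
      rw [Cert.Aut.len_map (certF4.WJ_le_Aut _ hw)] at h1
      exact ⟨w, hw, by rw [(by decide +kernel : ∀ j ≠ nd 3, certF4.len (certF4.sp j) = certF4.len certF4.top →
        j = nd 2) j hj h1]⟩
    obtain ⟨u, hu, rfl⟩ := k r c1 c2
    obtain ⟨u', hu', e'⟩ := k (rt 41) rfl rfl
    obtain ⟨n, hn⟩ := (certF4.sys F).exists_over (certF4.WJ_le_W _ (mul_mem hu (inv_mem hu')))
    refine ⟨_, Q.sp_conj h1 (g := n⁻¹) trivial (inv_mem (hn.mem_L (mul_mem hu (inv_mem hu')))), ?_⟩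
    rw [inv_inv]
    refine B_ne_conj hn ?_
    rw [← e', Perm.mul_apply, Perm.inv_def, Equiv.symm_apply_apply]
    exact B_ne_zero hm.ov hm.vUp c1 (Fin.ext ((hw _).trans c3))
  · have e := Fin.ext ((hw _).trans c3)
    exact ((TE.dw_chi h1.dw hm.ov hm.inv hm.vUp c1 c2 (by rwa [e])).1
      (Units.ext ((hF _).resolve_left (Units.ne_zero _))) e).elim

omit hF [CharP F 2] in
theorem β_SL {g : chevF4.group F} (hg : g ∈ (certF4.sys F).U {certF4.top, certF4.top.rev}) {γ δ : Rt chevF4}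
    (h1 : certF4.A certF4.top γ = 0) (h2 : certF4.A certF4.top δ = 0) :
    β (certF4.sys F) (g * z) (eR F γ) (eR F δ) = β (certF4.sys F) z (eR F γ) (eR F δ) := by
  simp only [β, B_def, φ_mul, κ_φ' g, SL_fix rfl h1 (inv_mem hg), SL_fix rfl h2 (inv_mem hg)]

omit hF in
theorem kill_chk : ∀ r, certF4.rc r (nd 3) = 0 → certF4.A (rt 41) r = 1 → ∃ δ, certF4.len δ = certF4.len certF4.top ∧
    certF4.rc (rt 41) = certF4.rc δ + (2 : ℤ) • certF4.rc r ∧ certF4.A (rt 41) δ = 0 ∧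
    (Xf chevF4 r 2 (.inr (rt 41)) (.inr δ) = 1 ∨ Xf chevF4 r 2 (.inr (rt 41)) (.inr δ) = -1) ∧
    (∀ s, certF4.rc s (nd 3) = 0 → 1 ≤ certF4.A (rt 41) s → s ≠ r → 1 < 3 * certF4.A (rt 41) s - certF4.A r s) ∧
    certF4.A certF4.top δ = 0 := by
  decide +kernel

theorem three (H : HK ⊤ a b c) (ha : ¬ Dm (ad (certF4.sys F)) ⊤ a (eR F certF4.top))
    (hb : ¬ Dm (ad (certF4.sys F)) ⊤ b (eR F certF4.top)) (h : Sp (certF4.sys F) ⊤ (nd 3) a 1 z) :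
    Cj ⊤ a (g3 (certF4.sys F) certF4.top * g3 (certF4.sys F) (rt 41)) := by
  have Q := q2 hF
  obtain ⟨z, h, h1⟩ := c3_cell hF h
  have l : certF4.len (rt 41) = certF4.len certF4.top := by decide +kernel
  have l' : certF4.InJ {j | j ≠ nd 3} (rt 41) := inJ_ne.2 (by decide +kernel)
  obtain ⟨J, hJ⟩ : ∃ J, J = {j | j ∈ {j | j ≠ nd 3} ∧ certF4.A (rt 41) (certF4.sp j) = 0} := ⟨_, rfl⟩
  obtain ⟨J', m, v, h2, h3, h4⟩ := Q.second' h ⟨rfl, l⟩ h1 l' (by decide +kernel) hJ (fun _ => Iff.rfl)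
    (fun z _ hz q hq h r hr e => by
      obtain ⟨-, c2, -, c4⟩ := Q.comm (γ := rt 41) ⟨rfl, l⟩ (fun j hj => (hJ ▸ hj).2) trivial hz
      obtain ⟨δ, b1, b2, b3, b4, b5, b6⟩ := kill_chk r (inJ_ne.1 hr) e
      refine kill_short l c4 c2 (T := {r | certF4.InJ {j | j ≠ nd 3} r ∧ 1 ≤ certF4.A (rt 41) r})
        (fun s hs t ht u e => ⟨Cert.closed_inJ _ s hs.1 t ht.1 u e, by
        have := hs.2; have := ht.2; rw [A_add e]; omega⟩) (fun _ h => h.2) (fun s hs => b5 s (inJ_ne.1 hs.1) hs.2) hq e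
        b2 b3 (X_ne b4) ?_
      rw [← β_SL (g3_mem_SL _) (A_inJ Q.lev0 l') b6]
      exact splus H ha hb h.cj l b1 (Or.inl b3))
    (ν := rt 46) Q.len' Q.lev' (by decide +kernel)
  obtain rfl := h2.sub.antisymm fun j hj => h4 j hj ((by decide +kernel : ∀ j ≠ nd 3,
    certF4.A (rt 41) (certF4.sp j) = 0 → ∃ r, certF4.len r = certF4.len certF4.top ∧ certF4.A certF4.top r = 1 ∧
      certF4.A (rt 41) r = 1 ∧ certF4.A (certF4.sp j) r ≠ 0) j (hJ ▸ hj).1 (hJ ▸ hj).2)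
  obtain ⟨rfl, h6, -⟩ := h2.torus Q.toOk
  rw [H_triv hF Q.inj h6, one_mul, mul_one] at h3
  exact h3.cj

omit hF in
theorem inv_L [Finite F] {t : chevF4.group F} (h2 : t * t = 1) (h1 : t ≠ 1) :
    ∃ t', Cj ⊤ t t' ∧ t' ∈ (certF4.sys F).L {j | j ≠ nd 3} := by
  have hf := fitF4 (S := certF4.sys F)
  obtain ⟨y, hy, g, -, e⟩ := hf.reps (certF4.sys_φ_inj F) okCF4 okJF4 okRF4 (t := t) trivial h2 h1
  obtain ⟨l, hl, a1, a2⟩ := (by decide +kernel : ∀ y ∈ repsF4, ∃ l ∈ [[3, 2, 1, 2, 3, 0], [3, 2, 1, 2, 0, 1, 2]],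
    (∀ r ∈ y, r < chevF4.nroots) ∧ ∀ r ∈ y.map (actN tabF4.f l), rcF4 r 3 = 0) y hy
  refine ⟨_, (Cj.of (Subgroup.mem_top g) t).conj (g := nW (certF4.sys F) l) trivial, ?_⟩
  rw [e, (pure_nW l).conj_pw (hf.act ((by decide : ∀ l ∈ [[3, 2, 1, 2, 3, 0], [3, 2, 1, 2, 0, 1, 2]],
    ∀ i ∈ l, i < 4) l hl)) a1]
  exact Subgroup.mem_sup_left (pw_mem_U fun r hr _ => inJ_ne.2 (a2 r hr))

theorem mixA [Finite F] (H : HK ⊤ a b c) (ha1 : a ≠ 1) (hb1 : b ≠ 1) (hc : c ≠ 1)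
    (h : ¬ (Dm (ad (certF4.sys F)) ⊤ a (eR F certF4.top) ∨ Dm (ad (certF4.sys F)) ⊤ b (eR F certF4.top))) :
    Mixed 2 c ∧ (2 ∣ orderOf a ∨ 2 ∣ orderOf b) := by
  obtain ⟨ha, hb⟩ := not_or.1 h
  obtain ⟨s, z, hs, h⟩ := struct hF H ha hb
  obtain ⟨s', z', hs', h'⟩ := struct hF (H.symm trivial) hb ha
  refine (q2 hF).mix H trivial trivial ha1 hb1 hc hs hs' h h' ?_ fun _ _ _ => inv_L
  rintro rfl rfl
  have e : certF4.A certF4.top (rt 41) = 0 := by decide +kernel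
  exact H.not_inv hc (three hF H ha hb h) ((three hF (H.symm trivial) hb ha h').trans ⟨_, trivial,
    (real_mul (g3_inv _) (g3_inv _) (orth_comm rfl e (n_mem_SL _) (g3_mem_SL _))
      (orth_comm rfl e (g3_mem_SL _) (n_mem_SL _)).symm (orth_comm rfl e (g3_mem_SL _) (g3_mem_SL _))).symm⟩)

end F4

theorem mix_F42 {F : Type*} [Field F] [Finite F] [CharP F 2] (hF : ∀ t : F, t = 0 ∨ t = 1) :
    Mix 2 (chevF4.group F) := MixK.top fun a _ b _ c _ ha hb hc H => by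
  by_contra h
  let e := MulEquiv.ofBijective _ (isogF4.τ_bij (F := F))
  refine f4_two H ha hb (by_contra fun h1 => h (F4.mixA hF H ha hb hc h1)) (by_contra fun h1 => h ?_)
  have := F4.mixA hF (a := e a) (b := e b) (c := e c) (fun x y hx hy => by
    obtain ⟨g, e⟩ := isConj_iff.1 (((F4.hyp_of_hk H).map e).conj hx.isConj hy.isConj)
    exact ⟨g, trivial, e.symm⟩) (by simpa using ha) (by simpa using hb) (by simpa using hc) h1
  simpa only [Mixed, e.orderOf_eq] using this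

end Cfsg.Agent.AH
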