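import Cfsg.Agent.AH.G2a
import Cfsg.Agent.AH.Vmod
import Cfsg.Agent.Tw.TwFix
import Cfsg.Agent.Chev.Over3

/-! Products of two classes in `G₂(q)`, `q ≥ 3`. -/

set_option autoImplicit false

namespace Cfsg.Agent.AH.G2

open Cfsg.Lie Cfsg.Lie.ChevalleyDatum Cfsg.Agent.Chev Matrix PE VM Equiv
open Cfsg.Agent.Tw hiding wd

variable {F : Type*} [Field F]

/-- the system of root elements -/
noncomputable abbrev S (F : Type*) [Field F] : Sys certG2 F (chevG2.group F) := certG2.sys F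

theorem wd_nW (r : Rt chevG2) (l : Fˣ) (Z : List F) : wd (S F) (l :: (l⁻¹ : Fˣ) :: Z) (nW r) = (S F).n r l := by
  simp [wd, nW, evM, evM_nil, Sys.n, mul_assoc]

theorem wd_n1 (r : Rt chevG2) (Z : List F) : wd (S F) Z (n1 r) = (S F).n r 1 := by
  simp [wd, n1, evM_nil, Sys.n, mul_assoc]

theorem form {i j : Nd chevG2} {γ r : Rt chevG2} (h : Dat i j γ r) {m v : chevG2.group F}
    (hm : MaxC (Stb.one (S F)) ⊤ Set.univ {j} m v) : ∃ (l : Fˣ) (t1 t2 t3 t4 t5 : F), ∀ s : F,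
      m * v = wd (S F) [l, (l⁻¹ : Fˣ), t1, t2, t3, t4, t5, s] (nW γ ++ uW r) := by
  obtain ⟨h1, h2, h3, h4, h5, h6, h7, h8⟩ := h
  have hw : certG2.w0 Set.univ * certG2.w0 {j} = certG2.sr γ := Equiv.ext fun s => certG2.rc_inj (by
    rw [Perm.mul_apply, w0G2, Sys.w0_single, certG2.rc_neg, certG2.ss_apply, certG2.sr_apply, certG2.rc_refl,
      certG2.rc_refl]
    exact funext fun k => h5 s k)
  have hH : m * ((S F).n γ 1)⁻¹ ∈ (S F).H := by
    have := (hw ▸ hm.ov).mul ((S F).over_n γ 1).inv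
    rw [mul_inv_cancel] at this
    exact this.mem_H
  have c1 : (S F).n γ 1 * (S F).x (certG2.sp j) 1 = (S F).x (certG2.sp j) 1 * (S F).n γ 1 := by
    have := eq_wd (ad (S F)) (Z := []) (one_mul (1 : F)) Int.cast_zero (certG2.sys_φ_inj F) (h8 (certG2.sp j) rfl)
    rw [wd_append, wd_append, wd_n1] at this
    simpa [wd, evM_nil] using this
  have c2 := hm.pos ((S F).x (certG2.sp j) 1) trivial
    ((S F).x_mem_U (by exact ⟨certG2.pos_sp j, certG2.inJ_sp.2 rfl⟩) 1)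
  have c3 : (S F).chi (m * ((S F).n γ 1)⁻¹) (certG2.sp j) = 1 := by
    have := Sys.H_conj_x hH (certG2.sp j) 1
    rw [_root_.mul_inv_rev, inv_inv, show m * ((S F).n γ 1)⁻¹ * (S F).x (certG2.sp j) 1 * ((S F).n γ 1 * m⁻¹) =
      m * (((S F).n γ 1)⁻¹ * ((S F).x (certG2.sp j) 1 * (S F).n γ 1)) * m⁻¹ by group, ← c1, inv_mul_cancel_left, c2,
      mul_inv_cancel_right] at this
    exact Units.ext (by simpa using ((S F).x_inj _ this).symm)
  have c4 : m * ((S F).n γ 1)⁻¹ = (S F).h γ ((S F).chi (m * ((S F).n γ 1)⁻¹) (certG2.sp i)) :=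
    (S F).eq_of_chi (certG2.sys_φ_inj F) hH ((S F).h_mem _ _) fun k => by
      rcases h1 k with rfl | rfl <;> rw [(S F).chi_h]
      · rw [show certG2.A γ (certG2.sp k) = 1 from h3, zpow_one]
      · rw [show certG2.A γ (certG2.sp k) = 0 from h4, zpow_zero, c3]
  generalize (S F).chi (m * ((S F).n γ 1)⁻¹) (certG2.sp i) = l at c4
  rw [Sys.h, (S F).n_neg, mul_left_inj] at c4
  obtain ⟨t, -, e⟩ := (S F).exists_nf (T := {s | 1 ≤ (LinearMap.proj i : (Nd chevG2 → ℤ) →ₗ[ℤ] ℤ) (certG2.rc s)})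
    (Cert.closed_ge _ zero_le_one) (Cert.nil_of_fun (LinearMap.proj i) fun _ h => h) h7 h6
    ((S F).U_mono (fun s hs => by
      have h9 : certG2.rc s i ≠ 0 := fun e => hs.2.2 fun k hk => by
        rcases h1 k with rfl | rfl
        exacts [e, absurd rfl hk]
      have := hs.1 i
      change 1 ≤ certG2.rc s i
      omega) hm.vU)
  refine ⟨l, t r, t (rt 8), t (rt 9), t (rt 10), t (rt 11), fun s => ?_⟩
  rw [wd_append, wd_nW, c4, e]
  simp [wd, uW, evM, Sys.nf]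

theorem cases {a : chevG2.group F} (ha : a ≠ 1) :
    (∃ m v, (S F).Over m (certG2.w0 Set.univ) ∧ v ∈ (S F).Up ∧ Cj ⊤ a (m * v)) ∨
    (∃ (l : Fˣ) (t1 t2 t3 t4 t5 : F), ∀ s : F, Cj ⊤ a (wd (S F) [l, (l⁻¹ : Fˣ), t1, t2, t3, t4, t5, s] Wa)) ∨
    ∃ (l : Fˣ) (t1 t2 t3 t4 t5 : F), ∀ s : F, Cj ⊤ a (wd (S F) [l, (l⁻¹ : Fˣ), t1, t2, t3, t4, t5, s] Wb) := by
  have hK := ok_one (S := S F) (certG2.sys_φ_inj F)
  obtain ⟨g, -, -, J, m, v, hm, e⟩ := exists_max hK.bn (Stb.stable_univ _) (Subgroup.mem_top a) (mem_L_univ a)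
  have hc : Cj ⊤ a (m * v) := e ▸ Cj.of (Subgroup.mem_top g) a
  have hJ : ∀ J' : Set (Nd chevG2), (nd 0 ∈ J ↔ nd 0 ∈ J') → (nd 1 ∈ J ↔ nd 1 ∈ J') → J = J' := fun J' h0 h1 =>
    Set.ext fun k => by rcases datA.1 k with rfl | rfl <;> assumption
  by_cases h0 : nd 0 ∈ J <;> by_cases h1 : nd 1 ∈ J
  · obtain rfl := hJ Set.univ (by simp [h0]) (by simp [h1])
    exact absurd (hm.eq_one hK) (hc.ne_one ha)
  · obtain rfl := hJ {nd 0} (by simp [h0]) (by simp [h1, datA.2.1.symm])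
    obtain ⟨l, t1, t2, t3, t4, t5, h⟩ := form datB hm
    exact Or.inr (Or.inr ⟨l, t1, t2, t3, t4, t5, fun s => h s ▸ hc⟩)
  · obtain rfl := hJ {nd 1} (by simp [h0, datA.2.1]) (by simp [h1])
    obtain ⟨l, t1, t2, t3, t4, t5, h⟩ := form datA hm
    exact Or.inr (Or.inl ⟨l, t1, t2, t3, t4, t5, fun s => h s ▸ hc⟩)
  · obtain rfl := hJ ∅ (by simp [h0]) (by simp [h1])
    have := hm.ov
    rw [← Cert.eq_w0 (J := ∅) (one_mem _) fun j hj => hj.elim, mul_one] at this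
    exact Or.inl ⟨m, v, this, hm.vUp, hc⟩

/-- long-domestic elements -/
abbrev LD (a : chevG2.group F) : Prop := Dm (ad (S F)) ⊤ a (eR F certG2.top)

theorem ld_ent {a x : chevG2.group F} (h : LD a) (hx : Cj ⊤ a x) (γ : Rt chevG2) (hγ : lenG2 γ = 3) :
    (ad (S F)).ρ x (.inr γ.rev) (.inr γ) = 0 := by
  have hl : certG2.len γ = certG2.len certG2.top := by rw [certG2_len, hγ]; rfl
  obtain ⟨w, hw, rfl⟩ := certG2.exists_conj_of_len hl.symm
  obtain ⟨n, hn⟩ := (S F).exists_over hw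
  by_contra h1
  refine B_ne_conj hn (x := x) (r := certG2.top) ?_ (h _ (hx.conj' trivial))
  rwa [B_eR, mu_long _ hl, Int.cast_one, one_mul]

variable [Finite F]

/-- short-domestic elements -/
abbrev SD (a : chevG2.group F) : Prop := Dm (mdG2 F) ⊤ a (Pi.single (ixG2 (rt 9)) 1)

theorem sd_ent {a x : chevG2.group F} (h : SD a) (hx : Cj ⊤ a x) (γ : Rt chevG2) (hγ : lenG2 γ = 1) :
    (mdG2 F).ρ x (ixG2 γ.rev) (ixG2 γ) = 0 := by
  have hl := len_oneG2.2 hγ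
  have h9 : certG2.len (rt 9) = 1 := rfl
  obtain ⟨w, hw, rfl⟩ := certG2.exists_conj_of_len (h9.trans hl.symm)
  obtain ⟨n, hn⟩ := (S F).exists_over hw
  obtain ⟨c, hc⟩ := mdG2_over hn h9
  have h1 := h _ (hx.conj' (g := n) trivial)
  rw [Md.B_conj, hc, Md.B, mulVec_smul, Md.κ_smul_left, Md.κ_smul_right, ← Md.B,
    (mdG2 F).B_single (mdG2_Ω_ix hl)] at h1
  have h2 : (epsG2 (w (rt 9)) : F) ≠ 0 := left_ne_zero_of_mul_eq_one (vG2.eps_sq F (w (rt 9)))
  simpa [h2] using h1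

theorem top_sd {a b c : chevG2.group F} (H : HK ⊤ a b c) {s : F} (h0 : s ≠ 0) (h1 : s ≠ 1) : SD a ∨ SD b := by
  refine or_iff_not_imp_left.2 fun h y hy => ?_
  obtain ⟨x, h⟩ := not_forall.1 h
  obtain ⟨hx, h⟩ := Classical.not_imp.1 h
  have h9 : certG2.len (rt 9) = 1 := rfl
  have := (mdG2 F).rel H hx hy (n := 1) (p := fun _ => ixG2 (rt 9)) (m := fun _ => ixG2 (rt 9).rev)
    (e := (epsG2 (rt 9) : F)) (vG2.eps_sq F (rt 9)) (fun _ => mdG2_Ω_ix h9)
    (fun _ => mdG2_Ω_ix (s := (rt 9).rev) rfl) (f := LinearMap.proj (nd 0)) (k := 2)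
    ⟨Function.injective_of_subsingleton _, Function.injective_of_subsingleton _, fun _ => ⟨rfl, rfl⟩, fun a =>
      ⟨(wt7 a).1.imp_right fun e => ⟨0, e⟩, (wt7 a).2.imp_right fun e => ⟨0, e⟩⟩⟩
    (o := (rt 8, true)) (os := [(rt 10, true)]) (by
      simp only [List.forall_mem_cons]
      exact ⟨(mdG2 F).av_sq (by decide) h0 one_ne_zero h1 trivial trivial,
        (mdG2 F).av_sq (by decide) h0 one_ne_zero h1 trivial trivial, by simp⟩)
    rfl Int.cast_zero (R := fun _ _ => [(ixG2 (rt 9), ixG2 (rt 9), 1)]) fun _ _ => top7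
  simpa [Md.evB, h] using this

omit [Finite F] in
theorem top_ld {a b c : chevG2.group F} (H : HK ⊤ a b c) {s : F} (h0 : s ≠ 0) (h1 : s ≠ 1) : LD a ∨ LD b :=
  have t : ∀ r, Two (S F) ⊤ r := fun _ => ⟨s, 1, h0, one_ne_zero, h1, trivial, trivial⟩
  top_ad H (α := rt 10) (β := rt 6) rfl rfl (t _) (t _) (t _) (Or.inl rfl) top14

omit [Finite F] in
theorem ld_form {a : chevG2.group F} (ha : a ≠ 1) (h : LD a) {s : F} (h0 : s ≠ 0) (h1 : s ≠ 1) :
    ∃ l : Fˣ, ∀ Z : List F, Cj ⊤ a (wd (S F) (l :: (l⁻¹ : Fˣ) :: Z) Xa) ∧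
      Cj ⊤ a (wd (S F) [l, (l⁻¹ : Fˣ), 0, 0, l, 0, 0, 0] Wa) := by
  rcases cases ha with ⟨m, v, hm, hv, hc⟩ | ⟨l, t1, t2, t3, t4, t5, hc⟩ | ⟨l, t1, t2, t3, t4, t5, hc⟩
  · exact absurd (h _ hc) (B_ne_zero hm hv rfl (by rw [w0G2, Fin.rev_rev]))
  · have e1 := (ld_ent h (cj_wd (hc 0) _) _ rfl).symm.trans (ent (ad (S F)) l.mul_inv Int.cast_zero a1)
    have e2 := (ld_ent h (cj_wd (hc 0) _) _ rfl).symm.trans (ent (ad (S F)) l.mul_inv Int.cast_zero a2)
    simp only [evP, evM, List.map_cons, List.map_nil, List.sum_cons, List.sum_nil] at e1 e2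
    obtain rfl : t2 = 0 := pow_eq_zero_iff (n := 3) (by norm_num) |>.1 (by simpa using e1.symm)
    obtain rfl : t1 = 0 := pow_eq_zero_iff (n := 3) (by norm_num) |>.1 (by simpa using e2.symm)
    have hy : ∀ s : F, Cj ⊤ a (wd (S F) [l, (l⁻¹ : Fˣ), 0, 0, t3, t4, t5, s] Ya) := fun s => by
      have := hc s
      rw [Wa, wd_append] at this
      rw [Ya, wd_append]
      simpa [wd, uW, evM, Sys.x_zero] using this
    have e3 := fun s => (ld_ent h (cj_wd (hy s) _) _ rfl).symm.trans (ent (ad (S F)) l.mul_inv Int.cast_zero a3)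
    have e4 := fun s => (ld_ent h (cj_wd (hy s) _) _ rfl).symm.trans (ent (ad (S F)) l.mul_inv Int.cast_zero a4)
    have e5 := (ld_ent h (cj_wd (hy 0) _) _ rfl).symm.trans (ent (ad (S F)) l.mul_inv Int.cast_zero a5)
    simp only [evP, evM, List.map_cons, List.map_nil, List.sum_cons, List.sum_nil] at e3 e4 e5
    push_cast at e3 e4 e5
    have k : s ^ 2 * (s - 1) ≠ 0 := mul_ne_zero (pow_ne_zero _ h0) (sub_ne_zero.2 h1)
    obtain rfl : t4 = 0 := (mul_eq_zero.1 (show s ^ 2 * (s - 1) * t4 = 0 by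
      linear_combination s ^ 2 * e3 1 - e3 s)).resolve_left k
    obtain rfl : t5 = 0 := (mul_eq_zero.1 (show s ^ 2 * (s - 1) * t5 = 0 by
      linear_combination e4 s - s ^ 2 * e4 1)).resolve_left k
    have hl := l.mul_inv
    push_cast at hl
    obtain rfl : t3 = l := sub_eq_zero.1 (pow_eq_zero_iff (n := 3) (by norm_num) |>.1 (by
      linear_combination t3 * e3 1 - (l : F) ^ 3 * e5 -
        t3 ^ 3 * ((l * (l : F)⁻¹) ^ 2 + l * (l : F)⁻¹ + 1) * hl))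
    refine ⟨l, fun Z => ⟨?_, hc 0⟩⟩
    have := hy 0
    rw [Ya, wd_append, wd_nW] at this
    rw [Xa, wd_append, wd_nW]
    simpa [wd, uW, evM, evM_nil, Sys.x_zero] using this
  · have e1 := (ld_ent h (hc 0) _ rfl).symm.trans (ent (ad (S F)) l.mul_inv Int.cast_zero b6)
    simp [evP, evM] at e1

theorem not_sd {a : chevG2.group F} {l : Fˣ} {Z : List F} (hc : Cj ⊤ a (wd (S F) (l :: (l⁻¹ : Fˣ) :: Z) Wa)) :
    ¬ SD a := fun h => by
  have e1 := (sd_ent h hc _ rfl).symm.trans (ent (mdG2 F) l.mul_inv Int.cast_zero a6)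
  simp [evP, evM, evM_nil, eq_comm (a := (0 : F))] at e1

theorem sd_form {b : chevG2.group F} (hb : b ≠ 1) (h : SD b) :
    ∃ t : F, t ≠ 0 ∧ Cj ⊤ b ((S F).x (rt 5) t) ∧ Cj ⊤ b ((S F).x (rt 11) t) := by
  rcases cases hb with ⟨m, v, hm, hv, hc⟩ | ⟨l, t1, t2, t3, t4, t5, hc⟩ | ⟨l, t1, t2, t3, t4, t5, hc⟩
  · exfalso
    have h1 := sd_ent h hc (rt 9) rfl
    have h2 : (mdG2 F).B (m * v) (Pi.single (ixG2 (rt 9)) 1) (Pi.single (ixG2 (rt 9)) 1) = 0 := by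
      rw [(mdG2 F).B_single (mdG2_Ω_ix (s := rt 9) rfl), h1, mul_zero]
    obtain ⟨d, e'⟩ := mdG2_over hm.inv (s := rt 9) rfl
    rw [Cert.w0_inv, w0G2] at e'
    rw [Md.B, map_mul, ← mulVec_mulVec, ← inv_inv m, ← Md.κ_ρ, e', Md.κ_smul_left, ← Md.B,
      (mdG2 F).B_single (mdG2_Ω_ix (s := (rt 9).rev) rfl), Fin.rev_rev, (mdG2 F).diag_Up hv] at h2
    rw [mul_one, Units.mul_right_eq_zero] at h2
    exact left_ne_zero_of_mul_eq_one (vG2.eps_sq F (rt 9).rev) h2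
  · exact absurd h (not_sd (hc 0))
  · have e1 := (sd_ent h (cj_wd (hc 0) _) _ rfl).symm.trans (ent (mdG2 F) l.mul_inv Int.cast_zero b1)
    have e2 := (sd_ent h (cj_wd (hc 0) _) _ rfl).symm.trans (ent (mdG2 F) l.mul_inv Int.cast_zero b2)
    have e3 := (sd_ent h (cj_wd (hc 0) _) _ rfl).symm.trans (ent (mdG2 F) l.mul_inv Int.cast_zero b3)
    have e4 := (sd_ent h (cj_wd (hc 0) _) _ rfl).symm.trans (ent (mdG2 F) l.mul_inv Int.cast_zero b4)
    have e5 := (sd_ent h (cj_wd (hc 0) _) _ rfl).symm.trans (ent (mdG2 F) l.mul_inv Int.cast_zero b5)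
    simp only [evP, evM, List.map_cons, List.map_nil, List.sum_cons, List.sum_nil] at e1 e2 e3 e4 e5
    obtain rfl : t2 = 0 := by simpa using e1.symm
    obtain rfl : t1 = 0 := by simpa using e2.symm
    obtain rfl : t4 = 0 := by simpa using e3.symm
    obtain rfl : t3 = 0 := by simpa using e4.symm
    have hl := l.mul_inv
    push_cast at e5 hl
    obtain rfl : t5 = -2 * l := by linear_combination (l : F) * e5 - t5 * hl
    have hx : Cj ⊤ b (wd (S F) [l, (l⁻¹ : Fˣ)] Xb) := by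
      have := hc 0
      rw [Wb, wd_append, wd_nW] at this
      rw [Xb, wd_append, wd_nW]
      simpa [wd, uW, evM, evM_nil, Sys.x_zero] using this
    have k1 := eq_wd (ad (S F)) (Z := []) l.mul_inv Int.cast_zero (certG2.sys_φ_inj F) b7 ▸ cj_wd hx _
    have k2 := eq_wd (ad (S F)) (Z := []) l.mul_inv Int.cast_zero (certG2.sys_φ_inj F) b8 ▸ cj_wd hx _
    exact ⟨(l⁻¹ : Fˣ), Units.ne_zero _, by simpa [wd, evM] using k1, by simpa [wd, evM] using k2⟩

theorem main {p : ℕ} [hp : Fact p.Prime] [CharP F p] {a b c : chevG2.group F} (H : HK ⊤ a b c) (ha : a ≠ 1)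
    (hb : b ≠ 1) {s : F} (h0 : s ≠ 0) (h1 : s ≠ 1) (hl : LD a) (hs : SD b) : Mixed p c ∧ p ∣ orderOf b := by
  obtain ⟨l, hx⟩ := ld_form ha hl h0 h1
  obtain ⟨t, ht, h5, h11⟩ := sd_form hb hs
  have hx := (hx [t]).1
  have y1 : (S F).x (rt 5) t ≠ 1 := h5.ne_one hb
  have y2 : (S F).x (rt 5) t ^ p = 1 := by rw [Sys.x_pow, CharP.cast_eq_zero, zero_mul, Sys.x_zero]
  have x3 : wd (S F) [l, (l⁻¹ : Fˣ), t] Xa ^ 3 = 1 := by
    have := eq_wd (ad (S F)) (Z := [t]) l.mul_inv Int.cast_zero (certG2.sys_φ_inj F) e1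
    rwa [wd_append, wd_append, ← pow_three] at this
  have w5 : ∀ r, wd (S F) [l, (l⁻¹ : Fˣ), t] [(r, 1, [0, 0, 1])] = (S F).x r t := fun r => by simp [wd, evM]
  have cm : Commute (wd (S F) [l, (l⁻¹ : Fˣ), t] Xa) ((S F).x (rt 5) t) := by
    have := eq_wd (ad (S F)) (Z := [t]) l.mul_inv Int.cast_zero (certG2.sys_φ_inj F) e2
    rwa [wd_append, wd_append, w5] at this
  refine ⟨H.mixed hx h5 ?_, by rw [h5.ord, orderOf_eq_prime y2 y1]⟩
  by_cases h3 : p = 3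
  · subst h3
    have c3 : c ^ 3 = 1 := (H _ _ hx h5).symm.pow_eq_one (by rw [cm.mul_pow, x3, y2, one_mul])
    have k := ent (mdG2 F) (Z := [t]) l.mul_inv (q := 3) (by exact_mod_cast CharP.cast_eq_zero F 3) e3
    rw [wd_append, wd_append (W := Xa ++ _), ← pow_three, wd_append, w5, (H _ _ hx h11).pow_eq_one c3, map_one] at k
    simp [evP, evM, ht] at k
  · rw [cm.eq]
    exact mixed_of_commute cm.symm y1 (hx.ne_one ha) (k := 1) (by rwa [pow_one]) x3 fun h =>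
      h3 ((Nat.prime_dvd_prime_iff_eq hp.out Nat.prime_three).1 h)

end Cfsg.Agent.AH.G2

namespace Cfsg.Agent.AH

open Cfsg.Lie G2

theorem mix_G2 {F : Type*} [Field F] [Finite F] {p : ℕ} [Fact p.Prime] [CharP F p] (h : 3 ≤ Nat.card F) :
    Mix p (chevG2.group F) := by
  obtain ⟨s, h0, h1⟩ : ∃ s : F, s ≠ 0 ∧ s ≠ 1 := by
    classical
    letI := Fintype.ofFinite F
    exact RGD.exists_ne_zero_one (F := Finset.univ) (by rw [Finset.card_univ, ← Nat.card_eq_fintype_card]; omega)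
  refine MixK.top fun a _ b _ c _ ha hb _ H => ?_
  have ex : ∀ x : chevG2.group F, x ≠ 1 → LD x → ¬ SD x := fun x hx hl => by
    obtain ⟨l, h⟩ := ld_form hx hl h0 h1
    exact not_sd (h []).2
  rcases top_ld H h0 h1 with hl | hl
  · exact (main H ha hb h0 h1 hl ((top_sd H h0 h1).resolve_left (ex a ha hl))).imp_right Or.inr
  · exact (main (H.symm trivial) hb ha h0 h1 hl ((top_sd H h0 h1).resolve_right (ex b hb hl))).imp_right Or.inl

end Cfsg.Agent.AH
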