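import Cfsg.Agent.AH.PSL
import Cfsg.Agent.Polar.OGeo
import Cfsg.Agent.Polar.Std

/-!
Products of two conjugacy classes: polar geometry and the calculus of rank-one maps.
-/

set_option autoImplicit false

namespace Cfsg.Agent.AH.Cls

open Module Cfsg.Agent.Polar Cfsg.Agent.Polar.PQ

variable {F : Type*} [Field F] {τ : F →+* F} {π : FP F τ} {V : Type*} [AddCommGroup V] [Module F V]
variable {P : PQ π V}

/-- the natural representation -/
def rho : P.EG →* End F V where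
  toFun g := ((g : P.Iso) : V ≃ₗ[F] V)
  map_one' := rfl
  map_mul' _ _ := rfl

theorem rho_apply (g : P.EG) (v : V) : rho g v = (g : P.Iso) • v := rfl

theorem rho_inj : Function.Injective (rho : P.EG → End F V) := fun _ _ h =>
  Subtype.ext (iso_ext fun v => LinearMap.congr_fun h v)

@[simp] theorem B_rho (g : P.EG) (u v : V) : P.B (rho g u) (rho g v) = P.B u v := B_smul_smul _ _ _

theorem B_rho_left (g : P.EG) (u v : V) : P.B (rho g u) v = P.B u (rho g⁻¹ v) := B_act_left _ _ _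

theorem B_rho_right (g : P.EG) (u v : V) : P.B u (rho g v) = P.B (rho g⁻¹ u) v := B_act_right _ _ _

theorem sing_rho (g : P.EG) {u : V} (h : P.Sing u) : P.Sing (rho g u) := h.act _

@[simp] theorem rho_inv_rho (g : P.EG) (u : V) : rho g⁻¹ (rho g u) = u := by
  rw [← End.mul_apply, ← map_mul, inv_mul_cancel, map_one]; rfl

@[simp] theorem rho_rho_inv (g : P.EG) (u : V) : rho g (rho g⁻¹ u) = u := by
  rw [← End.mul_apply, ← map_mul, mul_inv_cancel, map_one]; rfl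

theorem rho_mul_inv (g : P.EG) : rho g * rho g⁻¹ = 1 := by rw [← map_mul, mul_inv_cancel, map_one]

theorem rho_inv_mul (g : P.EG) : rho g⁻¹ * rho g = 1 := by rw [← map_mul, inv_mul_cancel, map_one]

theorem rho_ne_zero (g : P.EG) {u : V} (h : u ≠ 0) : rho g u ≠ 0 := act_ne_zero _ h

theorem rho_conj (k y : P.EG) (u : V) : rho (k * y * k⁻¹) (rho k u) = rho k (rho y u) := by
  rw [map_mul, map_mul, End.mul_apply, End.mul_apply, rho_inv_rho]

theorem det_rho [FiniteDimensional F V] (g : P.EG) : LinearMap.det (rho g) = 1 :=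
  ((P.coe_det g).symm.trans (by rw [EG_le_ker_det g.2]; rfl))

variable (P) in
/-- the rank-one map `v ↦ B(v, b) a` -/
def rr (a b : V) : End F V := (P.B.flip b).smulRight a

theorem rr_apply (a b v : V) : rr P a b v = P.B v b • a := rfl

theorem mul_rr (z : End F V) (a b : V) : z * rr P a b = rr P (z a) b := by ext v; simp [rr_apply]

theorem rr_mul_rr (a b c d : V) : rr P a b * rr P c d = P.B c b • rr P a d := by
  ext v; simp [rr_apply, smul_smul, mul_comm]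

theorem rr_mul_rho (a b : V) (g : P.EG) : rr P a b * rho g = rr P a (rho g⁻¹ b) := by
  ext v; simp [rr_apply, B_rho_left]

theorem rr_add_left (a a' b : V) : rr P (a + a') b = rr P a b + rr P a' b := by ext v; simp [rr_apply]

theorem rr_add_right (a b b' : V) : rr P a (b + b') = rr P a b + rr P a b' := by ext v; simp [rr_apply, add_smul]

theorem rr_smul_left (t : F) (a b : V) : rr P (t • a) b = t • rr P a b := by
  ext v; simp [rr_apply, smul_smul, mul_comm]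

theorem rr_smul_right (t : F) (a b : V) : rr P a (t • b) = τ t • rr P a b := by
  ext v; simp [rr_apply, smul_smul]

theorem conj_rr (g : P.EG) (a b : V) : rho g * rr P a b * rho g⁻¹ = rr P (rho g a) (rho g b) := by
  rw [mul_rr, rr_mul_rho, inv_inv]

/-- an Eichler transformation as an element of `EG` -/
noncomputable def eg (e w : V) (c : F) : P.EG := ⟨P.eich e w c, eich_mem_EG _ _ _⟩

theorem rho_eg_apply {e w : V} {c : F} (h : P.EOk e w c) (x : V) :
    rho (eg e w c : P.EG) x = x + P.B x e • w - (π.ε * (P.B x w + c * P.B x e)) • e := h.eich_smul x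

theorem rho_eg {e w : V} {c : F} (h : P.EOk e w c) :
    rho (eg e w c : P.EG) = 1 + (rr P w e - π.ε • rr P e w - (π.ε * c) • rr P e e) := by
  ext x
  rw [rho_eg_apply h]
  simp only [LinearMap.add_apply, LinearMap.sub_apply, LinearMap.smul_apply, rr_apply, End.one_apply]
  module

theorem eg_inv {e w : V} {c : F} (h : P.EOk e w c) : (eg e w c : P.EG)⁻¹ = eg e (-w) (π.ε * τ c) :=
  Subtype.ext h.eich_inv

theorem rho_inv_eq {g : P.EG} {A : End F V} (h : rho g * A = 1) : rho g⁻¹ = A := by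
  rw [← mul_one (rho g⁻¹), ← h, ← mul_assoc, rho_inv_mul, one_mul]

theorem rho_conj_MM {g : P.EG} {N : End F V} (h : rho g = 1 + N) (hN : N * N = 0) (x y : P.EG) :
    rho x * rho (g * y * g⁻¹) = MM (rho x) (rho y) N := by
  have : rho g⁻¹ = 1 - N := rho_inv_eq (by
    rw [h]
    calc (1 + N) * (1 - N) = 1 - N * N := by noncomm_ring
      _ = 1 := by rw [hN, sub_zero])
  rw [map_mul, map_mul, this, h, MM]

section FD

variable [FiniteDimensional F V]

theorem tr_rr (a b : V) : tr (rr P a b) = P.B a b := LinearMap.trace_smulRight _ _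

theorem e2_rr (a b : V) : e2 (rr P a b) = 0 := e2_rk1 _ _

theorem b2_rr (a b c d : V) : b2 (rr P a b) (rr P c d) = P.B a b * P.B c d - P.B c b * P.B a d := by
  rw [b2, rr_mul_rr, map_smul, tr_rr, tr_rr, tr_rr, smul_eq_mul]

theorem b2_rr_right (A : End F V) (a b : V) : b2 A (rr P a b) = tr A * P.B a b - P.B (A a) b := by
  rw [b2, mul_rr, tr_rr, tr_rr]

end FD

variable (P) in
/-- the basic geometric hypotheses -/
structure Geo0 : Prop where
  nd : P.ND
  rich : P.Rich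
  hyp : ∃ e f, P.Hyp e f
  vt : P.VTrans

/-- `EG` as a linear group -/
def Geo0.lr (G : Geo0 P) : LR P.EG F V where
  ρ := rho
  inj := rho_inj
  cen z hz := by
    obtain ⟨e, f, h⟩ := G.hyp
    exact sc_iff.2 (exists_scalar_of_commute G.nd G.rich h fun g hg =>
      congrArg Subtype.val (Subgroup.mem_center_iff.1 hz ⟨g, hg⟩).symm)

theorem Geo0.pr_eq_one (G : Geo0 P) {x : P.EG} : pr x = 1 ↔ Sc (rho x) := G.lr.pr_eq_one

theorem Geo0.pr_pow_eq_one (G : Geo0 P) {x : P.EG} {n : ℕ} : pr x ^ n = 1 ↔ Sc (rho x ^ n) := G.lr.pr_pow_eq_one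

theorem Geo0.norm_one (G : Geo0 P) {z : P.EG} {t : F} (h : rho z = t • (1 : End F V)) : t * τ t = 1 := by
  obtain ⟨e, f, hef⟩ := G.hyp
  have := B_rho z e f
  rwa [h, LinearMap.smul_apply, LinearMap.smul_apply, B_smul_left, B_smul_right, End.one_apply, End.one_apply,
    hef.pair, mul_one] at this

theorem pow_one_of_sc [FiniteDimensional F V] {z : P.EG} {t : F} (h : rho z = t • (1 : End F V)) :
    t ^ finrank F V = 1 := by
  have := det_rho z
  rwa [h, LinearMap.det_smul, map_one, mul_one] at this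

theorem Geo0.inv [FiniteDimensional F V] (G : Geo0 P) {x y x' y' : P.EG} {c : P.EG ⧸ Subgroup.center P.EG}
    (H : Hyp (pr x) (pr y) c) (hx : IsConj x x') (hy : IsConj y y') :
    ∃ t : F, t * τ t = 1 ∧ t ^ finrank F V = 1 ∧ tr (rho x' * rho y') = t * tr (rho x * rho y) ∧
      e2 (rho x' * rho y') = t ^ 2 * e2 (rho x * rho y) := by
  obtain ⟨z, k, t, hz, h⟩ := G.lr.rel H hx hy
  change rho x' * rho y' = t • (rho k * (rho x * rho y) * rho k⁻¹) at h
  refine ⟨t, G.norm_one hz, pow_one_of_sc hz, ?_, ?_⟩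
  · rw [h, map_smul, tr_conj (rho_inv_mul k), smul_eq_mul]
  · rw [h, e2_smul, e2_conj (rho_inv_mul k)]

theorem Geo0.exists_rho (G : Geo0 P) {a b : V} (ha : P.Sing a) (hb : P.Sing b) (ha0 : a ≠ 0) (hb0 : b ≠ 0) :
    ∃ g : P.EG, rho g a = b := by
  obtain ⟨g, hg, h⟩ := G.vt a b ha hb ha0 hb0
  exact ⟨⟨g, hg⟩, h⟩

theorem isConj_mk {G : Type*} [Group G] (k y : G) : IsConj y (k * y * k⁻¹) := isConj_iff.2 ⟨k, rfl⟩

theorem Geo0.conj_vec (G : Geo0 P) {a b : V} (ha : P.Sing a) (hb : P.Sing b) (ha0 : a ≠ 0) (hb0 : b ≠ 0) (y : P.EG) :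
    ∃ y', IsConj y y' ∧ P.B (rho y' a) a = P.B (rho y b) b := by
  obtain ⟨g, rfl⟩ := G.exists_rho hb ha hb0 ha0
  exact ⟨_, isConj_mk g y, by rw [rho_conj, B_rho]⟩

/-! ### Scalars -/

theorem sc_of_eigen_aux {V' : Type*} [AddCommGroup V'] [Module F V'] {P' : PQ π V'} {e f : V'} (hef : P'.Hyp e f)
    (hc : (∃ c ∈ π.Λ, c ≠ 0) ∨ ∀ a b, ∃ z, z ≠ 0 ∧ P'.Sing z ∧ P'.B z a = 0 ∧ P'.B z b = 0)
    (i z : V' →ₗ[F] V) (hi : Function.Injective i) (h : ∀ a, P'.Sing a → z a ∈ F ∙ i a) :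
    ∃ t : F, ∀ a, z a = t • i a := by
  have k1 : ∀ a b (s t c : F), a ≠ 0 → b ≠ 0 → z a = s • i a → z b = t • i b → c ≠ 0 → P'.Sing (a + c • b) → s = t := by
    intro a b s t c ha hb hs ht hc hab
    have hia : i a ≠ 0 := fun h => ha (hi (by rw [h, map_zero]))
    have hib : i b ≠ 0 := fun h => hb (hi (by rw [h, map_zero]))
    by_cases hd : i b ∈ F ∙ i a
    · obtain ⟨k, hk⟩ := Submodule.mem_span_singleton.1 hd
      have hk' : b = k • a := hi (by rw [map_smul, hk])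
      have : z b = s • i b := by rw [hk', map_smul, hs, map_smul, smul_comm]
      exact smul_left_injective F hib (this.symm.trans ht)
    · obtain ⟨r, hr⟩ := Submodule.mem_span_singleton.1 (h _ hab)
      obtain ⟨φ, e1, e2⟩ := exists_dual₂ hia hd 1 0
      obtain ⟨ψ, e3, e4⟩ := exists_dual₂ hia hd 0 1
      have h1 := congrArg φ hr
      have h2 := congrArg ψ hr
      simp [hs, ht, e1, e2, e3, e4] at h1 h2
      exact h1.symm.trans (mul_left_cancel₀ hc (by linear_combination h2))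
  have k2 : ∀ a b (s t : F), P'.Sing a → P'.Sing b → a ≠ 0 → b ≠ 0 → z a = s • i a → z b = t • i b → s = t := by
    intro a b s t sa sb ha hb hs ht
    have k3 : ∀ a b (s t : F), P'.Sing a → P'.Sing b → a ≠ 0 → b ≠ 0 → z a = s • i a → z b = t • i b →
        P'.B a b = 0 → s = t := fun a b s t sa sb ha hb hs ht h0 =>
      k1 a b s t 1 ha hb hs ht one_ne_zero (by rw [one_smul]; exact sa.add sb h0)
    by_cases h0 : P'.B a b = 0
    · exact k3 a b s t sa sb ha hb hs ht h0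
    rcases hc with ⟨c, hc, hc0⟩ | hc
    · refine k1 a b s t (τ (c / P'.B a b)) ha hb hs ht ((map_ne_zero τ).2 (div_ne_zero hc0 h0)) ?_
      refine (sing_iff_of_QEq (QEq.add_sing sa sb _)).2 ?_
      rwa [π.tau_tau, zero_add, div_mul_cancel₀ _ h0]
    · obtain ⟨w, hw0, hw, h1, h2⟩ := hc a b
      obtain ⟨r, hr⟩ := Submodule.mem_span_singleton.1 (h w hw)
      exact (k3 w a r s hw sa hw0 ha hr.symm hs h1).symm.trans (k3 w b r t hw sb hw0 hb hr.symm ht h2)
  obtain ⟨t, ht⟩ := Submodule.mem_span_singleton.1 (h e hef.left)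
  refine ⟨t, fun a => ?_⟩
  have := hef.mem_of_sing (S := (LinearMap.ker (z - t • i)).toAddSubgroup) (W := ⊤) trivial trivial
    (fun b _ hb => by
      by_cases hb0 : b = 0
      · rw [hb0]; exact zero_mem _
      obtain ⟨s, hs⟩ := Submodule.mem_span_singleton.1 (h b hb)
      have := k2 e b t s hef.left hb hef.left_ne_zero hb0 ht.symm hs.symm
      simp [← hs, this]) (x := a) trivial
  simpa [sub_eq_zero] using this

variable (P) in
/-- an independent totally singular pair -/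
structure TS (u v : V) : Prop where
  su : P.Sing u
  sv : P.Sing v
  vu : P.B v u = 0
  u0 : u ≠ 0
  li : v ∉ F ∙ u

theorem TS.uv {u v : V} (h : TS P u v) : P.B u v = 0 := B_swap_zero h.vu

theorem TS.v0 {u v : V} (h : TS P u v) : v ≠ 0 := fun h0 => h.li (h0 ▸ zero_mem _)

theorem TS.symm {u v : V} (h : TS P u v) : TS P v u :=
  ⟨h.sv, h.su, h.uv, h.v0, fun h1 => by
    obtain ⟨a, ha⟩ := Submodule.mem_span_singleton.1 h1
    have h0 : a ≠ 0 := by rintro rfl; exact h.u0 (by rw [← ha, zero_smul])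
    exact h.li (Submodule.mem_span_singleton.2 ⟨a⁻¹, by rw [← ha, smul_smul, inv_mul_cancel₀ h0, one_smul]⟩)⟩

theorem TS.add {u v : V} (h : TS P u v) (s : F) : TS P u (v + s • u) :=
  ⟨h.su, h.sv.add (h.su.smul s) (by simp [h.vu]), by simp [h.vu, h.su.B_self], h.u0, fun h1 => h.li (by
    rwa [Submodule.add_mem_iff_left _ (Submodule.smul_mem _ _ (Submodule.mem_span_singleton_self u))] at h1)⟩

variable (P) in
/-- the geometric hypotheses in Witt index at least two -/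
structure Geo : Prop extends Geo0 P where
  vt2 : ∀ e f, P.Hyp e f → (P.res (P.perp {e, f})).VTrans
  idx : ∀ a b : V, ∃ z, z ≠ 0 ∧ P.Sing z ∧ P.B z a = 0 ∧ P.B z b = 0
  rich2 : ∀ e f, P.Hyp e f → (P.res (P.perp {e, f})).Rich
  conn2 : (∃ c ∈ π.Λ, c ≠ 0) ∨
    ∀ a b c d : V, ∃ z, z ≠ 0 ∧ P.Sing z ∧ P.B z a = 0 ∧ P.B z b = 0 ∧ P.B z c = 0 ∧ P.B z d = 0

theorem Geo.sc_of_eigen (G : Geo P) {z : End F V} (h : ∀ a, P.Sing a → z a ∈ F ∙ a) : Sc z := by
  obtain ⟨e, f, hef⟩ := G.hyp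
  exact sc_iff.2 (sc_of_eigen_aux hef (Or.inr G.idx) LinearMap.id z Function.injective_id h)

theorem Geo.exists_TS (G : Geo P) {u : V} (hu : P.Sing u) (h0 : u ≠ 0) : ∃ v, TS P u v := by
  obtain ⟨f, hf⟩ := G.nd.exists_hyp hu h0
  obtain ⟨z, hz0, hz, h1, h2⟩ := G.idx u f
  refine ⟨z, hu, hz, h1, h0, fun h3 => hz0 ?_⟩
  obtain ⟨a, rfl⟩ := Submodule.mem_span_singleton.1 h3
  rw [B_smul_left, hf.pair, mul_one] at h2
  rw [h2, zero_smul]

theorem Geo.mem_of_perp (G : Geo P) {a p : V} (ha : P.Sing a) (h0 : a ≠ 0)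
    (h : ∀ b, TS P a b → P.B p b = 0) : p ∈ F ∙ a := by
  obtain ⟨f, hf⟩ := G.nd.exists_hyp ha h0
  obtain ⟨v, hv⟩ := G.exists_TS ha h0
  have h1 : P.B p a = 0 := by simpa [h v hv] using h _ (hv.add 1)
  have hs : P.SingSpan := G.nd.singSpan fun e f _ => by
    obtain ⟨z, hz0, hz, h1, h2⟩ := G.idx e f
    exact Or.inr ⟨z, mem_perp_pair.2 ⟨h1, h2⟩, hz0, hz⟩
  refine Submodule.mem_span_singleton.2 ⟨_, (hf.eq_smul_of_perp G.nd h1 fun w hw => ?_).symm⟩
  refine hs a f hf (AddMonoidHom.ker (P.B p).toAddMonoidHom) (fun b hb hbs => ?_) w hw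
  by_cases hb0 : b = 0
  · rw [hb0]; exact zero_mem _
  refine h b ⟨ha, hbs, (mem_perp_pair.1 hb).1, h0, fun h3 => hb0 ?_⟩
  obtain ⟨c, rfl⟩ := Submodule.mem_span_singleton.1 h3
  have h2 := (mem_perp_pair.1 hb).2
  rw [B_smul_left, hf.pair, mul_one] at h2
  rw [h2, zero_smul]

theorem Geo.sc_of_TS (G : Geo P) {z : End F V} (h : ∀ a b, TS P a b → P.B (z a) b = 0) : Sc z :=
  G.sc_of_eigen fun a ha => by
    by_cases h0 : a = 0
    · simp [h0]
    · exact G.mem_of_perp ha h0 (h a)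

variable [FiniteDimensional F V]

theorem Geo.pair_trans (G : Geo P) {u v u' v' : V} (h : TS P u v) (h' : TS P u' v') :
    ∃ g : P.EG, rho g u = u' ∧ rho g v = v' := by
  obtain ⟨f, hf, hvf⟩ := G.nd.exists_hyp_perp h.su h.u0 h.li h.vu
  obtain ⟨f', hf', hvf'⟩ := G.nd.exists_hyp_perp h'.su h'.u0 h'.li h'.vu
  obtain ⟨g, hg, rfl, rfl⟩ := G.vt.exists_hyp hf hf'
  obtain ⟨k, hk, hkv⟩ := G.vt2 _ _ hf' ⟨g • v, mem_perp_pair.2 ⟨by simp [h.vu], by simp [hvf]⟩⟩
    ⟨v', mem_perp_pair.2 ⟨h'.vu, hvf'⟩⟩ (h.sv.act g) h'.sv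
    (fun h0 => act_ne_zero g h.v0 (congrArg Subtype.val h0)) (fun h0 => h'.v0 (congrArg Subtype.val h0))
  refine ⟨⟨hf'.emb.ext k * g, mul_mem (hf'.emb.ext_mem_EG hk) hg⟩, ?_, ?_⟩
  · rw [rho_apply, mul_smul, hf'.emb.ext_smul_ker _ hf'.emb_r_left]
  · have := hf'.emb.ext_smul_i k ⟨g • v, mem_perp_pair.2 ⟨by simp [h.vu], by simp [hvf]⟩⟩
    rw [hkv] at this
    rw [rho_apply, mul_smul]
    exact this

theorem Geo.conj_pair (G : Geo P) {u v u' v' : V} (h : TS P u v) (h' : TS P u' v') (y : P.EG) :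
    ∃ y', IsConj y y' ∧ P.B (rho y' u) u = P.B (rho y u') u' ∧ P.B (rho y' u) v = P.B (rho y u') v' ∧
      P.B (rho y' v) u = P.B (rho y v') u' ∧ P.B (rho y' v) v = P.B (rho y v') v' := by
  obtain ⟨g, rfl, rfl⟩ := G.pair_trans h' h
  exact ⟨_, isConj_mk g y, by simp only [rho_conj, B_rho, and_self]⟩

theorem exists_third (hP : P.ND)
    (h4 : ∀ a b c d : V, ∃ z, z ≠ 0 ∧ P.Sing z ∧ P.B z a = 0 ∧ P.B z b = 0 ∧ P.B z c = 0 ∧ P.B z d = 0)
    {a a' : V} (h : TS P a a') : ∃ b z, P.Sing b ∧ P.B b a = 0 ∧ P.B b a' = 0 ∧ P.B a z = 0 ∧ P.B a' z = 0 ∧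
      P.B b z = 1 := by
  obtain ⟨f, hf, h1⟩ := hP.exists_hyp_perp h.su h.u0 h.li h.vu
  obtain ⟨f', hf', h2⟩ := hP.exists_hyp_perp h.sv h.v0 h.symm.li h.uv
  obtain ⟨b, hb0, hb, e1, e2, e3, e4⟩ := h4 a a' f f'
  obtain ⟨φ, k1, k2, k3⟩ := exists_dual₃ (c := b) h.u0 h.li (fun h3 => hb0 (by
    obtain ⟨s, t, rfl⟩ := Submodule.mem_span_pair.1 h3
    simp [hf.pair, hf'.pair, h1, h2] at e3 e4
    simp [e3, e4])) 0 0 1
  obtain ⟨z, hz⟩ := hP.rep φ
  exact ⟨b, z, hb, e1, e2, by rw [hz, k1], by rw [hz, k2], by rw [hz, k3]⟩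

theorem exists_sing_ne₂ (hP : P.ND) (hr : P.Rich) {p p' : V} (hp : P.Sing p) (hp' : P.Sing p') (h0 : p ≠ 0)
    (h0' : p' ≠ 0) : ∃ b, P.Sing b ∧ P.B p b ≠ 0 ∧ P.B p' b ≠ 0 := by
  by_cases h1 : P.B p' p = 0
  · by_cases h2 : p' ∈ F ∙ p
    · obtain ⟨a, rfl⟩ := Submodule.mem_span_singleton.1 h2
      obtain ⟨f, hf⟩ := hP.exists_hyp hp h0
      exact ⟨f, hf.right, by simp [hf.pair], by simpa [hf.pair] using left_ne_zero_of_smul h0'⟩
    · obtain ⟨z, hz, e1, e2⟩ := hP.exists_sing_common hp h1 (li_of_notMem h0 h2) 1 1 one_ne_zero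
      exact ⟨z, hz, by simp [e1], by simp [e2]⟩
  · have h2 := hyp_of_ne hp' hp h1
    obtain ⟨w, hw, c, hc0, hc⟩ := hr _ _ h2
    have hw' := mem_perp_pair.1 hw
    have ht : τ (P.B p' p)⁻¹ ≠ 0 := (map_ne_zero τ).2 (inv_ne_zero h1)
    have h3 : P.B w p = 0 := by simpa [h1] using hw'.2
    refine ⟨_, (h2.QEq_combo hw hc (-c) 1).congr (by simp), ?_, ?_⟩
    · simp [B_swap_zero h3, hp.B_self, hc0, B_swap_ne h1]
    · simp [B_swap_zero hw'.1, hp'.B_self, h1]

end Cfsg.Agent.AH.Cls
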