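import Cfsg.Agent.AH.Dom

/-!
Products of two conjugacy classes: long root elements of unitary and orthogonal groups.
-/

set_option autoImplicit false

namespace Cfsg.Agent.AH.Cls

open Module Cfsg.Agent.Polar Cfsg.Agent.Polar.PQ

variable {F : Type*} [Field F] {τ : F →+* F} {π : FP F τ} {V : Type*} [AddCommGroup V] [Module F V]
variable {P : PQ π V}

theorem exists_shift {e z : V} (he : P.Sing e) (hz : P.B e z = 0) (s : F) :
    ∃ h : P.EG, ∀ v, P.B v e = 0 → rho h v = v + (s * P.B v z) • e := by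
  refine ⟨eg e (τ (-(π.ε * s)) • z) (P.Q (τ (-(π.ε * s)) • z)), fun v hv => ?_⟩
  rw [rho_eg_apply (EOk.of_perp he (by rw [B_smul_left, B_swap_zero hz, mul_zero])), hv, B_smul_right, π.tau_tau]
  match_scalars
  · rfl
  · ring
  · linear_combination (s * P.B v z) * π.eps_sq

theorem exists_conj_B (h y : P.EG) :
    ∃ y', IsConj y y' ∧ ∀ a b, P.B (rho y' a) b = P.B (rho y (rho h a)) (rho h b) :=
  ⟨_, isConj_mk h⁻¹ y, fun a b => by
    rw [map_mul, map_mul, inv_inv, End.mul_apply, End.mul_apply, B_rho_left, inv_inv]⟩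

variable (P) in
/-- the maps `u ∧ w` for `w` in a set -/
def JS (u : V) (S : Set V) : Set (End F V) := {N | ∃ w ∈ S, N = rr P w u - rr P u w}

theorem JS_h1 (hε : π.ε = 1) {u : V} {S : Set V} (hu : P.Sing u)
    (hS : ∀ w ∈ S, P.Sing w ∧ P.B w u = 0 ∧ ∀ w' ∈ S, P.B w w' = 0) : ∀ N ∈ JS P u S, ∃ g : P.EG, rho g = 1 + N := by
  rintro _ ⟨w, hw, rfl⟩
  exact ⟨eg u w 0, by rw [rho_eg ⟨hu, (hS w hw).2.1, (hS w hw).1⟩, hε]; simp⟩

theorem JS_h2 {u : V} {S : Set V} (hu : P.Sing u)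
    (hS : ∀ w ∈ S, P.Sing w ∧ P.B w u = 0 ∧ ∀ w' ∈ S, P.B w w' = 0) : ∀ N ∈ JS P u S, ∀ M ∈ JS P u S, N * M = 0 := by
  rintro _ ⟨w, hw, rfl⟩ _ ⟨w', hw', rfl⟩
  simp [mul_sub, sub_mul, rr_mul_rr, hu.B_self, (hS w' hw').2.1, (hS w' hw').2.2 w hw, B_swap_zero (hS w hw).2.1]

variable (P) in
/-- the polarised determinant on the pairs `(u, w)` -/
def bt (z : End F V) (u w w' : V) : F :=
  P.B (z u) u * (P.B (z w) w' + P.B (z w') w) - P.B (z w) u * P.B (z u) w' - P.B (z w') u * P.B (z u) w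

variable [FiniteDimensional F V]

theorem T4_J (hε : π.ε = 1) {u : V} {S : Set V} (hu : P.Sing u)
    (hS : ∀ w ∈ S, P.Sing w ∧ P.B w u = 0 ∧ ∀ w' ∈ S, P.B w w' = 0) {x y : P.EG} (l : End F V →+ F) (k : F)
    (h : ∀ y', IsConj y y' → e2 (rho x * rho y') + l (rho x * rho y') = k) {a b c d : V} (ha : a ∈ S) (hb : b ∈ S)
    (hc : c ∈ S) (hd : d ∈ S) :
    bt P (rho x) u a b * bt P (rho y) u c d + bt P (rho x) u c d * bt P (rho y) u a b +
      bt P (rho x) u a c * bt P (rho y) u b d + bt P (rho x) u b d * bt P (rho y) u a c +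
      bt P (rho x) u a d * bt P (rho y) u b c + bt P (rho x) u b c * bt P (rho y) u a d = 0 := by
  have := T4_EG (JS_h1 hε hu hS) (JS_h2 hu hS) l k h ⟨a, ha, rfl⟩ ⟨b, hb, rfl⟩ ⟨c, hc, rfl⟩ ⟨d, hd, rfl⟩
  simp only [SS_sub_left, SS_sub_right, SS_rr, b2_add_left, b2_add_right, b2_sub_left, b2_sub_right, b2_smul_left,
    b2_smul_right, b2_rr] at this
  obtain ⟨β, hβ⟩ : ∃ β : V → V → F, ∀ a b, P.B a b = β a b := ⟨_, fun _ _ => rfl⟩
  obtain ⟨X, hX⟩ : ∃ X : V → V → F, ∀ a, β (rho x a) = X a := ⟨_, fun _ => rfl⟩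
  obtain ⟨Y, hY⟩ : ∃ Y : V → V → F, ∀ a, β (rho y a) = Y a := ⟨_, fun _ => rfl⟩
  simp only [bt, hβ, hX, hY] at this ⊢
  linear_combination this

theorem T2_J (hε : π.ε = 1) {u : V} {S : Set V} (hu : P.Sing u)
    (hS : ∀ w ∈ S, P.Sing w ∧ P.B w u = 0 ∧ ∀ w' ∈ S, P.B w w' = 0) {x y : P.EG} (k : F)
    (h : ∀ y', IsConj y y' → tr (rho x * rho y') = k) {a b : V} (ha : a ∈ S) (hb : b ∈ S) :
    P.B (rho y b) u * P.B (rho x a) u + P.B (rho y a) u * P.B (rho x b) u -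
      P.B (rho y u) u * (P.B (rho x a) b + P.B (rho x b) a) - P.B (rho x u) u * (P.B (rho y a) b + P.B (rho y b) a) +
      P.B (rho y u) a * P.B (rho x u) b + P.B (rho y u) b * P.B (rho x u) a = 0 := by
  have := T2_EG (JS_h1 hε hu hS) (JS_h2 hu hS) k h ⟨a, ha, rfl⟩ ⟨b, hb, rfl⟩
  simp only [SS_sub_left, SS_sub_right, SS_rr, map_add, map_sub, map_smul, tr_rr, smul_eq_mul] at this
  linear_combination this

theorem det_tv (a : F) (d e : V) : LinearMap.det (1 + a • rr P d e) = 1 + a * P.B d e := by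
  have h : 1 + a • rr P d e = LinearMap.transvection (a • P.B.flip e) d := by
    ext v
    simp [rr_apply, LinearMap.transvection.apply, smul_smul]
  rw [h, LinearMap.transvection.det]
  simp

omit [FiniteDimensional F V] in
theorem one_add_pow_cube {K : End F V} (hK : K * K * K = 0) (n : ℕ) :
    (1 + K) ^ n = 1 + (n : F) • K + (n.choose 2 : F) • (K * K) := by
  induction n with
  | zero => simp
  | succ n ih =>
    rw [pow_succ, ih, Nat.choose_succ_succ, Nat.choose_one_right]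
    simp only [add_mul, mul_add, smul_mul_assoc, hK, mul_one, one_mul, Nat.cast_add, Nat.cast_one]
    module

end Cfsg.Agent.AH.Cls
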