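import Cfsg.Agent.AH.Top

/-! Level spaces of the adjoint module; splitting off a long root `SL₂`. -/

set_option autoImplicit false

namespace Cfsg.Agent.AH

open Cfsg.Lie Cfsg.Lie.ChevalleyDatum Cfsg.Agent.Chev Cfsg.Agent.Tw Matrix Equiv

variable {D : ChevalleyDatum} {C : Cert D} {F : Type*} [Field F] {G : Type*} [Group G] {S : Sys C F G}
  {f f' : (Nd D → ℤ) →ₗ[ℤ] ℤ} {i j k : ℤ} {u v : D.Idx → F} {γ : Rt D}

theorem B_def (g : G) (u v : D.Idx → F) : (ad S).B g u v = (ad S).κ u (S.φ g *ᵥ v) := rfl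

theorem κ_φ (g : G) (u v : D.Idx → F) : (ad S).κ (S.φ g *ᵥ u) v = (ad S).κ u (S.φ g⁻¹ *ᵥ v) := (ad S).κ_ρ g u v

theorem κ_φ' (g : G) (u v : D.Idx → F) : (ad S).κ u (S.φ g *ᵥ v) = (ad S).κ (S.φ g⁻¹ *ᵥ u) v := by
  rw [κ_φ, inv_inv]

theorem Bc (g x : G) (u v : D.Idx → F) : (ad S).B (g⁻¹ * x * g) u v = (ad S).B x (S.φ g *ᵥ u) (S.φ g *ᵥ v) :=
  (ad S).B_conj g x u v

theorem φ_mul (g h : G) (v : D.Idx → F) : S.φ (g * h) *ᵥ v = S.φ g *ᵥ S.φ h *ᵥ v := by rw [map_mul, mulVec_mulVec]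

theorem φ_inv (g : G) (v : D.Idx → F) : S.φ g⁻¹ *ᵥ S.φ g *ᵥ v = v := by rw [← φ_mul]; simp

theorem φ_inv' (g : G) (v : D.Idx → F) : S.φ g *ᵥ S.φ g⁻¹ *ᵥ v = v := by rw [← φ_mul]; simp

theorem κ_inv (g : G) (u v : D.Idx → F) : (ad S).κ (S.φ g *ᵥ u) (S.φ g *ᵥ v) = (ad S).κ u v := by rw [κ_φ, φ_inv]

variable (C F) in
/-- vectors of level `k` -/
def Wl (f : (Nd D → ℤ) →ₗ[ℤ] ℤ) (k : ℤ) : Submodule F (D.Idx → F) where
  carrier := {v | ∀ b, f (C.wI b) ≠ k → v b = 0}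
  add_mem' h h' b hb := by rw [Pi.add_apply, h b hb, h' b hb, add_zero]
  zero_mem' _ _ := rfl
  smul_mem' c _ h b hb := by rw [Pi.smul_apply, h b hb, smul_zero]

theorem eR_mem {r : Rt D} (h : f (C.rc r) = k) : eR F r ∈ Wl C F f k := fun b hb =>
  Pi.single_eq_of_ne (by rintro rfl; exact hb h) _

theorem hR_mem (r : Rt D) : hR F C r ∈ Wl C F f 0 := by
  rintro (i | s) hb
  · simp at hb
  · simp [vc, Cert.hv]

theorem Wl_le (hk : k ≠ 0) {N : Submodule F (D.Idx → F)} (h : ∀ r, f (C.rc r) = k → eR F r ∈ N) : Wl C F f k ≤ N :=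
  fun v hv => by
    rw [← Finset.univ_sum_single v]
    refine N.sum_mem fun b _ => ?_
    by_cases hb : f (C.wI b) = k
    · rcases b with i | r
      · exact absurd (by simpa using hb.symm) hk
      · simpa [← Pi.single_smul] using N.smul_mem (v (.inr r)) (h r hb)
    · simp [hv b hb]

theorem κ_lev (hu : u ∈ Wl C F f i) (hv : v ∈ Wl C F f j) (h : i + j ≠ 0) : (ad S).κ u v = 0 := by
  simp only [Md.κ, mulVec, dotProduct]
  refine Finset.sum_eq_zero fun a _ => by_contra fun h0 => left_ne_zero_of_mul h0 (hu a fun ha => ?_)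
  refine right_ne_zero_of_mul h0 (Finset.sum_eq_zero fun b _ => by_contra fun h1 => ?_)
  refine right_ne_zero_of_mul h1 (hv b fun hb => left_ne_zero_of_mul h1 ?_)
  change ((Om C a b : ℤ) : F) = 0
  rcases a with a | a <;> rcases b with b | b <;> simp only [Om, Int.cast_zero]
  · simp only [Cert.wI_inl, map_zero] at ha hb
    omega
  · rw [if_neg, Int.cast_zero]
    rintro rfl
    simp only [Cert.wI_inr, C.rc_neg, map_neg] at ha hb
    omega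

theorem L_Wl {J : Set (Nd D)} (hJ : ∀ j ∈ J, f (C.rc (C.sp j)) = 0) {z : G} (hz : z ∈ S.L J) (hv : v ∈ Wl C F f k) :
    S.φ z *ᵥ v ∈ Wl C F f k := by
  obtain ⟨y, hy, h, hh, rfl⟩ := S.mem_U_sup_H.1 hz
  have h0 : ∀ r, C.InJ J r → f (C.rc r) = 0 := fun r hr => by
    rw [C.eq_sum_sp (C.rc r), map_sum]
    refine Finset.sum_eq_zero fun j _ => ?_
    rw [map_smul]
    by_cases hj : j ∈ J <;> simp [hj, hJ, hr j]
  have h1 : S.φ h *ᵥ v ∈ Wl C F f k := fun b hb => by rw [Sys.φ_eq_dg hh, Cert.dg, mulVec_diagonal, hv b hb, mul_zero]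
  rw [φ_mul]
  generalize S.φ h *ᵥ v = v' at h1
  intro a ha
  simp only [mulVec, dotProduct]
  refine Finset.sum_eq_zero fun b _ => by_contra fun h2 => right_ne_zero_of_mul h2 (h1 b fun hb => ?_)
  have hab : a ≠ b := fun e => ha (e ▸ hb)
  refine left_ne_zero_of_mul h2 ?_
  rcases (hb ▸ ha).lt_or_gt with h3 | h3
  · exact ((ad S).ent_lt (f := f) le_rfl (fun r hr => (h0 r hr).ge) hy (sub_neg.2 h3)).trans (if_neg hab)
  · exact ((ad S).ent_lt (f := -f) (a := a) (b := b) le_rfl (fun r hr => by simp [h0 r hr]) hy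
      (by simpa [ad] using h3)).trans (if_neg hab)

theorem map_Wl (hk : k ≠ 0) {g : G} {N : Submodule F (D.Idx → F)} (h : ∀ r, f (C.rc r) = k → S.φ g *ᵥ eR F r ∈ N)
    (hv : v ∈ Wl C F f k) : S.φ g *ᵥ v ∈ N :=
  Wl_le (N := N.comap (S.φ g).mulVecLin) hk h hv

theorem over_Wl (hk : k ≠ 0) {m : G} {w : Perm (Rt D)} (hm : S.Over m w)
    (h : ∀ r, f (C.rc r) = k → f' (C.rc (w r)) = j) (hv : v ∈ Wl C F f k) : S.φ m *ᵥ v ∈ Wl C F f' j :=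
  map_Wl hk (fun r hr => by
    obtain ⟨c, e⟩ := over_eR hm r
    exact e ▸ Submodule.smul_mem _ _ (eR_mem (h r hr))) hv

theorem not_add (hγ : C.len γ = C.len C.top) {r : Rt D} (h : 0 ≤ C.A γ r) (s : Rt D) : C.rc s ≠ C.rc γ + C.rc r :=
  fun e => by
    have h1 : C.A γ s = 2 + C.A γ r := by rw [← C.pr_rc, e, C.pr_add, C.pr_rc, C.pr_rc, C.A_self]
    by_cases h2 : s = γ
    · exact C.rc_ne_zero r (by simpa [h2] using e)
    by_cases h3 : s = γ.rev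
    · rw [h3, C.A_rev_right, C.A_self] at h1
      omega
    · have := (C.A_abs_le_one h2 h3 (hγ ▸ C.len_le_top s)).2
      omega

theorem ne_rev_of_A {r : Rt D} (h : 0 ≤ C.A γ r) : r ≠ γ.rev := by
  rintro rfl
  rw [C.A_rev_right, C.A_self] at h
  omega

theorem x_fix (hγ : C.len γ = C.len C.top) {r : Rt D} (h : 0 ≤ C.A γ r) (t : F) :
    S.φ (S.x γ t) *ᵥ eR F r = eR F r := x_eR_fix (ne_rev_of_A h) (not_add hγ h) t

theorem x_fix' (hγ : C.len γ = C.len C.top) {r : Rt D} (h : 0 ≤ C.A γ r) (t : F) :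
    S.φ (S.x r t) *ᵥ eR F γ = eR F γ :=
  x_eR_fix (fun e => ne_rev_of_A h (by rw [e, Fin.rev_rev])) (fun s => add_comm (C.rc γ) _ ▸ not_add hγ h s) t

theorem fix_Wl (hk : k ≠ 0) {g : G} (h : ∀ r, f (C.rc r) = k → S.φ g *ᵥ eR F r = eR F r) (hv : v ∈ Wl C F f k) :
    S.φ g *ᵥ v = v :=
  Wl_le (N := LinearMap.eqLocus (S.φ g).mulVecLin LinearMap.id) hk h hv

theorem U_fix {A : Set (Rt D)} (h : ∀ r ∈ A, ∀ t, S.φ (S.x r t) *ᵥ v = v) {g : G} (hg : g ∈ S.U A) :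
    S.φ g *ᵥ v = v :=
  S.U_induction (P := fun g => S.φ g *ᵥ v = v) (by simp)
    (fun r hr t g _ ih => by rw [map_mul, ← mulVec_mulVec, ih, h r hr]) hg

theorem A_inJ {J : Set (Nd D)} (hJ : ∀ j ∈ J, C.A γ (C.sp j) = 0) {r : Rt D} (hr : C.InJ J r) : C.A γ r = 0 := by
  rw [C.A_eq_sum']
  refine Finset.sum_eq_zero fun j _ => ?_
  by_cases hj : j ∈ J <;> simp [hj, hJ, hr j]

theorem comm_of_A (hγ : C.len γ = C.len C.top) {r : Rt D} (h : 0 ≤ C.A γ r) (s t : F) :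
    Commute (S.x γ s) (S.x r t) := S.commute_of_not_add (ne_rev_of_A h) (not_add hγ h) s t

theorem L_scal (hγ : C.len γ = C.len C.top) {J : Set (Nd D)} (hJ : ∀ j ∈ J, C.A γ (C.sp j) = 0) {z : G}
    (hz : z ∈ S.L J) : ∃ c : Fˣ, (∀ t, z * S.x γ t * z⁻¹ = S.x γ (c * t)) ∧
      (∀ t, z * S.x γ.rev t * z⁻¹ = S.x γ.rev ((c⁻¹ : Fˣ) * t)) ∧ S.φ z *ᵥ eR F γ = (c : F) • eR F γ := by
  obtain ⟨y, hy, h, hh, rfl⟩ := S.mem_U_sup_H.1 hz
  have key : ∀ δ, C.len δ = C.len C.top → (∀ r, C.InJ J r → C.A δ r = 0) → ∀ t,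
      y * h * S.x δ t * (y * h)⁻¹ = S.x δ (S.chi h δ * t) := fun δ h1 h2 t => by
    have : Commute (S.x δ (S.chi h δ * t)) y := S.U_induction (P := fun y => Commute _ y) (Commute.one_right _)
      (fun r hr s g _ ih => (comm_of_A h1 (h2 r hr).ge _ _).mul_right ih) hy
    rw [← mul_inv_cancel_right (S.x δ (S.chi h δ * t)) y, this.eq, ← Sys.H_conj_x hh]
    group
  refine ⟨S.chi h γ, key γ hγ fun _ => A_inJ hJ, fun t => ?_, ?_⟩
  · rw [key _ (by rw [C.len_rev, hγ]) fun r hr => by rw [C.A_rev_left, A_inJ hJ hr, neg_zero],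
      (Sys.isChar_chi hh).1]
  · rw [map_mul, ← mulVec_mulVec, H_eR hh, mulVec_smul, U_fix (fun r hr => x_fix' hγ (A_inJ hJ hr).ge) hy]

variable {T : Stb S} {K : Subgroup G} {M J : Set (Nd D)}

theorem nf_L (hK : T.Good K) {t : G} (ht : t ∈ K) (hL : t ∈ S.L M) : ∃ w ∈ C.WJ M,
    ∃ u ∈ K, u ∈ S.U {r | C.Pos r ∧ C.InJ M r} ∧ ∃ m ∈ K, S.Over m w ∧
      ∃ u' ∈ K, u' ∈ S.U {r | C.Pos r ∧ C.InJ M r} ∧ t = u * m * u' := by
  obtain ⟨w, hw, u1, hu1, m1, hm1, u1', hu1', e1⟩ := S.mem_L_iff.1 hL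
  have h1 := S.U_le_Up (fun _ h => h.1) hu1
  obtain ⟨-, u, huK, hu, m, hmK, hm, u', hu'K, hu', e⟩ := hK.nf ht ⟨u1, h1, m1, hm1, u1', S.Uw_le_Up _ hu1', e1⟩
  obtain ⟨-, rfl, rfl, rfl⟩ := Sys.nfU_unique hm hm1 hu h1 hu' hu1' (e.symm.trans e1)
  exact ⟨w, hw, u, huK, hu1, m, hmK, hm, u', hu'K, S.U_mono (fun r hr => by
    exact ⟨hr.1, by_contra fun h => hr.2 (Cert.pos_map_of_not_inJ hw hr.1 h)⟩) hu', e⟩

/-- splitting off the reflection in a dominant long root -/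
theorem split (hK : T.Good K) (hγ : C.len γ = C.len C.top) (hM : C.InJ M γ) (hd : ∀ j ∈ M, 0 ≤ C.A γ (C.sp j))
    (hJ : J = {j | j ∈ M ∧ C.A γ (C.sp j) = 0}) (hs : T.Stable J) (hn : S.n γ 1 ∈ K) {t : G} (ht : t ∈ K)
    (hL : t ∈ S.L M) (h : (ad S).B t (eR F γ) (eR F γ) ≠ 0) : ∃ g ∈ K, g ∈ S.L M ∧ ∃ z ∈ K, z ∈ S.L J ∧
      ∃ q ∈ K, q ∈ S.U {r | C.InJ M r ∧ 1 ≤ C.A γ r} ∧ g * t * g⁻¹ = S.n γ 1 * z * q := by
  obtain ⟨w, hw, u, huK, hu, m, hmK, hm, u', hu'K, hu', rfl⟩ := nf_L hK ht hL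
  have nn : ∀ r, C.Pos r → C.InJ M r → 0 ≤ C.A γ r := fun r h1 h2 => by
    simpa [C.prL_rc] using Cert.nonneg_of_dom (f := C.prL γ) (by simpa [C.prL_rc] using hd) h1 h2
  have fx : ∀ y ∈ S.U {r | C.Pos r ∧ C.InJ M r}, S.φ y *ᵥ eR F γ = eR F γ := fun y =>
    U_fix fun r hr => x_fix' hγ (nn r hr.1 hr.2)
  obtain ⟨c, hc⟩ := over_eR hm γ
  have h1 : w γ = γ.rev := by_contra fun h1 => h (by
    rw [B_def, φ_mul, φ_mul, κ_φ', fx _ (inv_mem hu), fx _ hu', hc, Md.κ_smul_right, κ_ee, if_neg h1, mul_zero])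
  have h2 : (C.sr γ)⁻¹ * w ∈ C.WJ M := mul_mem (inv_mem (Cert.sr_mem_WJ hM)) hw
  have h3 : (C.sr γ)⁻¹ * w ∈ C.WJ J := by
    have e : ((C.sr γ)⁻¹ * w) γ = γ := by rw [Perm.mul_apply, h1, C.sr_inv, C.sr_apply, C.refl_self_rev]
    simpa only [hJ, C.prL_rc] using Cert.dom_unique (f := C.prL γ) (by simpa [C.prL_rc] using hd) h2 fun j hj => by
      rw [C.prL_rc]
      nth_rw 1 [← e]
      rw [Cert.Aut.A_map (C.WJ_le_Aut M h2)]
      exact hd j hj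
  obtain ⟨l, hl, q, hq, e⟩ := S.split (T1 := {r | C.InJ J r}) (T2 := {r | ¬ C.InJ J r})
    (Cert.closed_pos.inter (Cert.closed_inJ M)) (Cert.nil_of_pos fun _ h => h.1) (fun _ _ => em _) (mul_mem hu' hu)
  have hlL : l ∈ S.L J := U_pos_le_L J (S.U_mono (fun r hr => by exact ⟨hr.1.1, hr.2⟩) hl)
  have hlK : l ∈ K := hK.up l (S.U_le_Up (fun _ h => h.1.1) hl) (hs.levi (S.P_conj_UJ (S.L_le_P J hlL)
    (S.U_mono (fun r hr => by exact ⟨hr.1.1, hr.2⟩) hq)) hlL (by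
      simpa [← e] using hK.fix _ (mul_mem hu'K huK))).2
  refine ⟨u⁻¹, inv_mem huK, inv_mem (U_pos_le_L M hu), (S.n γ 1)⁻¹ * m * l, mul_mem (mul_mem (inv_mem hn) hmK) hlK,
    mul_mem (((S.over_n γ 1).inv.mul hm).mem_L h3) hlL, q,
    (mul_mem_cancel_left hlK).1 (e ▸ mul_mem hu'K huK),
    S.U_mono (fun r hr => ?_) hq, ?_⟩
  · refine ⟨hr.1.2, (nn r hr.1.1 hr.1.2).lt_of_ne fun h0 => hr.2 fun i hi => ?_⟩
    by_cases hiM : i ∈ M
    · have h4 := C.A_eq_sum' γ r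
      rw [← h0, eq_comm, Finset.sum_eq_zero_iff_of_nonneg fun j _ => by
        by_cases hj : j ∈ M
        exacts [mul_nonneg (hr.1.1 j) (hd j hj), by simp [hr.1.2 j hj]]] at h4
      exact (mul_eq_zero.1 (h4 i (Finset.mem_univ i))).resolve_right fun h5 => hi (hJ ▸ ⟨hiM, h5⟩)
    · exact hr.1.2 i hiM
  · calc u⁻¹ * (u * m * u') * u⁻¹⁻¹ = m * (u' * u) := by group
      _ = _ := by rw [e]; group

/-- if the linear coefficients vanish, only the root group of `γ` remains -/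
theorem eq_x_of_cd (hγ : C.len γ = C.len C.top) {q : G} (hq : q ∈ S.U {r | C.InJ M r ∧ 1 ≤ C.A γ r})
    (h : ∀ r, C.InJ M r → C.A γ r = 1 → S.cd r q = 0) : ∃ s, q = S.x γ s := by
  have h0 : ∀ r ∈ {r | C.InJ M r ∧ 1 ≤ C.A γ r}, 1 ≤ C.prL γ (C.rc r) := fun r hr => C.prL_rc γ r ▸ hr.2
  refine S.mem_U_singleton.1 (peel zero_le_one (fun a ha r hr u e => And.intro (Cert.closed_inJ M a ha.1 r hr.1 u e)
    (C.prL_rc γ u ▸ Cert.closed_ge (C.prL γ) zero_le_one a (h0 a ha) r (h0 r hr) u e)) (Cert.nil_of_fun (C.prL γ) h0)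
    h0 hq fun r hr => ?_)
  refine or_iff_not_imp_left.2 fun h1 => ?_
  have := (C.A_abs_le_one h1 (ne_rev_of_A (zero_le_one.trans hr.2)) (hγ ▸ C.len_le_top r)).2
  exact ⟨by rw [C.prL_rc]; omega, h r hr.1 (this.antisymm hr.2)⟩

/-- an element acting trivially on a level space -/
def Triv (S : Sys C F G) (f : (Nd D → ℤ) →ₗ[ℤ] ℤ) (k : ℤ) (t : G) : Prop :=
  ∀ u ∈ Wl C F f (-k), ∀ v ∈ Wl C F f k, (ad S).B t u v = (ad S).κ u v

theorem Triv.conj {t g : G} (h : Triv S f k t) (hM : ∀ j ∈ M, f (C.rc (C.sp j)) = 0) (hg : g ∈ S.L M) :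
    Triv S f k (g * t * g⁻¹) := fun u hu v hv => by
  have := Bc (S := S) g⁻¹ t u v
  rw [inv_inv] at this
  rw [this, h _ (L_Wl hM (inv_mem hg) hu) _ (L_Wl hM (inv_mem hg) hv), κ_inv]

theorem Triv.fix {m v : G} {w : Perm (Rt D)} (h : Triv S f k (m * v)) (hM : ∀ j ∈ M, f (C.rc (C.sp j)) = 0)
    (hm : S.Over m w) (hw : w ∈ C.WJ M) (hv : v ∈ S.Up) {r : Rt D} (hr : C.len r = C.len C.top)
    (hk : f (C.rc r) = k) : w r = r := by
  obtain ⟨c, hc⟩ := B_over hm (w r).rev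
  have h1 := h _ (eR_mem (r := (w r).rev) (by
    rw [C.rc_neg, map_neg, Cert.Aut.rc_map hm.mem_Aut, ← hk]
    exact congrArg Neg.neg (LinearMap.congr_fun (Cert.comp_lin_WJ hM hw) _))) _ (eR_mem hk)
  rw [hc, ← Cert.Aut.map_rev hm.mem_Aut, ← Perm.mul_apply, inv_mul_cancel, Perm.one_apply, B_eR, Fin.rev_rev, mu_rev,
    mu_long C hr, κ_ee, Cert.Aut.map_rev hm.mem_Aut, Fin.rev_rev, show S.φ v _ _ = 1 from (ad S).diag_Up hv _] at h1
  by_contra h2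
  simp [Ne.symm h2] at h1

theorem Triv.chi {h : G} (ht : Triv S f k h) (hh : h ∈ S.H) {r : Rt D} (hr : C.len r = C.len C.top)
    (hk : f (C.rc r) = k) : S.chi h r = 1 := by
  have := ht _ (eR_mem (r := r.rev) (by rw [C.rc_neg, map_neg, hk])) _ (eR_mem hk)
  rw [Md.B, show (ad S).ρ = S.φ from rfl, H_eR hh, Md.κ_smul_right, κ_ee, Fin.rev_rev, mu_rev, mu_long C hr] at this
  exact Units.ext (by simpa using this)

theorem fix_sp {w : Perm (Rt D)} (hw : w ∈ C.Aut) {r s : Rt D} (h0 : C.A s r ≠ 0) (h1 : w r = r)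
    (h2 : w (C.refl s r) = C.refl s r) : w s = s := by
  have := Cert.Aut.map_comb hw (r := r) (s := s) (u := C.refl s r) (i := 1) (j := - C.A s r)
    (by rw [C.rc_refl]; module)
  rw [h1, h2, C.rc_refl, one_smul, neg_smul, ← sub_eq_add_neg, sub_right_inj] at this
  exact C.rc_inj (smul_right_injective _ h0 this).symm

/-- the largest cell of an element acting trivially on a level space -/
theorem Triv.max {t : G} (h : Triv S f k t) (hK : Ok T K) (hs : T.Stable M) (hM : ∀ j ∈ M, f (C.rc (C.sp j)) = 0)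
    (ht : t ∈ K) (hL : t ∈ S.L M) : ∃ g ∈ K, g ∈ S.L M ∧ ∃ J m v, MaxC T K M J m v ∧ g * t * g⁻¹ = m * v ∧
      Triv S f k (m * v) ∧ ∀ j ∈ M, (∃ r, C.len r = C.len C.top ∧ f (C.rc r) = k ∧ C.A (C.sp j) r ≠ 0) →
        j ∈ J ∧ (C.w0 M * C.w0 J) (C.sp j) = C.sp j := by
  obtain ⟨g, hg, hgL, J, m, v, hm, e⟩ := exists_max hK.bn hs ht hL
  have h1 : Triv S f k (m * v) := e ▸ h.conj hM hgL
  refine ⟨g, hg, hgL, J, m, v, hm, e, h1, fun j hj ⟨r, h2, h3, h4⟩ => ?_⟩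
  have h5 := fix_sp hm.ov.mem_Aut h4 (h1.fix hM hm.ov hm.memW hm.vUp h2 h3) (h1.fix hM hm.ov hm.memW hm.vUp
    (by rw [C.len_refl, h2]) (by rw [C.rc_refl, map_sub, map_smul, hM j hj, h3]; simp))
  refine ⟨by_contra fun h6 => ?_, h5⟩
  exact (Cert.pos_w0_iff ((Cert.inJ_map (C.WJ_mono hm.sub (C.w0_mem J)) _).2 (C.inJ_sp.2 hj))).1
    (show C.Pos ((C.w0 M * C.w0 J) (C.sp j)) from h5.symm ▸ C.pos_sp j)
    (Cert.pos_map_of_not_inJ (C.w0_mem J) (C.pos_sp j) (by rwa [C.inJ_sp]))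

end Cfsg.Agent.AH
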