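import Cfsg.Agent.AH.Core
import Mathlib

/-!
Products of two conjugacy classes in central quotients of linear groups: lifting, the invariants
`tr` and `e₂`, and finite differences.
-/

set_option autoImplicit false

namespace Cfsg.Agent.AH.Cls

open Module

section Grp

variable {L : Type*} [Group L]

/-- the projection to the central quotient -/
def pr : L →* L ⧸ Subgroup.center L := QuotientGroup.mk' _

theorem pr_surj : Function.Surjective (pr : L → L ⧸ Subgroup.center L) := QuotientGroup.mk'_surjective _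

theorem pr_eq_one {x : L} : pr x = 1 ↔ x ∈ Subgroup.center L := QuotientGroup.eq_one_iff x

theorem mix_congr {L' : Type*} [Group L'] {p : ℕ} (e : L ≃* L') (h : Mix p (L' ⧸ Subgroup.center L')) :
    Mix p (L ⧸ Subgroup.center L) :=
  h.congr (QuotientGroup.congr _ _ e (by
    ext y
    obtain ⟨x, rfl⟩ := e.surjective y
    refine (Subgroup.mem_map_iff_mem e.injective).trans ?_
    simp only [Subgroup.mem_center_iff]
    exact ⟨fun h g => by obtain ⟨g, rfl⟩ := e.surjective g; rw [← map_mul, h, map_mul],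
      fun h g => e.injective (by rw [map_mul, map_mul, h])⟩))

theorem mixed_of_pow {G : Type*} [Group G] {p m : ℕ} [hp : Fact p.Prime] (hm : ¬ p ∣ m) {g : G}
    (h : g ^ (m * p) = 1) (h1 : g ^ m ≠ 1) (h2 : g ^ p ≠ 1) : Mixed p g := by
  have d := orderOf_dvd_of_pow_eq_one h
  constructor
  · by_contra h3
    exact h1 (orderOf_dvd_iff_pow_eq_one.1
      (((Nat.Prime.coprime_iff_not_dvd hp.out).2 h3).symm.dvd_of_dvd_mul_right d))
  · rintro ⟨k, hk⟩
    refine h2 (orderOf_dvd_iff_pow_eq_one.1 ?_)
    rw [hk] at d ⊢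
    exact (Nat.Coprime.pow_left k ((Nat.Prime.coprime_iff_not_dvd hp.out).2 hm)).dvd_of_dvd_mul_left d

theorem dvd_orderOf_of_pow {G : Type*} [Group G] {p : ℕ} [hp : Fact p.Prime] {g : G} (h : g ^ p = 1)
    (h1 : g ≠ 1) : p ∣ orderOf g := by
  rw [orderOf_eq_prime h h1]

end Grp

variable {F : Type*} [Field F] {V : Type*} [AddCommGroup V] [Module F V]

/-- scalar maps -/
def Sc (f : End F V) : Prop := ∃ t : F, f = t • (1 : End F V)

theorem sc_iff {f : End F V} : Sc f ↔ ∃ t : F, ∀ v, f v = t • v :=
  ⟨fun ⟨t, h⟩ => ⟨t, fun v => by rw [h]; rfl⟩, fun ⟨t, h⟩ => ⟨t, LinearMap.ext h⟩⟩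

/-- a faithful linear group whose centre consists of scalars -/
structure LR (L : Type*) [Group L] (F : Type*) [Field F] (V : Type*) [AddCommGroup V] [Module F V] where
  ρ : L →* End F V
  inj : Function.Injective ρ
  cen : ∀ z ∈ Subgroup.center L, Sc (ρ z)

namespace LR

variable {L : Type*} [Group L] (R : LR L F V)

theorem pr_eq_one {x : L} : pr x = 1 ↔ Sc (R.ρ x) := by
  rw [Cls.pr_eq_one]
  refine ⟨R.cen x, fun ⟨t, ht⟩ => Subgroup.mem_center_iff.2 fun g => R.inj ?_⟩
  rw [map_mul, map_mul, ht, mul_smul_comm, smul_mul_assoc, one_mul, mul_one]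

theorem pr_pow_eq_one {x : L} {n : ℕ} : pr x ^ n = 1 ↔ Sc (R.ρ x ^ n) := by
  rw [← map_pow, R.pr_eq_one, map_pow]

theorem mul_inv (k : L) : R.ρ k * R.ρ k⁻¹ = 1 := by rw [← map_mul, mul_inv_cancel, map_one]

theorem inv_mul (k : L) : R.ρ k⁻¹ * R.ρ k = 1 := by rw [← map_mul, inv_mul_cancel, map_one]

theorem rel {x y x' y' : L} {c : L ⧸ Subgroup.center L} (H : Hyp (pr x) (pr y) c) (hx : IsConj x x')
    (hy : IsConj y y') : ∃ (z k : L) (t : F), R.ρ z = t • (1 : End F V) ∧
      R.ρ x' * R.ρ y' = t • (R.ρ k * (R.ρ x * R.ρ y) * R.ρ k⁻¹) := by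
  have h := (H.conj (IsConj.refl _) (IsConj.refl _)).symm.trans (H.conj (pr.map_isConj hx) (pr.map_isConj hy))
  obtain ⟨k, hk⟩ := isConj_iff.1 h
  obtain ⟨k, rfl⟩ := pr_surj k
  have h1 : pr (x' * y' * (k * (x * y) * k⁻¹)⁻¹) = 1 := by
    simp only [map_mul, map_inv, hk, mul_inv_cancel]
  obtain ⟨t, ht⟩ := R.pr_eq_one.1 h1
  refine ⟨_, k, t, ht, ?_⟩
  have h2 : x' * y' = x' * y' * (k * (x * y) * k⁻¹)⁻¹ * (k * (x * y) * k⁻¹) := by group
  rw [← map_mul, h2, map_mul, ht, smul_mul_assoc, one_mul]
  simp only [map_mul]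

end LR

/-! ### Traces and the second coefficient -/

/-- the trace -/
noncomputable abbrev tr : End F V →ₗ[F] F := LinearMap.trace F V

/-- the polar form of `e₂` -/
noncomputable def b2 (A B : End F V) : F := tr A * tr B - tr (A * B)

variable [FiniteDimensional F V]

theorem tr_conj {g h : End F V} (hg : h * g = 1) (A : End F V) : tr (g * A * h) = tr A := by
  rw [LinearMap.trace_mul_comm, ← mul_assoc, hg, one_mul]

/-- a bilinear form whose diagonal is the sum of the principal `2 × 2` minors -/
noncomputable def c2 : End F V →ₗ[F] End F V →ₗ[F] F :=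
  LinearMap.mk₂ F (fun A B => ∑ i, ∑ j, if i < j then
      LinearMap.toMatrix (finBasis F V) (finBasis F V) A i i * LinearMap.toMatrix (finBasis F V) (finBasis F V) B j j -
      LinearMap.toMatrix (finBasis F V) (finBasis F V) A i j * LinearMap.toMatrix (finBasis F V) (finBasis F V) B j i
      else 0)
    (fun A A' B => by
      simp only [← Finset.sum_add_distrib]
      refine Finset.sum_congr rfl fun i _ => Finset.sum_congr rfl fun j _ => ?_
      split_ifs <;> simp; ring)
    (fun c A B => by
      simp only [smul_eq_mul, Finset.mul_sum]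
      refine Finset.sum_congr rfl fun i _ => Finset.sum_congr rfl fun j _ => ?_
      split_ifs <;> simp; ring)
    (fun A B B' => by
      simp only [← Finset.sum_add_distrib]
      refine Finset.sum_congr rfl fun i _ => Finset.sum_congr rfl fun j _ => ?_
      split_ifs <;> simp; ring)
    (fun c A B => by
      simp only [smul_eq_mul, Finset.mul_sum]
      refine Finset.sum_congr rfl fun i _ => Finset.sum_congr rfl fun j _ => ?_
      split_ifs <;> simp; ring)

theorem c2_add_swap (A B : End F V) : c2 A B + c2 B A = b2 A B := by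
  classical
  simp only [c2, LinearMap.mk₂_apply, b2]
  rw [LinearMap.trace_eq_matrix_trace F (finBasis F V), LinearMap.trace_eq_matrix_trace F (finBasis F V),
    LinearMap.trace_eq_matrix_trace F (finBasis F V), LinearMap.toMatrix_mul]
  generalize LinearMap.toMatrix (finBasis F V) (finBasis F V) A = M
  generalize LinearMap.toMatrix (finBasis F V) (finBasis F V) B = N
  rw [Finset.sum_comm (f := fun i j => if i < j then N i i * M j j - N i j * M j i else 0)]
  simp only [Matrix.trace, Matrix.diag, Matrix.mul_apply, Finset.sum_mul_sum, ← Finset.sum_add_distrib,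
    ← Finset.sum_sub_distrib]
  refine Finset.sum_congr rfl fun i _ => Finset.sum_congr rfl fun j _ => ?_
  rcases lt_trichotomy i j with h | rfl | h
  · simp [h, h.not_gt]
  · simp
  · simp [h, h.not_gt]; ring

/-- the sum of the principal `2 × 2` minors -/
noncomputable def e2 (A : End F V) : F := c2 A A

theorem e2_add (A B : End F V) : e2 (A + B) = e2 A + e2 B + b2 A B := by
  simp only [e2, map_add, LinearMap.add_apply, ← c2_add_swap]; ring

theorem e2_smul (t : F) (A : End F V) : e2 (t • A) = t ^ 2 * e2 A := by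
  simp only [e2, map_smul, LinearMap.smul_apply, smul_eq_mul]; ring

theorem e2_zero : e2 (0 : End F V) = 0 := by simp [e2]

theorem e2_rk1 (φ : V →ₗ[F] F) (a : V) : e2 (φ.smulRight a : End F V) = 0 := by
  simp only [e2, c2, LinearMap.mk₂_apply]
  refine Finset.sum_eq_zero fun i _ => Finset.sum_eq_zero fun j _ => ?_
  split_ifs
  · simp [LinearMap.toMatrix_apply]; ring
  · rfl

theorem b2_conj {g h : End F V} (hg : h * g = 1) (A B : End F V) : b2 (g * A * h) (g * B * h) = b2 A B := by
  have : g * A * h * (g * B * h) = g * (A * B) * h := by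
    calc g * A * h * (g * B * h) = g * A * (h * g) * B * h := by noncomm_ring
      _ = _ := by rw [hg]; noncomm_ring
  rw [b2, this, tr_conj hg, tr_conj hg, tr_conj hg, b2]

theorem e2_conj {g h : End F V} (hg : h * g = 1) (A : End F V) : e2 (g * A * h) = e2 A := by
  classical
  have key : ∀ (s : Finset (Fin (finrank F V))) (φ : Fin (finrank F V) → V →ₗ[F] F) (a : Fin (finrank F V) → V),
      e2 (g * (∑ i ∈ s, ((φ i).smulRight (a i) : End F V)) * h) = e2 (∑ i ∈ s, ((φ i).smulRight (a i) : End F V)) := by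
    intro s φ a
    induction s using Finset.induction_on with
    | empty => simp
    | insert i s hi ih =>
      rw [Finset.sum_insert hi, mul_add, add_mul, e2_add, e2_add, ih, b2_conj hg, e2_rk1]
      have : g * ((φ i).smulRight (a i) : End F V) * h = ((φ i) ∘ₗ h).smulRight (g (a i)) := by
        ext v; simp
      rw [this, e2_rk1]
  have h1 : A = ∑ i, (((finBasis F V).coord i).smulRight (A (finBasis F V i)) : End F V) := by
    ext v
    conv_lhs => rw [← (finBasis F V).sum_repr v, map_sum]
    simp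
  rw [h1]
  exact key _ _ _

omit [FiniteDimensional F V] in
theorem b2_add_left (A A' B : End F V) : b2 (A + A') B = b2 A B + b2 A' B := by
  simp only [b2, add_mul, map_add]; ring

omit [FiniteDimensional F V] in
theorem b2_add_right (A B B' : End F V) : b2 A (B + B') = b2 A B + b2 A B' := by
  simp only [b2, mul_add, map_add]; ring

omit [FiniteDimensional F V] in
theorem b2_sub_left (A A' B : End F V) : b2 (A - A') B = b2 A B - b2 A' B := by
  simp only [b2, sub_mul, map_sub]; ring

omit [FiniteDimensional F V] in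
theorem b2_sub_right (A B B' : End F V) : b2 A (B - B') = b2 A B - b2 A B' := by
  simp only [b2, mul_sub, map_sub]; ring

omit [FiniteDimensional F V] in
theorem b2_smul_left (t : F) (A B : End F V) : b2 (t • A) B = t * b2 A B := by
  simp only [b2, smul_mul_assoc, map_smul, smul_eq_mul]; ring

omit [FiniteDimensional F V] in
theorem b2_smul_right (t : F) (A B : End F V) : b2 A (t • B) = t * b2 A B := by
  simp only [b2, mul_smul_comm, map_smul, smul_eq_mul]; ring

theorem tr_nilpotent {A : End F V} {k : ℕ} (h : A ^ k = 0) : tr A = 0 :=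
  (LinearMap.isNilpotent_trace_of_isNilpotent ⟨k, h⟩).eq_zero

/-! ### Finite differences -/

theorem T4_aux {W : Type*} [AddCommGroup W] (c : W → W → F) (l : W → F)
    (ca : ∀ X Y Z, c (X + Y) Z = c X Z + c Y Z) (cb : ∀ X Y Z, c X (Y + Z) = c X Y + c X Z)
    (la : ∀ X Y, l (X + Y) = l X + l Y)
    (M A1 A2 A3 A4 S12 S13 S14 S23 S24 S34 : W) (k : F) (f : W → F) (hf : ∀ X, f X = c X X + l X)
    (h0 : f M = k) (h1 : f (M + A1) = k) (h2 : f (M + A2) = k) (h3 : f (M + A3) = k) (h4 : f (M + A4) = k)
    (h12 : f (M + A1 + A2 + S12) = k) (h13 : f (M + A1 + A3 + S13) = k) (h14 : f (M + A1 + A4 + S14) = k)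
    (h23 : f (M + A2 + A3 + S23) = k) (h24 : f (M + A2 + A4 + S24) = k) (h34 : f (M + A3 + A4 + S34) = k)
    (h123 : f (M + A1 + A2 + A3 + S12 + S13 + S23) = k) (h124 : f (M + A1 + A2 + A4 + S12 + S14 + S24) = k)
    (h134 : f (M + A1 + A3 + A4 + S13 + S14 + S34) = k) (h234 : f (M + A2 + A3 + A4 + S23 + S24 + S34) = k)
    (h1234 : f (M + A1 + A2 + A3 + A4 + S12 + S13 + S14 + S23 + S24 + S34) = k) :
    (c S12 S34 + c S34 S12) + (c S13 S24 + c S24 S13) + (c S14 S23 + c S23 S14) = 0 := by
  rw [hf] at h0 h1 h2 h3 h4 h12 h13 h14 h23 h24 h34 h123 h124 h134 h234 h1234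
  simp only [ca, cb, la] at h1 h2 h3 h4 h12 h13 h14 h23 h24 h34 h123 h124 h134 h234 h1234
  linear_combination h1234 - h123 - h124 - h134 - h234 + h12 + h13 + h14 + h23 + h24 + h34 - h1 - h2 - h3 - h4 + h0

/-- the product `x · y ^ (1 + N)` for `N ^ 2 = 0` -/
def MM (x y N : End F V) : End F V := x * ((1 + N) * y * (1 - N))

/-- the polarised quadratic part of `MM` -/
def SS (x y A B : End F V) : End F V := x * (A * y * B + B * y * A)

omit [FiniteDimensional F V] in
theorem MM_add (x y A B : End F V) : MM x y (A + B) = MM x y A + MM x y B - x * y - SS x y A B := by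
  simp only [MM, SS]; noncomm_ring

omit [FiniteDimensional F V] in
theorem SS_add (x y A A' B : End F V) : SS x y (A + A') B = SS x y A B + SS x y A' B := by
  simp only [SS]; noncomm_ring

/-- the fourth difference of `e₂ + l` -/
theorem T4 (x y : End F V) (l : End F V →+ F) (k : F) (S : AddSubmonoid (End F V))
    (h : ∀ N ∈ S, e2 (MM x y N) + l (MM x y N) = k) {N1 N2 N3 N4 : End F V} (m1 : N1 ∈ S) (m2 : N2 ∈ S)
    (m3 : N3 ∈ S) (m4 : N4 ∈ S) :
    b2 (SS x y N1 N2) (SS x y N3 N4) + b2 (SS x y N1 N3) (SS x y N2 N4) + b2 (SS x y N1 N4) (SS x y N2 N3) = 0 := by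
  have e0 : MM x y 0 = x * y := by simp [MM]
  have := T4_aux (fun A B => c2 A B) l (fun _ _ _ => by simp) (fun _ _ _ => by simp) (map_add l) (x * y) (MM x y N1 - x * y) (MM x y N2 - x * y) (MM x y N3 - x * y) (MM x y N4 - x * y)
    (-SS x y N1 N2) (-SS x y N1 N3) (-SS x y N1 N4) (-SS x y N2 N3) (-SS x y N2 N4) (-SS x y N3 N4) k
    (fun X => e2 X + l X) (fun _ => rfl) (by rw [← e0]; exact h 0 (zero_mem _))
    (by convert h _ m1 using 3 <;> abel) (by convert h _ m2 using 3 <;> abel)
    (by convert h _ m3 using 3 <;> abel) (by convert h _ m4 using 3 <;> abel)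
    (by convert h _ (add_mem m1 m2) using 3 <;> (simp only [MM_add]; abel))
    (by convert h _ (add_mem m1 m3) using 3 <;> (simp only [MM_add]; abel))
    (by convert h _ (add_mem m1 m4) using 3 <;> (simp only [MM_add]; abel))
    (by convert h _ (add_mem m2 m3) using 3 <;> (simp only [MM_add]; abel))
    (by convert h _ (add_mem m2 m4) using 3 <;> (simp only [MM_add]; abel))
    (by convert h _ (add_mem m3 m4) using 3 <;> (simp only [MM_add]; abel))
    (by convert h _ (add_mem (add_mem m1 m2) m3) using 3 <;> (simp only [MM_add, SS_add]; abel))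
    (by convert h _ (add_mem (add_mem m1 m2) m4) using 3 <;> (simp only [MM_add, SS_add]; abel))
    (by convert h _ (add_mem (add_mem m1 m3) m4) using 3 <;> (simp only [MM_add, SS_add]; abel))
    (by convert h _ (add_mem (add_mem m2 m3) m4) using 3 <;> (simp only [MM_add, SS_add]; abel))
    (by convert h _ (add_mem (add_mem (add_mem m1 m2) m3) m4) using 3 <;> (simp only [MM_add, SS_add]; abel))
  simpa only [map_neg, LinearMap.neg_apply, neg_neg, c2_add_swap] using this

omit [FiniteDimensional F V] in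
/-- the second difference of the trace -/
theorem T2 (x y : End F V) (k : F) {N1 N2 : End F V} (h0 : tr (x * y) = k) (h1 : tr (MM x y N1) = k)
    (h2 : tr (MM x y N2) = k) (h12 : tr (MM x y (N1 + N2)) = k) : tr (SS x y N1 N2) = 0 := by
  rw [MM_add, map_sub, map_sub, map_add] at h12
  linear_combination h1 + h2 - h0 - h12

end Cfsg.Agent.AH.Cls
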