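import Cfsg.Agent.AH.Core
import Cfsg.Agent.Tw.Char2

/-! Modules with an invariant form for a system of root elements; leading terms of raising operators. -/

set_option autoImplicit false

namespace Cfsg.Agent.AH

open Cfsg.Lie Cfsg.Lie.ChevalleyDatum Cfsg.Agent.Chev Cfsg.Agent.Tw Matrix

section Amb

variable {G : Type*} [Group G] {K : Subgroup G} {a b c x y z : G}

/-- conjugacy under the subgroup `K` -/
def Cj (K : Subgroup G) (a x : G) : Prop := ∃ g ∈ K, x = g * a * g⁻¹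

theorem Cj.refl (a : G) : Cj K a a := ⟨1, one_mem _, by simp⟩

theorem Cj.of {g : G} (hg : g ∈ K) (a : G) : Cj K a (g * a * g⁻¹) := ⟨g, hg, rfl⟩

theorem Cj.of' {g : G} (hg : g ∈ K) (a : G) : Cj K a (g⁻¹ * a * g) := ⟨g⁻¹, inv_mem hg, by simp⟩

theorem Cj.symm (h : Cj K a x) : Cj K x a := by
  obtain ⟨g, hg, rfl⟩ := h
  exact ⟨g⁻¹, inv_mem hg, by group⟩

theorem Cj.trans (h : Cj K a x) (h' : Cj K x y) : Cj K a y := by
  obtain ⟨g, hg, rfl⟩ := h
  obtain ⟨g', hg', rfl⟩ := h'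
  exact ⟨g' * g, mul_mem hg' hg, by group⟩

theorem Cj.conj (h : Cj K a x) {g : G} (hg : g ∈ K) : Cj K a (g * x * g⁻¹) := h.trans (Cj.of hg x)

theorem Cj.conj' (h : Cj K a x) {g : G} (hg : g ∈ K) : Cj K a (g⁻¹ * x * g) := h.trans (Cj.of' hg x)

theorem Cj.inv (h : Cj K a x) : Cj K a⁻¹ x⁻¹ := by
  obtain ⟨g, hg, rfl⟩ := h
  exact ⟨g, hg, by group⟩

theorem Cj.mem (h : Cj K a x) (ha : a ∈ K) : x ∈ K := by
  obtain ⟨g, hg, rfl⟩ := h
  exact mul_mem (mul_mem hg ha) (inv_mem hg)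

theorem Cj.isConj (h : Cj K a x) : IsConj a x := by
  obtain ⟨g, -, rfl⟩ := h
  exact isConj_iff.2 ⟨g, rfl⟩

theorem Cj.ord (h : Cj K a x) : orderOf a = orderOf x := orderOf_of_isConj h.isConj

theorem Cj.ne_one (h : Cj K a x) (ha : a ≠ 1) : x ≠ 1 := fun e => ha (by
  have := h.ord
  rwa [e, orderOf_one, orderOf_eq_one_iff] at this)

theorem Cj.pow_eq_one (h : Cj K a x) {n : ℕ} (ha : a ^ n = 1) : x ^ n = 1 := by
  rwa [← orderOf_dvd_iff_pow_eq_one, ← h.ord, orderOf_dvd_iff_pow_eq_one]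

/-- the hypothesis inside the subgroup `K` -/
def HK (K : Subgroup G) (a b c : G) : Prop := ∀ x y, Cj K a x → Cj K b y → Cj K c (x * y)

theorem HK.symm (h : HK K a b c) (ha : a ∈ K) : HK K b a c := fun y x hy hx =>
  (h x y hx hy).trans ⟨x⁻¹, inv_mem (hx.mem ha), by group⟩

theorem HK.of_cj (h : HK K a b c) (hx : Cj K a x) (hy : Cj K b y) : HK K x y c :=
  fun _ _ h1 h2 => h _ _ (hx.trans h1) (hy.trans h2)

theorem HK.not_inv (h : HK K a b c) (hc : c ≠ 1) (hx : Cj K a x) (hy : Cj K b x⁻¹) : False :=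
  (h _ _ hx hy).ne_one hc (mul_inv_cancel x)

theorem HK.mixed {p : ℕ} (h : HK K a b c) (hx : Cj K a x) (hy : Cj K b y) (hm : Mixed p (x * y)) : Mixed p c :=
  Mixed.of_conj (h _ _ hx hy).isConj hm

theorem HK.even [Finite G] (h : HK K a b c) (haK : a ∈ K) (hbK : b ∈ K) (hc : c ≠ 1) (ha : a * a = 1)
    (hb : b * b = 1) : 2 ∣ orderOf c := by
  by_contra h2
  have h3 : Odd (orderOf ((⟨a, haK⟩ : K) * ⟨b, hbK⟩)) := by
    rw [← Subgroup.orderOf_coe, Subgroup.coe_mul, ← (h a b (Cj.refl a) (Cj.refl b)).ord]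
    exact Nat.odd_iff.2 (by omega)
  obtain ⟨g, hg⟩ := isConj_iff.1 (isConj_of_odd (Subtype.ext ha) (Subtype.ext hb) h3)
  exact h.not_inv hc (Cj.refl a) ⟨g, g.2, by
    rw [inv_eq_of_mul_eq_one_right ha]; exact (congrArg Subtype.val hg).symm⟩

/-- the property to be proved, inside the subgroup `K` -/
def MixK (p : ℕ) (K : Subgroup G) : Prop := ∀ a ∈ K, ∀ b ∈ K, ∀ c ∈ K, a ≠ 1 → b ≠ 1 → c ≠ 1 → HK K a b c →
  Mixed p c ∧ (p ∣ orderOf a ∨ p ∣ orderOf b)

theorem MixK.mix {p : ℕ} (h : MixK p K) : Mix p K := fun a b c ha hb hc H => by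
  have := h a a.2 b b.2 c c.2 (by simpa using ha) (by simpa using hb) (by simpa using hc) (by
    rintro _ _ ⟨u, hu, rfl⟩ ⟨v, hv, rfl⟩
    obtain ⟨g, hg⟩ := isConj_iff.1 (H ⟨u, hu⟩ ⟨v, hv⟩)
    exact ⟨g, g.2, (congrArg Subtype.val hg).symm⟩)
  simpa only [Mixed, Subgroup.orderOf_coe] using this

theorem MixK.top {p : ℕ} (h : MixK p (⊤ : Subgroup G)) : Mix p G := h.mix.congr Subgroup.topEquiv.symm

variable {R : Type*} [CommRing R] {ι : Type*} [Fintype ι] [DecidableEq ι] {ρ : G →* Matrix ι ι R}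
  {M N : Matrix ι ι R} {τ υ : R} {d : ι → ℤ} {k l : ℤ}

/-- `tr (M ρ(y)) = τ` for all `K`-conjugates `y` of `b` -/
def VK (ρ : G →* Matrix ι ι R) (K : Subgroup G) (b : G) (M : Matrix ι ι R) (τ : R) : Prop :=
  ∀ y, Cj K b y → (M * ρ y).trace = τ

theorem HK.vk (ρ : G →* Matrix ι ι R) (h : HK K a b c) (hx : Cj K a x) : VK ρ K b (ρ x) (ρ c).trace := fun y hy => by
  rw [← map_mul]
  exact trace_of_isConj ρ (h x y hx hy).isConj

theorem VK.diff (h : VK ρ K b M τ) {g : G} (hg : g ∈ K) : VK ρ K b (ρ g * M * ρ g⁻¹ - M) 0 := fun y hy => by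
  rw [sub_mul, trace_sub, h y hy, ← h _ (hy.conj' hg), mul_assoc, mul_assoc, trace_mul_comm, map_mul, map_mul]
  simp only [mul_assoc, sub_self]

/-- `M` is the leading term, of degree `k`, of a matrix of value `τ` -/
def Ld (ρ : G →* Matrix ι ι R) (K : Subgroup G) (b : G) (d : ι → ℤ) (k : ℤ) (M : Matrix ι ι R) (τ : R) : Prop :=
  Fil d k M ∧ ∃ M', VK ρ K b M' τ ∧ Fil d (k + 1) (M' - M)

theorem Ld.smul (h : Ld ρ K b d k M 0) (s : R) : Ld ρ K b d k (s • M) 0 := by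
  obtain ⟨h0, M', h1, h2⟩ := h
  exact ⟨h0.smul s, s • M', fun y hy => by rw [smul_mul_assoc, trace_smul, h1 y hy, smul_zero],
    smul_sub s M' M ▸ h2.smul s⟩

theorem Ld.add (h : Ld ρ K b d k M 0) (h' : Ld ρ K b d k N 0) : Ld ρ K b d k (M + N) 0 := by
  obtain ⟨h0, M', h1, h2⟩ := h
  obtain ⟨h0', N', h1', h2'⟩ := h'
  exact ⟨h0.add h0', M' + N', fun y hy => by rw [add_mul, trace_add, h1 y hy, h1' y hy, add_zero],
    add_sub_add_comm M' N' M N ▸ h2.add h2'⟩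

theorem Ld.sum {J : Type*} (s : Finset J) {M : J → Matrix ι ι R} (h : ∀ j ∈ s, Ld ρ K b d k (M j) 0) :
    Ld ρ K b d k (∑ j ∈ s, M j) 0 :=
  Finset.sum_induction _ (fun M => Ld ρ K b d k M 0) (fun _ _ => Ld.add)
    ⟨Fil.zero, 0, fun _ _ => by simp, by simpa using Fil.zero⟩ h

theorem Ld.vk (h : Ld ρ K b d k M τ) (hk : ∀ i j, d i - d j ≤ k) : VK ρ K b M τ := by
  obtain ⟨-, M', h1, h2⟩ := h
  rwa [← sub_eq_zero.1 (h2.eq_zero fun i j => by have := hk i j; omega)]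

/-- the operator `Ad g - 1` on leading terms -/
theorem Ld.diff (h : Ld ρ K b d k M τ) {g : G} (hg : g ∈ K) {A : Matrix ι ι R} (hl : 0 < l) (hA : Fil d l A)
    (h1 : Fil d (l + 1) (ρ g - 1 - A)) (h2 : Fil d (l + 1) (ρ g⁻¹ - 1 + A)) :
    Ld ρ K b d (k + l) (A * M - M * A) 0 := by
  obtain ⟨h0, M', h3, h4⟩ := h
  refine ⟨((hA.mul h0).mono (by omega)).sub (h0.mul hA), _, h3.diff hg, ?_⟩
  have e1 : Fil d l (ρ g - 1) := by simpa using (h1.mono (by omega)).add hA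
  have e2 : Fil d l (ρ g⁻¹ - 1) := by simpa using (h2.mono (by omega)).sub hA
  have e : ρ g * M' * ρ g⁻¹ - M' - (A * M - M * A) = (ρ g * (M' - M) * ρ g⁻¹ - (M' - M)) +
      ((ρ g - 1 - A) * M + M * (ρ g⁻¹ - 1 + A) + (ρ g - 1) * M * (ρ g⁻¹ - 1)) := by noncomm_ring
  rw [e]
  exact ((h4.diff hl.le e1 e2).mono (by omega)).add ((((h1.mul h0).mono (by omega)).add
    ((h0.mul h2).mono (by omega))).add (((e1.mul h0).mul e2).mono (by omega)))

/-- the second order operator on leading terms -/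
theorem Ld.sq (h : Ld ρ K b d k M τ) {g g' : G} (hg : g ∈ K) (hg' : g' ∈ K) {A B : Matrix ι ι R} (hl : 0 < l)
    (hA : Fil d l A) (hB : Fil d (2 * l) B) {s t : R}
    (h1 : Fil d (2 * l + 1) (ρ g - 1 - s • A - s ^ 2 • B)) (h2 : Fil d (2 * l + 1) (ρ g⁻¹ - 1 + s • A - s ^ 2 • B))
    (h1' : Fil d (2 * l + 1) (ρ g' - 1 - t • A - t ^ 2 • B))
    (h2' : Fil d (2 * l + 1) (ρ g'⁻¹ - 1 + t • A - t ^ 2 • B)) :
    Ld ρ K b d (k + 2 * l) ((s * t * (s - t)) • (B * M - A * M * A + M * B)) 0 := by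
  obtain ⟨h0, M', h3, h4⟩ := h
  have h5 : Fil d k M' := by simpa using (h4.mono (by omega)).add h0
  have q : ∀ {N : Matrix ι ι R} {k}, Fil d k N → Fil d (k + 2 * l) (B * N - A * N * A + N * B) := fun hN =>
    (((hB.mul hN).mono (by omega)).sub (((hA.mul hN).mul hA).mono (by omega))).add (hN.mul hB)
  have key : ∀ (g : G) (s : R), Fil d (2 * l + 1) (ρ g - 1 - s • A - s ^ 2 • B) →
      Fil d (2 * l + 1) (ρ g⁻¹ - 1 + s • A - s ^ 2 • B) → Fil d (k + 2 * l + 1) (ρ g * M' * ρ g⁻¹ - M' -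
        s • (A * M' - M' * A) - s ^ 2 • (B * M' - A * M' * A + M' * B)) := fun g s h1 h2 => by
    have e1 : Fil d (2 * l) (ρ g - 1 - s • A) := by
      have := (h1.mono (show 2 * l ≤ _ by omega)).add (hB.smul (s ^ 2))
      rwa [sub_add_cancel] at this
    have e2 : Fil d (2 * l) (ρ g⁻¹ - 1 + s • A) := by
      have := (h2.mono (show 2 * l ≤ _ by omega)).add (hB.smul (s ^ 2))
      rwa [sub_add_cancel] at this
    have e3 : Fil d l (ρ g⁻¹ - 1) := by simpa using (e2.mono (by omega)).sub (hA.smul s)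
    have e : ρ g * M' * ρ g⁻¹ - M' - s • (A * M' - M' * A) - s ^ 2 • (B * M' - A * M' * A + M' * B) =
        (ρ g - 1 - s • A - s ^ 2 • B) * M' + M' * (ρ g⁻¹ - 1 + s • A - s ^ 2 • B) +
        (ρ g - 1 - s • A) * M' * (ρ g⁻¹ - 1) + (s • A) * M' * (ρ g⁻¹ - 1 + s • A) := by
      simp only [mul_sub, sub_mul, mul_add, add_mul, smul_sub, smul_add, smul_mul_assoc, mul_smul_comm, smul_smul,
        mul_one, one_mul, pow_two]
      abel
    rw [e]
    exact ((((h1.mul h5).mono (by omega)).add ((h5.mul h2).mono (by omega))).add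
      (((e1.mul h5).mul e3).mono (by omega))).add ((((hA.smul s).mul h5).mul e2).mono (by omega))
  refine ⟨(q h0).smul _, t • (ρ g * M' * ρ g⁻¹ - M') - s • (ρ g' * M' * ρ g'⁻¹ - M'), fun y hy => by
    rw [sub_mul, trace_sub, smul_mul_assoc, smul_mul_assoc, trace_smul, trace_smul, h3.diff hg y hy,
      h3.diff hg' y hy]; simp, ?_⟩
  have := (((key g s h1 h2).smul t).sub ((key g' t h1' h2').smul s)).add
    (((q h4).smul (s * t * (s - t))).mono (show k + 2 * l + 1 ≤ _ by omega))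
  convert this using 1
  simp only [mul_sub, sub_mul]
  module

end Amb

variable {D : ChevalleyDatum} {C : Cert D} {F : Type*} [Field F] {G : Type*} [Group G]

/-- a module with a weight basis and an invariant symmetric form -/
structure Md (S : Sys C F G) (ι : Type) [Fintype ι] [DecidableEq ι] where
  /-- divided powers -/
  X : Rt D → ℕ → Matrix ι ι F
  /-- the representation -/
  ρ : G →* Matrix ι ι F
  /-- weights -/
  wt : ι → Nd D → ℤ
  /-- the form -/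
  Ω : Matrix ι ι F
  /-- sparse columns -/
  col : Rt D → ℕ → ι → List (ι × ℤ)
  ρ_x : ∀ r t, ρ (S.x r t) = 1 + t • X r 1 + t ^ 2 • X r 2 + t ^ 3 • X r 3
  X_wt : ∀ r k a b, X r (k + 1) a b ≠ 0 → wt a = wt b + ((k : ℤ) + 1) • C.rc r
  Ω_symm : Ωᵀ = Ω
  Ω_X : ∀ r k, (X r (k + 1))ᵀ * Ω = (-1 : F) ^ (k + 1) • (Ω * X r (k + 1))
  col_spec : ∀ r k b, X r (k + 1) *ᵥ Pi.single b 1 = ((col r (k + 1) b).map fun p => (p.2 : F) • Pi.single p.1 1).sum

namespace Md

variable {S : Sys C F G} {ι : Type} [Fintype ι] [DecidableEq ι] (V : Md S ι)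

theorem ρ_Ω (g : G) : (V.ρ g)ᵀ * V.Ω = V.Ω * V.ρ g⁻¹ := by
  induction g using S.induction with
  | h1 => simp
  | h2 r t g ih =>
    rw [_root_.mul_inv_rev, map_mul, map_mul, transpose_mul, mul_assoc, ← mul_assoc V.Ω, ← ih, mul_assoc, ← S.x_neg,
      V.ρ_x, V.ρ_x]
    simp only [transpose_add, transpose_smul, transpose_one, add_mul, smul_mul_assoc, mul_add, mul_smul_comm,
      V.Ω_X r 0, V.Ω_X r 1, V.Ω_X r 2, one_mul, mul_one]
    module

/-- the bilinear form -/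
def κ (u v : ι → F) : F := u ⬝ᵥ V.Ω *ᵥ v

theorem κ_comm (u v : ι → F) : V.κ u v = V.κ v u := by
  rw [κ, dotProduct_mulVec, ← mulVec_transpose, V.Ω_symm, dotProduct_comm, κ]

theorem κ_ρ (g : G) (u v : ι → F) : V.κ (V.ρ g *ᵥ u) v = V.κ u (V.ρ g⁻¹ *ᵥ v) := by
  rw [κ, κ, mulVec_mulVec, ← V.ρ_Ω, ← mulVec_mulVec, dotProduct_mulVec u, vecMul_transpose]

theorem κ_add_left (u u' v : ι → F) : V.κ (u + u') v = V.κ u v + V.κ u' v := add_dotProduct _ _ _
theorem κ_add_right (u v v' : ι → F) : V.κ u (v + v') = V.κ u v + V.κ u v' := by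
  rw [κ, mulVec_add, dotProduct_add]; rfl
theorem κ_sub_left (u u' v : ι → F) : V.κ (u - u') v = V.κ u v - V.κ u' v := sub_dotProduct _ _ _
theorem κ_sub_right (u v v' : ι → F) : V.κ u (v - v') = V.κ u v - V.κ u v' := by
  rw [κ, mulVec_sub, dotProduct_sub]; rfl
theorem κ_smul_left (c : F) (u v : ι → F) : V.κ (c • u) v = c * V.κ u v := smul_dotProduct _ _ _
theorem κ_smul_right (c : F) (u v : ι → F) : V.κ u (c • v) = c * V.κ u v := by
  rw [κ, mulVec_smul, dotProduct_smul]; rfl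
theorem κ_zero_left (v : ι → F) : V.κ 0 v = 0 := zero_dotProduct _
theorem κ_zero_right (v : ι → F) : V.κ v 0 = 0 := by rw [κ, mulVec_zero, dotProduct_zero]

/-- the form `κ (u, g v)` -/
def B (g : G) (u v : ι → F) : F := V.κ u (V.ρ g *ᵥ v)

theorem B_conj (g x : G) (u v : ι → F) : V.B (g⁻¹ * x * g) u v = V.B x (V.ρ g *ᵥ u) (V.ρ g *ᵥ v) := by
  rw [B, B, κ_ρ, map_mul, map_mul, mulVec_mulVec, mulVec_mulVec]

theorem B_inv (x : G) (u v : ι → F) : V.B x⁻¹ u v = V.B x v u := by rw [B, B, ← κ_ρ, κ_comm]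

/-- rank one matrices -/
def tn (u v : ι → F) : Matrix ι ι F := vecMulVec u (V.Ω *ᵥ v)

theorem trace_tn (u v : ι → F) (g : G) : (V.tn u v * V.ρ g).trace = V.B g v u := by
  rw [trace_mul_comm, tn, mul_vecMulVec, trace_vecMulVec, B, κ_comm, κ]

theorem mul_tn (A : Matrix ι ι F) (u v : ι → F) : A * V.tn u v = V.tn (A *ᵥ u) v := mul_vecMulVec _ _ _

theorem tn_mul (r : Rt D) (k : ℕ) (u v : ι → F) :
    V.tn u v * V.X r (k + 1) = (-1 : F) ^ (k + 1) • V.tn u (V.X r (k + 1) *ᵥ v) := by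
  rw [tn, vecMulVec_mul, ← mulVec_transpose, mulVec_mulVec, V.Ω_X, smul_mulVec, vecMulVec_smul, tn, mulVec_mulVec]

theorem fil_X (f : (Nd D → ℤ) →ₗ[ℤ] ℤ) (r : Rt D) (k : ℕ) :
    Fil (fun a => f (V.wt a)) (((k : ℤ) + 1) * f (C.rc r)) (V.X r (k + 1)) := fun a b h => by_contra fun h0 => by
  simp only [V.X_wt r k a b h0, map_add, map_smul, smul_eq_mul] at h
  omega

variable {K : Subgroup G} {b : G} {f : (Nd D → ℤ) →ₗ[ℤ] ℤ} {k : ℤ} {M : Matrix ι ι F} {τ : F} {r : Rt D}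

theorem fil_x (hr : 0 ≤ f (C.rc r)) (t : F) :
    Fil (fun a => f (V.wt a)) (2 * f (C.rc r)) (V.ρ (S.x r t) - 1 - t • V.X r 1) := by
  have : V.ρ (S.x r t) - 1 - t • V.X r 1 = t ^ 2 • V.X r 2 + t ^ 3 • V.X r 3 := by rw [V.ρ_x]; abel
  rw [this]
  exact (((V.fil_X f r 1).mono (by push_cast; omega)).smul _).add (((V.fil_X f r 2).mono (by push_cast; omega)).smul _)

theorem fil_x' (hr : 0 ≤ f (C.rc r)) (t : F) : Fil (fun a => f (V.wt a)) (f (C.rc r)) (V.ρ (S.x r t) - 1) := by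
  simpa using ((V.fil_x hr t).mono (by omega)).add (((V.fil_X f r 0).mono (by simp)).smul t)

/-- the first order operator of a root element -/
theorem ld_lin (h : Ld V.ρ K b (fun a => f (V.wt a)) k M τ) (hr : 0 < f (C.rc r)) (hx : S.x r 1 ∈ K) :
    Ld V.ρ K b (fun a => f (V.wt a)) (k + f (C.rc r)) (V.X r 1 * M - M * V.X r 1) 0 :=
  h.diff hx hr ((V.fil_X f r 0).mono (by simp)) (by simpa using (V.fil_x hr.le 1).mono (by omega))
    (by simpa [← S.x_neg] using (V.fil_x hr.le (-1)).mono (by omega))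

/-- the second order operator of a root group with two nontrivial elements -/
theorem ld_sq (h : Ld V.ρ K b (fun a => f (V.wt a)) k M τ) (hr : 0 < f (C.rc r)) {s t : F} (hs : s ≠ 0) (ht : t ≠ 0)
    (hst : s ≠ t) (hx : S.x r s ∈ K) (hx' : S.x r t ∈ K) :
    Ld V.ρ K b (fun a => f (V.wt a)) (k + 2 * f (C.rc r))
      (V.X r 2 * M - V.X r 1 * M * V.X r 1 + M * V.X r 2) 0 := by
  have key : ∀ s : F, Fil (fun a => f (V.wt a)) (2 * f (C.rc r) + 1)
      (V.ρ (S.x r s) - 1 - s • V.X r 1 - s ^ 2 • V.X r 2) := fun s => by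
    have : V.ρ (S.x r s) - 1 - s • V.X r 1 - s ^ 2 • V.X r 2 = s ^ 3 • V.X r 3 := by rw [V.ρ_x]; abel
    rw [this]
    exact ((V.fil_X f r 2).mono (by push_cast; omega)).smul _
  have := (h.sq hx hx' hr ((V.fil_X f r 0).mono (by simp)) ((V.fil_X f r 1).mono (by simp)) (key s)
    (by simpa [← S.x_neg] using key (-s)) (key t) (by simpa [← S.x_neg] using key (-t))).smul (s * t * (s - t))⁻¹
  rwa [smul_smul, inv_mul_cancel₀ (mul_ne_zero (mul_ne_zero hs ht) (sub_ne_zero.2 hst)), one_smul] at this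

/-! ### evaluation of operators on tensors -/

/-- the value of a list of terms -/
def ev (L : List (ι × ι × ℤ)) : Matrix ι ι F :=
  (L.map fun t => (t.2.2 : F) • V.tn (Pi.single t.1 1) (Pi.single t.2.1 1)).sum

/-- the pairing of a list of terms with a group element -/
def evB (g : G) (L : List (ι × ι × ℤ)) : F :=
  (L.map fun t => (t.2.2 : F) * V.B g (Pi.single t.2.1 1) (Pi.single t.1 1)).sum

theorem trace_ev (g : G) (L : List (ι × ι × ℤ)) : (V.ev L * V.ρ g).trace = V.evB g L := by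
  induction L with
  | nil => simp [ev, evB]
  | cons t L ih =>
    simp only [ev, evB, List.map_cons, List.sum_cons, add_mul, trace_add, smul_mul_assoc, trace_smul, trace_tn,
      smul_eq_mul] at ih ⊢
    rw [ih]

theorem ev_append (L L' : List (ι × ι × ℤ)) : V.ev (L ++ L') = V.ev L + V.ev L' := by simp [ev]

theorem ev_flatMap {α : Type*} (l : List α) (f : α → List (ι × ι × ℤ)) :
    V.ev (l.flatMap f) = (l.map fun a => V.ev (f a)).sum := by
  induction l with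
  | nil => rfl
  | cons a l ih => simp [ev_append, ih]

end Md

/-- left action on terms -/
def actL {ι : Type} (c : ι → List (ι × ℤ)) (L : List (ι × ι × ℤ)) : List (ι × ι × ℤ) :=
  L.flatMap fun t => (c t.1).filterMap fun p => if p.2 = 0 then none else some (p.1, t.2.1, t.2.2 * p.2)

/-- right action on terms -/
def actR {ι : Type} (c : ι → List (ι × ℤ)) (L : List (ι × ι × ℤ)) : List (ι × ι × ℤ) :=
  L.flatMap fun t => (c t.2.1).filterMap fun p => if p.2 = 0 then none else some (t.1, p.1, t.2.2 * p.2)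

/-- an operator of first (`false`) or second (`true`) order on terms -/
def opL {ι : Type} (c : Rt D → ℕ → ι → List (ι × ℤ)) (o : Rt D × Bool) (L : List (ι × ι × ℤ)) : List (ι × ι × ℤ) :=
  if o.2 then actL (c o.1 2) L ++ actL (c o.1 1) (actR (c o.1 1) L) ++ actR (c o.1 2) L
  else actL (c o.1 1) L ++ actR (c o.1 1) L

/-- total coefficient -/
def cf {ι : Type} [DecidableEq ι] (L : List (ι × ι × ℤ)) (a b : ι) : ℤ :=
  (L.map fun t => if t.1 = a ∧ t.2.1 = b then t.2.2 else 0).sum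

/-- equality modulo `p` -/
def Same {ι : Type} [DecidableEq ι] (p : ℤ) (L L' : List (ι × ι × ℤ)) : Prop :=
  ∀ t ∈ L ++ L', p ∣ cf L t.1 t.2.1 - cf L' t.1 t.2.1

instance decSame {ι : Type} [DecidableEq ι] (p : ℤ) (L L' : List (ι × ι × ℤ)) : Decidable (Same p L L') :=
  inferInstanceAs (Decidable (∀ t ∈ L ++ L', _))

namespace Md

variable {S : Sys C F G} {ι : Type} [Fintype ι] [DecidableEq ι] (V : Md S ι)

theorem ev_actL (r : Rt D) (k : ℕ) (L : List (ι × ι × ℤ)) :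
    V.ev (actL (V.col r (k + 1)) L) = V.X r (k + 1) * V.ev L := by
  rw [actL, ev_flatMap, ev, ← List.sum_map_mul_left]
  congr 2
  funext t
  rw [mul_smul_comm, mul_tn, V.col_spec]
  induction V.col r (k + 1) t.1 with
  | nil => simp [ev, tn]
  | cons p l ih =>
    rw [List.map_cons, List.sum_cons, tn, add_vecMulVec, smul_add, ← tn, ← tn, ← ih]
    by_cases h : p.2 = 0
    · simp [h, tn]
    · simp [h, ev, tn, smul_vecMulVec, smul_smul]

theorem ev_actR (r : Rt D) (k : ℕ) (L : List (ι × ι × ℤ)) :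
    V.ev (actR (V.col r (k + 1)) L) = (-1 : F) ^ (k + 1) • (V.ev L * V.X r (k + 1)) := by
  rw [actR, ev_flatMap, ev, ← List.sum_map_mul_right, List.smul_sum, List.map_map]
  congr 2
  funext t
  rw [Function.comp_apply, smul_mul_assoc, tn_mul, smul_comm (_ : F) ((-1 : F) ^ _), smul_smul, ← pow_add,
    ← two_mul, pow_mul, neg_one_sq, one_pow, one_smul, V.col_spec]
  induction V.col r (k + 1) t.2.1 with
  | nil => simp [ev, tn]
  | cons p l ih =>
    rw [List.map_cons, List.sum_cons, tn, mulVec_add, vecMulVec_add, smul_add, ← tn, ← tn, ← ih]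
    by_cases h : p.2 = 0
    · simp [h, tn]
    · simp [h, ev, tn, mulVec_smul, vecMulVec_smul, smul_smul]

/-- the operators on matrices -/
def opM (o : Rt D × Bool) : Matrix ι ι F →ₗ[F] Matrix ι ι F where
  toFun M := if o.2 then V.X o.1 2 * M - V.X o.1 1 * M * V.X o.1 1 + M * V.X o.1 2 else V.X o.1 1 * M - M * V.X o.1 1
  map_add' M N := by split_ifs <;> noncomm_ring
  map_smul' c M := by split_ifs <;> simp [smul_sub, smul_add]

theorem ev_opL (o : Rt D × Bool) (L : List (ι × ι × ℤ)) : V.ev (opL V.col o L) = V.opM o (V.ev L) := by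
  simp only [opL, opM, LinearMap.coe_mk, AddHom.coe_mk]
  split_ifs
  · rw [ev_append, ev_append, V.ev_actL _ 1, V.ev_actL _ 0, V.ev_actR _ 0, V.ev_actR _ 1]
    simp [sub_eq_add_neg, mul_assoc]
  · rw [ev_append, V.ev_actL _ 0, V.ev_actR _ 0]
    simp [sub_eq_add_neg]

theorem ev_eq_sum (L : List (ι × ι × ℤ)) :
    V.ev L = ∑ a, ∑ b, (cf L a b : F) • V.tn (Pi.single a 1) (Pi.single b 1) := by
  induction L with
  | nil => simp [ev, cf]
  | cons t L ih =>
    simp only [ev, cf, List.map_cons, List.sum_cons, Int.cast_add, add_smul, Finset.sum_add_distrib] at ih ⊢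
    rw [ih]
    simp [ite_and, eq_comm]

theorem ev_same {p : ℤ} (hp : (p : F) = 0) {L L' : List (ι × ι × ℤ)} (h : Same p L L') : V.ev L = V.ev L' := by
  rw [ev_eq_sum, ev_eq_sum]
  refine Finset.sum_congr rfl fun a _ => Finset.sum_congr rfl fun b _ => ?_
  congr 1
  by_cases h1 : ∃ t ∈ L ++ L', t.1 = a ∧ t.2.1 = b
  · obtain ⟨t, ht, rfl, rfl⟩ := h1
    obtain ⟨c, hc⟩ := h t ht
    rw [← sub_eq_zero, ← Int.cast_sub, hc, Int.cast_mul, hp, zero_mul]
  · have key : ∀ N : List (ι × ι × ℤ), (∀ t ∈ N, t ∈ L ++ L') → cf N a b = 0 := fun N hN =>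
      List.sum_eq_zero fun x hx => by
        obtain ⟨t, ht, rfl⟩ := List.mem_map.1 hx
        exact if_neg fun h => h1 ⟨t, hN t ht, h⟩
    rw [key L fun _ => List.mem_append_left _, key L' fun _ => List.mem_append_right _]

/-- the degree of an operator -/
def dg (C : Cert D) (f : (Nd D → ℤ) →ₗ[ℤ] ℤ) (o : Rt D × Bool) : ℤ := (if o.2 then 2 else 1) * f (C.rc o.1)

/-- the operator is available in `K` -/
def Av (K : Subgroup G) (f : (Nd D → ℤ) →ₗ[ℤ] ℤ) (o : Rt D × Bool) : Prop :=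
  ∀ b k M τ, Ld V.ρ K b (fun a => f (V.wt a)) k M τ → Ld V.ρ K b (fun a => f (V.wt a)) (k + dg C f o) (V.opM o M) 0

variable {K : Subgroup G} {f : (Nd D → ℤ) →ₗ[ℤ] ℤ}

theorem av_lin {r : Rt D} (hr : 0 < f (C.rc r)) (hx : S.x r 1 ∈ K) : V.Av K f (r, false) := fun _ _ _ _ h => by
  simpa [dg, opM] using V.ld_lin h hr hx

theorem av_sq {r : Rt D} (hr : 0 < f (C.rc r)) {s t : F} (hs : s ≠ 0) (ht : t ≠ 0) (hst : s ≠ t)
    (hx : S.x r s ∈ K) (hx' : S.x r t ∈ K) : V.Av K f (r, true) := fun _ _ _ _ h => by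
  simpa [dg, opM] using V.ld_sq h hr hs ht hst hx hx'

theorem ld_ops {os : List (Rt D × Bool)} (h : ∀ o ∈ os, V.Av K f o) {b : G} {k : ℤ} {M : Matrix ι ι F}
    (hM : Ld V.ρ K b (fun a => f (V.wt a)) k M 0) : Ld V.ρ K b (fun a => f (V.wt a)) (k + (os.map (dg C f)).sum)
      (os.foldl (fun M o => V.opM o M) M) 0 := by
  induction os generalizing k M with
  | nil => simpa using hM
  | cons o os ih =>
    simpa [add_assoc] using ih (fun o ho => h o (List.mem_cons_of_mem _ ho)) (h o List.mem_cons_self _ _ _ _ hM)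

theorem ops_sum (os : List (Rt D × Bool)) {J : Type*} [Fintype J] (c : J → F) (L : J → List (ι × ι × ℤ)) :
    os.foldl (fun M o => V.opM o M) (∑ j, c j • V.ev (L j)) =
      ∑ j, c j • V.ev (os.foldl (fun L o => opL V.col o L) (L j)) := by
  induction os generalizing L with
  | nil => rfl
  | cons o os ih => simp only [List.foldl_cons, map_sum, map_smul, ← ev_opL, ih]

theorem B_single {a a' : ι} {e : F} (h : V.Ω *ᵥ Pi.single a 1 = e • Pi.single a' 1) (g : G) (b : ι) :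
    V.B g (Pi.single a 1) (Pi.single b 1) = e * V.ρ g a' b := by
  rw [B, κ_comm, κ, h]
  simp

/-- the basic relation between the corner blocks -/
theorem rel {a b c x y : G} (H : HK K a b c) (hx : Cj K a x) (hy : Cj K b y) {n : ℕ} {p m : Fin n → ι} {e : F}
    (he : e * e = 1) (h1 : ∀ i, V.Ω *ᵥ Pi.single (p i) 1 = e • Pi.single (m i) 1)
    (h2 : ∀ i, V.Ω *ᵥ Pi.single (m i) 1 = e • Pi.single (p i) 1) {k : ℤ}
    (h3 : p.Injective ∧ m.Injective ∧ (∀ i, f (V.wt (p i)) = k ∧ f (V.wt (m i)) = -k) ∧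
      ∀ a, (-k < f (V.wt a) ∨ ∃ i, a = m i) ∧ (f (V.wt a) < k ∨ ∃ i, a = p i))
    {o : Rt D × Bool} {os : List (Rt D × Bool)} (h4 : ∀ o' ∈ o :: os, V.Av K f o')
    (h5 : ((o :: os).map (dg C f)).sum = 4 * k) {q : ℤ} (hq : (q : F) = 0) {R : Fin n → Fin n → List (ι × ι × ℤ)}
    (h6 : ∀ i j, Same q ((o :: os).foldl (fun L o => opL V.col o L) [(m i, m j, 1)]) (R i j)) :
    ∑ i, ∑ j, V.B x (Pi.single (p i) 1) (Pi.single (p j) 1) * V.evB y (R i j) = 0 := by
  obtain ⟨i1, i2, i3, i4⟩ := h3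
  have b1 : ∀ a, -k ≤ f (V.wt a) ∧ f (V.wt a) ≤ k := fun a => by
    refine ⟨?_, ?_⟩
    · rcases (i4 a).1 with h | ⟨i, rfl⟩
      exacts [h.le, (i3 i).2.ge]
    · rcases (i4 a).2 with h | ⟨i, rfl⟩
      exacts [h.le, (i3 i).1.le]
  have e1 : ∀ s t, (∑ z : Fin n × Fin n, V.B x (Pi.single (p z.1) 1) (Pi.single (p z.2) 1) •
      V.ev [(m z.1, m z.2, 1)]) (m s) (p t) = V.ρ x (m s) (p t) := fun s t => by
    simp only [ev, tn, h2, V.B_single (h1 _), List.map_cons, List.map_nil, List.sum_cons, List.sum_nil,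
      Matrix.sum_apply, Fintype.sum_prod_type]
    simp [vecMulVec_apply, Pi.single_apply, i1.eq_iff, i2.eq_iff, mul_comm e, mul_assoc, he]
  have l0 : Ld V.ρ K b (fun a => f (V.wt a)) (-2 * k) (∑ z : Fin n × Fin n, V.B x (Pi.single (p z.1) 1)
      (Pi.single (p z.2) 1) • V.ev [(m z.1, m z.2, 1)]) (V.ρ c).trace :=
    ⟨Fil.of_bound _ fun s t => by have := b1 s; have := b1 t; omega, _, H.vk V.ρ hx, fun s t hst => by
      simp only at hst
      obtain ⟨s, rfl⟩ := (i4 s).1.resolve_left (by have := b1 t; omega)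
      obtain ⟨t, rfl⟩ := (i4 t).2.resolve_left (by have := b1 (m s); omega)
      rw [Matrix.sub_apply, e1, sub_self]⟩
  have l1 := (V.ld_ops (fun o ho => h4 o (List.mem_cons_of_mem _ ho)) (h4 o List.mem_cons_self _ _ _ _ l0)).vk
    (fun s t => by
      have := b1 s; have := b1 t
      rw [List.map_cons, List.sum_cons] at h5
      omega) y hy
  rw [← List.foldl_cons (f := fun M o => V.opM o M), ops_sum] at l1
  simp only [V.ev_same hq (h6 _ _), Finset.sum_mul, trace_sum, smul_mul_assoc, trace_smul, trace_ev,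
    Fintype.sum_prod_type, smul_eq_mul] at l1
  exact l1

end Md

end Cfsg.Agent.AH
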