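import Cfsg.Agent.AH.Lin
import Cfsg.Agent.Forms.SqZero
import Cfsg.Agent.S2450
import Cfsg.Prelude.Def_LieTypeChar

/-!
Products of two conjugacy classes: the linear groups.
-/

set_option autoImplicit false

namespace Cfsg.Agent.AH.Cls

open Module

variable {F : Type*} [Field F] {V : Type*} [AddCommGroup V] [Module F V]

theorem exists_not_eigen {f : End F V} (h : ¬ Sc f) : ∃ u, f u ∉ F ∙ u := by
  by_contra h1
  push Not at h1
  refine h (LinearMap.exists_eq_smul_id_of_forall_notLinearIndependent fun v hv => ?_)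
  obtain ⟨a, ha⟩ := Submodule.mem_span_singleton.1 (h1 v)
  exact (LinearIndependent.pair_iff' (hv.ne_zero 0)).1 hv a ha

theorem exists_dual {ι : Type*} {v : ι → V} (hv : LinearIndependent F v) (c : ι → F) :
    ∃ φ : V →ₗ[F] F, ∀ i, φ (v i) = c i := by
  obtain ⟨φ, hφ⟩ := LinearMap.exists_extend ((Basis.span hv).constr F c)
  refine ⟨φ, fun i => ?_⟩
  have h1 := LinearMap.congr_fun hφ (Basis.span hv i)
  rw [Basis.constr_basis] at h1
  simpa [Basis.span_apply] using h1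

theorem exists_dual₂ {a b : V} (ha : a ≠ 0) (hb : b ∉ F ∙ a) (r s : F) :
    ∃ φ : V →ₗ[F] F, φ a = r ∧ φ b = s := by
  have h : LinearIndependent F ![a, b] :=
    (LinearIndependent.pair_iff' ha).2 fun c hc => hb (Submodule.mem_span_singleton.2 ⟨c, hc⟩)
  obtain ⟨φ, hφ⟩ := exists_dual h ![r, s]
  exact ⟨φ, hφ 0, hφ 1⟩

theorem exists_dual₃ {a b c : V} (ha : a ≠ 0) (hb : b ∉ F ∙ a) (hc : c ∉ Submodule.span F {a, b}) (r s t : F) :
    ∃ φ : V →ₗ[F] F, φ a = r ∧ φ b = s ∧ φ c = t := by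
  have h : LinearIndependent F ![a, b] :=
    (LinearIndependent.pair_iff' ha).2 fun c hc => hb (Submodule.mem_span_singleton.2 ⟨c, hc⟩)
  have h' : LinearIndependent F (Fin.cons c ![a, b] : Fin 3 → V) :=
    linearIndependent_finCons.2 ⟨h, by simpa [Matrix.range_cons, Set.pair_comm] using hc⟩
  obtain ⟨φ, hφ⟩ := exists_dual h' ![t, r, s]
  exact ⟨φ, hφ 1, hφ 2, hφ 0⟩

theorem LR.inv_eq {L : Type*} [Group L] (R : LR L F V) {g : L} {B : End F V} (h : R.ρ g * B = 1) : R.ρ g⁻¹ = B := by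
  rw [← mul_one (R.ρ g⁻¹), ← h, ← mul_assoc, R.inv_mul, one_mul]

theorem LR.conj_MM {L : Type*} [Group L] (R : LR L F V) {g : L} {N : End F V} (h : R.ρ g = 1 + N) (hN : N * N = 0)
    (x y : L) : R.ρ x * R.ρ (g * y * g⁻¹) = MM (R.ρ x) (R.ρ y) N := by
  have : R.ρ g⁻¹ = 1 - N := R.inv_eq (by
    rw [h]
    calc (1 + N) * (1 - N) = 1 - N * N := by noncomm_ring
      _ = 1 := by rw [hN, sub_zero])
  rw [map_mul, map_mul, this, h, MM]

variable [FiniteDimensional F V]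

theorem tr_mul_rk1 (A : End F V) (φ : V →ₗ[F] F) (u : V) : tr (A * (φ.smulRight u : End F V)) = φ (A u) := by
  have : A * (φ.smulRight u : End F V) = φ.smulRight (A u) := by ext v; simp
  rw [this, LinearMap.trace_smulRight]

theorem tr_MM_rk1 (x y : End F V) (φ : V →ₗ[F] F) (u : V) :
    tr (MM x y (φ.smulRight u)) = tr (x * y) + φ (y (x u)) - φ (x (y u)) - φ (y u) * φ (x u) := by
  have h1 : MM x y (φ.smulRight u) = x * y + x * φ.smulRight u * y - (x * y) * φ.smulRight u -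
      φ (y u) • (x * φ.smulRight u) := by
    ext v
    simp [MM]
    module
  rw [h1, map_sub, map_sub, map_add, map_smul, LinearMap.trace_mul_comm F (x * φ.smulRight u), ← mul_assoc,
    tr_mul_rk1, tr_mul_rk1, tr_mul_rk1]
  rfl

theorem sl_core {L : Type*} [Group L] (R : LR L F V) (h3 : 3 ≤ finrank F V)
    (htv : ∀ (φ : V →ₗ[F] F) (u : V), φ u = 0 → ∃ g : L, R.ρ g = 1 + φ.smulRight u)
    {x y : L} {c : L ⧸ Subgroup.center L} (hx : pr x ≠ 1) (hy : pr y ≠ 1) (H : Hyp (pr x) (pr y) c) : False := by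
  rw [Ne, R.pr_eq_one] at hx hy
  obtain ⟨u, hu⟩ := exists_not_eigen hx
  have hu0 : u ≠ 0 := by rintro rfl; simp at hu
  have inj : ∀ (g : L) (a b : V), R.ρ g a = R.ρ g b → a = b := fun g a b h => by
    have := congrArg (R.ρ g⁻¹) h
    rwa [← End.mul_apply, ← End.mul_apply, R.inv_mul] at this
  have fix : ∀ (g : L) (a b : V), R.ρ g a = b → R.ρ g⁻¹ b = a := fun g a b h => by
    rw [← h, ← End.mul_apply, R.inv_mul]; rfl
  have h1 : ∃ y1, IsConj y y1 ∧ R.ρ y1 u ∉ F ∙ u := by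
    obtain ⟨v, hv⟩ := exists_not_eigen hy
    have hv0 : v ≠ 0 := by rintro rfl; simp at hv
    by_cases h : u ∈ F ∙ v
    · obtain ⟨s, rfl⟩ := Submodule.mem_span_singleton.1 h
      have hs : s ≠ 0 := by rintro rfl; simp at hu0
      refine ⟨y, IsConj.refl _, fun h' => hv ?_⟩
      rwa [Submodule.span_singleton_smul_eq hs.isUnit, map_smul, Submodule.smul_mem_iff _ hs] at h'
    · obtain ⟨φ, h1, h2⟩ := exists_dual₂ hv0 h 1 1
      obtain ⟨k, hk⟩ := htv φ (u - v) (by simp [h1, h2])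
      have h3 : R.ρ k v = u := by simp [hk, h1]
      refine ⟨k * y * k⁻¹, isConj_iff.2 ⟨k, rfl⟩, fun h' => hv ?_⟩
      obtain ⟨s, hs⟩ := Submodule.mem_span_singleton.1 h'
      rw [map_mul, map_mul, End.mul_apply, End.mul_apply, fix k v u h3, ← h3, ← map_smul] at hs
      exact Submodule.mem_span_singleton.2 ⟨s, inj k _ _ hs⟩
  have h2 : ∃ y2, IsConj y y2 ∧ R.ρ y2 u ∉ Submodule.span F {u, R.ρ x u} := by
    obtain ⟨y1, c1, h1⟩ := h1
    by_cases h : R.ρ y1 u ∈ Submodule.span F {u, R.ρ x u}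
    · have h4 : Submodule.span F {u, R.ρ x u} ≠ ⊤ := fun h4 => by
        classical
        have := finrank_span_le_card (R := F) ({u, R.ρ x u} : Set V)
        rw [h4, finrank_top] at this
        have h5 : ({u, R.ρ x u} : Set V).toFinset.card ≤ 2 := by
          rw [Set.toFinset_insert, Set.toFinset_singleton]; exact Finset.card_le_two
        omega
      obtain ⟨z, -, hz⟩ := SetLike.exists_of_lt (lt_top_iff_ne_top.2 h4)
      have h5 : Submodule.span F {u, R.ρ y1 u} ≤ Submodule.span F {u, R.ρ x u} :=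
        Submodule.span_le.2 (Set.insert_subset (Submodule.subset_span (by simp)) (by simpa using h))
      obtain ⟨φ, e1, e2, e3⟩ := exists_dual₃ hu0 h1 (fun h' => hz (h5 h')) 0 1 0
      obtain ⟨k, hk⟩ := htv φ z e3
      refine ⟨k * y1 * k⁻¹, c1.trans (isConj_iff.2 ⟨k, rfl⟩), fun h' => hz ?_⟩
      rw [map_mul, map_mul, End.mul_apply, End.mul_apply, fix k u u (by simp [hk, e1]), hk] at h'
      simpa [e2, Submodule.add_mem_iff_right _ h] using h'
    · exact ⟨y1, c1, h⟩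
  obtain ⟨y2, c2, h2⟩ := h2
  obtain ⟨χ, a1, a2, a3⟩ := exists_dual₃ hu0 hu h2 0 1 0
  obtain ⟨ψ, b1, b2, b3⟩ := exists_dual₃ hu0 hu h2 0 0 1
  obtain ⟨d, hd⟩ : ∃ d, d = R.ρ y2 (R.ρ x u) - R.ρ x (R.ρ y2 u) := ⟨_, rfl⟩
  have key : ∀ s t : F, ∃ r : F, r ≠ 0 ∧
      tr (R.ρ x * R.ρ y2) + s * χ d + t * ψ d - t * s = r * tr (R.ρ x * R.ρ y) := fun s t => by
    obtain ⟨g, hg⟩ := htv (s • χ + t • ψ) u (by simp [a1, b1])
    obtain ⟨z, k, r, hz, hr⟩ := R.rel H (IsConj.refl x) (c2.trans (isConj_iff.2 ⟨g, rfl⟩))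
    refine ⟨r, fun h0 => hu0 (inj z _ _ (by simp [hz, h0])), ?_⟩
    rw [R.conj_MM hg (by ext v; simp [a1, b1])] at hr
    have := congrArg tr hr
    rw [tr_MM_rk1, map_smul, tr_conj (R.inv_mul k), smul_eq_mul] at this
    rw [← this, hd]
    simp [a2, a3, b2, b3]
    ring
  obtain ⟨r, hr, e1⟩ := key (ψ d + 1) (tr (R.ρ x * R.ρ y2) + (ψ d + 1) * χ d)
  obtain ⟨r', -, e2⟩ := key (ψ d + 1) (tr (R.ρ x * R.ρ y2) + (ψ d + 1) * χ d + 1)
  have e3 : tr (R.ρ x * R.ρ y) = 0 := (mul_eq_zero.1 (by linear_combination -e1)).resolve_left hr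
  rw [e3] at e2
  exact one_ne_zero (α := F) (by linear_combination -e2)

/-- the special linear group as a linear group -/
noncomputable def slLR (n : ℕ) (F : Type*) [Field F] : LR (Matrix.SpecialLinearGroup (Fin n) F) F (Fin n → F) where
  ρ := { toFun := Forms.sllin, map_one' := Forms.sllin_one, map_mul' := Forms.sllin_mul }
  inj := Forms.sllin_injective
  cen z hz := by
    obtain ⟨r, -, hr⟩ := Matrix.SpecialLinearGroup.mem_center_iff.1 hz
    refine sc_iff.2 ⟨r, fun v => ?_⟩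
    change Forms.sllin z v = _
    rw [Forms.sllin_apply, ← hr]
    ext i
    simp [Matrix.mulVec_diagonal]

end Cfsg.Agent.AH.Cls

namespace Cfsg.Agent.AH

open Cls

theorem mix_PSL {p : ℕ} {G : Type*} [Group G] (h : IsPSLChar p G) : Mix p G := by
  obtain ⟨F, _, _, _, n, hn, h4, ⟨e⟩⟩ := h
  refine Mix.congr (fun a b c ha hb _ H => False.elim ?_) e
  rcases hn.eq_or_lt with rfl | hn
  · refine S2450.result (h4 rfl) a b ha hb c (Set.ext fun g => ⟨?_, fun hg => ?_⟩)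
    · rintro ⟨u, v, rfl⟩
      exact H u v
    · obtain ⟨k, rfl⟩ := isConj_iff.1 ((H.conj (IsConj.refl a) (IsConj.refl b)).symm.trans hg)
      exact ⟨k, k, by group⟩
  · obtain ⟨x, rfl⟩ := pr_surj a
    obtain ⟨y, rfl⟩ := pr_surj b
    refine sl_core (slLR n F) (by simp; omega) (fun φ u hu => Forms.exists_sllin_eq ?_) ha hb H
    have := LinearMap.transvection.det φ u
    rw [hu, add_zero] at this
    exact this

end Cfsg.Agent.AH
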