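import Cfsg.Agent.AH.OA
import Cfsg.Agent.AH.PSL

/-!
Products of two conjugacy classes in orthogonal groups: frames and trace relations.
-/

set_option autoImplicit false

namespace Cfsg.Agent.AH.Ort

open Module Cfsg.Agent.Polar Cfsg.Agent.Polar.PQ Cls

variable {F : Type*} [Field F] {V : Type*} [AddCommGroup V] [Module F V] {P : PQ (oFP F) V}

variable (P) in
/-- a basis of a totally singular line -/
structure Ts2 (u v : V) : Prop where
  su : P.Sing u
  sv : P.Sing v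
  uv : P.B u v = 0
  ind : ∀ r s : F, ∃ w, P.B u w = r ∧ P.B v w = s

variable (P) in
/-- a basis of a totally singular plane -/
structure Ts3 (u a b : V) : Prop where
  su : P.Sing u
  sa : P.Sing a
  sb : P.Sing b
  ua : P.B u a = 0
  ub : P.B u b = 0
  ab : P.B a b = 0
  ind : ∀ r s t : F, ∃ w, P.B u w = r ∧ P.B a w = s ∧ P.B b w = t

variable (P) in
/-- two orthogonal hyperbolic pairs -/
structure Hy2 (e f e' f' : V) : Prop where
  h1 : P.Hyp e f
  h2 : P.Hyp e' f'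
  me : e' ∈ P.perp {e, f}
  mf : f' ∈ P.perp {e, f}

theorem Ts2.of_notMem [FiniteDimensional F V] (hP : P.ND) {u v : V} (su : P.Sing u) (sv : P.Sing v)
    (uv : P.B u v = 0) (hu : u ≠ 0) (hv : v ∉ F ∙ u) : Ts2 P u v :=
  ⟨su, sv, uv, hP.exists_pair (li_of_notMem hu hv)⟩

theorem Ts2.ne_zero {u v : V} (h : Ts2 P u v) : u ≠ 0 := by
  rintro rfl
  obtain ⟨w, h1, -⟩ := h.ind 1 0
  simp at h1

theorem Ts2.symm {u v : V} (h : Ts2 P u v) : Ts2 P v u :=
  ⟨h.sv, h.su, B_swap_zero h.uv, fun r s => (h.ind s r).imp fun _ => And.symm⟩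

theorem Ts2.hy2 (hP : P.ND) {u v : V} (h : Ts2 P u v) : ∃ f f', Hy2 P u f v f' := by
  obtain ⟨w, h1, h2⟩ := h.ind 1 0
  obtain ⟨f, hf, a, b, rfl⟩ := exists_hyp_of_ne h.su (y := w) (by rw [h1]; exact one_ne_zero)
  have hv : v ∈ P.perp {u, a • w + b • u} := mem_perp_pair.2 ⟨B_swap_zero h.uv, by simp [h2, B_swap_zero h.uv]⟩
  obtain ⟨f', hf'⟩ := (hf.emb.nd hP).exists_hyp (e := ⟨v, hv⟩) h.sv
    (fun h0 => h.symm.ne_zero (congrArg Subtype.val h0))
  exact ⟨_, f', hf, ⟨hf'.left, hf'.right, hf'.pair⟩, hv, f'.2⟩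

variable [FiniteDimensional F V]

section Fin

variable [Finite F]

theorem Hy2.trans (hP : P.ND) (h7 : 7 ≤ finrank F V) {e f e' f' a b a' b' : V} (h : Hy2 P e f e' f')
    (k : Hy2 P a b a' b') : ∃ g ∈ P.EG, g • e = a ∧ g • f = b ∧ g • e' = a' ∧ g • f' = b' := by
  obtain ⟨g, hg, rfl, rfl⟩ := (o_vTrans hP (by omega)).exists_hyp h.h1 k.h1
  have m : ∀ v ∈ P.perp {e, f}, g • v ∈ P.perp {g • e, g • f} := fun v hv => by
    simpa [mem_perp_pair] using hv
  have h3 := k.h1.finrank_perp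
  have h4 := h.h2.act g
  obtain ⟨g', hg', h5, h6⟩ := (o_vTrans (k.h1.emb.nd hP) (by omega)).exists_hyp
    (e := ⟨g • e', m _ h.me⟩) (f := ⟨g • f', m _ h.mf⟩) (e' := ⟨a', k.me⟩) (f' := ⟨b', k.mf⟩)
    ⟨h4.left, h4.right, h4.pair⟩ ⟨k.h2.left, k.h2.right, k.h2.pair⟩
  refine ⟨k.h1.emb.ext g' * g, mul_mem (k.h1.emb.ext_mem_EG hg') hg, ?_, ?_, ?_, ?_⟩ <;> rw [mul_smul]
  · exact k.h1.emb.ext_smul_ker g' k.h1.emb_r_left
  · exact k.h1.emb.ext_smul_ker g' k.h1.emb_r_right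
  · exact (k.h1.emb.ext_smul_i g' ⟨g • e', m _ h.me⟩).trans (congrArg Subtype.val h5)
  · exact (k.h1.emb.ext_smul_i g' ⟨g • f', m _ h.mf⟩).trans (congrArg Subtype.val h6)

theorem Ts2.trans (hP : P.ND) (h7 : 7 ≤ finrank F V) {u v u' v' : V} (h : Ts2 P u v) (k : Ts2 P u' v') :
    ∃ g ∈ P.EG, g • u = u' ∧ g • v = v' := by
  obtain ⟨f, f', h⟩ := h.hy2 hP
  obtain ⟨l, l', k⟩ := k.hy2 hP
  obtain ⟨g, hg, h1, -, h2, -⟩ := h.trans hP h7 k
  exact ⟨g, hg, h1, h2⟩

theorem Ts2.ext (hP : P.ND) (h7 : 7 ≤ finrank F V) {u v : V} (h : Ts2 P u v) : ∃ a, Ts3 P u a v := by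
  obtain ⟨f, f', k⟩ := h.hy2 hP
  obtain ⟨a, ha, ha0, hs⟩ := o_iso (P := P) (P.perp {u, f, v, f'}) (by
    have := finrank_perp₄ (P := P) u f v f'; omega)
  obtain ⟨a1, a2, a3, a4⟩ := mem_perp₄.1 ha
  obtain ⟨y, hy⟩ := hP.exists_eq ha0 1
  obtain ⟨m1, m2⟩ := mem_perp_pair.1 k.me
  obtain ⟨m3, m4⟩ := mem_perp_pair.1 k.mf
  refine ⟨a, h.su, hs, h.sv, B_swap_zero a1, h.uv, a3, fun r s t =>
    ⟨s • y + (r - s * P.B u y) • f + (t - s * P.B v y) • f', ?_, ?_, ?_⟩⟩
  · simp [k.h1.pair, B_swap_zero m3]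
  · simp [hy, a2, a4]
  · simp [k.h2.pair, m2]

theorem exists_ts2 (hP : P.ND) (h5 : 5 ≤ finrank F V) {u : V} (hu : P.Sing u) (hu0 : u ≠ 0) : ∃ v, Ts2 P u v := by
  obtain ⟨f, hf⟩ := hP.exists_hyp hu hu0
  obtain ⟨v, hv, hv0, hs⟩ := o_index_two h5 u f hf
  refine ⟨v, hu, hs, B_swap_zero (mem_perp_pair.1 hv).1, hP.exists_pair (hf.linearIndependent_perp hv hv0)⟩

end Fin

omit [FiniteDimensional F V] in
theorem move {e p q w : V} {r : F} (he : P.Sing e) (hp : P.B p e = 0) (hq : P.B q e = 0) (h1 : P.B e w = 0)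
    (h2 : P.B p w = -r) (h3 : P.B q w = 0) : ∃ g ∈ P.EG, g • e = e ∧ g • p = p + r • e ∧ g • q = q := by
  have h := EOk.of_perp he (B_swap_zero h1)
  exact ⟨_, eich_mem_EG _ _ _, h.eich_smul_e, by simp [h.eich_smul_of_perp hp, h2], h.eich_smul_of_perp₂ hq h3⟩

/-! ### Siegel transformations -/

omit [FiniteDimensional F V] in
theorem ln_mul (g h : P.Iso) : ln (g * h) = ln g * ln h := rfl

omit [FiniteDimensional F V] in
theorem ln_one : ln (1 : P.Iso) = 1 := rfl

variable (P) in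
/-- a rank-one map -/
def rk (p a : V) : End F V := (P.B.flip p).smulRight a

omit [FiniteDimensional F V] in
@[simp] theorem rk_apply (p a w : V) : rk P p a w = P.B w p • a := rfl

variable (P) in
/-- the nilpotent part of a Siegel transformation -/
def sg (u v : V) : End F V := rk P u v - rk P v u

omit [FiniteDimensional F V] in
theorem conj_sg {u v : V} (hu : P.Sing u) (hv : P.Sing v) (huv : P.B u v = 0) (x y : P.Iso) :
    ln x * ln (P.eich u v 0 * y * (P.eich u v 0)⁻¹) = MM (ln x) (ln y) (sg P u v) := by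
  have h : P.EOk u v 0 := ⟨hu, B_swap_zero huv, hv⟩
  have h1 : ln (P.eich u v 0) = 1 + sg P u v := LinearMap.ext fun w => by
    simp [h.eich_smul, sg, add_sub_assoc]
  have h2 : ln (P.eich u v 0)⁻¹ = 1 - sg P u v := LinearMap.ext fun w => by
    rw [h.eich_inv, ln_apply, h.neg.eich_smul]
    simp [sg]
    abel
  rw [ln_mul, ln_mul, h1, h2, MM]

theorem tr_rk (p a : V) : tr (rk P p a) = P.B a p := LinearMap.trace_smulRight _ _

theorem e2_rk (p a : V) : e2 (rk P p a) = 0 := e2_rk1 _ _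

theorem b2_rk (p a q b : V) : b2 (rk P p a) (rk P q b) = P.B a p * P.B b q - P.B b p * P.B a q := by
  have : rk P p a * rk P q b = P.B b p • rk P q a := by
    ext w
    simp [smul_smul, mul_comm]
  rw [b2, this, map_smul, tr_rk, tr_rk, tr_rk, smul_eq_mul]

omit [FiniteDimensional F V] in
theorem sg_sg (x y : P.Iso) (u a b : V) : ln x * (sg P u a * ln y * sg P u b) =
    rk P u (P.B (y • b) u • x • a - P.B (y • b) a • x • u) +
      rk P b (P.B (y • u) a • x • u - P.B (y • u) u • x • a) := by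
  ext w
  simp only [sg, End.mul_apply, LinearMap.sub_apply, LinearMap.add_apply, rk_apply, ln_apply, map_sub, map_smul,
    LinearMap.smul_apply, smul_eq_mul]
  generalize x • a = a'
  generalize x • u = u'
  module

/-- `φ` is constant on the products of `x` with the conjugates of `y` -/
def Cst (φ : End F V → F) (x y : P.Iso) : Prop := ∃ k, ∀ h ∈ P.EG, φ (ln x * ln (h * y * h⁻¹)) = k

omit [FiniteDimensional F V] in
theorem Cst.conj {φ : End F V → F} {x y g : P.Iso} (H : Cst φ x y) (hg : g ∈ P.EG) : Cst φ x (g * y * g⁻¹) := by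
  obtain ⟨k, hk⟩ := H
  refine ⟨k, fun h hh => ?_⟩
  rw [← hk (h * g) (mul_mem hh hg), show h * (g * y * g⁻¹) * h⁻¹ = h * g * y * (h * g)⁻¹ by group]

omit [FiniteDimensional F V] in
theorem Cst.conj' {φ : End F V → F} {x y g : P.Iso} (H : Cst φ x y) (hg : g ∈ P.EG) : Cst φ x (g⁻¹ * y * g) := by
  simpa using H.conj (inv_mem hg)

omit [FiniteDimensional F V] in
theorem Cst.sg {φ : End F V → F} {x y : P.Iso} (H : Cst φ x y) : ∃ k, φ (ln x * ln y) = k ∧
    ∀ u v, P.Sing u → P.Sing v → P.B u v = 0 → φ (MM (ln x) (ln y) (sg P u v)) = k := by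
  obtain ⟨k, hk⟩ := H
  exact ⟨k, by simpa using hk 1 (one_mem _), fun u v hu hv huv => by
    rw [← conj_sg hu hv huv, hk _ (eich_mem_EG _ _ _)]⟩

omit [FiniteDimensional F V] in
theorem B_conj (g y : P.Iso) (p q : V) : P.B ((g⁻¹ * y * g) • p) q = P.B (y • g • p) (g • q) := by
  rw [mul_smul, mul_smul, B_act_left, inv_inv]

theorem rel2 {x y g : P.Iso} (H : Cst tr x y) (hg : g ∈ P.EG) {u a b : V} (h : Ts3 P u a b) :
    P.B (y • g • b) (g • u) * P.B (x • a) u + P.B (y • g • a) (g • u) * P.B (x • b) u +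
      P.B (y • g • u) (g • a) * P.B (x • u) b + P.B (y • g • u) (g • b) * P.B (x • u) a -
      P.B (x • u) u * (P.B (y • g • a) (g • b) + P.B (y • g • b) (g • a)) -
      P.B (y • g • u) (g • u) * (P.B (x • a) b + P.B (x • b) a) = 0 := by
  obtain ⟨k, h0, hk⟩ := (H.conj' hg).sg
  have e : sg P u (a + b) = sg P u a + sg P u b := by
    ext w
    simp [sg, add_smul]
    abel
  have := T2 _ _ k h0 (hk u a h.su h.sa h.ua) (hk u b h.su h.sb h.ub)
    (e ▸ hk u (a + b) h.su (h.sa.add h.sb h.ab) (by simp [h.ua, h.ub]))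
  rw [SS, mul_add, sg_sg, sg_sg] at this
  simp only [map_add, tr_rk, map_sub, map_smul, LinearMap.sub_apply, LinearMap.smul_apply, smul_eq_mul,
    B_conj] at this
  linear_combination this

theorem T22 {M D1 D2 S11 S12 S22 : End F V} {k l : F} (hl0 : l ≠ 0) (hl1 : l ≠ 1)
    (h : ∀ s t : F, e2 (M + s • D1 + t • D2 + (s * s) • S11 + (s * t) • S12 + (t * t) • S22) = k) :
    e2 S12 + b2 S11 S22 = 0 := by
  simp only [e2_add, e2_smul, b2_add_left, b2_smul_left, b2_smul_right] at h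
  have : (l * (l - 1)) ^ 2 * (e2 S12 + b2 S11 S22) = 0 := by
    linear_combination (l - 1) * ((l - 1) * h 0 0 - l * h 0 1 + h 0 l) - l * ((l - 1) * h 1 0 - l * h 1 1 + h 1 l) +
      ((l - 1) * h l 0 - l * h l 1 + h l l)
  exact (mul_eq_zero.1 this).resolve_left (pow_ne_zero _ (mul_ne_zero hl0 (sub_ne_zero.2 hl1)))

/-- the polar form of `dt x u` -/
def dp (x : P.Iso) (u a b : V) : F := P.B (x • u) u * (P.B (x • a) b + P.B (x • b) a) -
  P.B (x • u) a * P.B (x • b) u - P.B (x • u) b * P.B (x • a) u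

theorem rel4 {x y g : P.Iso} {l : F} (hl0 : l ≠ 0) (hl1 : l ≠ 1) (H : Cst e2 x y) (hg : g ∈ P.EG) {u a b : V}
    (h : Ts3 P u a b) : dt x u a * dt y (g • u) (g • b) + dt x u b * dt y (g • u) (g • a) +
      dp x u a b * dp y (g • u) (g • a) (g • b) = 0 := by
  obtain ⟨k, -, hk⟩ := (H.conj' hg).sg
  generalize hy' : g⁻¹ * y * g = y' at hk
  have := T22 (M := ln x * ln y') (D1 := ln x * (sg P u a * ln y' - ln y' * sg P u a))
    (D2 := ln x * (sg P u b * ln y' - ln y' * sg P u b)) (S11 := -(ln x * (sg P u a * ln y' * sg P u a)))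
    (S12 := -(ln x * (sg P u a * ln y' * sg P u b) + ln x * (sg P u b * ln y' * sg P u a)))
    (S22 := -(ln x * (sg P u b * ln y' * sg P u b))) (k := k) hl0 hl1 fun s t => by
      rw [← hk u (s • a + t • b) h.su ((h.sa.smul s).add (h.sb.smul t) (by simp [h.ab])) (by simp [h.ua, h.ub])]
      have e : sg P u (s • a + t • b) = s • sg P u a + t • sg P u b := by
        ext w
        simp [sg]
        module
      rw [e, MM]
      congr 1
      simp only [mul_add, add_mul, mul_sub, sub_mul, mul_smul_comm, smul_mul_assoc, one_mul, mul_one, mul_assoc]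
      module
  rw [← neg_one_smul F, ← neg_one_smul F (ln x * _), ← neg_one_smul F (ln x * _), e2_smul, b2_smul_left,
    b2_smul_right, sg_sg, sg_sg, sg_sg, sg_sg] at this
  subst hy'
  simp only [e2_add, b2_add_left, b2_add_right, e2_rk, b2_rk, map_sub, map_smul, LinearMap.sub_apply,
    LinearMap.smul_apply, smul_eq_mul, B_conj] at this
  simp only [dt, dp]
  linear_combination this

theorem top {x y : P.Iso} {l : F} (hl0 : l ≠ 0) (hl1 : l ≠ 1) (H : Cst e2 x y) {u a b : V}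
    (h : Ts3 P u a b) : dt x u b * dt y u b = 0 := by
  have key : ∀ r : F, dt x u a * dt y u b + dt x u b * (dt y u a + r * dp y u a b + r * r * dt y u b) +
      dp x u a b * (dp y u a b + 2 * r * dt y u b) = 0 := fun r => by
    obtain ⟨w, h1, h2, h3⟩ := h.ind 0 (-r) 0
    obtain ⟨g, hg, e1, e2, e3⟩ := move h.sb h.ab h.ub h3 h2 h1
    have := rel4 hl0 hl1 H hg h
    rw [e1, e2, e3] at this
    simp only [dt, dp, smul_add, act_smul, map_add, map_smul, LinearMap.add_apply, LinearMap.smul_apply,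
      B_smul_right, smul_eq_mul, RingHom.id_apply] at this ⊢
    linear_combination this
  have : l * (l - 1) * (dt x u b * dt y u b) = 0 := by
    linear_combination (l - 1) * key 0 - l * key 1 + key l
  exact (mul_eq_zero.1 this).resolve_left (mul_ne_zero hl0 (sub_ne_zero.2 hl1))

end Cfsg.Agent.AH.Ort
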