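import Cfsg.Agent.AH.OB

/-!
Products of two conjugacy classes in orthogonal groups: consequences of the trace relations.
-/

set_option autoImplicit false

namespace Cfsg.Agent.AH.Ort

open Module Cfsg.Agent.Polar Cfsg.Agent.Polar.PQ Cls

variable {F : Type*} [Field F] {V : Type*} [AddCommGroup V] [Module F V] {P : PQ (oFP F) V}

theorem dvd_of_per {G X : Type*} [Group G] [MulAction G X] {p : ℕ} (hp : p.Prime) {g : G} {u : X}
    (h : g ^ p • u = u) (h1 : g • u ≠ u) : p ∣ orderOf g := by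
  rcases hp.eq_one_or_self_of_dvd _ (MulAction.pow_smul_eq_iff_period_dvd.1 h) with h2 | h2
  · exact absurd (MulAction.period_eq_one_iff.1 h2) h1
  · exact h2 ▸ MulAction.period_dvd_orderOf g u

theorem Ts2.add {u v : V} (h : Ts2 P u v) : Ts2 P u (v + u) :=
  ⟨h.su, h.sv.add h.su (B_swap_zero h.uv), by simp [h.uv, h.su.B_self], fun r s => by
    obtain ⟨w, h1, h2⟩ := h.ind r (s - r)
    exact ⟨w, h1, by simp [h1, h2]⟩⟩

theorem dt_conj (g y : P.Iso) (u v : V) : dt (g⁻¹ * y * g) u v = dt y (g • u) (g • v) := by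
  simp only [dt, B_conj]

variable [FiniteDimensional F V]

theorem ts2_of_dt (hP : P.ND) {x : P.Iso} {u v : V} (hu : P.Sing u) (hv : P.Sing v) (huv : P.B u v = 0)
    (h : dt x u v ≠ 0) : Ts2 P u v :=
  Ts2.of_notMem hP hu hv huv (by rintro rfl; simp [dt] at h) fun h1 => by
    obtain ⟨s, rfl⟩ := Submodule.mem_span_singleton.1 h1
    exact h (by simp [dt, act_smul]; ring)

variable [Finite F]

theorem dom_or (hP : P.ND) (h7 : 7 ≤ finrank F V) {x y : P.Iso} {l : F} (hl0 : l ≠ 0) (hl1 : l ≠ 1)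
    (H : Cst e2 x y) : (∀ u v, P.Sing u → P.Sing v → P.B u v = 0 → dt x u v = 0) ∨
      ∀ u v, P.Sing u → P.Sing v → P.B u v = 0 → dt y u v = 0 := by
  by_contra hn
  push Not at hn
  obtain ⟨⟨u, v, hu, hv, huv, h⟩, u', v', hu', hv', huv', h'⟩ := hn
  obtain ⟨g, hg, rfl, rfl⟩ := (ts2_of_dt hP hu hv huv h).trans hP h7 (ts2_of_dt hP hu' hv' huv' h')
  obtain ⟨a, ha⟩ := (ts2_of_dt hP hu hv huv h).ext hP h7
  have := top hl0 hl1 (H.conj' hg) ha
  rw [dt_conj] at this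
  exact mul_ne_zero h h' this

theorem scalar_of_ts2 (hP : P.ND) (h5 : 5 ≤ finrank F V) (f : End F V) (h : ∀ u v, Ts2 P u v → P.B (f u) v = 0) :
    ∃ c : F, ∀ v, f v = c • v := by
  refine eigen_scalar hP h5 LinearMap.id f Function.injective_id fun u hu => ?_
  by_contra hn
  push Not at hn
  have hu0 : u ≠ 0 := by rintro rfl; exact hn 0 (by simp)
  obtain ⟨z, s, p, n⟩ := o_exists_sing_perp hP h5 hu0 (u := f u) fun h1 => by
    obtain ⟨s, hs⟩ := Submodule.mem_span_singleton.1 h1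
    exact hn s hs.symm
  by_cases hz : z ∈ F ∙ u
  · obtain ⟨t, rfl⟩ := Submodule.mem_span_singleton.1 hz
    obtain ⟨v, hv⟩ := exists_ts2 hP h5 hu hu0
    have := h _ _ hv.add
    rw [map_add, h _ _ hv, zero_add] at this
    exact n (by simp [this])
  · exact n (h _ _ (Ts2.of_notMem hP hu s p hu0 hz))

theorem sym_scalar (hP : P.ND) (h5 : 5 ≤ finrank F V) {x : P.Iso}
    (h : ∀ u v, Ts2 P u v → P.B (x • u) v + P.B (x • v) u = 0) : ∃ c : F, ∀ v : V, x • x • v = c • x • v - v := by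
  obtain ⟨c, hc⟩ := scalar_of_ts2 hP h5 (ln x + ln x⁻¹) fun u v huv => by
    rw [← h u v huv, B_act_left x v, o_swap (x⁻¹ • u)]
    simp
  refine ⟨c, fun v => ?_⟩
  have := hc (x • v)
  simp only [LinearMap.add_apply, ln_apply, inv_smul_smul] at this
  rw [← this, add_sub_cancel_right]

theorem sym_two (hP : P.ND) (h7 : 7 ≤ finrank F V) (h2 : (2 : F) = 0) {x y : P.Iso} (H : Cst tr x y)
    (hy : ¬ ∃ c : F, ∀ v : V, y • v = c • v) : ∃ c : F, ∀ v : V, x • x • v = c • x • v - v := by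
  refine sym_scalar hP (by omega) fun u a hua => ?_
  obtain ⟨b, hb⟩ := hua.symm.ext hP h7
  have h : Ts3 P u a b := ⟨hb.sb, hb.su, hb.sa, B_swap_zero hb.ub, B_swap_zero hb.ab, hb.ua, fun r s t => by
    obtain ⟨w, h1, h2, h3⟩ := hb.ind s t r
    exact ⟨w, h3, h1, h2⟩⟩
  obtain ⟨w, h1, h2', h3⟩ := h.ind 0 0 (-1)
  obtain ⟨g2, hg2, a1, a2, a3⟩ := move h.sa (B_swap_zero h.ab) h.ua h2' h3 h1
  by_cases h0 : ∀ u, P.Sing u → P.B (y • u) u = 0
  · have : ∃ u' a', Ts2 P u' a' ∧ P.B (y • u') a' ≠ 0 := by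
      by_contra hn
      push Not at hn
      exact hy (scalar_of_ts2 hP (by omega) (ln y) hn)
    obtain ⟨u', a', h', n⟩ := this
    obtain ⟨g, hg, rfl, rfl⟩ := hua.trans hP h7 h'
    have r1 := rel2 H hg h
    have r2 := rel2 H (mul_mem hg hg2) h
    have z1 := h0 _ h'.su
    have z2 := h0 _ h'.sv
    have z3 := h0 _ h'.add.sv
    simp only [mul_smul, a1, a2, a3, one_smul, smul_add, map_add, LinearMap.add_apply] at r2 z3
    refine (mul_eq_zero.1 ?_).resolve_left n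
    linear_combination r2 - r1 + P.B (x • a) u * (z1 + z2 - z3) + 2 * P.B (x • u) u * z2 +
      P.B (y • g • u) (g • a) * P.B (x • a) u * h2
  · push Not at h0
    obtain ⟨u', hu', n⟩ := h0
    obtain ⟨g, hg, rfl⟩ := o_vTrans hP (by omega) u u' h.su hu' hua.ne_zero (by rintro rfl; simp at n)
    obtain ⟨w, h1, h2', h3⟩ := h.ind 0 (-1) 0
    obtain ⟨g1, hg1, b1, b2, b3⟩ := move h.su (B_swap_zero h.ua) (B_swap_zero h.ub) h1 h2' h3
    have r1 := rel2 H hg h
    have r2 := rel2 H (mul_mem hg hg1) h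
    have r3 := rel2 H (mul_mem hg hg2) h
    have r4 := rel2 H (mul_mem hg (mul_mem hg1 hg2)) h
    simp only [mul_smul, a1, a2, a3, b1, b2, b3, one_smul, smul_add, map_add, LinearMap.add_apply] at r2 r3 r4
    refine (mul_eq_zero.1 ?_).resolve_left n
    linear_combination r4 - r3 - r2 + r1 + P.B (x • u) u *
      (P.B (y • g • u) (g • a) + P.B (y • g • a) (g • u) + P.B (y • g • u) (g • u)) * h2

theorem scalar_sq (hP : P.ND) (h2 : 2 ≤ finrank F V) {z : P.Iso} {t : F} (h : ∀ v : V, z • v = t • v) :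
    t * t = 1 :=
  sq_of_scalar hP h2 (Emb.ofEquiv (LinearEquiv.refl F V) (fun _ _ => rfl) fun x => QEq.self x) h

omit [Finite F] in
theorem det_of_smul {z k : P.Iso} {t : F} (h : ∀ v : V, z • v = t • k • v) :
    (P.det z : F) = t ^ finrank F V * P.det k := by
  rw [coe_det, coe_det, ← LinearMap.det_smul]
  exact congrArg _ (LinearMap.ext h)

theorem scalar_one (hP : P.ND) (h2 : 2 ≤ finrank F V) (hc : (2 : F) = 0 ∨ Odd (finrank F V)) {z : P.Iso}
    (hz : z ∈ P.EG) {t : F} (h : ∀ v : V, z • v = t • v) : t = 1 := by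
  have h1 := scalar_sq hP h2 h
  rcases hc with hc | ⟨k, hk⟩
  · exact sub_eq_zero.1 (mul_self_eq_zero.1 (by linear_combination h1 + (1 - t) * hc))
  · have := det_of_smul (z := z) (k := 1) (t := t) (fun v => by rw [one_smul, h])
    rw [MonoidHom.mem_ker.1 (EG_le_ker_det hz), map_one, hk, pow_succ, pow_mul, pow_two, h1] at this
    simpa using this.symm

/-- the elementary group as a linear group -/
noncomputable def oLR (hP : P.ND) (h3 : 3 ≤ finrank F V) : LR P.EG F V where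
  ρ := { toFun := fun g => ln g.1, map_one' := rfl, map_mul' := fun _ _ => rfl }
  inj _ _ h := Subtype.ext (iso_ext (LinearMap.congr_fun h))
  cen z hz := by
    obtain ⟨e, he0, he⟩ := o_exists_sing P h3
    obtain ⟨f, hf⟩ := hP.exists_hyp he he0
    exact sc_iff.2 (exists_scalar_of_commute hP (hP.rich h3) hf fun g hg =>
      congrArg Subtype.val (Subgroup.mem_center_iff.1 hz ⟨g, hg⟩).symm)

theorem cst_e2 (hP : P.ND) (h3 : 3 ≤ finrank F V) {x y : P.EG} {c : P.EG ⧸ Subgroup.center P.EG}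
    (H : Hyp (pr x) (pr y) c) : Cst e2 x.1 y.1 := ⟨e2 (ln x.1 * ln y.1), fun h hh => by
  obtain ⟨z, k, t, hz, ht⟩ := (oLR hP h3).rel H (IsConj.refl x) (isConj_iff.2 ⟨⟨h, hh⟩, rfl⟩)
  have h1 := scalar_sq hP (by omega) (LinearMap.congr_fun hz)
  have := congrArg e2 ht
  rwa [e2_smul, pow_two, h1, one_mul, e2_conj ((oLR hP h3).inv_mul k)] at this⟩

theorem cst_tr (hP : P.ND) (h3 : 3 ≤ finrank F V) (hc : (2 : F) = 0 ∨ Odd (finrank F V)) {x y : P.EG}
    {c : P.EG ⧸ Subgroup.center P.EG} (H : Hyp (pr x) (pr y) c) : Cst tr x.1 y.1 :=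
  ⟨tr (ln x.1 * ln y.1), fun h hh => by
  obtain ⟨z, k, t, hz, ht⟩ := (oLR hP h3).rel H (IsConj.refl x) (isConj_iff.2 ⟨⟨h, hh⟩, rfl⟩)
  have h1 := scalar_one hP (by omega) hc z.2 (LinearMap.congr_fun hz)
  have := congrArg tr ht
  rwa [h1, one_smul, tr_conj ((oLR hP h3).inv_mul k)] at this⟩

theorem ord_pr (hP : P.ND) (h3 : 3 ≤ finrank F V) (hc : (2 : F) = 0 ∨ Odd (finrank F V)) (x : P.EG) :
    orderOf (pr x) = orderOf x.1 := by
  rw [Subgroup.orderOf_coe]
  refine orderOf_injective pr ((injective_iff_map_eq_one _).2 fun z hz => ?_) x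
  obtain ⟨t, ht⟩ := sc_iff.1 ((oLR hP h3).pr_eq_one.1 hz)
  rw [scalar_one hP (by omega) hc z.2 ht] at ht
  exact Subtype.ext (iso_ext fun v => (ht v).trans (one_smul F v))

theorem ord_c (hP : P.ND) (h3 : 3 ≤ finrank F V) (hc : (2 : F) = 0 ∨ Odd (finrank F V)) {x y : P.EG}
    {c : P.EG ⧸ Subgroup.center P.EG} (H : Hyp (pr x) (pr y) c) {h : P.Iso} (hh : h ∈ P.EG) :
    orderOf c = orderOf (x.1 * (h * y.1 * h⁻¹)) := by
  rw [orderOf_of_isConj (H.conj (IsConj.refl _) (pr.map_isConj (isConj_iff.2 ⟨⟨h, hh⟩, rfl⟩))), ← map_mul,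
    ord_pr hP h3 hc]
  rfl

end Cfsg.Agent.AH.Ort
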