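import Cfsg.Agent.AH.OC

/-!
Products of two conjugacy classes in orthogonal groups: the final configurations.
-/

set_option autoImplicit false

namespace Cfsg.Agent.AH.Ort

open Module Cfsg.Agent.Polar Cfsg.Agent.Polar.PQ Cls

variable {F : Type*} [Field F] {V : Type*} [AddCommGroup V] [Module F V] {P : PQ (oFP F) V}
  [FiniteDimensional F V] [Finite F]

theorem eq_one_of_sing (hP : P.ND) (h3 : 3 ≤ finrank F V) {x : P.Iso} (h : ∀ u, P.Sing u → x • u = u) : x = 1 := by
  obtain ⟨e, he0, he⟩ := o_exists_sing P h3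
  obtain ⟨f, hf⟩ := hP.exists_hyp he he0
  refine iso_ext fun v => ?_
  have := hf.mem_of_sing (S := (LinearMap.ker (ln x - 1)).toAddSubgroup) (W := ⊤) trivial trivial
    (fun u _ hu => by simp [h u hu]) (x := v) trivial
  simpa [sub_eq_zero] using this

theorem odd_end (hP : P.ND) (h7 : 7 ≤ finrank F V) (hodd : Odd (finrank F V)) {p : ℕ} (hp : p.Prime) [CharP F p]
    {x y : P.Iso} (hx : x ∈ P.EG) (hx1 : x ≠ 1) {w : V} (hw : P.Q w ≠ 0) (hy : ∀ v : V, y • v = -(P.reflect w • v))
    (H : Cst tr x y) : p ∣ orderOf x ∧ ∃ h ∈ P.EG, p ∣ orderOf (x * (h * y * h⁻¹)) ∧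
      2 ∣ orderOf (x * (h * y * h⁻¹)) := by
  have : Finite V := Module.finite_of_finite F
  have h2 : (2 : F) ≠ 0 := fun h => Nat.not_even_iff_odd.2 hodd (o_even_finrank hP h)
  have hc : ∀ w', P.Q w' = P.Q w → ∃ h ∈ P.EG, ∀ v : V, (h * y * h⁻¹) • v = -(P.reflect w' • v) := fun w' hw' => by
    obtain ⟨h, hh, rfl⟩ := o_trans hP (by omega) (x := w) (y := w') (by rintro rfl; exact hw o_Q_zero)
      (by rintro rfl; exact hw (hw' ▸ o_Q_zero)) hw'
    exact ⟨h, hh, fun v => by rw [← conj_reflect, mul_smul, mul_smul, mul_smul, mul_smul, hy, smul_neg]⟩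
  obtain ⟨κ, hκ⟩ : ∃ κ, ∀ w', P.Q w' = P.Q w → P.B (x • w') w' = κ := by
    obtain ⟨k, hk⟩ := H
    refine ⟨(k + tr (ln x)) * P.Q w, fun w' hw' => ?_⟩
    obtain ⟨h, hh, e⟩ := hc w' hw'
    have e' : ln x * ln (h * y * h⁻¹) = (P.Q w)⁻¹ • rk P w' (x • w') - ln x := by
      ext v
      simp only [End.mul_apply, ln_apply, e, reflect_smul (hw' ▸ hw), hw', LinearMap.sub_apply, LinearMap.smul_apply,
        rk_apply, smul_neg, smul_sub, act_smul, neg_sub, smul_smul, div_eq_inv_mul]
    rw [← hk h hh, e', map_sub, LinearMap.map_smul tr, tr_rk, smul_eq_mul]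
    field_simp
    ring
  have hψ : ∀ e, P.Sing e → P.B (x • e) e = 0 := fun e he => by
    by_cases he0 : e = 0
    · simp [he0]
    obtain ⟨f, hf⟩ := hP.exists_hyp he he0
    have h3 := hf.finrank_perp
    obtain ⟨v, hv⟩ := o_exists_Q (hf.emb.nd hP) (by omega) hw
    have hv' : P.Q v = P.Q w := hv
    have h4 := (mem_perp_pair.1 v.2).1
    have a1 := hκ v hv'
    have a2 := hκ (v + e) (by rw [o_Q_add, hv', o_sing_iff.1 he, h4]; simp)
    have a3 := hκ (v - e) (by rw [o_Q_sub, hv', o_sing_iff.1 he, h4]; simp)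
    simp only [smul_add, smul_sub, map_add, map_sub, LinearMap.add_apply, LinearMap.sub_apply] at a2 a3
    exact (mul_eq_zero.1 (by linear_combination a2 + a3 - 2 * a1)).resolve_left h2
  obtain ⟨c, hc'⟩ := sym_scalar hP (by omega) (x := x) fun u v h => by
    have := hψ _ h.add.sv
    simp only [smul_add, map_add, LinearMap.add_apply, hψ _ h.su, hψ _ h.sv] at this
    linear_combination this
  obtain ⟨u, hu0, hu⟩ : ∃ u : V, u ≠ 0 ∧ x • u = x⁻¹ • u := by
    by_contra hn
    push Not at hn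
    refine Nat.not_even_iff_odd.2 hodd (sp_even_finrank (P := ofAlt (P.B ∘ₗ (ln x - ln x⁻¹)) fun v => by
      simp [B_act_left x v, o_swap v]) fun u hu => by_contra fun hu0 => hn u hu0 (sub_eq_zero.1 (hP _ hu)))
  obtain ⟨ε, rfl⟩ : ∃ ε, c = 2 * ε := ⟨c / 2, by field_simp⟩
  have h3 : x • x • u = u := by rw [hu, smul_inv_smul]
  have h4 : u = ε • x • u := smul_right_injective V h2 (by
    have := hc' u
    rw [h3] at this
    generalize x • u = u' at this ⊢
    linear_combination (norm := module) this)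
  have hε : ε * ε = 1 := by
    have h5 : x • u = ε • u := by
      conv_lhs => rw [h4, act_smul, h3]
    rw [h5, smul_smul] at h4
    exact smul_left_injective F hu0 (h4.symm.trans (one_smul F u).symm)
  have hpow : ∀ (k : ℕ) (v : V), x ^ k • v = ε ^ k • (v + (k : F) • (ε • x • v - v)) := fun k v => by
    induction k with
    | zero => simp
    | succ k ih =>
      rw [pow_succ', mul_smul, ih]
      simp only [act_smul, smul_add, smul_sub, hc']
      generalize x • v = v'
      match_scalars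
      · linear_combination (ε ^ k * (k - 1)) * hε
      · ring
  have h5 : ε ^ p = 1 := scalar_one hP (by omega) (Or.inr hodd) (pow_mem hx p) fun v => by simp [hpow]
  have hp2 : Odd p := hp.odd_of_ne_two (by rintro rfl; exact h2 (CharP.cast_eq_zero F 2))
  obtain rfl : ε = 1 := by
    obtain ⟨k, rfl⟩ := hp2
    rwa [pow_succ, pow_mul, pow_two, hε, one_pow, one_mul] at h5
  have := Fact.mk hp
  refine ⟨dvd_orderOf_of_pow (iso_ext fun v => by simp [hpow]) hx1, ?_⟩
  clear h3 h4 hu hu0 u
  obtain ⟨u, hu, hn⟩ : ∃ u, P.Sing u ∧ x • u ≠ u := by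
    by_contra hn
    push Not at hn
    exact hx1 (eq_one_of_sing hP (by omega) hn)
  have hu0 : u ≠ 0 := by rintro rfl; simp at hn
  have t2 : Ts2 P u (x • u) := Ts2.of_notMem hP hu (hu.act x) (B_swap_zero (hψ u hu)) hu0 fun h => by
    obtain ⟨s, hs⟩ := Submodule.mem_span_singleton.1 h
    have h6 := hc' u
    rw [← hs, act_smul, ← hs] at h6
    have h7 : ((s - 1) * (s - 1)) • u = 0 := by linear_combination (norm := module) h6
    rw [smul_eq_zero, mul_self_eq_zero, sub_eq_zero] at h7
    exact hn (by rw [← hs, h7.resolve_right hu0, one_smul])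
  obtain ⟨a, t3⟩ := t2.ext hP h7
  obtain ⟨w0, b1, b2, b3⟩ := t3.ind 0 1 0
  obtain ⟨s, hs⟩ := exists_QEq_add_smul t3.sa (y := w0) (by rw [o_swap, b2]; exact one_ne_zero) (P.Q w)
  obtain ⟨h, hh, e⟩ := hc _ (o_QEq_iff.1 hs)
  refine ⟨h, hh, ?_⟩
  generalize h * y * h⁻¹ = y' at e
  have e1 : y' • u = -u := by rw [e, reflect_smul_of_perp (by simp [b1, t3.ua])]
  have e2 : y' • x • u = -(x • u) := by rw [e, reflect_smul_of_perp (by simp [b3, B_swap_zero t3.ab])]
  have e3 : (x * y') • (x • u - u) = -(x • u - u) := by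
    simp only [mul_smul, smul_sub, e1, e2, smul_neg, hc']
    generalize x • u = v'
    module
  have e4 : ∀ k : ℕ, ((x * y') ^ 2) ^ k • u = u + (2 * k : F) • (x • u - u) := fun k => by
    induction k with
    | zero => simp
    | succ k ih =>
      rw [pow_succ', mul_smul, ih, smul_add, act_smul, pow_two, mul_smul, mul_smul _ _ (x • u - u), e3, smul_neg, e3]
      simp only [mul_smul, e1, e2, smul_neg, hc']
      generalize x • u = v'
      push_cast
      module
  have hn' : x • u - u ≠ 0 := sub_ne_zero.2 hn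
  refine ⟨(dvd_of_per hp (u := u) (by simp [e4]) fun h => hn' ?_).trans (orderOf_pow_dvd 2),
    dvd_of_per Nat.prime_two (u := x • u - u) (by rw [pow_two, mul_smul, e3, smul_neg, e3, neg_neg]) fun h => hn' ?_⟩
  · have := e4 1
    rw [pow_one, h] at this
    simpa [h2] using this
  · rw [e3] at h
    exact smul_right_injective V h2 (by
      generalize x • u - u = v' at h ⊢
      linear_combination (norm := module) -h)

end Cfsg.Agent.AH.Ort
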