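import Cfsg.Agent.AH.OD
import Cfsg.Agent.Polar.Std
import Cfsg.Agent.Forms.StdQuad

/-!
Products of two conjugacy classes in orthogonal groups: the field with two elements, and the final theorems.
-/

set_option autoImplicit false

namespace Cfsg.Agent.AH.Ort

open Module Cfsg.Agent.Polar Cfsg.Agent.Polar.PQ Cls

variable {F : Type*} [Field F] {V : Type*} [AddCommGroup V] [Module F V] {P : PQ (oFP F) V}

theorem two_eq_zero (hq : ∀ t : F, t = 0 ∨ t = 1) : (2 : F) = 0 :=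
  (hq 2).resolve_right fun h => one_ne_zero (α := F) (by linear_combination h)

theorem add_self_two (h2 : (2 : F) = 0) (v : V) : v + v = 0 := by rw [← two_smul F, h2, zero_smul]

theorem psi_three {x : P.Iso} (hx : ∀ v : V, x • x • v = x • v + v) {u : V} (hu : P.Sing u) : P.B (x • u) u = 0 := by
  have := o_Q_add (P := P) (x • u) u
  rw [← hx, o_Q_act, o_Q_act, o_sing_iff.1 hu] at this
  simpa using this.symm

theorem ne_three (h2 : (2 : F) = 0) {x : P.Iso} (hx : ∀ v : V, x • x • v = x • v + v) {u : V} (hu : u ≠ 0) :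
    x • u ≠ u := fun h => by
  have := hx u
  rw [h, h, add_self_two h2] at this
  exact hu this

theorem cj (g y : P.Iso) (a : V) : (g * y * g⁻¹) • g • a = g • y • a := by simp [mul_smul]

variable [FiniteDimensional F V]

theorem e2_sub (A B : End F V) : e2 (A - B) = e2 A + e2 B - b2 A B := by
  rw [sub_eq_add_neg, ← neg_one_smul F B, e2_add, e2_smul, b2_smul_right]
  ring

theorem ts2_two (hP : P.ND) (hq : ∀ t : F, t = 0 ∨ t = 1) {x : P.Iso} {u : V} (hu : P.Sing u)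
    (h : P.B (x • u) u = 0) (hn : x • u ≠ u) : Ts2 P u (x • u) := by
  have hu0 : u ≠ 0 := by rintro rfl; simp at hn
  refine Ts2.of_notMem hP hu (hu.act x) (B_swap_zero h) hu0 fun h1 => ?_
  obtain ⟨s, hs⟩ := Submodule.mem_span_singleton.1 h1
  rcases hq s with rfl | rfl
  · exact act_ne_zero x hu0 (by simpa using hs.symm)
  · exact hn (by simpa using hs.symm)

theorem hy2_three (hP : P.ND) (hq : ∀ t : F, t = 0 ∨ t = 1) {x : P.Iso} (hx : ∀ v : V, x • x • v = x • v + v)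
    {u : V} (hu : P.Sing u) (hu0 : u ≠ 0) : ∃ f, Hy2 P u (x • f) (x • u) f := by
  have h := ts2_two hP hq hu (psi_three hx hu) (ne_three (two_eq_zero hq) hx hu0)
  obtain ⟨w, h1, h2⟩ := h.ind 0 1
  obtain ⟨f, hf, a, b, e⟩ := exists_hyp_of_ne h.sv (y := w) (by rw [h2]; exact one_ne_zero)
  have h3 : P.B u f = 0 := by simp [e, h1, h.uv]
  have h4 : P.B u (x • f) = 1 := by
    have h5 : P.B (x • x • u) (x • f) = 1 := by rw [B_smul_smul, hf.pair]
    rwa [hx, map_add, LinearMap.add_apply, B_smul_smul, h3, zero_add] at h5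
  exact ⟨f, ⟨hu, hf.right.act x, h4⟩, hf, mem_perp_pair.2 ⟨B_swap_zero h.uv, by rw [B_smul_smul, h3]⟩,
    mem_perp_pair.2 ⟨B_swap_zero h3, B_swap_zero (psi_three hx hf.right)⟩⟩

variable [Finite F]

theorem inv_line (hP : P.ND) (h7 : 7 ≤ finrank F V) (hq : ∀ t : F, t = 0 ∨ t = 1) {x : P.Iso} (hx : x ∈ P.EG)
    (hx1 : ¬ ∃ c : F, ∀ v : V, x • v = c • v) (hxx : ∀ v : V, x • x • v = v) : ∃ u, Ts2 P u (x • u) := by
  have h2 := two_eq_zero hq
  have : ¬ ∀ u v, P.Sing u → P.Sing v → P.B u v = 0 → dt x u v = 0 := fun h => by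
    rcases domestic hP h7 h with h | ⟨l, w, hl, hw, h⟩
    · exact hx1 h
    · obtain rfl : l = 1 := (hq l).resolve_left (by rintro rfl; simp at hl)
      exact reflect_not_mem hP (by omega) hw (iso_ext (g := x) (h := P.reflect w) (fun v => by rw [h, one_smul]) ▸ hx)
  push Not at this
  obtain ⟨u, v, hu, hv, huv, h⟩ := this
  have h3 : P.B (x • v) u = P.B (x • u) v := by rw [← B_smul_smul x, hxx, o_swap]
  rw [dt, h3] at h
  rcases hq (P.B (x • u) u) with a | a
  · exact ⟨u, ts2_two hP hq hu a fun e => h (by rw [a, e, huv]; simp)⟩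
  rcases hq (P.B (x • v) v) with b | b
  · exact ⟨v, ts2_two hP hq hv b fun e => h (by rw [b, ← h3, e, B_swap_zero huv]; simp)⟩
  rcases hq (P.B (x • u) v) with c | c
  · refine ⟨u + v, ts2_two hP hq (hu.add hv huv) (by simp [a, b, c, h3, one_add_one_eq_two, h2]) fun e => ?_⟩
    have := congrArg (fun z => P.B z u) e
    simp [a, c, h3, hu.B_self, B_swap_zero huv] at this
  · exact absurd (by rw [a, b, c, sub_self]) h

theorem fix_line (hP : P.ND) (h8 : 8 ≤ finrank F V) (h2 : (2 : F) = 0) {y : P.Iso} (hyy : ∀ v : V, y • y • v = v)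
    {u : V} (h : Ts2 P u (y • u)) : ∃ a b, Ts2 P a b ∧ y • a = a ∧ y • b = b := by
  have h0 := h.symm.add.symm
  obtain ⟨f, hf, -⟩ := h0.ind 1 0
  have h1 := Forms.rk_add_finrank_fixS (ln y)
  have h3 : Forms.rk (ln y) ≤ finrank F (Forms.fixS (ln y)) := Submodule.finrank_mono fun v hv => by
    obtain ⟨w, rfl⟩ := Forms.mem_comS.1 hv
    rw [Forms.mem_fixS]
    simp only [ln_apply, smul_sub, hyy]
    rw [sub_eq_sub_iff_add_eq_add, add_self_two h2, add_self_two h2]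
  have h4 := Submodule.finrank_sup_add_finrank_inf_eq (Forms.fixS (ln y)) (P.perp {f})
  have h5 := Submodule.finrank_le (Forms.fixS (ln y) ⊔ P.perp {f})
  have h6 := finrank_perp_singleton (P := P) f
  obtain ⟨z, ⟨z1, z2⟩, z0, zs⟩ := o_iso (P := P) (Forms.fixS (ln y) ⊓ P.perp {f}) (by omega)
  have z3 : y • z = z := Forms.mem_fixS.1 z1
  refine ⟨z, u + y • u, Ts2.of_notMem hP zs h0.su ?_ z0 fun h7 => ?_, z3, by rw [smul_add, hyy, add_comm]⟩
  · conv_lhs => rw [map_add, ← z3, B_smul_smul, z3, ← two_mul, h2, zero_mul]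
  · obtain ⟨s, hs⟩ := Submodule.mem_span_singleton.1 h7
    rw [← hs, B_smul_left, mem_perp_singleton.1 z2, mul_zero] at hf
    exact zero_ne_one hf

omit [FiniteDimensional F V] [Finite F] in
theorem per_three (h2 : (2 : F) = 0) {g : P.Iso} {u v : V} (hn : v ≠ u) (h1 : g • u = v) (h3 : g • v = v + u) :
    3 ∣ orderOf g :=
  dvd_of_per Nat.prime_three (u := u) (by
    rw [pow_succ, pow_two, mul_smul, mul_smul, h1, h3, smul_add, h1, h3, add_right_comm, add_self_two h2, zero_add])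
    (by rwa [h1])

theorem end00 (hP : P.ND) (h7 : 7 ≤ finrank F V) (h2 : (2 : F) = 0) {x y : P.Iso} (hxx : ∀ v : V, x • x • v = v)
    (hyy : ∀ v : V, y • y • v = v) {u u' : V} (h : Ts2 P u (x • u)) (h' : Ts2 P u' (y • u')) :
    ∃ g ∈ P.EG, 3 ∣ orderOf (x * (g * y * g⁻¹)) := by
  obtain ⟨g, hg, rfl, e⟩ := h'.trans hP h7 h.add
  have e1 : (g * y * g⁻¹) • g • u' = x • g • u' + g • u' := by simp [mul_smul, e]
  have e2 : (g * y * g⁻¹) • (x • g • u' + g • u') = g • u' := by rw [← e]; simp [mul_smul, hyy]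
  refine ⟨g, hg, per_three h2 (u := g • u') (v := x • g • u' + g • u') (by simpa using h.symm.ne_zero) ?_ ?_⟩
  · rw [mul_smul, e1, smul_add, hxx, add_comm]
  · rw [mul_smul, e2, add_assoc, add_self_two h2, add_zero]

theorem end10 (hP : P.ND) (h8 : 8 ≤ finrank F V) (hq : ∀ t : F, t = 0 ∨ t = 1) {x y : P.Iso}
    (hx : ∀ v : V, x • x • v = x • v + v) (hyy : ∀ v : V, y • y • v = v) {u' : V} (h' : Ts2 P u' (y • u')) :
    (∃ g ∈ P.EG, 2 ∣ orderOf (x * (g * y * g⁻¹))) ∧ ∃ g ∈ P.EG, 3 ∣ orderOf (x * (g * y * g⁻¹)) := by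
  have h2 := two_eq_zero hq
  have hn := ne_three h2 hx h'.ne_zero
  have h := ts2_two hP hq h'.su (psi_three hx h'.su) hn
  constructor
  · obtain ⟨g, hg, e1, e2⟩ := h'.trans hP (by omega) h
    have e3 := cj g y u'
    have e4 := cj g y (y • u')
    rw [e1, e2] at e3
    rw [hyy, e1, e2] at e4
    refine ⟨g, hg, dvd_of_per Nat.prime_two (u := u') ?_ ?_⟩ <;> generalize g * y * g⁻¹ = y' at e3 e4 ⊢
    · simp only [pow_two, mul_smul, e3, hx, smul_add, e4]
      rw [← add_assoc, add_self_two h2, zero_add]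
    · simpa [mul_smul, e3, hx] using h.symm.ne_zero
  · obtain ⟨a, b, t, ha, hb⟩ := fix_line hP h8 h2 hyy h'
    obtain ⟨g, hg, e1, e2⟩ := t.trans hP (by omega) h
    have e3 := cj g y a
    have e4 := cj g y b
    rw [ha, e1] at e3
    rw [hb, e2] at e4
    exact ⟨g, hg, per_three h2 hn (by rw [mul_smul, e3]) (by rw [mul_smul, e4, hx])⟩

theorem end11 (hP : P.ND) (h7 : 7 ≤ finrank F V) (hq : ∀ t : F, t = 0 ∨ t = 1) {x y : P.Iso}
    (hx : ∀ v : V, x • x • v = x • v + v) (hy : ∀ v : V, y • y • v = y • v + v) (H : Cst e2 x y) : False := by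
  have h2 := two_eq_zero hq
  have hz : ∀ v : V, y⁻¹ • y⁻¹ • v = y⁻¹ • v + v := fun v => by
    have := hy (y⁻¹ • y⁻¹ • v)
    simp only [smul_inv_smul] at this
    rw [← add_left_cancel_iff (a := y⁻¹ • v), ← this, ← add_assoc, add_self_two h2, zero_add]
  obtain ⟨u, hu0, hu⟩ := o_exists_sing P (by omega)
  obtain ⟨f, h⟩ := hy2_three hP hq hx hu hu0
  obtain ⟨f', h'⟩ := hy2_three hP hq hz hu hu0
  obtain ⟨g, hg, e1, e2', e3, e4⟩ := h'.trans hP h7 h
  obtain ⟨k, k0, hk⟩ := (H.conj hg).sg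
  have a1 := cj g y (y⁻¹ • u)
  have a2 := cj g y (y⁻¹ • f')
  have a3 := cj g y (y⁻¹ • y⁻¹ • u)
  have a4 := cj g y (y⁻¹ • y⁻¹ • f')
  rw [smul_inv_smul, e3, e1] at a1
  rw [smul_inv_smul, e2', e4] at a2
  rw [smul_inv_smul, hz, smul_add g, e3, e1] at a3
  rw [smul_inv_smul, hz, smul_add g, e2', e4] at a4
  generalize g * y * g⁻¹ = y' at *
  obtain ⟨m1, m2⟩ := mem_perp_pair.1 h.me
  obtain ⟨m3, m4⟩ := mem_perp_pair.1 h.mf
  have p1 := h.h1.pair
  have p2 := h.h2.pair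
  have p3 : P.B (x • f) u = 1 := by rw [o_swap, p1]
  have p4 : P.B f (x • u) = 1 := by rw [o_swap, p2]
  have e := hk _ _ h.h2.left h.h1.right m2
  have b1 : ∀ w, P.B (y' • w) (x • u) = P.B w (x • u + u) := fun w => by rw [← B_smul_smul y' w, a3]
  have b3 : ∀ w, P.B (y' • w) (x • f) = P.B w (x • f + f) := fun w => by rw [← B_smul_smul y' w, a4]
  obtain ⟨D, hD⟩ : ∃ D, D = rk P u (x • f + f) - rk P (x • u) (x • f) + rk P (x • f) (x • u) -
    rk P (f + x • f + x • f) (x • u + u) := ⟨_, rfl⟩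
  have c1 : MM (ln x) (ln y') (sg P (x • u) (x • f)) = ln x * ln y' + D := by
    ext w
    simp only [hD, MM, sg, End.mul_apply, LinearMap.add_apply, LinearMap.sub_apply, End.one_apply, ln_apply, rk_apply,
      smul_sub, smul_add, act_smul, a1, a2, map_add, map_sub, LinearMap.map_smul, LinearMap.smul_apply, b1, b3, hx,
      smul_eq_mul, p1, p4, m4, B_swap_zero m1]
    generalize x • y' • w = w1
    generalize x • u = w2
    generalize x • f = w3
    module
  have c2 : ln x * ln y' * D = D := by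
    have c3 : ∀ p a : V, x • y' • a = a → ln x * ln y' * rk P p a = rk P p a := fun p a ha => by
      ext w
      simp [act_smul, ha]
    rw [hD, mul_sub, mul_add, mul_sub, c3 _ _ (by rw [a4, hx]), c3 _ _ (by rw [a2]), c3 _ _ (by rw [a1]),
      c3 _ _ (by rw [a3, hx])]
  rw [c1, e2_add, k0, b2, c2, hD] at e
  simp only [e2_add, e2_sub, b2_add_left, b2_sub_left, e2_rk, b2_rk, tr_rk, map_add, map_sub, LinearMap.add_apply,
    p1, p2, p3, p4, m1, m2, m3, m4, B_swap_zero m1, B_swap_zero m2, B_swap_zero m3, B_swap_zero m4, hu.B_self,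
    h.h1.right.B_self, h.h2.left.B_self, h.h2.right.B_self] at e
  exact one_ne_zero (α := F) (by linear_combination e + tr (ln x * ln y') * h2)

theorem mix_two (hP : P.ND) (h7 : 7 ≤ finrank F V) (hq : ∀ t : F, t = 0 ∨ t = 1) :
    Mix 2 (P.EG ⧸ Subgroup.center P.EG) := by
  have : Finite V := Module.finite_of_finite F
  have : Finite P.Iso := Finite.of_injective (fun g : P.Iso => fun v : V => g • v) fun _ _ h => iso_ext (congrFun h)
  have h2 := two_eq_zero hq
  have h8 : 8 ≤ finrank F V := by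
    obtain ⟨k, hk⟩ := o_even_finrank hP h2
    omega
  have h3 : 3 ≤ finrank F V := by omega
  have ns : ∀ {x : P.EG}, pr x ≠ 1 → ¬ ∃ c : F, ∀ v : V, x.1 • v = c • v := fun hx h =>
    hx ((oLR hP h3).pr_eq_one.2 (sc_iff.2 h))
  have alt : ∀ {x : P.Iso}, (∃ c : F, ∀ v : V, x • x • v = c • x • v - v) →
      (∀ v : V, x • x • v = v) ∨ ∀ v : V, x • x • v = x • v + v := fun ⟨c, hc⟩ =>
    (hq c).imp (fun h v => by rw [hc, h, zero_smul, zero_sub, neg_eq_of_add_eq_zero_left (add_self_two h2 v)])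
      fun h v => by rw [hc, h, one_smul, sub_eq_add_neg, neg_eq_of_add_eq_zero_left (add_self_two h2 v)]
  have sq : ∀ {x : P.EG}, (∀ v : V, x.1 • x.1 • v = v) → pr x * pr x = 1 := fun {x} h => by
    rw [← map_mul, show x * x = 1 from Subtype.ext (iso_ext h), map_one]
  have n3 : ∀ {n : ℕ}, 3 ∣ n → ¬ ∃ k, n = 2 ^ k := fun h ⟨k, hk⟩ =>
    absurd (Nat.prime_three.dvd_of_dvd_pow (hk ▸ h)) (by decide)
  have key : ∀ {x y : P.EG} {c : P.EG ⧸ Subgroup.center P.EG}, pr y ≠ 1 → Hyp (pr x) (pr y) c →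
      (∀ v : V, x.1 • x.1 • v = x.1 • v + v) → (∀ v : V, y.1 • y.1 • v = v) → Mixed 2 c ∧ 2 ∣ orderOf (pr y) :=
    fun {x y c} hb H hx hy => by
      obtain ⟨u, hu⟩ := inv_line hP h7 hq y.2 (ns hb) hy
      obtain ⟨⟨g, hg, d⟩, g', hg', d'⟩ := end10 hP h8 hq hx hy hu
      rw [← ord_c hP h3 (Or.inl h2) H hg] at d
      rw [← ord_c hP h3 (Or.inl h2) H hg'] at d'
      exact ⟨⟨d, n3 d'⟩, dvd_orderOf_of_pow (by rw [pow_two, sq hy]) hb⟩
  intro a b c ha hb hc H
  obtain ⟨x, rfl⟩ := pr_surj a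
  obtain ⟨y, rfl⟩ := pr_surj b
  rcases alt (sym_two hP h7 h2 (cst_tr hP h3 (Or.inl h2) H) (ns hb)) with hx | hx <;>
    rcases alt (sym_two hP h7 h2 (cst_tr hP h3 (Or.inl h2) H.symm) (ns ha)) with hy | hy
  · obtain ⟨u, hu⟩ := inv_line hP h7 hq x.2 (ns ha) hx
    obtain ⟨u', hu'⟩ := inv_line hP h7 hq y.2 (ns hb) hy
    obtain ⟨g, hg, d⟩ := end00 hP h7 h2 hx hy hu hu'
    rw [← ord_c hP h3 (Or.inl h2) H hg] at d
    exact ⟨⟨H.even hc (sq hx) (sq hy), n3 d⟩, Or.inl (dvd_orderOf_of_pow (by rw [pow_two, sq hx]) ha)⟩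
  · exact (key ha H.symm hy hx).imp id Or.inl
  · exact (key hb H hx hy).imp id Or.inr
  · exact (end11 hP h7 hq hx hy (cst_e2 hP h3 H)).elim

theorem mix_EG (hP : P.ND) (h7 : 7 ≤ finrank F V) {p : ℕ} [CharP F p] : Mix p (P.EG ⧸ Subgroup.center P.EG) := by
  have hp : p.Prime := CharP.char_is_prime F p
  by_cases hq : ∀ t : F, t = 0 ∨ t = 1
  · obtain rfl : p = 2 := (Nat.prime_dvd_prime_iff_eq hp Nat.prime_two).1
      ((CharP.cast_eq_zero_iff F p 2).1 (two_eq_zero hq))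
    exact mix_two hP h7 hq
  push Not at hq
  obtain ⟨l, hl0, hl1⟩ := hq
  have h3 : 3 ≤ finrank F V := by omega
  have key : ∀ {x y : P.EG} {c : P.EG ⧸ Subgroup.center P.EG}, pr x ≠ 1 → pr y ≠ 1 → Hyp (pr x) (pr y) c →
      (∀ u v, P.Sing u → P.Sing v → P.B u v = 0 → dt y.1 u v = 0) → Mixed p c ∧ p ∣ orderOf (pr x) :=
    fun {x y c} ha hb H hy => by
      rcases domestic hP h7 hy with h | ⟨s, w, hs, hw, h⟩
      · exact absurd ((oLR hP h3).pr_eq_one.2 (sc_iff.2 h)) hb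
      have hs1 : s ≠ 1 := by
        rintro rfl
        exact reflect_not_mem hP (by omega) hw
          (iso_ext (g := y.1) (h := P.reflect w) (fun v => by rw [h, one_smul]) ▸ y.2)
      obtain rfl : s = -1 := (mul_self_eq_one_iff.1 hs).resolve_left hs1
      have hodd : Odd (finrank F V) := Nat.not_even_iff_odd.1 fun he => hs1 (by
        have := det_of_smul h
        rw [MonoidHom.mem_ker.1 (EG_le_ker_det y.2), det_reflect hw, he.neg_one_pow] at this
        simpa using this.symm)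
      obtain ⟨d, g, hg, d1, d2⟩ := odd_end hP h7 hodd hp x.2 (fun h => ha (by
        rw [show x = 1 from Subtype.ext h, map_one])) hw (fun v => by rw [h, neg_one_smul])
        (cst_tr hP h3 (Or.inr hodd) H)
      rw [← ord_c hP h3 (Or.inr hodd) H hg] at d1 d2
      refine ⟨⟨d1, fun ⟨k, hk⟩ => hs1 ?_⟩, by rwa [ord_pr hP h3 (Or.inr hodd)]⟩
      obtain rfl := (Nat.prime_dvd_prime_iff_eq Nat.prime_two hp).1 (Nat.prime_two.dvd_of_dvd_pow (hk ▸ d2))
      exact CharTwo.neg_eq 1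
  intro a b c ha hb hc H
  obtain ⟨x, rfl⟩ := pr_surj a
  obtain ⟨y, rfl⟩ := pr_surj b
  rcases dom_or hP h7 hl0 hl1 (cst_e2 hP h3 H) with h | h
  · exact (key hb ha H.symm h).imp id Or.inr
  · exact (key ha hb H h).imp id Or.inl

theorem mix_POmega {F : Type} [Field F] [Finite F] {p : ℕ} [CharP F p] {ι : Type} [Fintype ι] [DecidableEq ι]
    {Q : QuadraticForm F (ι → F)} (hQ : (Forms.pol Q).Nondegenerate) (h7 : 7 ≤ Fintype.card ι) {G : Type*} [Group G]
    (e : G ≃* POmega F Q) : Mix p G :=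
  (mix_congr (omegaEquiv hQ (by omega)) (mix_EG (ofQuad_nd hQ) (by simpa using h7))).congr e

end Cfsg.Agent.AH.Ort

namespace Cfsg.Agent.AH

theorem mix_POmegaOdd {p : ℕ} {G : Type*} [Group G] (h : IsPOmegaOddChar p G) : Mix p G := by
  obtain ⟨F, _, _, _, m, hm, hF, ⟨e⟩⟩ := h
  have h2 : (2 : F) ≠ 0 := Ring.two_ne_zero fun h =>
    Nat.not_even_iff_odd.2 hF (FiniteField.even_card_iff_char_two.1 h |> Nat.even_iff.2)
  exact Ort.mix_POmega (Forms.QOdd_nondegenerate m h2) (by simp; omega) e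

theorem mix_POmegaPlus {p : ℕ} {G : Type*} [Group G] (h : IsPOmegaPlusChar p G) : Mix p G := by
  obtain ⟨F, _, _, _, m, hm, ⟨e⟩⟩ := h
  exact Ort.mix_POmega (Forms.QPlus_nondegenerate m) (by simp; omega) e

theorem mix_POmegaMinus {p : ℕ} {G : Type*} [Group G] (h : IsPOmegaMinusChar p G) : Mix p G := by
  obtain ⟨F, _, _, _, m, a, b, hm, hab, ⟨e⟩⟩ := h
  exact Ort.mix_POmega (Forms.QMinus_nondegenerate (m - 1) hab) (by simp; omega) e

end Cfsg.Agent.AH
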