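import Cfsg.Agent.AH.Top

/-! Evaluation of matrix entries of words in root elements with polynomial parameters. -/

set_option autoImplicit false

namespace Cfsg.Agent.AH.PE

open Cfsg.Lie Cfsg.Lie.ChevalleyDatum Cfsg.Agent.Chev Matrix

/-- product of monomials given by exponent lists -/
def addM : List ℕ → List ℕ → List ℕ
  | [], M => M
  | a :: L, [] => a :: L
  | a :: L, b :: M => (a + b) :: addM L M

/-- equality of monomials -/
def eqM : List ℕ → List ℕ → Bool
  | [], M => M.all fun b => Nat.beq b 0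
  | a :: L, [] => Nat.beq a 0 && eqM L []
  | a :: L, b :: M => Nat.beq a b && eqM L M

/-- the first two variables are inverse to each other -/
def nrmM : List ℕ → List ℕ
  | a :: b :: L => (a - b) :: (b - a) :: L
  | L => L

/-- terms -/
abbrev Trm (ι : Type) : Type := ι × ℤ × List ℕ

section

variable {D : ChevalleyDatum} {ι : Type} [DecidableEq ι] (c : Rt D → ℕ → ι → List (ι × ℤ))

/-- one divided power applied to a term -/
def appK (L : List (ι × ℤ)) (x : ℤ) (m : List ℕ) : List (Trm ι) :=
  L.filterMap fun p => if p.2 = 0 then none else some (p.1, p.2 * x, m)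

/-- apply a root element to a term -/
def app1 (w : Trm (Rt D)) (τ : Trm ι) : List (Trm ι) :=
  τ :: (appK (c w.1 1 τ.1) (τ.2.1 * w.2.1) (nrmM (addM τ.2.2 w.2.2)) ++
    (appK (c w.1 2 τ.1) (τ.2.1 * (w.2.1 * w.2.1)) (nrmM (addM τ.2.2 (addM w.2.2 w.2.2))) ++
    appK (c w.1 3 τ.1) (τ.2.1 * (w.2.1 * w.2.1 * w.2.1)) (nrmM (addM τ.2.2 (addM w.2.2 (addM w.2.2 w.2.2))))))

/-- equal keys -/
def keq (σ τ : Trm ι) : Bool := decide (σ.1 = τ.1) && eqM σ.2.2 τ.2.2

/-- collect terms modulo `q` -/
def coll (q : ℤ) : ℕ → List (Trm ι) → List (Trm ι)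
  | _, [] => []
  | 0, L => L
  | k + 1, τ :: L =>
    if (τ.2.1 + ((L.filter (keq τ)).map fun σ => σ.2.1).sum) % q = 0 then coll q k (L.filter fun σ => !keq τ σ)
    else (τ.1, τ.2.1 + ((L.filter (keq τ)).map fun σ => σ.2.1).sum, τ.2.2) :: coll q k (L.filter fun σ => !keq τ σ)

/-- apply a word -/
def appW (q : ℤ) (W : List (Trm (Rt D))) (L : List (Trm ι)) : List (Trm ι) :=
  W.foldr (fun w L => coll q 1000 (L.flatMap (app1 c w))) L

/-- equal values -/
def same (q : ℤ) (L L' : List (Trm ι)) : Bool := (coll q 1000 (L ++ L'.map fun τ => (τ.1, -τ.2.1, τ.2.2))).isEmpty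

/-- check of an entry -/
def entChk (q : ℤ) (W : List (Trm (Rt D))) (a b : ι) (P : List (ℤ × List ℕ)) : Bool :=
  same q ((appW c q W [(b, 1, [])]).filter fun τ => decide (τ.1 = a)) (P.map fun p => (a, p))

/-- check of a column -/
def colChk (q : ℤ) (W W' : List (Trm (Rt D))) (b : ι) : Bool :=
  same q (appW c q W [(b, 1, [])]) (appW c q W' [(b, 1, [])])

/-- inverse word -/
def invW (W : List (Trm (Rt D))) : List (Trm (Rt D)) := W.reverse.map fun w => (w.1, -w.2.1, w.2.2)

end

variable {F : Type*} [Field F]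

/-- value of a monomial -/
def evM : List F → List ℕ → F
  | z :: Z, e :: L => z ^ e * evM Z L
  | _, _ => 1

theorem evM_nil (Z : List F) : evM Z [] = 1 := by cases Z <;> rfl

theorem evM_add : ∀ (Z : List F) (L M : List ℕ), evM Z (addM L M) = evM Z L * evM Z M
  | Z, [], M => by rw [addM, evM_nil, one_mul]
  | Z, a :: L, [] => by rw [addM, evM_nil, mul_one]
  | [], _ :: _, _ :: _ => by simp [addM, evM]
  | z :: Z, a :: L, b :: M => by rw [addM, evM, evM, evM, evM_add Z L M, pow_add]; ring

theorem evM_zero : ∀ (Z : List F) (M : List ℕ), (M.all fun b => Nat.beq b 0) = true → evM Z M = 1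
  | Z, [], _ => evM_nil Z
  | [], _ :: _, _ => rfl
  | z :: Z, b :: M, h => by
    simp only [List.all_cons, Bool.and_eq_true, Nat.beq_eq] at h
    rw [evM, evM_zero Z M h.2, h.1]; simp

theorem evM_eq : ∀ (Z : List F) (L M : List ℕ), eqM L M = true → evM Z L = evM Z M
  | Z, [], M, h => by rw [evM_nil, evM_zero Z M h]
  | [], _ :: _, [], _ => rfl
  | z :: Z, a :: L, [], h => by
    simp only [eqM, Bool.and_eq_true, Nat.beq_eq] at h
    rw [evM, evM_eq Z L [] h.2, h.1]; simp [evM_nil]
  | [], _ :: _, _ :: _, _ => rfl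
  | z :: Z, a :: L, b :: M, h => by
    simp only [eqM, Bool.and_eq_true, Nat.beq_eq] at h
    rw [evM, evM, evM_eq Z L M h.2, h.1]

theorem evM_nrm {y z : F} (h : y * z = 1) (Z : List F) : ∀ L, evM (y :: z :: Z) (nrmM L) = evM (y :: z :: Z) L
  | [] => rfl
  | [_] => rfl
  | a :: b :: L => by
    simp only [nrmM, evM, ← mul_assoc]
    congr 1
    rcases le_total a b with e | e <;> obtain ⟨k, rfl⟩ := Nat.exists_eq_add_of_le e
    · simp only [Nat.add_sub_cancel_left, Nat.sub_add_eq, Nat.sub_self, Nat.zero_sub, pow_add]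
      rw [← mul_assoc, ← mul_pow, h]; simp
    · simp only [Nat.add_sub_cancel_left, Nat.sub_add_eq, Nat.sub_self, Nat.zero_sub, pow_add]
      rw [mul_right_comm, ← mul_pow, h]; simp

/-- value of a polynomial -/
def evP (Z : List F) (P : List (ℤ × List ℕ)) : F := (P.map fun p => (p.1 : F) * evM Z p.2).sum

section Vec

variable {ι : Type} [DecidableEq ι] {Z : List F}

/-- value of a term -/
def evT (Z : List F) (τ : Trm ι) : ι → F := ((τ.2.1 : F) * evM Z τ.2.2) • Pi.single τ.1 1

/-- value of a list of terms -/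
def evL (Z : List F) (L : List (Trm ι)) : ι → F := (L.map (evT Z)).sum

theorem evL_cons (τ : Trm ι) (L : List (Trm ι)) : evL Z (τ :: L) = evT Z τ + evL Z L := rfl

theorem evL_append (L L' : List (Trm ι)) : evL Z (L ++ L') = evL Z L + evL Z L' := by simp [evL]

theorem evL_appK (L : List (ι × ℤ)) (x : ℤ) (m : List ℕ) :
    evL Z (appK L x m) = ((x : F) * evM Z m) • (L.map fun p => (p.2 : F) • (Pi.single p.1 1 : ι → F)).sum := by
  induction L with
  | nil => simp [evL, appK]
  | cons p L ih =>
    rw [List.map_cons, List.sum_cons, smul_add, ← ih, appK, List.filterMap_cons]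
    by_cases h : p.2 = 0
    · simp [h, appK]
    · simp only [h, if_false, evL_cons, evT, smul_smul, Int.cast_mul]
      congr 2; ring

theorem evL_filter (p : Trm ι → Bool) (L : List (Trm ι)) :
    evL Z L = evL Z (L.filter p) + evL Z (L.filter fun σ => !p σ) := by
  induction L with
  | nil => simp [evL]
  | cons τ L ih =>
    cases h : p τ <;> simp only [List.filter_cons, h, evL_cons, Bool.not_true, Bool.not_false, if_true,
      Bool.false_eq_true, if_false] <;> rw [ih] <;> abel

theorem evL_keq (τ : Trm ι) (L : List (Trm ι)) (h : ∀ σ ∈ L, keq τ σ = true) :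
    evL Z L = evT Z (τ.1, (L.map fun σ => σ.2.1).sum, τ.2.2) := by
  induction L with
  | nil => simp [evL, evT]
  | cons σ L ih =>
    have := h σ List.mem_cons_self
    simp only [keq, Bool.and_eq_true, decide_eq_true_eq] at this
    rw [evL_cons, ih fun σ hσ => h σ (List.mem_cons_of_mem _ hσ)]
    simp only [evT, List.map_cons, List.sum_cons, Int.cast_add, add_mul, add_smul, this.1, evM_eq Z _ _ this.2]

theorem coll_spec {q : ℤ} (hq : (q : F) = 0) : ∀ (k : ℕ) (L : List (Trm ι)), evL Z (coll q k L) = evL Z L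
  | 0, [] => rfl
  | _ + 1, [] => rfl
  | 0, _ :: _ => rfl
  | k + 1, τ :: L => by
    have e : evL Z (τ :: L) = evT Z (τ.1, τ.2.1 + ((L.filter (keq τ)).map fun σ => σ.2.1).sum, τ.2.2) +
        evL Z (L.filter fun σ => !keq τ σ) := by
      rw [evL_cons, evL_filter (keq τ) L, evL_keq τ _ fun σ hσ => (List.mem_filter.1 hσ).2, ← add_assoc]
      simp only [evT, Int.cast_add, add_mul, add_smul]
    rw [e, coll]
    split_ifs with h
    · obtain ⟨d, hd⟩ := Int.dvd_of_emod_eq_zero h
      rw [coll_spec hq, hd]; simp [evT, hq]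
    · rw [evL_cons, coll_spec hq]

theorem same_spec {q : ℤ} (hq : (q : F) = 0) {L L' : List (Trm ι)} (h : same q L L' = true) : evL Z L = evL Z L' := by
  have h1 := coll_spec (Z := Z) hq 1000 (L ++ L'.map fun τ => (τ.1, -τ.2.1, τ.2.2))
  rw [List.isEmpty_iff.1 h, evL_append] at h1
  have h2 : evL Z (L'.map fun τ => (τ.1, -τ.2.1, τ.2.2)) = -evL Z L' := by
    clear h h1
    induction L' with
    | nil => simp [evL]
    | cons τ L ih => simp only [List.map_cons, evL_cons, neg_add, evT, Int.cast_neg, neg_mul, neg_smul, *]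
  rw [h2] at h1
  exact add_neg_eq_zero.1 h1.symm

theorem evL_apply (a : ι) (L : List (Trm ι)) : evL Z L a = evL Z (L.filter fun τ => decide (τ.1 = a)) a := by
  induction L with
  | nil => rfl
  | cons τ L ih =>
    by_cases h : τ.1 = a
    · simp only [List.filter_cons, h, decide_true, if_true, evL_cons, Pi.add_apply, ih]
    · simp [List.filter_cons, h, evL_cons, ih, evT, Pi.single_apply, Ne.symm h]

theorem evL_poly (a : ι) (P : List (ℤ × List ℕ)) : evL Z (P.map fun p => (a, p)) a = evP Z P := by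
  induction P with
  | nil => rfl
  | cons p P ih => rw [List.map_cons, evL_cons, Pi.add_apply, ih]; simp [evT, evP]

end Vec

variable {D : ChevalleyDatum} {C : Cert D} {G : Type*} [Group G]

/-- value of a word -/
def wd (S : Sys C F G) (Z : List F) (W : List (Trm (Rt D))) : G :=
  (W.map fun w => S.x w.1 (w.2.1 * evM Z w.2.2)).prod

variable {S : Sys C F G}

theorem wd_append (Z : List F) (W W' : List (Trm (Rt D))) : wd S Z (W ++ W') = wd S Z W * wd S Z W' := by
  simp [wd]

theorem wd_invW (Z : List F) (W : List (Trm (Rt D))) : wd S Z (invW W) = (wd S Z W)⁻¹ := by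
  simp [wd, invW, List.prod_inv_reverse, S.x_neg, Function.comp_def]

theorem cj_wd {a : G} {Z : List F} {W : List (Trm (Rt D))} (h : Cj ⊤ a (wd S Z W)) (g : List (Trm (Rt D))) :
    Cj ⊤ a (wd S Z (invW g ++ W ++ g)) := by
  rw [wd_append, wd_append, wd_invW]; exact h.conj' trivial

variable {ι : Type} [Fintype ι] [DecidableEq ι] (V : Md S ι) {y z : F} (h : y * z = 1) {Z : List F}
include h

theorem app1_spec (w : Trm (Rt D)) (τ : Trm ι) :
    V.ρ (S.x w.1 (w.2.1 * evM (y :: z :: Z) w.2.2)) *ᵥ evT (y :: z :: Z) τ = evL (y :: z :: Z) (app1 V.col w τ) := by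
  rw [app1, evL_cons, evL_append, evL_append, evL_appK, evL_appK, evL_appK, ← V.col_spec, ← V.col_spec, ← V.col_spec,
    V.ρ_x, evT]
  simp only [evM_nrm h, evM_add, add_mulVec, mulVec_smul, smul_mulVec, one_mulVec, Int.cast_mul]
  module

variable {q : ℤ} (hq : (q : F) = 0)
include hq

theorem appW_spec (W : List (Trm (Rt D))) (L : List (Trm ι)) :
    V.ρ (wd S (y :: z :: Z) W) *ᵥ evL (y :: z :: Z) L = evL (y :: z :: Z) (appW V.col q W L) := by
  induction W with
  | nil => simp [appW, wd]
  | cons w W ih =>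
    change V.ρ (_ * wd S _ W) *ᵥ _ = evL _ (coll q 1000 ((appW V.col q W L).flatMap (app1 V.col w)))
    rw [map_mul, ← mulVec_mulVec, ih, coll_spec hq]
    induction appW V.col q W L with
    | nil => simp [evL]
    | cons τ L ih => rw [evL_cons, mulVec_add, ih, app1_spec V h, List.flatMap_cons, evL_append]

theorem col_spec (W : List (Trm (Rt D))) (a b : ι) :
    V.ρ (wd S (y :: z :: Z) W) a b = evL (y :: z :: Z) (appW V.col q W [(b, 1, [])]) a := by
  rw [← appW_spec V h hq]
  simp [evL, evT, evM_nil]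

/-- an entry of a word -/
theorem ent {W : List (Trm (Rt D))} {a b : ι} {P : List (ℤ × List ℕ)} (hc : entChk V.col q W a b P = true) :
    V.ρ (wd S (y :: z :: Z) W) a b = evP (y :: z :: Z) P := by
  rw [col_spec V h hq, evL_apply, same_spec hq hc, evL_poly]

/-- equality of words -/
theorem eq_wd (hV : Function.Injective V.ρ) {W W' : List (Trm (Rt D))} (hc : ∀ b, colChk V.col q W W' b = true) :
    wd S (y :: z :: Z) W = wd S (y :: z :: Z) W' := hV (by
  ext a b
  rw [col_spec V h hq, col_spec V h hq, same_spec hq (hc b)])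

end Cfsg.Agent.AH.PE
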