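import Cfsg.Agent.AH.Dom

/-!
Products of two conjugacy classes: the symplectic groups.
-/

set_option autoImplicit false

namespace Cfsg.Agent.AH.Cls

open Module Cfsg.Agent.Polar Cfsg.Agent.Polar.PQ

variable {F : Type*} [Field F] {V : Type*} [AddCommGroup V] [Module F V]
variable {P : PQ (spFP F) V} [FiniteDimensional F V]

theorem sp_geo (hP : P.ND) (h4 : 4 ≤ finrank F V) : Geo P where
  nd := hP
  rich := sp_rich
  hyp := by
    have : Nontrivial V := Module.nontrivial_of_finrank_pos (R := F) (by omega)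
    obtain ⟨e, he⟩ := exists_ne (0 : V)
    exact ⟨e, hP.exists_hyp (sp_sing e) he⟩
  vt := sp_vTrans hP
  vt2 _ _ h := sp_vTrans (h.emb.nd hP)
  idx a b := by
    obtain ⟨z, h0, h1, h2⟩ := exists_ne_zero_ker₂ (P.B.flip a) (P.B.flip b) (by omega)
    exact ⟨z, h0, sp_sing z, h1, h2⟩
  rich2 _ _ _ := sp_rich
  conn2 := Or.inl ⟨1, trivial, one_ne_zero⟩

omit [FiniteDimensional F V] in
theorem sp_tv (u : V) : ∃ g : P.EG, rho g = 1 + rr P u u :=
  ⟨eg u 0 1, by
    rw [rho_eg (sp_eOk (by simp) 1)]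
    ext v
    simp [rr_apply]⟩

omit [FiniteDimensional F V] in
theorem sp_pair_h1 (u v : V) : ∀ N ∈ ({rr P u u, rr P v v} : Set (End F V)), ∃ g : P.EG, rho g = 1 + N := by
  rintro _ (rfl | rfl) <;> exact sp_tv _

omit [FiniteDimensional F V] in
theorem sp_pair_h2 {u v : V} (h : TS P u v) :
    ∀ N ∈ ({rr P u u, rr P v v} : Set (End F V)), ∀ M ∈ ({rr P u u, rr P v v} : Set (End F V)), N * M = 0 := by
  rintro _ (rfl | rfl) _ (rfl | rfl) <;> simp [rr_mul_rr, sp_B_self, h.uv, h.vu]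

theorem sp_odd_dom (G : Geo P) (h2 : (2 : F) ≠ 0) {x y : P.EG} {c : P.EG ⧸ Subgroup.center P.EG}
    (H : Hyp (pr x) (pr y) c) :
    (∀ a b, TS P a b → dt P (rho x) a b = 0) ∨ ∀ a b, TS P a b → dt P (rho y) a b = 0 := by
  refine G.dichotomy fun y' c' a b hab => ?_
  have := T4_EG (sp_pair_h1 a b) (sp_pair_h2 hab) (x := x) (y := y') 0 (e2 (rho x * rho y)) (fun y'' c'' => by
    obtain ⟨t, h1, -, -, h3⟩ := G.inv H (IsConj.refl x) (c'.trans c'')
    rw [h3, pow_two, show t * t = 1 from h1]; simp) (N1 := rr P a a) (N2 := rr P a a) (N3 := rr P b b) (N4 := rr P b b)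
    (by simp) (by simp) (by simp) (by simp)
  simp only [SS_rr, b2_add_left, b2_add_right, b2_smul_left, b2_smul_right, b2_rr] at this
  refine (mul_eq_zero.1 ?_).resolve_left (mul_ne_zero h2 h2)
  rw [dt, dt]
  linear_combination this

set_option maxHeartbeats 1600000 in
theorem sp_odd_core [Finite F] {p : ℕ} [hp : Fact p.Prime] [CharP F p] (G : Geo P) (h4 : 4 ≤ finrank F V)
    (h2 : (2 : F) ≠ 0) {x y : P.EG} {c : P.EG ⧸ Subgroup.center P.EG} (H : Hyp (pr x) (pr y) c)
    (hx : ¬ Sc (rho x)) (hy : ¬ Sc (rho y)) (hd : ∀ a b, TS P a b → dt P (rho y) a b = 0) :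
    Mixed p c ∧ p ∣ orderOf (pr y) := by
  obtain ⟨l, k, d, hl, hk, hd0, hyd⟩ := G.domestic hy hd
  change l * l = 1 at hl
  have hl0 : l ≠ 0 := left_ne_zero_of_mul_eq_one hl
  obtain ⟨κ, hκ⟩ : ∃ κ, κ = l * k := ⟨_, rfl⟩
  have hκ0 : κ ≠ 0 := hκ ▸ mul_ne_zero hl0 hk
  have NN : ∀ w : V, rr P w w * rr P w w = 0 := fun w => by simp [rr_mul_rr, sp_B_self]
  have cj : ∀ w : V, w ≠ 0 → ∃ y', IsConj y y' ∧ rho y' = l • (1 + κ • rr P w w) := fun w hw => by
    obtain ⟨y', c', e⟩ := conj_tv hyd (G.vt d w trivial trivial hd0 hw)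
    exact ⟨y', c', by rw [e, smul_add, smul_smul, hκ, ← mul_assoc, hl, one_mul]⟩
  have pw : ∀ (w : V) (s : F) (n : ℕ), (1 + s • rr P w w) ^ n = 1 + (n * s) • rr P w w := fun w s n => by
    rw [one_add_pow_sq (by rw [smul_mul_assoc, mul_smul_comm, NN]; simp), smul_smul]
  have yp : ∀ y' : P.EG, ∀ w, rho y' = l • (1 + κ • rr P w w) → pr y' ^ p = 1 := fun y' w e => by
    rw [G.pr_pow_eq_one, e, smul_pow, pw, CharP.cast_eq_zero]
    exact ⟨l ^ p, by simp⟩
  refine ⟨?_, dvd_orderOf_of_pow (yp y d (by rw [hyd, smul_add, smul_smul, hκ, ← mul_assoc, hl, one_mul]))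
    (G.pr_eq_one.not.2 hy)⟩
  have hp2 : ¬ p ∣ 2 := fun h => h2 (by exact_mod_cast (CharP.cast_eq_zero_iff F p 2).2 h)
  obtain ⟨t, ht⟩ : ∃ t, t = tr (rho x) := ⟨_, rfl⟩
  have inv : ∀ w : V, w ≠ 0 → (t + κ * P.B (rho x w) w) ^ 2 = tr (rho x * rho y) ^ 2 ∧
      e2 (rho x) + κ * (t * P.B (rho x w) w - P.B (rho x (rho x w)) w) = e2 (rho x * rho y) := fun w hw => by
    obtain ⟨y', c', e⟩ := cj w hw
    obtain ⟨s, h1, -, h3, h5⟩ := G.inv H (IsConj.refl x) c'
    change s * s = 1 at h1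
    rw [e, mul_smul_comm, mul_add, mul_one, mul_smul_comm, mul_rr] at h3 h5
    rw [map_smul, map_add, map_smul, tr_rr, ← ht, smul_eq_mul, smul_eq_mul] at h3
    rw [e2_smul, e2_add, e2_smul, e2_rr, b2_smul_right, b2_rr_right, ← ht] at h5
    constructor
    · linear_combination (l * (t + κ * P.B (rho x w) w) + s * tr (rho x * rho y)) * h3 -
        (t + κ * P.B (rho x w) w) ^ 2 * hl + tr (rho x * rho y) ^ 2 * h1
    · linear_combination h5 - (e2 (rho x) + κ * (t * P.B (rho x w) w - P.B (rho x (rho x w)) w)) * hl +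
        e2 (rho x * rho y) * h1
  have adj : ∀ u v, P.B (rho x v) u = -P.B (rho x⁻¹ u) v := fun u v => by rw [B_rho_left, sp_swap]
  by_cases hq : ∀ w, P.B (rho x w) w = 0
  · have h1 : ∀ u, rho x⁻¹ u = rho x u := fun u => G.nd.eq_of_forall fun v => by
      have := hq (u + v)
      simp only [map_add, LinearMap.add_apply, hq] at this
      linear_combination adj u v - this
    have h3 : ∀ u, rho x (rho x u) = u := fun u => by rw [← h1, rho_inv_rho]
    obtain ⟨v, hv⟩ : ∃ v, v + rho x v ≠ 0 := by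
      by_contra h5
      push Not at h5
      exact hx (sc_iff.2 ⟨-1, fun v => by rw [neg_one_smul]; exact eq_neg_of_add_eq_zero_right (h5 v)⟩)
    have hw : rho x (v + rho x v) = v + rho x v := by rw [map_add, h3, add_comm]
    obtain ⟨y', c', e⟩ := cj _ hv
    have hcm : y' * x = x * y' := rho_inj (by
      rw [map_mul, map_mul, e, smul_mul_assoc, mul_smul_comm, add_mul, mul_add, smul_mul_assoc, mul_smul_comm,
        mul_rr, rr_mul_rho, h1, hw, one_mul, mul_one])
    have := finite_EG (P := P)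
    refine Mixed.of_conj (H.symm.conj (pr.map_isConj c') (IsConj.refl _))
      (mixed_of_commute (k := 1) (m := 2) ?_ ?_ (G.pr_eq_one.not.2 hx) ?_ ?_ hp2)
    · change _ * _ = _ * _
      rw [← map_mul, hcm, map_mul]
    · intro h5
      exact hy (G.pr_eq_one.1 (isConj_one_right.1 (h5 ▸ (pr.map_isConj c').symm)))
    · rw [pow_one]; exact yp _ _ e
    · rw [G.pr_pow_eq_one]
      exact sc_iff.2 ⟨1, fun u => by rw [pow_two, End.mul_apply, h3, one_smul]⟩
  push Not at hq
  obtain ⟨w1, hw1⟩ := hq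
  have hw10 : w1 ≠ 0 := by rintro rfl; simp at hw1
  obtain ⟨c0, hc0⟩ : ∃ c0, c0 = P.B (rho x w1) w1 := ⟨_, rfl⟩
  rw [← hc0] at hw1
  obtain ⟨z, hz0, hz⟩ := exists_zero_quad (P.B ∘ₗ rho x) (by omega)
  have val : ∀ w, P.B (rho x w) w = 0 ∨ κ * P.B (rho x w) w = -2 * t := fun w => by
    by_cases hw : w = 0
    · simp [hw]
    have e1 := (inv w hw).1
    have e2 := (inv z hz0).1
    rw [show P.B (rho x z) z = 0 from hz] at e2
    have : κ * (P.B (rho x w) w * (κ * P.B (rho x w) w - -2 * t)) = 0 := by linear_combination e1 - e2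
    rcases mul_eq_zero.1 ((mul_eq_zero.1 this).resolve_left hκ0) with h | h
    · exact Or.inl h
    · exact Or.inr (sub_eq_zero.1 h)
  have hκc : κ * c0 = -2 * t := hc0 ▸ (val w1).resolve_left (hc0 ▸ hw1)
  have sq1 : ∀ s : F, s ≠ 0 → s * s = 1 := fun s hs => by
    have := val (s • w1)
    simp only [map_smul, LinearMap.smul_apply, smul_eq_mul, ← hc0] at this
    rcases this with h | h
    · exact absurd h (mul_ne_zero hs (mul_ne_zero hs hw1))
    · exact mul_left_cancel₀ (mul_ne_zero hκ0 hw1) (by linear_combination h - hκc)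
  have h3 : (3 : F) = 0 := by linear_combination sq1 2 h2
  have hp3 : p = 3 := (Nat.prime_dvd_prime_iff_eq hp.out Nat.prime_three).1
    ((CharP.cast_eq_zero_iff F p 3).1 (by exact_mod_cast h3))
  subst hp3
  have val' : ∀ w, P.B (rho x w) w = 0 ∨ P.B (rho x w) w = c0 := fun w =>
    (val w).imp id fun h => mul_left_cancel₀ hκ0 (h.trans hκc.symm)
  obtain ⟨w0, hw0⟩ := G.nd.rep ((-c0) • (P.B.flip w1 ∘ₗ rho x + P.B (rho x w1)))
  simp only [LinearMap.smul_apply, LinearMap.add_apply, LinearMap.comp_apply, LinearMap.flip_apply,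
    smul_eq_mul] at hw0
  have cc := sq1 c0 hw1
  have h10 : P.B w1 w0 = 1 := by rw [hw0, ← hc0]; linear_combination (-2) * cc - h3
  have hw00 : w0 ≠ 0 := by rintro rfl; simp at h10
  have qv : ∀ v, P.B (rho x v) v = c0 * P.B v w0 ^ 2 := fun v => by
    have e1 := val' (v - P.B v w0 • w1)
    have e2 := val' (v - P.B v w0 • w1 + w1)
    have e3 := hw0 v
    simp only [map_add, map_sub, map_smul, LinearMap.add_apply, LinearMap.sub_apply, LinearMap.smul_apply,
      smul_eq_mul, ← hc0] at e1 e2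
    have e4 : P.B (rho x v) w1 + P.B (rho x w1) v = 2 * c0 * P.B v w0 := by
      linear_combination c0 * e3 - (P.B (rho x v) w1 + P.B (rho x w1) v) * cc - c0 * P.B v w0 * h3
    rcases e1 with e1 | e1
    · linear_combination e1 + P.B v w0 * e4
    · rcases e2 with e2 | e2
      · exact absurd (by linear_combination e1 - e2 + e4 + c0 * h3) hw1
      · exact absurd (by linear_combination e2 - e1 - e4) hw1
  have hxx : rho x - rho x⁻¹ = c0 • rr P w0 w0 := by
    ext u
    refine G.nd.eq_of_forall fun v => ?_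
    have := qv (u + v)
    simp only [map_add, LinearMap.add_apply, qv] at this
    simp only [LinearMap.sub_apply, LinearMap.smul_apply, rr_apply, map_sub, map_smul, smul_eq_mul, sp_swap v w0]
    linear_combination this - adj u v + c0 * P.B u w0 * P.B v w0 * h3
  obtain ⟨η, hη⟩ : ∃ η : F, rho x w0 = η • w0 := by
    have h5 := LinearMap.congr_fun hxx (rho x w1)
    have h6 := congrArg (rho x) (LinearMap.congr_fun hxx w1)
    simp only [LinearMap.sub_apply, LinearMap.smul_apply, rr_apply, map_sub, map_smul, rho_inv_rho, rho_rho_inv,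
      h10, one_smul] at h5 h6
    exact ⟨_, smul_right_injective V hw1 (h6.symm.trans h5)⟩
  have hη0 : η ≠ 0 := by rintro rfl; exact rho_ne_zero x hw00 (by rw [hη, zero_smul])
  have ηη := sq1 η hη0
  have hη' : rho x⁻¹ w0 = η • w0 := by
    have := congrArg (rho x⁻¹) hη
    rw [rho_inv_rho, map_smul] at this
    conv_rhs => rw [this, smul_smul, ηη, one_smul]
  have hx2 : rho x * rho x = 1 + (c0 * η) • rr P w0 w0 := by
    have := congrArg (rho x * ·) hxx
    simp only [mul_sub, rho_mul_inv, mul_smul_comm, mul_rr, hη, rr_smul_left, smul_smul] at this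
    rw [← this]; abel
  have hηt : c0 * η = -κ := by
    have e1 := (inv w0 hw00).2
    have e2 := (inv w1 hw10).2
    rw [← End.mul_apply, hx2, qv] at e1 e2
    simp only [LinearMap.add_apply, LinearMap.smul_apply, End.one_apply, rr_apply, map_add, map_smul, smul_eq_mul,
      sp_B_self, h10, sp_swap w1 w0] at e1 e2
    have : κ * (c0 * η + κ) = 0 := by
      linear_combination e2 - e1 + κ * c0 * hκc - κ ^ 2 * cc - κ * c0 * t * h3
    exact eq_neg_of_add_eq_zero_left ((mul_eq_zero.1 this).resolve_left hκ0)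
  rw [hηt] at hx2
  have mulN : ∀ a b : F, (1 + a • rr P w0 w0) * (1 + b • rr P w0 w0) = 1 + (a + b) • rr P w0 w0 := fun a b => by
    simp only [add_mul, mul_add, one_mul, mul_one, smul_mul_assoc, mul_smul_comm, NN, smul_zero, add_smul]
    abel_nf
  have hcm : Commute (rho x) (1 + κ • rr P w0 w0) := by
    change _ * _ = _ * _
    rw [add_mul, mul_add, smul_mul_assoc, mul_smul_comm, mul_rr, rr_mul_rho, hη, hη', one_mul, mul_one,
      rr_smul_left, rr_smul_right]
    rfl
  obtain ⟨y0, c0', e0⟩ := cj w0 hw00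
  have gp : ∀ n : ℕ, rho (x * y0) ^ n = l ^ n • (rho x ^ n * (1 + (n * κ) • rr P w0 w0)) := fun n => by
    rw [map_mul, e0, mul_smul_comm, smul_pow, hcm.mul_pow, pw]
  have cg : IsConj c (pr (x * y0)) := by
    rw [map_mul]; exact H.conj (IsConj.refl _) (pr.map_isConj c0')
  have g3 : rho (x * y0) ^ 3 = l • rho x ^ 3 := by
    rw [gp, Nat.cast_ofNat, h3, zero_mul, zero_smul, add_zero, mul_one, pow_three, hl, mul_one]
  by_cases hs : Sc (rho x ^ 3)
  · exfalso
    obtain ⟨s, hs⟩ := hs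
    have hx1 : rho x = s • (1 + κ • rr P w0 w0) := by
      have := congrArg (· * (1 + κ • rr P w0 w0)) hs
      simp only [pow_three, hx2, mul_assoc, mulN, neg_add_cancel, zero_smul, add_zero, mul_one, smul_mul_assoc,
        one_mul] at this
      exact this
    have c3 : c ^ 3 = 1 := isConj_one_left.1 ((cg.pow 3).trans (by
      rw [G.pr_pow_eq_one.2 ⟨l * s, by rw [g3, hs, smul_smul]⟩]))
    obtain ⟨y1, c1, e1⟩ := cj w1 hw10
    have cg1 : IsConj c (pr (x * y1)) := by
      rw [map_mul]; exact H.conj (IsConj.refl _) (pr.map_isConj c1)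
    have h5 : pr (x * y1) ^ 3 = 1 := isConj_one_right.1 (c3 ▸ cg1.pow 3)
    obtain ⟨r, hr⟩ := G.pr_pow_eq_one.1 h5
    obtain ⟨v, hv0, -, v0, v1⟩ := G.idx w0 w1
    have κκ := sq1 κ hκ0
    have hs0 : s ≠ 0 := by rintro rfl; exact hx ⟨0, by simp [hx1]⟩
    have a1 := LinearMap.congr_fun hr v
    have a2 := congrArg (P.B w1) (LinearMap.congr_fun hr w0)
    simp only [map_mul, hx1, e1, pow_three, End.mul_apply, LinearMap.smul_apply, LinearMap.add_apply, End.one_apply,
      rr_apply, map_smul, map_add, v0, v1, zero_smul, smul_zero, add_zero, smul_smul, sp_B_self, h10,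
      sp_swap w1 w0, smul_eq_mul] at a1 a2
    have a3 := smul_left_injective F hv0 a1
    refine mul_ne_zero h2 (pow_ne_zero 3 (mul_ne_zero hs0 hl0)) ?_
    rcases mul_self_eq_one_iff.1 κκ with h | h <;> (rw [h] at a2; linear_combination a3 - a2)
  · refine Mixed.of_conj cg (mixed_of_pow hp2 ?_ ?_ ?_)
    · rw [G.pr_pow_eq_one, mul_comm, pow_mul, g3, smul_pow, ← pow_mul, mul_comm, pow_mul, pow_two (rho x), hx2, pw,
        Nat.cast_ofNat, h3]
      exact ⟨l ^ 2, by simp⟩
    · rw [Ne, G.pr_pow_eq_one, gp, pow_two (rho x), hx2, mulN, pow_two, hl, one_smul, ← one_smul F (1 : End F V)]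
      exact not_sc_rr G.nd (by omega) (by
        rw [Nat.cast_ofNat, show -κ + 2 * κ = κ by ring]; exact hκ0) hw00
    · rw [Ne, G.pr_pow_eq_one, g3]
      rintro ⟨s, hs'⟩
      exact hs ⟨l * s, by rw [← smul_smul, ← hs', smul_smul, hl, one_smul]⟩

theorem eq_one_of_sq (h2 : (2 : F) = 0) {t : F} (h : t * t = 1) : t = 1 := by
  have : (t - 1) ^ 2 = 0 := by linear_combination h + (1 - t) * h2
  exact sub_eq_zero.1 (pow_eq_zero_iff (two_ne_zero (α := ℕ)) |>.1 this)

theorem sp_even_core (G : Geo P) (h2 : (2 : F) = 0) {x y : P.EG}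
    {c : P.EG ⧸ Subgroup.center P.EG} (H : Hyp (pr x) (pr y) c) (hx : ¬ Sc (rho x)) (hy : ¬ Sc (rho y))
    (he : ∀ y', IsConj y y' → tr (rho x * rho y') = tr (rho x * rho y) ∧ e2 (rho x * rho y') = e2 (rho x * rho y))
    {l : F} (hl : rho x + rho x⁻¹ = l • (1 : End F V)) (hq : ∀ u, P.B (rho y u) u = 0) : False := by
  have hs : ∀ u v, P.B u v = P.B v u := fun u v => by rw [sp_swap u v]; linear_combination P.B u v * h2
  have hxi := quad_conj (IsConj.refl x) hl
  have yi : ∀ y', IsConj y y' → (∀ u, P.B (rho y' u) u = 0) ∧ ∀ u, rho y'⁻¹ u = rho y' u := fun y' c' => by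
    have h1 : ∀ u, P.B (rho y' u) u = 0 := fun u => by
      obtain ⟨k, rfl⟩ := isConj_iff.1 c'
      rw [← rho_rho_inv k u, rho_conj, B_rho, hq]
    refine ⟨h1, fun u => G.nd.eq_of_forall fun v => ?_⟩
    have := h1 (u + v)
    simp only [map_add, LinearMap.add_apply, h1] at this
    rw [← B_rho_right, hs u]
    linear_combination this - P.B (rho y' u) v * h2
  have xs : ∀ u v, P.B (rho x v) u = P.B (rho x u) v + l * P.B u v := fun u v => by
    rw [B_rho_left, hs v, hxi, map_sub, LinearMap.sub_apply, B_smul_left]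
    linear_combination (-P.B (rho x u) v) * h2
  have rel : ∀ u v, TS P u v → l * (P.B (rho x u) u + P.B (rho x v) v) + P.B (rho x u) v ^ 2 +
      P.B (rho x u) u * P.B (rho x v) v = 0 := fun u v huv => by
    obtain ⟨a, ha⟩ := exists_not_eigen hy
    obtain ⟨k, rfl, hk⟩ := G.pair_trans (⟨trivial, trivial, hq a, by rintro rfl; simp at ha, ha⟩ : TS P a (rho y a)) huv
    rw [← rho_conj] at hk
    obtain ⟨y', hy'⟩ : ∃ y', y' = k * y * k⁻¹ := ⟨_, rfl⟩
    have c' : IsConj y y' := hy' ▸ isConj_mk k y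
    rw [← hy'] at hk
    generalize rho k a = u at *
    obtain ⟨q1, q2⟩ := yi y' c'
    have hv : rho y' v = u := by rw [← q2, ← hk, rho_inv_rho]
    obtain ⟨g, hg⟩ := sp_tv (P := P) u
    have e1 := rho_conj_MM hg (by simp [rr_mul_rr, sp_B_self]) x y'
    have e3 : MM (rho x) (rho y') (rr P u u) = rho x * rho y' + (rr P (rho x u) v - rr P (rho x v) u) := by
      ext w
      simp [MM, rr_apply, B_rho_left y', q2, hk, huv.vu]
      abel
    obtain ⟨t1, t2⟩ := he _ (c'.trans (isConj_mk g y'))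
    obtain ⟨t3, t4⟩ := he _ c'
    rw [e1, e3] at t1 t2
    rw [map_add, t3, add_eq_left] at t1
    rw [e2_add, t4, add_assoc, add_eq_left, b2, t1, sub_eq_add_neg (rr P _ _), e2_add, ← neg_one_smul F (rr P _ u),
      e2_smul, e2_rr, e2_rr, b2_smul_right, b2_rr, mul_add, mul_smul_comm, map_add, map_smul, mul_rr, mul_rr, tr_rr,
      tr_rr] at t2
    have a0 : ∀ w w', P.B w (rho y' w') = P.B (rho y' w) w' := fun w w' => by rw [B_rho_right, q2]
    have a1 := xs v (rho y' (rho x u))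
    have a2 := xs u (rho y' (rho x v))
    rw [a0 v, hv, hs u] at a1
    rw [a0 u, hk, hs v, a0, hs (rho y' _)] at a2
    rw [End.mul_apply, End.mul_apply, a1, a2, xs u v, huv.uv, smul_eq_mul] at t2
    linear_combination t2 + (l * P.B (rho x u) u + P.B (rho x u) v ^ 2) * h2
  have hl0 : l = 0 := by
    obtain ⟨e, f, hef⟩ := G.hyp
    obtain ⟨v, v0, -, v1, v2⟩ := G.idx e f
    obtain ⟨v', hv'⟩ := (hef.emb.nd G.nd).exists_hyp (e := ⟨v, mem_perp_pair.2 ⟨v1, v2⟩⟩) trivial
      (fun h => v0 (congrArg Subtype.val h))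
    have b1 : P.B v v' = 1 := hv'.pair
    have w1 := (mem_perp_pair.1 v'.2).1
    have w2 := (mem_perp_pair.1 v'.2).2
    have r1 := rel e v (TS.of_perp hef trivial v0 v1 v2)
    have r2 := rel e v' (TS.of_perp hef trivial (by rintro h; simp [h] at b1) w1 w2)
    have r3 := rel e (v + v') (TS.of_perp hef trivial (fun h => by
      have := congrArg (P.B v) h
      simp [b1, sp_B_self] at this) (by simp [v1, w1]) (by simp [v2, w2]))
    simp only [map_add, LinearMap.add_apply, xs v v', b1] at r3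
    refine pow_eq_zero_iff (two_ne_zero (α := ℕ)) |>.1 ?_
    linear_combination r3 - r1 - r2 - (l * P.B (rho x v) v' + P.B (rho x e) v * P.B (rho x e) v' +
      P.B (rho x e) e * P.B (rho x v) v') * h2
  subst hl0
  obtain ⟨l, k, d, hl1, hk, hd0, hxd⟩ := G.domestic hx fun a b hab => by
    have := rel a b hab
    rw [dt, xs a b]
    linear_combination this - P.B (rho x a) b ^ 2 * h2
  have hl2 : l = 1 := by
    exact eq_one_of_sq h2 hl1
  subst hl2
  have yy : ∀ u, rho y (rho y u) = u := fun u => by rw [← (yi y (IsConj.refl y)).2, rho_inv_rho]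
  have cm : ∀ w, w ≠ 0 → ∃ x', IsConj x x' ∧ (y * x' = x' * y ↔ rr P (rho y w) w = rr P w (rho y w)) := fun w hw => by
    obtain ⟨x', c', e⟩ := conj_tv hxd (G.vt d w trivial trivial hd0 hw)
    refine ⟨x', c', ?_⟩
    rw [← rho_inj.eq_iff, map_mul, map_mul, e, one_smul, add_mul, mul_add, smul_mul_assoc, mul_smul_comm,
      mul_rr, rr_mul_rho, (yi y (IsConj.refl y)).2, one_mul, mul_one, add_right_inj, (smul_right_injective _ hk).eq_iff]
  have hz : ∀ z : P.EG, pr z = 1 → z = 1 := fun z hz => by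
    obtain ⟨t, ht⟩ := G.pr_eq_one.1 hz
    rw [eq_one_of_sq h2 (G.norm_one ht), one_smul] at ht
    exact rho_inj (ht.trans (map_one _).symm)
  obtain ⟨v, hv⟩ : ∃ v, v + rho y v ≠ 0 := by
    by_contra h5
    push Not at h5
    exact hy (sc_iff.2 ⟨-1, fun v => by rw [neg_one_smul]; exact eq_neg_of_add_eq_zero_right (h5 v)⟩)
  have hw : rho y (v + rho y v) = v + rho y v := by rw [map_add, yy, add_comm]
  obtain ⟨x0, c0, e0⟩ := cm _ hv
  have xx : ∀ x', IsConj x x' → pr x' * pr x' = 1 := fun x' c' => by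
    rw [← map_mul, G.pr_eq_one]
    refine sc_iff.2 ⟨1, fun u => ?_⟩
    have := quad_conj c' hl (rho x' u)
    rw [rho_inv_rho, zero_smul, zero_sub] at this
    rw [map_mul, End.mul_apply, one_smul, ← neg_eq_iff_eq_neg.2 this]
    linear_combination (norm := module) -(h2 • u)
  refine hy (G.sc_of_eigen fun w _ => ?_)
  by_cases hw0 : w = 0
  · simp [hw0]
  obtain ⟨x', c', e'⟩ := cm w hw0
  have h5 := (H.of_conj (pr.map_isConj c0) (IsConj.refl _)).commute (xx x0 c0) (by
    rw [← map_mul, G.pr_eq_one]; exact sc_iff.2 ⟨1, fun u => by rw [map_mul, End.mul_apply, yy, one_smul]⟩)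
    (by rw [← map_mul, ← map_mul, e0.2 (by rw [hw])]) (pr.map_isConj (c0.symm.trans c')) (IsConj.refl _)
  have h6 : y * x' * (x' * y)⁻¹ = 1 := hz _ (by rw [map_mul, map_inv, map_mul, map_mul, h5, mul_inv_cancel])
  obtain ⟨u, hu⟩ := G.nd.exists_eq' hw0 1
  have h7 := LinearMap.congr_fun (e'.1 (mul_inv_eq_one.1 h6)) u
  rw [rr_apply, rr_apply, hu, one_smul] at h7
  exact Submodule.mem_span_singleton.2 ⟨_, h7.symm⟩

theorem sp_even [Finite F] (G : Geo P) (h4 : 4 ≤ finrank F V) (h2 : (2 : F) = 0) {x y : P.EG}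
    {c : P.EG ⧸ Subgroup.center P.EG} (H : Hyp (pr x) (pr y) c) (hx : ¬ Sc (rho x)) (hy : ¬ Sc (rho y)) : False := by
  have hs : ∀ u v, P.B u v = P.B v u := fun u v => by rw [sp_swap u v]; linear_combination P.B u v * h2
  have inv : ∀ {x y : P.EG}, Hyp (pr x) (pr y) c → ∀ y', IsConj y y' →
      tr (rho x * rho y') = tr (rho x * rho y) ∧ e2 (rho x * rho y') = e2 (rho x * rho y) := fun H y' c' => by
    obtain ⟨t, h1, -, h3, h5⟩ := G.inv H (IsConj.refl _) c'
    rw [eq_one_of_sq h2 h1] at h3 h5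
    exact ⟨by rw [h3, one_mul], by rw [h5, one_pow, one_mul]⟩
  obtain ⟨⟨l, hl⟩, ⟨m, hm⟩⟩ := G.quadratic h2 hs hx hy fun a b a' b' hab hab' => by
    obtain ⟨y', c', -, e2, e3, -⟩ := G.conj_pair hab hab'.symm y
    have := T2_EG (sp_pair_h1 a b) (sp_pair_h2 hab) (x := x) (y := y') _ (fun y'' c'' => (inv H y'' (c'.trans c'')).1)
      (N1 := rr P a a) (N2 := rr P b b) (by simp) (by simp)
    rw [SS_rr, map_add, map_smul, map_smul, tr_rr, tr_rr, e2, e3, smul_eq_mul, smul_eq_mul] at this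
    linear_combination this
  have rel : ∀ u u', u ≠ 0 → u' ≠ 0 → m * P.B (rho x u) u + l * P.B (rho y u') u' +
      P.B (rho x u) u * P.B (rho y u') u' = 0 := fun u u' hu hu' => by
    obtain ⟨y', c', e⟩ := G.conj_vec (sp_sing u) (sp_sing u') hu hu' y
    obtain ⟨g, hg⟩ := sp_tv (P := P) u
    have t1 := (inv H _ (c'.trans (isConj_mk g y'))).1
    rw [rho_conj_MM hg (by simp [rr_mul_rr, sp_B_self]), rr, tr_MM_rk1, (inv H _ c').1] at t1
    simp only [LinearMap.flip_apply] at t1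
    rw [B_rho_left y', B_rho_left x, hs u, quad_conj c' hm, quad_conj (IsConj.refl x) hl] at t1
    simp only [map_sub, map_smul, LinearMap.sub_apply, LinearMap.smul_apply, smul_eq_mul, sp_B_self, e] at t1
    linear_combination -t1
  obtain ⟨u0, u1, u2⟩ := exists_zero_quad (P.B ∘ₗ rho x) (by omega)
  obtain ⟨v0, v1, v2⟩ := exists_zero_quad (P.B ∘ₗ rho y) (by omega)
  change P.B (rho x u0) u0 = 0 at u2
  change P.B (rho y v0) v0 = 0 at v2
  by_cases hq : ∀ u, P.B (rho y u) u = 0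
  · exact sp_even_core G h2 H hx hy (inv H) hl hq
  · push Not at hq
    obtain ⟨u', hu'⟩ := hq
    have h0 : u' ≠ 0 := by rintro rfl; simp at hu'
    refine sp_even_core G h2 H.symm hy hx (inv H.symm) hm fun u => ?_
    by_cases hu : u = 0
    · simp [hu]
    refine (mul_eq_zero.1 ?_).resolve_right hu'
    linear_combination rel u u' hu h0 - rel u0 u' u1 h0 - rel u v0 hu v1 + (m + P.B (rho y u') u') * u2 +
      (l + P.B (rho x u) u) * v2

theorem sp_mix [Finite F] {p : ℕ} [Fact p.Prime] [CharP F p] (hP : P.ND) (h4 : 4 ≤ finrank F V) :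
    Mix p (P.EG ⧸ Subgroup.center P.EG) := by
  have G := sp_geo hP h4
  intro a b c ha hb _ H
  obtain ⟨x, rfl⟩ := pr_surj a
  obtain ⟨y, rfl⟩ := pr_surj b
  rw [Ne, G.pr_eq_one] at ha hb
  by_cases h2 : (2 : F) = 0
  · exact (sp_even G h4 h2 H ha hb).elim
  rcases sp_odd_dom G h2 H with h | h
  · exact (sp_odd_core G h4 h2 H.symm hb ha h).imp id Or.inl
  · exact (sp_odd_core G h4 h2 H ha hb h).imp id Or.inr

end Cfsg.Agent.AH.Cls

namespace Cfsg.Agent.AH

open Cls Polar

theorem mix_PSp {p : ℕ} [Fact p.Prime] {G : Type*} [Group G] (h : IsPSpChar p G) : Mix p G := by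
  obtain ⟨F, _, _, _, m, hm, -, ⟨e⟩⟩ := h
  exact (mix_congr (spEquivEG m) (sp_mix (spStd_nd m) (by rw [finrank_spStd]; omega))).congr e

end Cfsg.Agent.AH
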