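import Cfsg.Agent.AH.JJ
import Cfsg.Agent.AH.PSp

/-!
Products of two conjugacy classes: the orthogonal groups.
-/

set_option autoImplicit false

namespace Cfsg.Agent.AH.Cls

open Module Cfsg.Agent.Polar Cfsg.Agent.Polar.PQ

variable {F : Type*} [Field F] [Finite F] {V : Type*} [AddCommGroup V] [Module F V]
variable {P : PQ (oFP F) V} [FiniteDimensional F V]

omit [Finite F] [FiniteDimensional F V] in
theorem pow_apply_eigen {f : End F V} {v : V} {t : F} (h : f v = t • v) (n : ℕ) : (f ^ n) v = t ^ n • v := by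
  induction n with
  | zero => simp
  | succ n ih => rw [pow_succ, End.mul_apply, h, map_smul, ih, smul_smul, pow_succ']

theorem o_idx4 (h7 : 7 ≤ finrank F V) (a b c d : V) :
    ∃ z, z ≠ 0 ∧ P.Sing z ∧ P.B z a = 0 ∧ P.B z b = 0 ∧ P.B z c = 0 ∧ P.B z d = 0 := by
  obtain ⟨z, hz, h0, hs⟩ := o_iso (P := P) (P.perp {a, b, c, d}) (by have := finrank_perp₄ (P := P) a b c d; omega)
  exact ⟨z, h0, hs, mem_perp₄.1 hz⟩

theorem o_geo (hP : P.ND) (h7 : 7 ≤ finrank F V) : Geo P where
  nd := hP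
  rich := hP.rich (by omega)
  hyp := by
    obtain ⟨e, he0, he⟩ := o_exists_sing P (by omega)
    exact ⟨e, hP.exists_hyp he he0⟩
  vt := o_vTrans hP (by omega)
  vt2 _ _ h := o_vTrans (h.emb.nd hP) (by have := h.finrank_perp; omega)
  idx a b := by
    obtain ⟨z, h0, h1, h2, h3, -⟩ := o_idx4 (P := P) h7 a b a b
    exact ⟨z, h0, h1, h2, h3⟩
  rich2 _ _ h := (h.emb.nd hP).rich (by have := h.finrank_perp; omega)
  conn2 := Or.inr (o_idx4 h7)

theorem reflect_not_mem_EG (hP : P.ND) (h5 : 5 ≤ finrank F V) {v : V} (hv : P.Q v ≠ 0) : P.reflect v ∉ P.EG := by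
  let r : P.Iso → ℕ := fun g => Forms.rk ((g : V ≃ₗ[F] V) : V →ₗ[F] V)
  have r1 : r 1 = 0 := Forms.rk_id
  have k1 : ∀ (g : P.Iso) (w : V), P.Q w ≠ 0 → r (P.reflect w * g) % 2 = (r g + 1) % 2 := fun g w hw => by
    have h1 : (((P.reflect w * g : P.Iso) : V ≃ₗ[F] V) : V →ₗ[F] V) =
        Forms.refl P.toQuad w ∘ₗ ((g : V ≃ₗ[F] V) : V →ₗ[F] V) := LinearMap.ext fun x => reflect_smul' hw (g • x)
    have := Forms.rk_refl_comp hP.pol_toQuad (g := ((g : V ≃ₗ[F] V) : V →ₗ[F] V)) (o_Q_act g) hw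
    simp only [r, h1]
    omega
  have k2 : ∀ g h : P.Iso, r (g * h) % 2 = (r g + r h) % 2 := fun g h => by
    induction g using o_induction hP h5 with
    | h1 => rw [one_mul, r1, zero_add]
    | hr g w hw ih =>
      have h1 := k1 g w hw
      have h2 := k1 (g * h) w hw
      rw [mul_assoc]
      omega
  have h2 : (-1 : ℤˣ) ^ 2 = 1 := by decide
  let D : P.Iso →* ℤˣ :=
    { toFun := fun g => (-1) ^ r g
      map_one' := by rw [r1, pow_zero]
      map_mul' := fun g h => by rw [← pow_add, pow_eq_pow_mod _ h2, k2, ← pow_eq_pow_mod _ h2] }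
  rw [o_EG_eq_commutator hP h5]
  intro h
  have h3 : (-1 : ℤˣ) ^ r (P.reflect v) = 1 := Abelianization.commutator_subset_ker D h
  have h4 := k1 1 v hv
  rw [mul_one, r1] at h4
  rw [pow_eq_pow_mod _ h2, h4] at h3
  exact absurd h3 (by decide)

omit [Finite F] [FiniteDimensional F V] in
theorem Q_rho (g : P.EG) (v : V) : P.Q (rho g v) = P.Q v := o_Q_act _ _

omit [Finite F] in
theorem o_dom (G : Geo P) {y : P.EG} (hy : ¬ Sc (rho y)) (h : ∀ a b, TS P a b → dt P (rho y) a b = 0) :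
    ∃ (l k : F) (d : V), l * l = 1 ∧ k * P.Q d = -l ∧ rho y = l • (1 : End F V) + k • rr P d d := by
  obtain ⟨l, k, d, hl, hk, hd, e⟩ := G.domestic hy h
  change l * l = 1 at hl
  obtain ⟨v, hv⟩ := G.nd.exists_eq' hd 1
  have := Q_rho y v
  rw [e, LinearMap.add_apply, LinearMap.smul_apply, LinearMap.smul_apply, rr_apply, hv, one_smul, End.one_apply,
    o_Q_add, o_Q_smul, o_Q_smul, B_smul_left, B_smul_right, hv] at this
  refine ⟨l, k, d, hl, mul_left_cancel₀ hk ?_, e⟩
  simp only [RingHom.id_apply] at this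
  linear_combination this - P.Q v * hl

omit [Finite F] [FiniteDimensional F V] in
theorem o_S {u a b : V} (ha : TS P u a) (hb : P.Sing b) (h1 : P.B b u = 0) (h2 : P.B b a = 0) :
    ∀ w ∈ ({a, b} : Set V), P.Sing w ∧ P.B w u = 0 ∧ ∀ w' ∈ ({a, b} : Set V), P.B w w' = 0 := by
  rintro _ (rfl | rfl)
  · refine ⟨ha.sv, ha.vu, ?_⟩
    rintro _ (rfl | rfl)
    exacts [ha.sv.B_self, B_swap_zero h2]
  · refine ⟨hb, h1, ?_⟩
    rintro _ (rfl | rfl)
    exacts [h2, hb.B_self]

theorem o_odd_dom (G : Geo P) (h7 : 7 ≤ finrank F V) (h2 : (2 : F) ≠ 0) {x y : P.EG}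
    {c : P.EG ⧸ Subgroup.center P.EG} (H : Hyp (pr x) (pr y) c) :
    (∀ a b, TS P a b → dt P (rho x) a b = 0) ∨ ∀ a b, TS P a b → dt P (rho y) a b = 0 := by
  refine G.dichotomy fun y' c' u a hua => ?_
  obtain ⟨b, z, hb, b1, b2, z1, z2, z3⟩ := exists_third G.nd (o_idx4 h7) hua
  have key : ∀ s : F, 2 * (bt P (rho x) u a a * bt P (rho y') u (b + s • a) (b + s • a) +
      bt P (rho x) u b b * bt P (rho y') u a a) + 4 * bt P (rho x) u a b * bt P (rho y') u a (b + s • a) +
      4 * bt P (rho x) u a b * bt P (rho y') u (b + s • a) a = 0 := fun s => by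
    obtain ⟨h, hh⟩ := exists_shift hua.sv z2 s
    obtain ⟨y'', c'', e⟩ := exists_conj_B h y'
    have := T4_J rfl hua.su (o_S hua hb b1 b2) (x := x) (y := y'') 0 (e2 (rho x * rho y)) (fun w c3 => by
      obtain ⟨t, h1, -, -, h3⟩ := G.inv H (IsConj.refl x) ((c'.trans c'').trans c3)
      rw [h3, pow_two, show t * t = 1 from h1]; simp) (a := a) (b := a) (c := b) (d := b)
      (by simp) (by simp) (by simp) (by simp)
    have e1 := hh u hua.uv
    have e2 := hh a hua.sv.B_self
    have e3 := hh b b2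
    rw [z1, mul_zero, zero_smul, add_zero] at e1
    rw [z2, mul_zero, zero_smul, add_zero] at e2
    rw [z3, mul_one] at e3
    simp only [bt, e, e1, e2, e3] at this ⊢
    linear_combination 2 * this
  have k0 := key 0
  have k1 := key 1
  have k2 := key (-1)
  simp only [bt, map_add, map_smul, LinearMap.add_apply, LinearMap.smul_apply, smul_eq_mul] at k0 k1 k2
  refine (mul_eq_zero.1 ?_).resolve_left (pow_ne_zero 4 h2)
  rw [dt, dt]
  linear_combination k1 + k2 - 2 * k0

set_option maxHeartbeats 1600000 in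
theorem o_odd_core {p : ℕ} [hp : Fact p.Prime] [CharP F p] (G : Geo P) (h7 : 7 ≤ finrank F V)
    (h2 : (2 : F) ≠ 0) {x y : P.EG} {c : P.EG ⧸ Subgroup.center P.EG} (H : Hyp (pr x) (pr y) c)
    (hx : ¬ Sc (rho x)) (hy : ¬ Sc (rho y)) (hd : ∀ a b, TS P a b → dt P (rho y) a b = 0) :
    Mixed p c ∧ p ∣ orderOf (pr x) := by
  have : Finite V := Module.finite_of_finite F
  obtain ⟨l, k, d, hl, hk, hyd⟩ := o_dom G hy hd
  have n1 : (-1 : F) ≠ 1 := fun h => h2 (by linear_combination -h)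
  have hp2 : ¬ p ∣ 2 := fun h => h2 (by exact_mod_cast (CharP.cast_eq_zero_iff F p 2).2 h)
  have hdet : l ^ finrank F V = -1 := by
    have := det_rho y
    rw [hyd, show l • (1 : End F V) + k • rr P d d = l • (1 + (l * k) • rr P d d) by
      rw [smul_add, smul_smul, ← mul_assoc, hl, one_mul], LinearMap.det_smul, det_tv, o_B_self] at this
    linear_combination -this + 2 * l * l ^ finrank F V * hk - 2 * l ^ finrank F V * hl
  have hl1 : l = -1 := (mul_self_eq_one_iff.1 hl).resolve_left fun h => n1 (by rw [← hdet, h, one_pow])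
  subst hl1
  rw [neg_neg] at hk
  have hδ : P.Q d ≠ 0 := right_ne_zero_of_mul_eq_one hk
  have hk0 : k ≠ 0 := left_ne_zero_of_mul_eq_one hk
  have hd0 : d ≠ 0 := by rintro rfl; exact hδ o_Q_zero
  have tc : ∀ w, P.Q w = P.Q d → k * P.B (rho x w) w = tr (rho x * rho y) + tr (rho x) := fun w hw => by
    obtain ⟨y', c', e⟩ := conj_tv hyd (o_trans G.nd (by omega) hd0 (by rintro rfl; exact hδ (hw ▸ o_Q_zero)) hw)
    obtain ⟨s, h1, h3, h4, -⟩ := G.inv H (IsConj.refl x) c'
    have h5 : s = 1 := (mul_self_eq_one_iff.1 h1).resolve_right fun h => n1 (by rw [← hdet, ← h, h3])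
    rw [h5, one_mul, e, mul_add, mul_smul_comm, mul_smul_comm, mul_rr, map_add, map_smul, map_smul, tr_rr,
      mul_one] at h4
    simp only [smul_eq_mul] at h4
    linear_combination h4
  have q0 : ∀ a, P.Sing a → P.B (rho x a) a = 0 := fun a ha => by
    by_cases ha0 : a = 0
    · simp [ha0]
    obtain ⟨f, hf⟩ := G.nd.exists_hyp ha ha0
    obtain ⟨w, hw⟩ := o_exists_Q (hf.emb.nd G.nd) (by have := hf.finrank_perp; omega) hδ
    change P.Q w = _ at hw
    have h1 := (mem_perp_pair.1 w.2).1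
    have e0 := tc w hw
    have e1 := tc (w + a) (by rw [o_Q_add, hw, h1, o_sing_iff.1 ha]; ring)
    have e2 := tc (w - a) (by rw [o_Q_sub, hw, h1, o_sing_iff.1 ha]; ring)
    simp only [map_add, map_sub, LinearMap.add_apply, LinearMap.sub_apply] at e1 e2
    exact (mul_eq_zero.1 (by linear_combination e1 + e2 - 2 * e0)).resolve_left (mul_ne_zero h2 hk0)
  have adj : ∀ u v, P.B (rho x⁻¹ u) v = P.B (rho x v) u := fun u v => by rw [← B_rho_right, o_swap]
  obtain ⟨κ, hκ⟩ : Sc (rho x + rho x⁻¹) := G.sc_of_TS fun a b hab => by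
    have := q0 _ (hab.su.add hab.sv hab.uv)
    simp only [map_add, LinearMap.add_apply, q0 a hab.su, q0 b hab.sv] at this
    rw [LinearMap.add_apply, map_add, LinearMap.add_apply, adj]
    linear_combination this
  obtain ⟨v, hv0, hv⟩ : ∃ v, v ≠ 0 ∧ rho x v = rho x⁻¹ v := by
    by_contra h3
    push Not at h3
    have h4 := sp_even_finrank (P := ofAlt (P.B ∘ₗ (rho x - rho x⁻¹)) fun u => by simp [adj]) fun v hv => by
      by_contra h5
      exact h3 v h5 (sub_eq_zero.1 (G.nd _ hv))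
    exact n1 (by rw [← hdet, h4.neg_one_pow])
  have hκ2 : κ * κ = 4 := by
    have e1 := LinearMap.congr_fun hκ v
    have e2 := congrArg (rho x) e1
    simp only [LinearMap.add_apply, LinearMap.smul_apply, End.one_apply, map_add, map_smul, rho_rho_inv] at e1 e2
    rw [hv, rho_rho_inv, ← hv] at e2
    rw [← hv] at e1
    exact smul_left_injective F hv0 (by linear_combination (norm := module) -(κ • e1) - (2 : F) • e2)
  have hxx : rho x * rho x + 1 = κ • rho x := by
    have := congrArg (rho x * ·) hκ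
    simpa only [mul_add, rho_mul_inv, mul_smul_comm, mul_one] using this
  have hκ3 : κ = 2 := by
    refine (mul_self_eq_mul_self_iff.1 (hκ2.trans (by norm_num : (4 : F) = 2 * 2))).resolve_right fun h => ?_
    have e1 : (-rho x - 1) * (-rho x - 1) = 0 := by
      rw [h] at hxx
      linear_combination (norm := (noncomm_ring; module)) hxx
    have e2 := congrArg LinearMap.det (one_add_pow_sq e1 p)
    rw [CharP.cast_eq_zero, zero_smul, add_zero, map_one, map_pow, add_sub_cancel, ← neg_one_smul F,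
      LinearMap.det_smul, det_rho, hdet, mul_one, neg_one_pow_char] at e2
    exact n1 e2
  subst hκ3
  obtain ⟨M, hM⟩ : ∃ M, rho x = 1 + M := ⟨rho x - 1, by abel⟩
  have MM0 : M * M = 0 := by
    rw [hM] at hxx
    linear_combination (norm := (noncomm_ring; module)) hxx
  have hM' : rho x⁻¹ = 1 - M := by
    rw [hM] at hκ
    linear_combination (norm := module) hκ
  have sk : ∀ u v, P.B (M u) v = -P.B u (M v) := fun u v => by
    have := adj u v
    rw [hM, hM'] at this
    simp only [LinearMap.add_apply, LinearMap.sub_apply, End.one_apply, map_add, map_sub, o_swap u v,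
      o_swap u (M v)] at this
    linear_combination -this
  have MMv : ∀ u, M (M u) = 0 := fun u => LinearMap.congr_fun MM0 u
  have hM0 : M ≠ 0 := fun h => hx ⟨1, by simp [hM, h]⟩
  refine ⟨?_, dvd_orderOf_of_pow (by
    rw [G.pr_pow_eq_one, hM, one_add_pow_sq MM0, CharP.cast_eq_zero]; exact ⟨1, by simp⟩) (G.pr_eq_one.not.2 hx)⟩
  have cg : IsConj c (pr (x * y)) := by
    rw [map_mul]; exact H.conj (IsConj.refl _) (IsConj.refl _)
  obtain ⟨m, hm⟩ : ∃ m, m = M d := ⟨_, rfl⟩
  have m1 : P.B m d = 0 := mul_left_cancel₀ h2 (by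
    have := sk d d
    rw [← hm, o_swap m d] at this
    linear_combination this)
  have m2 : P.B d m = 0 := B_swap_zero m1
  have m3 : P.B m m = 0 := by rw [hm, sk, MMv]; simp
  have m4 : M m = 0 := by rw [hm, MMv]
  have m5 : ∀ u, P.B (M u) d = -P.B u m := fun u => by rw [sk, hm]
  have m6 : ∀ u, P.B (M u) m = 0 := fun u => by rw [sk, m4]; simp
  obtain ⟨K, hK⟩ : ∃ K, K = (2 : F) • M - k • (rr P m d - rr P d m) + k • rr P m m := ⟨_, rfl⟩
  have g2 : rho (x * y) ^ 2 = 1 + K := by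
    ext u
    simp only [hK, pow_two, map_mul, hM, hyd, End.mul_apply, LinearMap.add_apply, LinearMap.sub_apply,
      LinearMap.smul_apply, End.one_apply, rr_apply, map_add, map_smul, MMv, ← hm, m1, m4, m5, o_B_self, smul_eq_mul]
    match_scalars
    · ring
    · ring
    · linear_combination (2 * k * P.B u d) * hk
    · linear_combination (2 * k * P.B u d) * hk
  have K2 : K * K = (2 * k) • rr P m m := by
    ext u
    simp only [hK, End.mul_apply, LinearMap.add_apply, LinearMap.sub_apply, LinearMap.smul_apply, rr_apply, map_add,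
      map_sub, map_smul, MMv, ← hm, m1, m2, m3, m4, m5, m6, o_B_self d, smul_eq_mul]
    match_scalars
    · linear_combination (-2 * k * P.B u m) * hk
    · ring
  have K3 : K * K * K = 0 := by
    rw [K2]
    ext u
    simp only [hK, End.mul_apply, LinearMap.add_apply, LinearMap.sub_apply, LinearMap.smul_apply, rr_apply, map_add,
      map_sub, map_smul, m2, m3, m6, smul_eq_mul]
    simp
  refine Mixed.of_conj cg (mixed_of_pow hp2 ?_ ?_ ?_)
  · have h3 : p ∣ p.choose 2 := hp.out.dvd_choose_self two_ne_zero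
      (lt_of_le_of_ne hp.out.two_le fun h => hp2 (h ▸ dvd_rfl))
    rw [G.pr_pow_eq_one, pow_mul, g2, one_add_pow_cube K3, CharP.cast_eq_zero, (CharP.cast_eq_zero_iff F p _).2 h3]
    exact ⟨1, by simp⟩
  · rw [Ne, G.pr_pow_eq_one, g2]
    rintro ⟨s, hs⟩
    have e1 : K = (s - 1) • (1 : End F V) := by rw [sub_smul, ← hs]; simp
    have e2 := LinearMap.congr_fun K3 d
    rw [e1] at e2
    simp only [End.mul_apply, LinearMap.smul_apply, End.one_apply, smul_smul, LinearMap.zero_apply, smul_eq_zero, hd0,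
      or_false, mul_eq_zero, or_self] at e2
    rw [e2, zero_smul] at e1
    have e3 : m = 0 := by
      by_contra h3
      obtain ⟨u, hu⟩ := G.nd.exists_eq' h3 1
      have := LinearMap.congr_fun K2 u
      rw [e1, LinearMap.smul_apply, rr_apply, hu, one_smul] at this
      exact smul_ne_zero (mul_ne_zero h2 hk0) h3 this.symm
    refine hM0 (smul_right_injective _ h2 ?_)
    rw [e1, e3] at hK
    ext u
    simpa [rr_apply] using (LinearMap.congr_fun hK u).symm
  · rw [Ne, G.pr_pow_eq_one]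
    rintro ⟨s, hs⟩
    obtain ⟨v, hv0, v1, v2⟩ : ∃ v, v ≠ 0 ∧ M v = 0 ∧ P.B v d = 0 := by
      by_cases h3 : m = 0
      · obtain ⟨u, hu⟩ := DFunLike.ne_iff.1 hM0
        exact ⟨M u, hu, MMv u, by simp [m5, h3]⟩
      · exact ⟨m, h3, m4, m1⟩
    have e1 : rho (x * y) v = (-1 : F) • v := by simp [hM, hyd, rr_apply, v1, v2]
    have e2 : (rho (x * y) ^ p) v = (-1 : F) ^ p • v := pow_apply_eigen e1 p
    rw [hs, neg_one_pow_char] at e2
    rw [← map_pow] at hs
    have e3 := pow_one_of_sc hs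
    rw [smul_left_injective F hv0 e2, hdet] at e3
    exact n1 e3

omit [Finite F] [FiniteDimensional F V] in
theorem o_xs (h2 : (2 : F) = 0) {x : P.EG} {l : F} (hx : ∀ v, rho x⁻¹ v = l • v - rho x v) (u v : V) :
    P.B (rho x v) u = P.B (rho x u) v + l * P.B u v := by
  rw [B_rho_left, o_swap, hx, map_sub, LinearMap.sub_apply, B_smul_left]
  linear_combination (-P.B (rho x u) v) * h2

omit [Finite F] in
theorem e2_sub (A B : End F V) : e2 (A - B) = e2 A + e2 B - b2 A B := by
  rw [sub_eq_add_neg, e2_add, ← neg_one_smul F B, e2_smul, b2_smul_right]; ring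

theorem o_even_core (G : Geo P) (h7 : 7 ≤ finrank F V) (h2 : (2 : F) = 0) {x y : P.EG}
    (hx : ¬ Sc (rho x)) (hy : ¬ Sc (rho y))
    (he : ∀ x', IsConj x x' → ∀ y', IsConj y y' → tr (rho x' * rho y') = tr (rho x' * rho y) ∧
      e2 (rho x' * rho y') = e2 (rho x' * rho y))
    {l m : F} (hl : rho x + rho x⁻¹ = l • (1 : End F V)) (hm : rho y + rho y⁻¹ = m • (1 : End F V))
    (hq : ∀ u, P.Sing u → P.B (rho y u) u = 0) : False := by
  obtain ⟨a, ha, ha'⟩ : ∃ a, P.Sing a ∧ rho y a ∉ F ∙ a := by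
    by_contra h
    push Not at h
    exact hy (G.sc_of_eigen h)
  have hab : TS P a (rho y a) := ⟨ha, sing_rho y ha, hq a ha, by rintro rfl; simp at ha', ha'⟩
  obtain ⟨b, z, hb, b1, b2, z1, z2, z3⟩ := exists_third G.nd (o_idx4 h7) hab
  have hyi := quad_conj (IsConj.refl y) hm
  have ys := o_xs h2 hyi
  obtain ⟨a', e1⟩ : ∃ a', a' = rho y a := ⟨_, rfl⟩
  obtain ⟨b', e2'⟩ : ∃ b', b' = rho y⁻¹ b := ⟨_, rfl⟩
  have e3 : rho y b = m • b - b' := by rw [e2', hyi]; abel
  have e4 : rho y⁻¹ a = m • a - a' := by rw [e1, hyi]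
  have e5 : rho y⁻¹ a' = a := by rw [e1, rho_inv_rho]
  have e6 : rho y⁻¹ b' = m • b' - b := by rw [hyi, e2', rho_rho_inv]
  rw [← e1] at hab b2 z2
  have c1 : P.B b' a = 0 := by rw [e2', ← B_rho_right, ← e1, b2]
  have e7 : rho y a' = m • a' - a := by rw [← e5, hyi]; abel
  have c2 : P.B b' a' = 0 := by rw [e2', ← B_rho_right, e7]; simp [b1, b2]
  have c3 : P.B b' b = 0 := by rw [e2', ← B_rho_right, o_swap, hq b hb]
  have rel : ∀ x', IsConj x x' → e2 (rho x' * (rr P a b' - rr P b' a + (rr P b a' - rr P a' b))) = 0 := fun x' c' => by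
    obtain ⟨g, hg⟩ := JS_h1 rfl hb (S := {a}) (by simp [ha, B_swap_zero b1, ha.B_self]) _ ⟨a, rfl, rfl⟩
    have f1 := rho_conj_MM hg (by simp [mul_sub, sub_mul, rr_mul_rr, ha.B_self, hb.B_self, b1, B_swap_zero b1]) x' y
    have f2 : MM (rho x') (rho y) (rr P a b - rr P b a) =
        rho x' * rho y + rho x' * (rr P a b' - rr P b' a + (rr P b a' - rr P a' b)) := by
      rw [MM, ← mul_add]
      congr 1
      ext w
      simp only [End.mul_apply, LinearMap.add_apply, LinearMap.sub_apply, End.one_apply, rr_apply, map_sub,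
        map_smul, B_rho_left y, ← e1, ← e2', e3, e4, smul_eq_mul, B_swap_zero b2, c1, c3, b1,
        hab.vu, hb.B_self]
      module
    obtain ⟨t1, t2⟩ := he x' c' _ (isConj_mk g y)
    rw [f1, f2] at t1 t2
    rw [map_add, add_eq_left] at t1
    rw [e2_add, add_assoc, add_eq_left, Cls.b2, t1, ← mul_assoc, mul_zero, zero_sub] at t2
    have xs := o_xs h2 (quad_conj c' hl)
    have Z : ∀ u v, P.B (rho x' (rho y (rho x' u))) v =
        P.B (rho y (rho x' u)) (rho x' v) + l * P.B (rho x' u) (rho y⁻¹ v) := fun u v => by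
      rw [xs v, o_swap _ (rho x' v), o_swap _ v, B_rho_left y _ v]
    have t3 : tr (rho x' * rho y * rho x' * (rr P a b' - rr P b' a + (rr P b a' - rr P a' b))) = 0 := by
      simp only [mul_add, mul_sub, mul_rr, map_add, map_sub, tr_rr, End.mul_apply, Z, e4, e5, e6, ← e2', map_smul,
        smul_eq_mul, ys (rho x' b') (rho x' a), ys (rho x' a') (rho x' b), B_rho, c1, B_swap_zero b2, xs b' a, xs b a,
        xs b' a', b1, c2]
      ring
    rwa [t3, neg_zero, add_zero] at t2
  obtain ⟨h, hh⟩ := exists_shift ha z1 1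
  have d1 := hh a ha.B_self
  have d2 := hh a' hab.vu
  have d3 := hh b b1
  have d4 := hh b' c1
  rw [z1, mul_zero, zero_smul, add_zero] at d1
  rw [z2, mul_zero, zero_smul, add_zero] at d2
  rw [z3, mul_one, one_smul] at d3
  obtain ⟨l', k, d, hl', hk, hxd⟩ := o_dom G hx fun u v huv => by
    obtain ⟨x1, c1', f1, f2, f3, f4⟩ := G.conj_pair hab huv x
    obtain ⟨x2, c2', f5⟩ := exists_conj_B h x1
    have r1 := rel x1 c1'
    have r2 := rel x2 (c1'.trans c2')
    have xs := o_xs h2 (quad_conj c1' hl)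
    simp only [mul_add, mul_sub, mul_rr, e2_add, e2_sub, e2_rr, b2_sub_left, b2_sub_right, b2_rr] at r1 r2
    simp only [f5, d1, d2, d3, d4, map_add, map_smul, LinearMap.add_apply, LinearMap.smul_apply, smul_eq_mul] at r2
    rw [dt, ← f1, ← f2, ← f3, ← f4]
    simp only [xs a a', xs a b, xs a b', xs a' b, xs a' b', hab.uv, B_swap_zero b1, B_swap_zero b2, B_swap_zero c1,
      B_swap_zero c2, mul_zero, add_zero] at r1 r2 ⊢
    linear_combination r1 - r2 + (P.B (rho x1 a) a * P.B (rho x1 a') a' + P.B (rho x1 a) a * P.B (rho x1 a') b' +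
      P.B (rho x1 a') a' * P.B (rho x1 a) b - P.B (rho x1 a) a' * P.B (rho x1 a) b' -
      P.B (rho x1 a) a' * P.B (rho x1 a') b - P.B (rho x1 a) a' ^ 2) * h2
  rw [eq_one_of_sq h2 hl'] at hk hxd
  have hδ : P.Q d ≠ 0 := fun h => by simp [h] at hk
  refine reflect_not_mem_EG G.nd (by omega) hδ ?_
  rw [show P.reflect d = x from iso_ext fun v => ?_]
  · exact x.2
  rw [reflect_smul hδ, ← rho_apply, hxd, show k = -(P.Q d)⁻¹ by field_simp; exact hk]
  simp only [LinearMap.add_apply, LinearMap.smul_apply, End.one_apply, rr_apply, div_eq_mul_inv]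
  module

theorem o_even (G : Geo P) (h7 : 7 ≤ finrank F V) (h2 : (2 : F) = 0) {x y : P.EG}
    {c : P.EG ⧸ Subgroup.center P.EG} (H : Hyp (pr x) (pr y) c) (hx : ¬ Sc (rho x)) (hy : ¬ Sc (rho y)) : False := by
  have inv : ∀ {x y : P.EG}, Hyp (pr x) (pr y) c → ∀ x', IsConj x x' → ∀ y', IsConj y y' →
      tr (rho x' * rho y') = tr (rho x' * rho y) ∧ e2 (rho x' * rho y') = e2 (rho x' * rho y) := fun H x' c y' c' => by
    obtain ⟨t, h1, -, h3, h5⟩ := G.inv (H.of_conj (pr.map_isConj c) (IsConj.refl _)) (IsConj.refl _) c'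
    rw [eq_one_of_sq h2 h1] at h3 h5
    exact ⟨by rw [h3, one_mul], by rw [h5, one_pow, one_mul]⟩
  obtain ⟨⟨l, hl⟩, ⟨m, hm⟩⟩ := G.quadratic h2 (fun u v => o_swap v u) hx hy fun u a u' a' hua hua' => by
    obtain ⟨y', c', -, e2, e3, -⟩ := G.conj_pair hua hua' y
    obtain ⟨b, z, hb, b1, b2, z1, z2, z3⟩ := exists_third G.nd (o_idx4 h7) hua
    obtain ⟨h, hh⟩ := exists_shift hua.sv z2 1
    obtain ⟨y'', c'', e⟩ := exists_conj_B h y'
    have t1 := T2_J rfl hua.su (o_S hua hb b1 b2) (x := x) (y := y') _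
      (fun w c3 => (inv H x (IsConj.refl _) w (c'.trans c3)).1) (a := a) (b := b) (by simp) (by simp)
    have t2 := T2_J rfl hua.su (o_S hua hb b1 b2) (x := x) (y := y'') _
      (fun w c3 => (inv H x (IsConj.refl _) w ((c'.trans c'').trans c3)).1) (a := a) (b := b) (by simp) (by simp)
    have d1 := hh u hua.uv
    have d2 := hh a hua.sv.B_self
    have d3 := hh b b2
    rw [z1, mul_zero, zero_smul, add_zero] at d1
    rw [z2, mul_zero, zero_smul, add_zero] at d2
    rw [z3, mul_one, one_smul] at d3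
    simp only [e, d1, d2, d3, map_add, LinearMap.add_apply] at t2
    rw [← e2, ← e3]
    linear_combination t2 - t1 + P.B (rho x u) u * P.B (rho y' a) a * h2
  have rel : ∀ u a u' a', TS P u a → TS P u' a' →
      P.B (rho x u) u * P.B (rho y a') a' + P.B (rho x a) a * P.B (rho y u') u' = 0 := fun u a u' a' hua hua' => by
    obtain ⟨y', c', e1, -, -, e4⟩ := G.conj_pair hua hua' y
    obtain ⟨g, hg⟩ := JS_h1 rfl hua.su (S := {a}) (by simp [hua.sv, hua.vu, hua.sv.B_self]) _ ⟨a, rfl, rfl⟩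
    have t1 := (inv H x (IsConj.refl _) _ (c'.trans (isConj_mk g y'))).1
    rw [rho_conj_MM hg (by simp [mul_sub, sub_mul, rr_mul_rr, hua.su.B_self, hua.sv.B_self, hua.uv, hua.vu]),
      ← (inv H x (IsConj.refl _) _ c').1] at t1
    have f1 : MM (rho x) (rho y') (rr P a u - rr P u a) = rho x * rho y' +
        (rho x * (rr P a u - rr P u a)) * rho y' - rho x * rho y' * (rr P a u - rr P u a) -
        rho x * (rr P a u - rr P u a) * (rho y' * (rr P a u - rr P u a)) := by
      simp only [MM]; noncomm_ring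
    rw [f1, map_sub, map_sub, map_add, LinearMap.trace_mul_comm F (rho x * _) (rho y'), ← mul_assoc] at t1
    simp only [mul_sub, sub_mul, mul_rr, rr_apply, rr_smul_left, map_sub, map_smul, tr_rr, End.mul_apply,
      smul_eq_mul] at t1
    have xs := o_xs h2 (quad_conj (IsConj.refl x) hl)
    have ys := o_xs h2 (quad_conj c' hm)
    have Z : ∀ v w, P.B (rho y' (rho x v)) w = P.B (rho x (rho y' w)) v + l * P.B (rho y' w) v +
        m * P.B (rho x v) w := fun v w => by
      rw [ys w, o_swap (rho x v) (rho y' w), o_swap (rho x v) w, xs (rho y' w) v]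
    simp only [Z, xs u a, ys u a, hua.uv, mul_zero, add_zero] at t1
    rw [← e1, ← e4]
    linear_combination t1 + (P.B (rho x (rho y' a)) u - P.B (rho x (rho y' u)) a +
      P.B (rho y' u) a * P.B (rho x u) a) * h2
  have key : ∀ u u', P.Sing u → P.Sing u' → P.B (rho x u) u * P.B (rho y u') u' = 0 := fun u u' hu hu' => by
    by_cases h0 : u = 0
    · simp [h0]
    by_cases h0' : u' = 0
    · simp [h0']
    obtain ⟨a, ha⟩ := G.exists_TS hu h0
    obtain ⟨a', ha'⟩ := G.exists_TS hu' h0'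
    have r1 := rel u a u' a' ha ha'
    have r2 := rel u a u' _ ha (ha'.add 1)
    simp only [one_smul, map_add, LinearMap.add_apply, o_xs h2 (quad_conj (IsConj.refl y) hm) u' a', ha'.uv] at r2
    linear_combination r2 - r1 - P.B (rho x u) u * P.B (rho y u') a' * h2
  by_cases hq : ∀ u, P.Sing u → P.B (rho y u) u = 0
  · exact o_even_core G h7 h2 hx hy (inv H) hl hm hq
  · push Not at hq
    obtain ⟨u', hu', h0⟩ := hq
    exact o_even_core G h7 h2 hy hx (inv H.symm) hm hl fun u hu => (mul_eq_zero.1 (key u u' hu hu')).resolve_right h0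

theorem o_mix {p : ℕ} [Fact p.Prime] [CharP F p] (hP : P.ND) (h7 : 7 ≤ finrank F V) :
    Mix p (P.EG ⧸ Subgroup.center P.EG) := by
  have G := o_geo hP h7
  intro a b c ha hb _ H
  obtain ⟨x, rfl⟩ := pr_surj a
  obtain ⟨y, rfl⟩ := pr_surj b
  rw [Ne, G.pr_eq_one] at ha hb
  by_cases h2 : (2 : F) = 0
  · exact (o_even G h7 h2 H ha hb).elim
  rcases o_odd_dom G h7 h2 H with h | h
  · exact (o_odd_core G h7 h2 H.symm hb ha h).imp id Or.inr
  · exact (o_odd_core G h7 h2 H ha hb h).imp id Or.inl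

end Cfsg.Agent.AH.Cls

namespace Cfsg.Agent.AH

open Cls Polar

theorem mix_POmega {p : ℕ} [Fact p.Prime] {F : Type} [Field F] [Fintype F] [CharP F p] {ι : Type} [Fintype ι]
    [DecidableEq ι] {Q : QuadraticForm F (ι → F)} (hQ : (Forms.pol Q).Nondegenerate) (h7 : 7 ≤ Fintype.card ι) :
    Mix p (POmega F Q) :=
  mix_congr (omegaEquiv hQ (by omega)) (o_mix (ofQuad_nd hQ) (by simpa using h7))

theorem mix_POmegaOdd {p : ℕ} [Fact p.Prime] {G : Type*} [Group G] (h : IsPOmegaOddChar p G) : Mix p G := by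
  obtain ⟨F, _, _, _, m, hm, hF, ⟨e⟩⟩ := h
  have h2 : (2 : F) ≠ 0 := Ring.two_ne_zero fun h =>
    Nat.not_even_iff_odd.2 hF (FiniteField.even_card_iff_char_two.1 h |> Nat.even_iff.2)
  exact (mix_POmega (Forms.QOdd_nondegenerate m h2) (by simp; omega)).congr e

theorem mix_POmegaPlus {p : ℕ} [Fact p.Prime] {G : Type*} [Group G] (h : IsPOmegaPlusChar p G) : Mix p G := by
  obtain ⟨F, _, _, _, m, hm, ⟨e⟩⟩ := h
  exact (mix_POmega (Forms.QPlus_nondegenerate m) (by simp; omega)).congr e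

theorem mix_POmegaMinus {p : ℕ} [Fact p.Prime] {G : Type*} [Group G] (h : IsPOmegaMinusChar p G) : Mix p G := by
  obtain ⟨F, _, _, _, m, a, b, hm, hab, ⟨e⟩⟩ := h
  exact (mix_POmega (Forms.QMinus_nondegenerate (m - 1) hab) (by simp; omega)).congr e

end Cfsg.Agent.AH
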