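import Cfsg.Agent.AH.UTwo

/-!
Products of two conjugacy classes: the unitary groups.
-/

set_option autoImplicit false

namespace Cfsg.Agent.AH.Cls

open Module Cfsg.Agent.Polar Cfsg.Agent.Polar.PQ Forms

section Two

variable {F : Type*} [Field F] [Fintype F] {hF : Fintype.card F = 2 ^ 2}
variable {V : Type*} [AddCommGroup V] [Module F V] {P : PQ (uFP hF) V} [FiniteDimensional F V]

theorem u_cubic (G : Geo P) {ω : F} (hω : ω ^ 2 + ω + 1 = 0) {x y : P.EG}
    {c : P.EG ⧸ Subgroup.center P.EG} (H : Hyp (pr x) (pr y) c) (h0 : tr (rho x * rho y) ≠ 0) {l : F} (hl : l ≠ 0)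
    (cj : ∀ w, P.Sing w → w ≠ 0 → ∃ y', IsConj y y' ∧ rho y' = l • (1 + rr P w w)) :
    (∀ w, P.Sing w → w ≠ 0 → tr (rho x) + P.B (rho x w) w ≠ 0) ∧
      ∃ c0 : F, Sc (rho x * rho x - tr (rho x) • rho x + c0 • rho x⁻¹) := by
  have h2 := four_two hF
  obtain ⟨t, ht⟩ : ∃ t, t = tr (rho x) := ⟨_, rfl⟩
  obtain ⟨c0, hc0⟩ : ∃ c0, c0 * tr (rho x * rho y) ^ 2 = e2 (rho x * rho y) :=
    ⟨_, div_mul_cancel₀ _ (pow_ne_zero _ h0)⟩
  rw [← ht]
  have key : ∀ w, P.Sing w → w ≠ 0 → t + P.B (rho x w) w ≠ 0 ∧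
      P.B ((rho x * rho x - t • rho x + c0 • rho x⁻¹) w) w = e2 (rho x) - c0 * t ^ 2 := fun w hw hw0 => by
    obtain ⟨y', c', e⟩ := cj w hw hw0
    obtain ⟨s, h1, -, h3, h5⟩ := G.inv H (IsConj.refl x) c'
    rw [e, mul_smul_comm, mul_add, mul_one, mul_rr] at h3 h5
    rw [map_smul, map_add, tr_rr, ← ht, smul_eq_mul] at h3
    rw [e2_smul, e2_add, e2_rr, b2_rr_right, ← ht] at h5
    refine ⟨fun h => mul_ne_zero (left_ne_zero_of_mul_eq_one h1) h0 (by rw [← h3, h, mul_zero]), ?_⟩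
    have h6 : P.B (rho x⁻¹ w) w = P.B (rho x w) w ^ 2 := by rw [← B_rho_right, u_swap, frobq_apply]
    simp only [LinearMap.add_apply, LinearMap.sub_apply, LinearMap.smul_apply, End.mul_apply, map_add, map_sub,
      B_smul_left, h6]
    refine mul_left_cancel₀ (pow_ne_zero 2 hl) ?_
    linear_combination -h5 + s ^ 2 * hc0 + c0 * (l * (t + P.B (rho x w) w) + s * tr (rho x * rho y)) * h3 -
      c0 * l ^ 2 * t * P.B (rho x w) w * h2
  refine ⟨fun w hw hw0 => (key w hw hw0).1, c0, u_sc_of_diag G.toGeo0 fun w hw => ?_⟩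
  by_cases hw0 : w = 0
  · simp [hw0]
  obtain ⟨v, hv⟩ := G.exists_TS hw hw0
  generalize rho x * rho x - t • rho x + c0 • rho x⁻¹ = z at key ⊢
  have k0 := (key w hw hw0).2
  have k1 := (key v hv.sv hv.v0).2
  have k2 := (key _ (hv.add 1).sv (hv.add 1).v0).2
  have k3 := (key _ (hv.add ω).sv (hv.add ω).v0).2
  have k4 := (key _ (hv.add (ω ^ 2)).sv (hv.add (ω ^ 2)).v0).2
  simp only [map_add, map_smul z, LinearMap.add_apply, B_smul_left, B_smul_right, frobq_apply] at k2 k3 k4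
  linear_combination k2 + k3 + k4 - 3 * k1 - (P.B (z w) v + (ω ^ 2 - ω + 1) * P.B (z v) w +
    (ω - 1) * (ω ^ 3 + 2) * P.B (z w) w) * hω - P.B (z w) w * h2

theorem u_factor (G : Geo P) (h6 : 6 ≤ finrank F V) {x : P.EG} (hx : ¬ Sc (rho x))
    (h1 : ∀ w, P.Sing w → w ≠ 0 → tr (rho x) + P.B (rho x w) w ≠ 0) {c0 : F}
    (h3 : Sc (rho x * rho x - tr (rho x) • rho x + c0 • rho x⁻¹)) : tr (rho x) ≠ 0 ∧
      ∃ δ : F, δ ≠ 0 ∧ (rho x - tr (rho x) • (1 : End F V)) * (rho x * rho x - δ ^ 2 • (1 : End F V)) = 0 := by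
  have h2 := four_two hF
  obtain ⟨t, ht⟩ : ∃ t, t = tr (rho x) := ⟨_, rfl⟩
  rw [← ht] at h1 h3 ⊢
  obtain ⟨σ, hσ⟩ := h3
  have ht0 : t ≠ 0 := by
    obtain ⟨w, w0, w1, w2⟩ := u_diag_zero G h6 (rho x)
    simpa [w2] using h1 w w1 w0
  have t3 := four_cube hF ht0
  have adj : rho x⁻¹ * rho x⁻¹ - t ^ 2 • rho x⁻¹ + c0 ^ 2 • rho x = σ ^ 2 • (1 : End F V) := by
    ext u
    refine G.nd.eq_of_forall fun v => ?_
    have := congrArg (P.B u) (LinearMap.congr_fun hσ v)
    simp only [LinearMap.add_apply, LinearMap.sub_apply, LinearMap.smul_apply, End.mul_apply, End.one_apply, map_add,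
      map_sub, B_smul_left, B_smul_right, frobq_apply, B_rho_right, inv_inv] at this ⊢
    exact this
  have A : rho x * rho x * rho x - t • (rho x * rho x) + c0 • (1 : End F V) = σ • rho x := by
    have := congrArg (· * rho x) hσ
    simpa only [add_mul, sub_mul, smul_mul_assoc, rho_inv_mul, one_mul] using this
  have B1 : rho x⁻¹ - t ^ 2 • (1 : End F V) + c0 ^ 2 • (rho x * rho x) = σ ^ 2 • rho x := by
    have := congrArg (· * rho x) adj
    simpa only [add_mul, sub_mul, smul_mul_assoc, mul_assoc, rho_inv_mul, one_mul, mul_one] using this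
  have B : 1 - t ^ 2 • rho x + c0 ^ 2 • (rho x * rho x * rho x) = σ ^ 2 • (rho x * rho x) := by
    have := congrArg (· * rho x) B1
    simpa only [add_mul, sub_mul, smul_mul_assoc, rho_inv_mul, one_mul] using this
  have lin : ∀ a b : F, a • rho x = b • (1 : End F V) → a = 0 := fun a b h => by
    by_contra ha
    exact hx ⟨a⁻¹ * b, by rw [← smul_smul, ← h, smul_smul, inv_mul_cancel₀ ha, one_smul]⟩
  refine ⟨ht0, ?_⟩
  by_cases hc : c0 = 0
  · exfalso
    subst hc
    have e1 := lin (σ ^ 2 * t + t ^ 2) (1 - σ ^ 3) (by linear_combination (norm := module) -B - σ ^ 2 • hσ)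
    have e2 : σ ^ 2 = t := mul_left_cancel₀ ht0 (by linear_combination e1 - t ^ 2 * h2)
    refine hx (u_sc_of_diag G.toGeo0 fun w hw => ?_)
    by_cases hw0 : w = 0
    · simp [hw0]
    have e3 := congrArg (P.B · w) (LinearMap.congr_fun B1 w)
    have h6 : P.B (rho x⁻¹ w) w = P.B (rho x w) w ^ 2 := by rw [← B_rho_right, u_swap, frobq_apply]
    simp only [LinearMap.add_apply, LinearMap.sub_apply, LinearMap.smul_apply, End.one_apply, map_add, map_sub,
      B_smul_left, h6, hw.B_self, e2] at e3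
    exact (mul_eq_zero.1 (by linear_combination e3 + t * P.B (rho x w) w * h2)).resolve_left (h1 w hw hw0)
  have c3 := four_cube hF hc
  have e1 : (σ ^ 2 - c0 ^ 2 * t) • (rho x * rho x) = (c0 ^ 2 * σ - t ^ 2) • rho x := by
    linear_combination (norm := module) c0 ^ 2 • A - B - c3 • (1 : End F V)
  have e2 : (σ ^ 2 - c0 ^ 2 * t) • rho x = (c0 ^ 2 * σ - t ^ 2) • (1 : End F V) := by
    have := congrArg (· * rho x⁻¹) e1
    simpa only [smul_mul_assoc, mul_assoc, rho_mul_inv, mul_one] using this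
  have e3 := lin _ _ e2
  rw [e3, zero_smul] at e2
  have e4 : c0 ^ 2 * σ - t ^ 2 = 0 := by
    obtain ⟨e, f, hef⟩ := G.hyp
    simpa [hef.left_ne_zero] using (LinearMap.congr_fun e2 e).symm
  have e5 : σ = c0 * t ^ 2 := by linear_combination c0 * e4 - σ * c3
  have e6 : ((c0 * t ^ 2) ^ 2) ^ 2 = c0 * t ^ 2 := by
    linear_combination (c0 * t ^ 8) * c3 + c0 * t ^ 2 * (t ^ 3 + 1) * t3
  refine ⟨(c0 * t ^ 2) ^ 2, by positivity, ?_⟩
  rw [e6]
  simp only [mul_sub, sub_mul, smul_mul_assoc, mul_smul_comm, one_mul, mul_one, ← mul_assoc]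
  rw [e5] at A
  linear_combination (norm := module) A + (c0 * t3) • (1 : End F V)

omit [FiniteDimensional F V] in
theorem u_comm {x : P.EG} {w : V} {r : F} (hw0 : w ≠ 0) (h : rho x w = r • w) : Commute (rho x) (1 + rr P w w) := by
  have hr : r ≠ 0 := by rintro rfl; exact rho_ne_zero x hw0 (by rw [h, zero_smul])
  have := conj_rr x w w
  rw [h, rr_smul_left, rr_smul_right, smul_smul, frobq_apply, ← pow_succ', four_cube hF hr, one_smul] at this
  refine (Commute.one_right _).add_right ?_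
  change _ * _ = _ * _
  conv_rhs => rw [← this, mul_assoc, rho_inv_mul, mul_one]

theorem u_unip (G : Geo P) (h6 : 6 ≤ finrank F V) {x y : P.EG} {c : P.EG ⧸ Subgroup.center P.EG}
    (H : Hyp (pr x) (pr y) c) (hx : ¬ Sc (rho x)) {l : F} (hl : l ≠ 0)
    (cj : ∀ w, P.Sing w → w ≠ 0 → ∃ y', IsConj y y' ∧ rho y' = l • (1 + rr P w w)) {t : F} (ht : t ≠ 0)
    (h : (rho x - t • (1 : End F V)) * (rho x * rho x - t ^ 2 • (1 : End F V)) = 0) : False := by
  have h2 := four_two hF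
  have t3 := four_cube hF ht
  obtain ⟨M, hM⟩ : ∃ M, rho x = t • (1 + M) := ⟨t⁻¹ • rho x - 1, by simp [smul_smul, ht]⟩
  have two : ∀ A : End F V, A + A = 0 := fun A => by rw [← two_smul F, h2, zero_smul]
  have M3 : M * M * M = 0 := by
    rw [hM] at h
    simp only [mul_sub, sub_mul, mul_add, add_mul, smul_mul_assoc, mul_smul_comm, one_mul, mul_one,
      ← mul_assoc] at h
    linear_combination (norm := module) h - t3 • (M * M * M) - t ^ 3 • two (M * M)
  have sq : ∀ A : End F V, (1 + A) ^ 4 = 1 + A ^ 4 := fun A => by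
    have e : ∀ B : End F V, (1 + B) ^ 2 = 1 + B ^ 2 := fun B => by
      linear_combination (norm := noncomm_ring) two B
    rw [show 4 = 2 * 2 from rfl, pow_mul, e, e, pow_mul]
  obtain ⟨u, hu0, hu⟩ : ∃ u, M u ≠ 0 ∧ M (M u) = 0 := by
    by_cases h1 : M * M = 0
    · obtain ⟨u, hu⟩ := DFunLike.ne_iff.1 (show M ≠ 0 from fun h => hx ⟨t, by simp [hM, h]⟩)
      exact ⟨u, hu, LinearMap.congr_fun h1 u⟩
    · obtain ⟨u, hu⟩ := DFunLike.ne_iff.1 h1
      exact ⟨M u, hu, LinearMap.congr_fun M3 u⟩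
  have hw : rho x (M u) = t • M u := by simp [hM, hu]
  have hs : P.Sing (M u) := u_sing_iff.2 (by
    have := B_rho x u (M u)
    rw [hw, hM] at this
    simp only [LinearMap.smul_apply, LinearMap.add_apply, End.one_apply, B_smul_left, B_smul_right, map_add,
      frobq_apply] at this
    linear_combination this - (P.B u (M u) + P.B (M u) (M u)) * t3)
  have N2 : ∀ w, P.Sing w → rr P w w * rr P w w = 0 := fun w hw => by simp [rr_mul_rr, hw.B_self]
  obtain ⟨y0, c0, e0⟩ := cj _ hs hu0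
  have cg : ∀ y', IsConj y y' → IsConj c (pr (x * y')) := fun y' c' => by
    rw [map_mul]; exact H.conj (IsConj.refl _) (pr.map_isConj c')
  have c4 : c ^ 4 = 1 := isConj_one_left.1 (((cg y0 c0).pow 4).trans (by
    rw [G.pr_pow_eq_one.2 ⟨l ^ 4 * t ^ 4, ?_⟩]
    rw [map_mul, e0, mul_smul_comm, smul_pow, (u_comm hu0 hw).mul_pow, sq, hM, smul_pow, sq,
      show M ^ 4 = M * M * M * M by noncomm_ring, M3, show rr P (M u) (M u) ^ 4 = (rr P (M u) (M u) *
        rr P (M u) (M u)) ^ 2 by noncomm_ring, N2 _ hs]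
    simp [smul_smul]))
  refine hx (u_sc_of_diag G.toGeo0 fun w hw => ?_)
  by_cases hw0 : w = 0
  · simp [hw0]
  obtain ⟨y', c', e'⟩ := cj w hw hw0
  obtain ⟨r, hr⟩ := G.pr_pow_eq_one.1 (isConj_one_right.1 (c4 ▸ (cg y' c').pow 4))
  obtain ⟨v, hv, hv0⟩ : ∃ v ∈ LinearMap.ker M ⊓ P.perp {w}, v ≠ 0 := by
    refine Submodule.exists_mem_ne_zero_of_ne_bot fun h => ?_
    have h1 := Submodule.finrank_sup_add_finrank_inf_eq (LinearMap.ker M) (P.perp {w})
    have h3 := finrank_perp_singleton (P := P) w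
    have h4 := Submodule.finrank_le (LinearMap.ker M ⊔ P.perp {w})
    have h5 := finrank_ker_mul_le (M * M) M
    have h7 := finrank_ker_mul_le M M
    rw [M3, LinearMap.ker_zero, finrank_top] at h5
    rw [h, finrank_bot] at h1
    omega
  obtain ⟨K, hK⟩ : ∃ K, (1 + M) * (1 + rr P w w) = 1 + K := ⟨(1 + M) * (1 + rr P w w) - 1, by abel⟩
  rw [map_mul, e', hM, smul_mul_assoc, mul_smul_comm, smul_smul, hK, smul_pow, sq] at hr
  have Kv : K v = 0 := by
    have := LinearMap.congr_fun hK v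
    simpa [rr_apply, mem_perp_singleton.1 hv.2, LinearMap.mem_ker.1 hv.1] using this
  have e1 := LinearMap.congr_fun hr v
  rw [LinearMap.smul_apply, LinearMap.add_apply, pow_apply_eigen (t := 0) (by rw [Kv, zero_smul])] at e1
  have e2 : (t * l) ^ 4 = r := smul_left_injective F hv0 (by simpa using e1)
  rw [← e2, (smul_right_injective _ (pow_ne_zero 4 (mul_ne_zero ht hl))).eq_iff, add_eq_left] at hr
  have e3 := congrArg tr hK
  rw [mul_add, mul_one, mul_rr, map_add, map_add, map_add, tr_rr, tr_nilpotent hr,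
    tr_nilpotent (A := M) (k := 3) (by rw [← M3]; noncomm_ring)] at e3
  rw [hM, LinearMap.smul_apply, B_smul_left, show P.B ((1 + M) w) w = 0 by linear_combination e3, mul_zero]

theorem u_mixed (G : Geo P) (h6 : 6 ≤ finrank F V) {x y : P.EG} {c : P.EG ⧸ Subgroup.center P.EG}
    (H : Hyp (pr x) (pr y) c) (hx : ¬ Sc (rho x)) {l : F} (hl : l ≠ 0)
    (cj : ∀ w, P.Sing w → w ≠ 0 → ∃ y', IsConj y y' ∧ rho y' = l • (1 + rr P w w)) {δ : F} (ht : tr (rho x) ≠ 0)
    (hδ : δ ≠ 0) (hne : δ ≠ tr (rho x))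
    (h : (rho x - tr (rho x) • (1 : End F V)) * (rho x * rho x - δ ^ 2 • (1 : End F V)) = 0) : Mixed 2 c := by
  have h2 := four_two hF
  obtain ⟨t, ht'⟩ : ∃ t, t = tr (rho x) := ⟨_, rfl⟩
  rw [← ht'] at ht hne h
  have t3 := four_cube hF ht
  have d3 := four_cube hF hδ
  have two : ∀ A : End F V, A + A = 0 := fun A => by rw [← two_smul F, h2, zero_smul]
  have sq : ∀ a : F, (rho x - a • (1 : End F V)) * (rho x - a • (1 : End F V)) = rho x * rho x - a ^ 2 • 1 := fun a => by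
    simp only [mul_sub, sub_mul, smul_mul_assoc, mul_smul_comm, one_mul, mul_one]
    linear_combination (norm := module) a ^ 2 • two 1 - a • two (rho x)
  have x6 : rho x ^ 6 = 1 := by
    have e1 : (rho x * rho x - t ^ 2 • (1 : End F V)) * (rho x * rho x - δ ^ 2 • (1 : End F V)) = 0 := by
      rw [← sq t, mul_assoc, h, mul_zero]
    have e2 : t ^ 2 + t * δ + δ ^ 2 = 0 := mul_left_cancel₀ (sub_ne_zero.2 hne) (by linear_combination d3 - t3)
    have e3 := congrArg (· * (rho x * rho x + (t ^ 2 + δ ^ 2) • (1 : End F V))) e1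
    rw [show rho x ^ 6 = rho x * rho x * (rho x * rho x) * (rho x * rho x) by noncomm_ring]
    generalize rho x * rho x = Y at e3 ⊢
    simp only [mul_sub, sub_mul, mul_add, smul_mul_assoc, mul_smul_comm, one_mul, mul_one, zero_mul] at e3
    linear_combination (norm := module) e3 + ((t ^ 2 - t * δ + δ ^ 2) * e2) • Y -
      (t ^ 2 * (t ^ 2 - t * δ + δ ^ 2) * e2 - (t ^ 3 + 1) * t3) • (1 : End F V)
  have x2 : ¬ Sc (rho x * rho x) := by
    rintro ⟨s, hs⟩
    have e1 : s = δ ^ 2 := by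
      by_contra e1
      rw [hs, ← sub_smul, mul_smul_comm, mul_one, smul_eq_zero, sub_eq_zero, sub_eq_zero] at h
      exact hx ⟨t, h.resolve_left e1⟩
    have e2 := tr_nilpotent (A := rho x - δ • (1 : End F V)) (k := 2) (by rw [pow_two, sq, hs, e1, sub_self])
    rw [map_sub, map_smul, ← ht', LinearMap.trace_one, smul_eq_mul] at e2
    obtain ⟨k, hk | hk⟩ := Nat.even_or_odd' (finrank F V)
    · rw [hk] at e2
      push_cast at e2
      exact ht (by linear_combination e2 + δ * k * h2)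
    · rw [hk] at e2
      push_cast at e2
      exact hne (by linear_combination -e2 - δ * k * h2)
  obtain ⟨a, b, r, s, ha, hb, ha0, hab, ea, eb⟩ : ∃ (a b : V) (r s : F), P.Sing a ∧ P.Sing b ∧ a ≠ 0 ∧ b ∉ F ∙ a ∧
      rho x a = r • a ∧ rho x b = s • b := by
    have ev : ∀ {r : F} {a : V}, a ∈ LinearMap.ker (rho x - r • (1 : End F V)) → rho x a = r • a := fun h =>
      sub_eq_zero.1 h
    have h5 := finrank_ker_mul_le (rho x - t • (1 : End F V)) (rho x * rho x - δ ^ 2 • (1 : End F V))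
    have h7 := finrank_ker_mul_le (rho x - δ • (1 : End F V)) (rho x - δ • (1 : End F V))
    rw [h, LinearMap.ker_zero, finrank_top] at h5
    rw [sq] at h7
    by_cases k1 : 3 ≤ finrank F (LinearMap.ker (rho x - t • (1 : End F V)))
    · obtain ⟨a, ha, b, hb, h⟩ := u_two_iso G.nd _ k1
      exact ⟨a, b, _, _, h.1, h.2.1, h.2.2.1, h.2.2.2, ev ha, ev hb⟩
    by_cases k2 : 3 ≤ finrank F (LinearMap.ker (rho x - δ • (1 : End F V)))
    · obtain ⟨a, ha, b, hb, h⟩ := u_two_iso G.nd _ k2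
      exact ⟨a, b, _, _, h.1, h.2.1, h.2.2.1, h.2.2.2, ev ha, ev hb⟩
    obtain ⟨a, ha, ha0, has⟩ := u_iso (P := P) (LinearMap.ker (rho x - t • (1 : End F V))) (by omega)
    obtain ⟨b, hb, hb0, hbs⟩ := u_iso (P := P) (LinearMap.ker (rho x - δ • (1 : End F V))) (by omega)
    refine ⟨a, b, _, _, has, hbs, ha0, fun h => hne (smul_left_injective F hb0 ?_), ev ha, ev hb⟩
    obtain ⟨k, rfl⟩ := Submodule.mem_span_singleton.1 h
    change δ • k • a = t • k • a
    rw [← ev hb, map_smul, ev ha, smul_comm]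
  have hb0 : b ≠ 0 := fun h => hab (h ▸ zero_mem _)
  have key : ∀ w (r : F), P.Sing w → w ≠ 0 → rho x w = r • w → ¬ Sc (rho x ^ 3 * (1 + rr P w w)) → Mixed 2 c := by
    intro w r hw hw0 e h3
    obtain ⟨y', c', e'⟩ := cj w hw hw0
    have gp : ∀ n : ℕ, rho (x * y') ^ n = l ^ n • (rho x ^ n * (1 + (n : F) • rr P w w)) := fun n => by
      rw [map_mul, e', mul_smul_comm, smul_pow, (u_comm hw0 e).mul_pow,
        one_add_pow_sq (by simp [rr_mul_rr, hw.B_self])]
    refine Mixed.of_conj (show IsConj c (pr (x * y')) by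
      rw [map_mul]; exact H.conj (IsConj.refl _) (pr.map_isConj c')) (mixed_of_pow (m := 3) (by decide) ?_ ?_ ?_)
    · rw [G.pr_pow_eq_one, gp, x6, Nat.cast_mul, Nat.cast_ofNat (n := 2), h2]
      exact ⟨l ^ 6, by simp⟩
    · rw [Ne, G.pr_pow_eq_one, gp, four_cube hF hl, one_smul, show ((3 : ℕ) : F) = 1 by
        push_cast; linear_combination h2, one_smul]
      exact h3
    · rw [Ne, G.pr_pow_eq_one, gp, Nat.cast_ofNat, h2, zero_smul, add_zero, mul_one, pow_two (rho x)]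
      rintro ⟨s, hs⟩
      exact x2 ⟨(l ^ 2)⁻¹ * s, by rw [← smul_smul, ← hs, smul_smul, inv_mul_cancel₀ (pow_ne_zero _ hl), one_smul]⟩
  by_cases k1 : Sc (rho x ^ 3 * (1 + rr P a a))
  · refine key b s hb hb0 eb fun k2 => ?_
    obtain ⟨s1, k1⟩ := k1
    obtain ⟨s2, k2⟩ := k2
    obtain ⟨v, v0, -, v1, v2⟩ := G.idx a b
    have e1 := LinearMap.congr_fun k1 v
    have e2 := LinearMap.congr_fun k2 v
    simp only [End.mul_apply, LinearMap.add_apply, End.one_apply, rr_apply, v1, v2, zero_smul, add_zero,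
      LinearMap.smul_apply] at e1 e2
    rw [smul_left_injective F v0 (e1.symm.trans e2), ← k2] at k1
    have e3 := congrArg (rho x ^ 3 * ·) k1
    simp only [← mul_assoc, ← pow_add, x6, one_mul, add_right_inj] at e3
    obtain ⟨u, hu⟩ := G.nd.exists_eq' hb0 1
    have e4 := LinearMap.congr_fun e3 u
    rw [rr_apply, rr_apply, hu, one_smul] at e4
    exact hab (Submodule.mem_span_singleton.2 ⟨_, e4⟩)
  · exact key a r ha ha0 ea k1

theorem u_two_core (G : Geo P) (h6 : 6 ≤ finrank F V) (h3 : 3 ∣ finrank F V) {ω : F} (hω : ω ^ 2 + ω + 1 = 0)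
    {x y : P.EG} {c : P.EG ⧸ Subgroup.center P.EG} (H : Hyp (pr x) (pr y) c) (h0 : tr (rho x * rho y) ≠ 0)
    (hx : ¬ Sc (rho x)) (hy : ¬ Sc (rho y)) (hd : ∀ a b, TS P a b → dt P (rho y) a b = 0) :
    Mixed 2 c ∧ 2 ∣ orderOf (pr y) := by
  obtain ⟨l, d, hl, hd0, hds, e⟩ := u_dom G h3 hy hd
  have cj : ∀ w, P.Sing w → w ≠ 0 → ∃ y', IsConj y y' ∧ rho y' = l • (1 + rr P w w) := fun w hw hw0 => by
    rw [smul_add]
    exact conj_tv e (G.vt d w hds hw hd0 hw0)
  refine ⟨?_, dvd_orderOf_of_pow ?_ (G.pr_eq_one.not.2 hy)⟩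
  · obtain ⟨h1, c0, h2⟩ := u_cubic G hω H h0 hl cj
    obtain ⟨ht, δ, hδ, h4⟩ := u_factor G h6 hx h1 h2
    by_cases hne : δ = tr (rho x)
    · exact (u_unip G h6 H hx hl cj ht (hne ▸ h4)).elim
    · exact u_mixed G h6 H hx hl cj ht hδ hne h4
  · rw [G.pr_pow_eq_one, e, ← smul_add, smul_pow, one_add_pow_sq (by simp [rr_mul_rr, hds.B_self]), Nat.cast_ofNat,
      four_two hF]
    exact ⟨l ^ 2, by simp⟩

end Two

theorem u_mix {F : Type*} [Field F] [Fintype F] {q : ℕ} {hF : Fintype.card F = q ^ 2} {V : Type*} [AddCommGroup V]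
    [Module F V] {P : PQ (uFP hF) V} [FiniteDimensional F V] {p : ℕ} [hp : Fact p.Prime] [CharP F p] (hP : P.ND)
    (h3 : 3 ≤ finrank F V) (hq : ¬ (finrank F V = 3 ∧ q = 2)) : Mix p (P.EG ⧸ Subgroup.center P.EG) := by
  have G := u_geo0 hP h3
  intro a b c ha hb _ H
  obtain ⟨x, rfl⟩ := pr_surj a
  obtain ⟨y, rfl⟩ := pr_surj b
  rw [Ne, G.pr_eq_one] at ha hb
  by_cases h2 : q = 2
  swap
  · exact (u_big G h3 h2 H ha hb).elim
  subst h2
  by_cases hc : ∀ y', IsConj y y' → tr (rho x * rho y') = tr (rho x * rho y)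
  · exact (u_const G h3 (four_two hF) hc ha hb).elim
  push Not at hc
  obtain ⟨y', c', hc⟩ := hc
  obtain ⟨ω, h4, h5, h6, -⟩ := G.inv H (IsConj.refl x) c'
  have h0 : tr (rho x * rho y) ≠ 0 := fun h => hc (by rw [h6, h, mul_zero])
  have h1 : ω ≠ 1 := fun h => hc (by rw [h6, h, one_mul])
  rw [frobq_apply, ← pow_succ'] at h4
  have hω : ω ^ 2 + ω + 1 = 0 := mul_left_cancel₀ (sub_ne_zero.2 h1) (by linear_combination h4)
  have h7 : 3 ∣ finrank F V := by
    have : Fact (Nat.Prime 3) := ⟨Nat.prime_three⟩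
    exact orderOf_eq_prime (p := 3) h4 h1 ▸ orderOf_dvd_of_pow_eq_one h5
  have h8 : 6 ≤ finrank F V := by omega
  obtain rfl : p = 2 := (Nat.prime_dvd_prime_iff_eq hp.out Nat.prime_two).1
    ((CharP.cast_eq_zero_iff F p 2).1 (by exact_mod_cast four_two hF))
  have G' := u_geo hP h8
  rcases u_two_dom G' h8 hω H h0 with h | h
  · exact (u_two_core G' h8 h7 hω H.symm (by rwa [LinearMap.trace_mul_comm]) hb ha h).imp id Or.inl
  · exact (u_two_core G' h8 h7 hω H h0 ha hb h).imp id Or.inr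

end Cfsg.Agent.AH.Cls

namespace Cfsg.Agent.AH

open Cls Polar

theorem mix_PSU {p : ℕ} [Fact p.Prime] {G : Type*} [Group G] (h : IsPSUChar p G) : Mix p G := by
  obtain ⟨F, _, _, _, n, q, hF, hn, hq, ⟨e⟩⟩ := h
  exact (mix_congr (suEquiv hF n) (u_mix (uStd_nd hF n) (by simpa using hn) (by simpa using hq))).congr e

end Cfsg.Agent.AH
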