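import Cfsg.Agent.AH.Lev

/-! Groups over the field with two elements: the second relation and its consequences. -/

set_option autoImplicit false

namespace Cfsg.Agent.AH

open Cfsg.Lie Cfsg.Lie.ChevalleyDatum Cfsg.Agent.Chev Cfsg.Agent.Tw Matrix Equiv

variable {D : ChevalleyDatum} {C : Cert D} {F : Type*} [Field F] {G : Type*} [Group G] {S : Sys C F G}
  {T : Stb S} {K : Subgroup G} {a b c x z : G} {i0 : Nd D} {θ' γ : Rt D}

/-- the symmetrised form -/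
def β (S : Sys C F G) (x : G) (u v : D.Idx → F) : F := (ad S).B x u v + (ad S).B x v u

theorem β_conj (g x : G) (u v : D.Idx → F) : β S (g⁻¹ * x * g) u v = β S x (S.φ g *ᵥ u) (S.φ g *ᵥ v) := by
  rw [β, β, Bc, Bc]

theorem β_eq (x : G) (u v : D.Idx → F) : β S x u v = (ad S).κ (S.φ x⁻¹ *ᵥ u) v + (ad S).κ (S.φ x *ᵥ u) v := by
  rw [β, B_def, B_def, κ_φ', (ad S).κ_comm v]

theorem β_comm (x : G) (u v : D.Idx → F) : β S x u v = β S x v u := add_comm _ _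

theorem β_add (x : G) (u v v' : D.Idx → F) : β S x u (v + v') = β S x u v + β S x u v' := by
  simp only [β_eq, Md.κ_add_right]; ring

theorem β_sub (x : G) (u v v' : D.Idx → F) : β S x u (v - v') = β S x u v - β S x u v' := by
  simp only [β_eq, Md.κ_sub_right]; ring

theorem β_add' (x : G) (u u' v : D.Idx → F) : β S x (u + u') v = β S x u v + β S x u' v := by
  simp only [β_comm x _ v, β_add]

/-- the form as a linear map -/
def κL (S : Sys C F G) (u : D.Idx → F) : (D.Idx → F) →ₗ[F] F where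
  toFun := (ad S).κ u
  map_add' := (ad S).κ_add_right u
  map_smul' c := (ad S).κ_smul_right c u

@[simp] theorem κL_apply (u v : D.Idx → F) : κL S u v = (ad S).κ u v := rfl

theorem A_bd (hγ : C.len γ = C.len C.top) (r : Rt D) : -2 ≤ C.A γ r ∧ C.A γ r ≤ 2 := by
  by_cases h1 : r = γ
  · simp [h1, C.A_self]
  by_cases h2 : r = γ.rev
  · simp [h2, C.A_self, C.A_rev_right]
  have := C.A_abs_le_one h1 h2 (hγ ▸ C.len_le_top r)
  omega

theorem A_long {r s : Rt D} (h : C.len r = C.len s) : C.A r s = C.A s r :=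
  mul_left_cancel₀ (C.len_pos r).ne' (by rw [C.A_symm, h])

theorem A_add {r s u : Rt D} (h : C.rc u = C.rc r + C.rc s) (γ : Rt D) : C.A γ u = C.A γ r + C.A γ s := by
  rw [← C.pr_rc, h, C.pr_add, C.pr_rc, C.pr_rc]

theorem X_one {r s u : Rt D} (h : C.rc u = C.rc r + C.rc s) : (ad S).X r 1 (.inr u) (.inr s) = C.N r s := by
  change ((C.X r 1 (.inr u) (.inr s) : ℤ) : F) = _
  simp [C.X_one, Cert.E, Cert.ev, h, show s ≠ r.rev by rintro rfl; exact C.rc_ne_zero u (by simp [h, C.rc_neg])]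

/-- the second relation -/
theorem sec (H : HK K a b c) (h0 : C.len θ' = C.len C.top) (h1 : C.A C.top θ' = 1) (h2 : (2 : F) = 0)
    {o : Rt D × Bool} {os : List (Rt D × Bool)} (h4 : ∀ o' ∈ o :: os, (ad S).Av K (C.prL C.top + C.prL θ') o')
    (h5 : ((o :: os).map fun o => (if o.2 then 2 else 1) * (C.A C.top o.1 + C.A θ' o.1)).sum = 12)
    (h6 : ∀ i j : Fin 2, Same 2 ((o :: os).foldl (fun L o => opL (adc D) o L)
      [(![.inr C.top.rev, .inr θ'.rev] i, ![.inr C.top.rev, .inr θ'.rev] j, 1)])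
      (if i = j then [] else [(.inr C.top, .inr C.top, 1)]))
    (hb : ¬ Dm (ad S) K b (eR F C.top)) (hx : Cj K a x) : β S x (eR F C.top) (eR F θ') = 0 := by
  obtain ⟨y, hy, h⟩ : ∃ y, Cj K b y ∧ _ := by simpa [Dm] using hb
  have h3 : C.A θ' C.top = 1 := by rwa [A_long h0]
  have hne : θ' ≠ C.top := by rintro rfl; simp [C.A_self] at h1
  have key : ∀ r, C.A C.top r + C.A θ' r < 3 ∨ r = C.top ∨ r = θ' := fun r => by
    refine or_iff_not_imp_right.2 fun h => ?_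
    rw [not_or] at h
    have := C.A_top_le_one h.1
    by_cases h7 : r = θ'.rev
    · simp [h7, C.A_rev_right, C.A_self, h1]
    · have := C.A_abs_le_one h.2 h7 (h0 ▸ C.len_le_top r)
      omega
  have := (ad S).rel H hx hy (n := 2) (p := ![.inr C.top, .inr θ']) (m := ![.inr C.top.rev, .inr θ'.rev]) (e := 1)
    (one_mul 1) (Fin.forall_fin_two.2 ⟨Ω_long rfl, Ω_long h0⟩) (Fin.forall_fin_two.2
      ⟨by simpa using Ω_long (S := S) (C.len_rev _), by simpa using Ω_long (S := S) ((C.len_rev _).trans h0)⟩)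
    (f := C.prL C.top + C.prL θ') (k := 3) ⟨by simp [hne.symm], by simp [hne.symm],
      by simp [ad, C.prL_rc, C.A_self, C.A_rev_right, h1, h3], fun a => by
        rcases a with i | r
        · simp [ad]
        · have h7 := key r.rev
          simp only [C.A_rev_right, Fin.rev_eq_iff] at h7
          simpa [ad, C.prL_rc, Fin.exists_fin_two, key r] using h7.imp_left fun h => by omega⟩
    h4 ((congrArg List.sum (List.map_congr_left fun o _ => by simp [Md.dg, C.prL_rc])).trans h5) (q := 2) (by simpa using h2) h6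
  simpa [Md.evB, ← add_mul, h, β] using this

section Two

variable [CharP F 2]

theorem two_zero : (2 : F) = 0 := CharTwo.two_eq_zero

theorem x_inv (r : Rt D) (t : F) : (S.x r t)⁻¹ = S.x r t := by rw [← S.x_neg, CharTwo.neg_eq]

theorem n_inv (r : Rt D) : (S.n r 1)⁻¹ = S.n r 1 := by
  rw [← S.n_neg]; congr 1; exact Units.ext (CharTwo.neg_eq _)

theorem n_eR2 (r s : Rt D) : S.φ (S.n r 1) *ᵥ eR F s = eR F (C.refl r s) := by
  rw [n_eR]; rcases C.eta_unit r s with h | h <;> simp [h, CharTwo.neg_eq]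

theorem nn (r : Rt D) (v : D.Idx → F) : S.φ (S.n r 1) *ᵥ S.φ (S.n r 1) *ᵥ v = v := by
  nth_rw 1 [← n_inv]; exact φ_inv _ _

theorem N_one {r s u : Rt D} (hr : C.len r = C.len C.top) (h : C.rc u = C.rc r + C.rc s) (h1 : C.A r s < 0) :
    (C.N r s : F) = 1 := by
  have := N_unit (F := F) h (fun v hv => not_add (γ := r.rev) (by rwa [C.len_rev]) (r := s)
    (by rw [C.A_rev_left]; omega) v (by rw [hv, C.rc_neg]; abel)) (by rintro rfl; simp [C.A_self] at h1)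
  rcases mul_self_eq_one_iff.1 this with h | h <;> simp [h, CharTwo.neg_eq]

theorem x_eR2 (hγ : C.len γ = C.len C.top) {r : Rt D} (h : C.A γ r = -1) (t : F) :
    S.φ (S.x γ t) *ᵥ eR F r = eR F r + t • eR F (C.refl γ r) := by
  have e : C.rc (C.refl γ r) = C.rc γ + C.rc r := by rw [C.rc_refl, h]; module
  rw [x_eR_add e (not_add hγ (by rw [C.A_refl_self, h]; simp)), N_one hγ e (by omega), one_mul]

end Two

theorem n_Wl {f : (Nd D → ℤ) →ₗ[ℤ] ℤ} {k j : ℤ} (hk : k ≠ 0) (h : ∀ r, f (C.rc r) = k → k - C.A γ r * f (C.rc γ) = j)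
    {v : D.Idx → F} (hv : v ∈ Wl C F f k) : S.φ (S.n γ 1) *ᵥ v ∈ Wl C F f j :=
  over_Wl hk (S.over_n γ 1) (fun r hr => by rw [C.sr_apply, C.rc_refl, map_sub, map_smul, hr]; exact h r hr) hv

theorem n_Wl' {k : ℤ} (hk : k ≠ 0) {v : D.Idx → F} (hv : v ∈ Wl C F (C.prL γ) k) :
    S.φ (S.n γ 1) *ᵥ v ∈ Wl C F (C.prL γ) (-k) :=
  n_Wl hk (fun r hr => by rw [C.prL_rc] at hr; rw [C.prL_rc, C.A_self]; omega) hv

/-- fixed long roots -/
def Fx (T : Stb S) (r : Rt D) : Prop := T.ρ r = r ∧ C.len r = C.len C.top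

theorem Fx.rev (h : Fx T γ) : Fx T γ.rev := ⟨by rw [T.rev, h.1], by rw [C.len_rev, h.2]⟩

/-- the standing hypotheses over the field with two elements -/
structure Q2 (T : Stb S) (K : Subgroup G) (i0 : Nd D) (θ' : Rt D) : Prop extends Ok T K where
  two : ∀ r, Fx T r → ∀ t, S.x r t ∈ K ↔ t = 0 ∨ t = 1
  fθ : T.ρ C.top = C.top
  fα : Fx T (C.sp i0)
  th : C.rc C.top = C.rc (C.sp i0) + C.rc θ'
  lev : ∀ j, C.A C.top (C.sp j) = if j = i0 then 1 else 0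
  rad : ∀ s, C.len s ≠ C.len C.top → (mu C s : F) = 0
  low : ∀ r, C.len r = C.len C.top → C.A C.top r = 1 → (∀ j ≠ i0, C.A (C.sp j) r ≤ 0) → r = C.sp i0
  conn : ∀ j ≠ i0, ∃ r, C.len r = C.len C.top ∧ C.A C.top r = 1 ∧ C.A (C.sp j) r ≠ 0
  step : ∀ N : Submodule F (D.Idx → F), (∀ u ∈ K, u ∈ S.U {r | C.Pos r ∧ C.InJ {j | j ≠ i0} r} → ∀ v ∈ N,
    S.φ u *ᵥ v ∈ N) → (∀ s, C.len s ≠ C.len C.top → eR F s ∈ N) → ∀ j ≠ i0, ∀ r, C.len r = C.len C.top →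
      C.A C.top r = 1 → C.A (C.sp j) r < 0 → eR F r ∈ N → eR F (C.refl (C.sp j) r) ∈ N

namespace Q2

variable (Q : Q2 T K i0 θ')
include Q

theorem fx : Fx T C.top := ⟨Q.fθ, rfl⟩

theorem x_mem (h : Fx T γ) : S.x γ 1 ∈ K := (Q.two γ h 1).2 (Or.inr rfl)

theorem stab : T.Stable {j | j ≠ i0} := fun j => by
  have : T.π i0 = i0 := C.sp_inj (by rw [← T.sp, Q.fα.1])
  exact not_congr (by nth_rw 1 [← this]; exact T.π.injective.eq_iff)

theorem lev0 : ∀ j ∈ {j | j ≠ i0}, C.A C.top (C.sp j) = 0 := fun j hj => by rw [Q.lev, if_neg hj]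

theorem lev0' : ∀ j ∈ {j | j ≠ i0}, C.prL C.top (C.rc (C.sp j)) = 0 := fun j hj => by rw [C.prL_rc, Q.lev0 j hj]

theorem levα : C.A C.top (C.sp i0) = 1 := by rw [Q.lev, if_pos rfl]

theorem refl_α : C.refl (C.sp i0) C.top = θ' :=
  C.rc_inj (by rw [C.rc_refl, A_long Q.fα.2, Q.levα, Q.th]; module)

theorem len' : C.len θ' = C.len C.top := by rw [← Q.refl_α, C.len_refl]

theorem lev' : C.A C.top θ' = 1 := by
  have := A_add Q.th C.top
  rw [C.A_self, Q.levα] at this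
  omega

theorem refl_θ : C.refl C.top θ' = (C.sp i0).rev := C.rc_inj (by rw [C.rc_refl, Q.lev', C.rc_neg, Q.th]; module)

theorem dom' : ∀ j ∈ {j | j ≠ i0}, 0 ≤ C.A θ' (C.sp j) := fun j hj => by
  rw [← Q.refl_α, ← C.A_refl (C.sp i0), C.refl_refl, ← C.pr_rc, C.rc_refl, C.pr_sub, C.pr_smul, C.pr_rc, C.pr_rc,
    Q.lev0 j hj, Q.levα]
  have := C.A_sp_sp_nonpos (Ne.symm hj)
  omega

theorem κ_rad (u : D.Idx → F) (g : G) {s : Rt D} (h : C.len s ≠ C.len C.top) : (ad S).κ u (S.φ g *ᵥ eR F s) = 0 := by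
  rw [κ_φ', Md.κ_comm, κ_eR, Q.rad s h, zero_mul]

theorem gen {u : D.Idx → F} (h1 : ∀ l ∈ K, l ∈ S.U {r | C.Pos r ∧ C.InJ {j | j ≠ i0} r} →
    (ad S).κ u (S.φ l *ᵥ eR F (C.sp i0)) = 0) : ∀ v ∈ Wl C F (C.prL C.top) 1, (ad S).κ u v = 0 := by
  let N : Submodule F (D.Idx → F) := ⨅ l ∈ K ⊓ S.U {r | C.Pos r ∧ C.InJ {j | j ≠ i0} r},
    LinearMap.ker (κL S u ∘ₗ (S.φ l).mulVecLin)
  have hN : ∀ v, v ∈ N ↔ ∀ l ∈ K ⊓ S.U {r | C.Pos r ∧ C.InJ {j | j ≠ i0} r}, (ad S).κ u (S.φ l *ᵥ v) = 0 := fun v => by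
    simp only [N, Submodule.mem_iInf, LinearMap.mem_ker, LinearMap.comp_apply, mulVecLin_apply, κL_apply]
  have h3 : ∀ s, C.len s ≠ C.len C.top → eR F s ∈ N := fun s hs => (hN _).2 fun l _ => Q.κ_rad u l hs
  suffices h : Wl C F (C.prL C.top) 1 ≤ N from fun v hv => by simpa using (hN v).1 (h hv) 1 (one_mem _)
  refine Wl_le one_ne_zero fun r hr => ?_
  rw [C.prL_rc] at hr
  induction r using WellFoundedLT.induction with | _ r ih =>
  by_cases h4 : C.len r = C.len C.top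
  swap
  · exact h3 r h4
  by_cases h5 : ∀ j ≠ i0, C.A (C.sp j) r ≤ 0
  · exact Q.low r h4 hr h5 ▸ (hN _).2 fun l hl => h1 l hl.1 hl.2
  push Not at h5
  obtain ⟨j, hj, h5⟩ := h5
  have h6 : C.A C.top (C.refl (C.sp j) r) = 1 := by
    rw [← C.pr_rc, C.rc_refl, C.pr_sub, C.pr_smul, C.pr_rc, C.pr_rc, Q.lev0 j hj, hr]; simp
  have := Q.step N (fun u hu hu' v hv => (hN _).2 fun l hl => by
    rw [← φ_mul]; exact (hN v).1 hv _ (mul_mem hl ⟨hu, hu'⟩)) h3 j hj _ (by rw [C.len_refl, h4]) h6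
    (by rw [C.A_refl_self]; omega) (ih _ (by
      rw [← Cert.ordL_lt_iff (C := C), C.rc_refl, map_sub, map_smul]
      exact sub_lt_self _ (mul_pos h5 (Cert.ordL_pos (C.pos_sp j)))) h6)
  rwa [C.refl_refl] at this

theorem gen' {u : D.Idx → F} (h1 : ∀ l ∈ K, l ∈ S.L {j | j ≠ i0} → (ad S).κ u (S.φ l *ᵥ eR F θ') = 0) :
    ∀ v ∈ Wl C F (C.prL C.top) 1, (ad S).κ u v = 0 := by
  refine Q.gen fun l hl hl' => ?_
  obtain ⟨n, hnK, hn⟩ := Q.ex_over _ (C.w0_mem_W _) Q.stab.cj_w0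
  obtain ⟨c, hc⟩ := over_eR hn θ'
  have hA := hn.mem_Aut
  rw [Q.low (C.w0 _ θ') (by rw [Cert.Aut.len_map hA, Q.len']) (by
    rw [← C.prL_rc, Cert.Aut.rc_map hA, ← Q.lev', ← C.prL_rc]
    exact LinearMap.congr_fun (Cert.comp_lin_WJ Q.lev0' (C.w0_mem _)) _) fun j hj => by
      obtain ⟨k, hk, e⟩ := Cert.exists_w0_sp_J (C := C) (K := {j | j ≠ i0}) hj
      rw [← Cert.Aut.A_map hA, Cert.w0_w0, e, C.A_rev_left, neg_nonpos, C.A_nonneg_comm]
      exact Q.dom' k hk] at hc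
  have := h1 _ (mul_mem hl hnK) (mul_mem (U_pos_le_L _ hl') (hn.mem_L (C.w0_mem _)))
  rw [φ_mul, hc, mulVec_smul, Md.κ_smul_right] at this
  exact (mul_eq_zero.1 this).resolve_left c.ne_zero

theorem comm (h : Fx T γ) {J : Set (Nd D)} (hJ : ∀ j ∈ J, C.A γ (C.sp j) = 0) (hz : z ∈ K) (hL : z ∈ S.L J) :
    (∀ t, Commute z (S.x γ t)) ∧ Commute z (S.n γ 1) ∧ (∀ t, Commute z (S.x γ.rev t)) ∧
      S.φ z *ᵥ eR F γ = eR F γ := by
  obtain ⟨c, h1, h2, h3⟩ := L_scal h.2 hJ hL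
  obtain rfl : c = 1 := Units.ext (by
    have := (Q.two γ h _).1 (h1 1 ▸ mul_mem (mul_mem hz (Q.x_mem h)) (inv_mem hz))
    rw [mul_one] at this
    exact this.resolve_left c.ne_zero)
  have h4 : ∀ t, Commute z (S.x γ t) := fun t => mul_inv_eq_iff_eq_mul.1 (by simpa using h1 t)
  have h5 : ∀ t, Commute z (S.x γ.rev t) := fun t => mul_inv_eq_iff_eq_mul.1 (by simpa using h2 t)
  exact ⟨h4, ((h4 _).mul_right (h5 _)).mul_right (h4 _), h5, by simpa using h3⟩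

theorem sy (h : ∀ x, Cj K a x → β S x (eR F C.top) (eR F θ') = 0) (hx : Cj K a x) :
    ∀ v ∈ Wl C F (C.prL C.top) 1, β S x (eR F C.top) v = 0 := fun v hv => by
  rw [β_eq, ← Md.κ_add_left]
  exact Q.gen' (fun l hl hl' => by
    rw [Md.κ_add_left, ← β_eq, ← (Q.comm Q.fx Q.lev0 hl hl').2.2.2, ← β_conj, h _ (hx.conj' hl)]) v hv

variable [CharP F 2]

theorem n_mem (h : Fx T γ) : S.n γ 1 ∈ K :=
  mul_mem (mul_mem (Q.x_mem h) (by simpa [CharTwo.neg_eq] using Q.x_mem h.rev)) (Q.x_mem h)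

end Q2

/-- `z + z⁻¹ = s` on level one -/
def DW (S : Sys C F G) (s : F) (z : G) : Prop := ∀ u ∈ Wl C F (C.prL C.top) (-1), ∀ v ∈ Wl C F (C.prL C.top) 1,
  (ad S).κ u (S.φ z *ᵥ v) + (ad S).κ u (S.φ z⁻¹ *ᵥ v) = s * (ad S).κ u v

/-- the normal form -/
structure Sp (S : Sys C F G) (K : Subgroup G) (i0 : Nd D) (a : G) (s : F) (z : G) : Prop where
  cj : Cj K a (S.n C.top 1 * S.x C.top s * z)
  mem : z ∈ K
  lev : z ∈ S.L {j | j ≠ i0}
  dw : DW S s z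

namespace Q2

variable (Q : Q2 T K i0 θ') [CharP F 2]
include Q

omit [CharP F 2] in
theorem conj {s : F} (h : Cj K a (S.n C.top 1 * S.x C.top s * z)) {g : G} (hg : g ∈ K) (hL : g ∈ S.L {j | j ≠ i0}) :
    Cj K a (S.n C.top 1 * S.x C.top s * (g * z * g⁻¹)) := by
  obtain ⟨h1, h2, -⟩ := Q.comm Q.fx Q.lev0 hg hL
  convert h.conj hg using 1
  simp only [← mul_assoc, (h2.mul_right (h1 s)).eq]

omit [CharP F 2] in
theorem sp_conj {s : F} (h : Sp S K i0 a s z) {g : G} (hg : g ∈ K) (hL : g ∈ S.L {j | j ≠ i0}) :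
    Sp S K i0 a s (g * z * g⁻¹) :=
  ⟨Q.conj h.cj hg hL, mul_mem (mul_mem hg h.mem) (inv_mem hg), mul_mem (mul_mem hL h.lev) (inv_mem hL),
    fun u hu v hv => by
      rw [← κ_inv g⁻¹ u v, ← h.dw _ (L_Wl Q.lev0' (inv_mem hL) hu) _ (L_Wl Q.lev0' (inv_mem hL) hv)]
      simp only [_root_.mul_inv_rev, inv_inv, φ_mul, κ_φ' g]⟩

theorem dw_base (h : ∀ x, Cj K a x → β S x (eR F C.top) (eR F θ') = 0) {s : F}
    (hx : Cj K a (S.n C.top 1 * S.x C.top s * z)) (hz : z ∈ K) (hL : z ∈ S.L {j | j ≠ i0}) :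
    (ad S).κ (eR F (C.sp i0).rev) (S.φ z *ᵥ eR F (C.sp i0)) + (ad S).κ (eR F (C.sp i0).rev)
      (S.φ z⁻¹ *ᵥ eR F (C.sp i0)) = s := by
  obtain ⟨c1, c2, -, c4⟩ := Q.comm Q.fx Q.lev0 hz hL
  obtain ⟨-, -, -, c5⟩ := Q.comm Q.fx Q.lev0 (inv_mem hz) (inv_mem hL)
  have w1 : eR F (C.sp i0) ∈ Wl C F (C.prL C.top) 1 := eR_mem (by rw [C.prL_rc, Q.levα])
  have w2 : eR F θ' ∈ Wl C F (C.prL C.top) 1 := eR_mem (by rw [C.prL_rc, Q.lev'])
  have w3 : eR F (C.sp i0).rev ∈ Wl C F (C.prL C.top) (-1) := eR_mem (by rw [C.prL_rc, C.A_rev_right, Q.levα])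
  have w4 : eR F C.top ∈ Wl C F (C.prL C.top) 2 := eR_mem (by rw [C.prL_rc, C.A_self])
  have w5 : eR F C.top.rev ∈ Wl C F (C.prL C.top) (-2) := eR_mem (by rw [C.prL_rc, C.A_rev_right, C.A_self])
  have w6 := hR_mem (C := C) (F := F) (f := C.prL C.top) (C.sp i0)
  have w7 := hR_mem (C := C) (F := F) (f := C.prL C.top) C.top
  have fx : ∀ v ∈ Wl C F (C.prL C.top) 1, S.φ (S.x C.top s) *ᵥ v = v := fun v =>
    fix_Wl one_ne_zero fun r hr => x_fix rfl (by rw [C.prL_rc] at hr; omega) s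
  have h1 := Q.sy h (hx.conj' (Q.n_mem Q.fα)) _ w1
  have h2 := Q.sy h (hx.conj' (mul_mem (Q.x_mem Q.fα) (Q.n_mem Q.fα))) _ w1
  have h3 : C.A (C.sp i0) θ' = -1 := by rw [← Q.refl_α, C.A_refl_self, A_long Q.fα.2, Q.levα]
  rw [β_conj, n_eR2, n_eR2, Q.refl_α, C.refl_self] at h1
  rw [β_conj, φ_mul, φ_mul, n_eR2, n_eR2, Q.refl_α, C.refl_self, x_eR2 Q.fα.2 h3, x_eR_rev, ← Q.refl_α, C.refl_refl,
    Q.refl_α, one_smul, one_smul, one_pow, one_smul, β_sub, β_add, β_add', β_add', β_add', h1, Q.sy h hx _ w1] at h2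
  have e1 : S.φ (S.n C.top 1 * S.x C.top s * z) *ᵥ eR F C.top = eR F C.top.rev := by
    rw [φ_mul, φ_mul, c4, x_eR_self, n_eR2, C.refl_self]
  have e2 : S.φ (S.n C.top 1 * S.x C.top s * z)⁻¹ *ᵥ eR F C.top =
      eR F C.top.rev + s • hR F C C.top - s ^ 2 • eR F C.top := by
    rw [← (c2.mul_right (c1 s)).eq, _root_.mul_inv_rev, _root_.mul_inv_rev, φ_mul, φ_mul, c5, n_inv, x_inv, n_eR2,
      C.refl_self, x_eR_rev]
  have e3 : S.φ (S.n C.top 1 * S.x C.top s * z) *ᵥ eR F θ' = S.φ z *ᵥ eR F (C.sp i0).rev := by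
    rw [← (c2.mul_right (c1 s)).eq, φ_mul, φ_mul, fx _ w2, n_eR2, Q.refl_θ]
  have e4 : S.φ (S.n C.top 1 * S.x C.top s * z)⁻¹ *ᵥ eR F θ' = S.φ z⁻¹ *ᵥ eR F (C.sp i0).rev + s • S.φ z⁻¹ *ᵥ eR F θ' := by
    rw [_root_.mul_inv_rev, _root_.mul_inv_rev, φ_mul, φ_mul, n_inv, x_inv, n_eR2, Q.refl_θ,
      x_eR2 rfl (by rw [C.A_rev_right, Q.levα]), ← Q.refl_θ, C.refl_refl, mulVec_add, mulVec_smul]
  have v2 := L_Wl Q.lev0' (inv_mem hL) w2
  have v3 := L_Wl Q.lev0' (inv_mem hL) w3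
  have v4 := L_Wl Q.lev0' hL w3
  simp only [β_eq, e1, e2, e3, e4, Md.κ_add_left, Md.κ_sub_left, Md.κ_smul_left, κ_lev w5 w3 (by omega),
    κ_lev w7 w3 (by omega), κ_lev w4 w3 (by omega), κ_lev w5 w6 (by omega), κ_lev w4 w6 (by omega),
    κ_lev v3 w6 (by omega), κ_lev v2 w6 (by omega), κ_lev v4 w6 (by omega), κ_lev v2 w1 (by omega), κ_hh,
    Q.levα, mu_long C Q.fα.2, Int.cast_one] at h2
  rw [κ_φ' z, κ_φ' z⁻¹, inv_inv]
  linear_combination - h2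

theorem dw (h : ∀ x, Cj K a x → β S x (eR F C.top) (eR F θ') = 0) {s : F}
    (hx : Cj K a (S.n C.top 1 * S.x C.top s * z)) (hz : z ∈ K) (hL : z ∈ S.L {j | j ≠ i0}) : DW S s z := by
  have h1 : ∀ z ∈ K, z ∈ S.L {j | j ≠ i0} → Cj K a (S.n C.top 1 * S.x C.top s * z) → ∀ v ∈ Wl C F (C.prL C.top) 1,
      (ad S).κ (eR F (C.sp i0).rev) (S.φ z *ᵥ v) + (ad S).κ (eR F (C.sp i0).rev) (S.φ z⁻¹ *ᵥ v) -
        s * (ad S).κ (eR F (C.sp i0).rev) v = 0 := fun z hz hL hx v hv => by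
    rw [κ_φ', κ_φ' z⁻¹, ← Md.κ_add_left, ← Md.κ_smul_left, ← Md.κ_sub_left]
    refine Q.gen (fun l hl hl' => ?_) v hv
    have hlL := U_pos_le_L _ hl'
    have e : ∀ l ∈ K, l ∈ S.U {r | C.Pos r ∧ C.InJ {j | j ≠ i0} r} →
        S.φ l *ᵥ eR F (C.sp i0).rev = eR F (C.sp i0).rev := fun l hl hl' => by
      rw [← Q.refl_θ, ← n_eR2 (S := S), ← φ_mul, (Q.comm Q.fx Q.lev0 hl (U_pos_le_L _ hl')).2.1.eq, φ_mul,
        U_fix (fun r hr => x_fix' Q.len' (by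
          simpa [C.prL_rc] using Cert.nonneg_of_dom (f := C.prL θ') (by simpa [C.prL_rc] using Q.dom') hr.1 hr.2)) hl']
    have := Q.dw_base h (Q.conj hx (inv_mem hl) (inv_mem hlL)) (mul_mem (mul_mem (inv_mem hl) hz) (by simpa using hl))
      (mul_mem (mul_mem (inv_mem hlL) hL) (by simpa using hlL))
    simp only [_root_.mul_inv_rev, inv_inv, φ_mul, κ_φ' l⁻¹, e l hl hl'] at this
    simp only [Md.κ_sub_left, Md.κ_add_left, Md.κ_smul_left, κ_φ, inv_inv, this]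
    rw [κ_φ', e _ (inv_mem hl) (inv_mem hl'), κ_ee, Fin.rev_rev, mu_rev, mu_long C Q.fα.2]
    simp
  intro u hu v hv
  rw [← sub_eq_zero, ← nn (S := S) C.top u, (ad S).κ_comm, (ad S).κ_comm _ (S.φ z⁻¹ *ᵥ v), (ad S).κ_comm _ v, κ_φ',
    κ_φ' (S.n _ _) (S.φ z⁻¹ *ᵥ v), κ_φ' (S.n _ _) v, ← Md.κ_add_left, ← Md.κ_smul_left, ← Md.κ_sub_left]
  refine Q.gen' (fun l hl hl' => ?_) _ (by simpa using n_Wl' (S := S) (by simp) hu)
  have := h1 _ (mul_mem (mul_mem (inv_mem hl) hz) (by simpa using hl)) (mul_mem (mul_mem (inv_mem hl') hL)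
    (by simpa using hl')) (Q.conj hx (inv_mem hl) (inv_mem hl')) _ (L_Wl Q.lev0' (inv_mem hl') hv)
  simp only [_root_.mul_inv_rev, inv_inv, φ_mul, φ_inv', ← κ_φ l] at this
  simp only [Md.κ_sub_left, Md.κ_add_left, Md.κ_smul_left, κ_φ (S.n _ _)⁻¹, inv_inv,
    ← φ_mul (S.n _ _), ← (Q.comm Q.fx Q.lev0 hl hl').2.1.eq]
  simpa only [φ_mul, n_eR2, Q.refl_θ, (ad S).κ_comm _ (S.φ l *ᵥ _), smul_eq_mul] using this

/-- the normal form of a non-domestic element satisfying the second relation -/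
theorem struct (ha : a ∈ K) (h : ∀ x, Cj K a x → β S x (eR F C.top) (eR F θ') = 0)
    (hd : ¬ Dm (ad S) K a (eR F C.top)) (hk : ∀ z ∈ K, z ∈ S.L {j | j ≠ i0} →
      ∀ q ∈ S.U {r | C.InJ Set.univ r ∧ 1 ≤ C.A C.top r}, Cj K a (S.n C.top 1 * z * q) →
        (∀ r, C.len r = C.len C.top → C.A C.top r = 1 → S.cd r q = 0) →
          ∀ r, C.len r ≠ C.len C.top → C.A C.top r = 1 → S.cd r q = 0) :
    ∃ s z, (s = 0 ∨ s = 1) ∧ Sp S K i0 a s z := by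
  obtain ⟨x, hx, h0⟩ : ∃ x, Cj K a x ∧ _ := by simpa [Dm] using hd
  obtain ⟨g, hg, -, z, hz, hL, q, hqK, hq, e⟩ := split (J := {j | j ≠ i0}) Q.toGood rfl (C.inJ_univ _)
    (fun j _ => by rw [Q.lev]; split_ifs <;> simp) (by ext j; simp [Q.lev]) Q.stab (Q.n_mem Q.fx) (hx.mem ha)
    (mem_L_univ x) h0
  have h1 : Cj K a (S.n C.top 1 * z * q) := e ▸ hx.conj hg
  obtain ⟨c1, c2, -, c4⟩ := Q.comm Q.fx Q.lev0 hz hL
  have h2 : ∀ r, C.len r = C.len C.top → C.A C.top r = 1 → S.cd r q = 0 := fun r hr h3 => by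
    have e1 : C.rc C.top = C.rc r + C.rc (C.refl C.top r).rev := by rw [C.rc_neg, C.rc_refl, h3]; module
    have w1 : eR F (C.refl C.top r).rev ∈ Wl C F (C.prL C.top) 1 :=
      eR_mem (by rw [C.prL_rc, C.A_rev_right, C.A_refl_self, h3, neg_neg])
    have w5 : eR F C.top.rev ∈ Wl C F (C.prL C.top) (-2) := eR_mem (by rw [C.prL_rc, C.A_rev_right, C.A_self])
    have h4 := Q.sy h h1 _ w1
    rw [β, B_def, B_def, φ_mul _ q, φ_mul _ q, U_fix (fun r hr => x_fix' rfl (zero_le_one.trans hr.2)) hq, φ_mul _ z (eR F C.top), c4,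
      n_eR2, C.refl_self, κ_lev w1 w5 (by omega), add_zero, ← c2.eq, κ_φ', _root_.mul_inv_rev, φ_mul,
      (Q.comm Q.fx Q.lev0 (inv_mem hz) (inv_mem hL)).2.2.2, n_inv, n_eR2, C.refl_self, ← B_def, B_eR, Fin.rev_rev,
      show S.φ q _ _ = _ from (ad S).ent_root (f := C.prL C.top) one_pos (fun r hr => C.prL_rc _ r ▸ hr.2) hq
        (a := .inr C.top) (b := .inr _) (r := r) (e1.trans (add_comm _ _)) (by rw [C.prL_rc]; omega), X_one e1,
      N_one hr e1 (by have := A_add e1 r; rw [A_long hr, h3, C.A_self] at this; omega), mu_rev, mu_long C rfl] at h4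
    simpa using h4
  obtain ⟨s, rfl⟩ := eq_x_of_cd rfl hq fun r _ h3 => by
    by_cases hr : C.len r = C.len C.top
    exacts [h2 r hr h3, hk z hz hL q hq h1 h2 r hr h3]
  rw [mul_assoc, (c1 s).eq, ← mul_assoc] at h1
  exact ⟨s, z, (Q.two _ Q.fx s).1 hqK, h1, hz, hL, Q.dw h h1 hz hL⟩

theorem sq_one (h : Sp S K i0 a 0 z) : a * a = 1 := by
  have h1 : Triv S (C.prL C.top) 1 (z * z) := fun u hu v hv => by
    have := h.dw u hu _ (L_Wl Q.lev0' h.lev hv)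
    rw [φ_inv, zero_mul, CharTwo.add_eq_zero] at this
    rw [B_def, φ_mul, this]
  obtain ⟨g, hg, -, J, m, v, hm, e, h2, h3⟩ := h1.max Q.toOk Q.stab Q.lev0' (mul_mem h.mem h.mem) (mul_mem h.lev h.lev)
  obtain rfl : J = {j | j ≠ i0} := hm.sub.antisymm fun j hj => (h3 j hj (by simpa [C.prL_rc] using Q.conn j hj)).1
  obtain ⟨rfl, h4, h5⟩ := hm.torus Q.toOk
  rw [mul_one] at h2 e
  have h6 : m = 1 := Q.inj (by
    rw [map_one, Sys.φ_eq_one_of_chi h4 fun j => ?_]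
    by_cases hj : j = i0
    exacts [hj ▸ h2.chi h4 Q.fα.2 (by rw [C.prL_rc, Q.levα]), h5 j hj])
  have h7 : z * z = 1 := by simpa [h6, mul_inv_eq_one] using e
  obtain ⟨-, c2, -⟩ := Q.comm Q.fx Q.lev0 h.mem h.lev
  rw [← pow_two]
  refine h.cj.symm.pow_eq_one ?_
  rw [S.x_zero, mul_one, c2.symm.mul_pow, pow_two, pow_two, h7, mul_one, mul_eq_one_iff_inv_eq, n_inv]

end Q2

end Cfsg.Agent.AH
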