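import Cfsg.Agent.AH.Top
import Cfsg.Agent.AH.Vmod
import Cfsg.Agent.Tw.InvTF4
import Cfsg.Agent.Tw.Eqv
import Cfsg.Agent.Tw.OutF4
import Cfsg.Agent.Chev.CentF4

/-! The large Ree groups: no product of two nontrivial classes is a class. -/

set_option autoImplicit false
set_option linter.unusedSectionVars false

namespace Cfsg.Agent.AH.TF

open Cfsg.Lie Cfsg.Lie.ChevalleyDatum Cfsg.Agent.Chev Cfsg.Agent.Tw Matrix VM

/-- weights separating one character from a set of other characters -/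
theorem exists_wts {F : Type*} [Field F] [Fintype F] (χ0 : F →* F) (T : Set (F →* F)) (h : χ0 ∉ T) :
    ∃ c : F → F, ∑ s, c s * χ0 s = 1 ∧ ∀ χ ∈ T, ∑ s, c s * χ s = 0 := by
  classical
  have h1 := (linearIndependent_monoidHom F F).notMem_span_image h
  obtain ⟨f, hf1, hf2⟩ := Submodule.exists_dual_map_eq_bot_of_notMem h1 inferInstance
  have key : ∀ v : F → F, ∑ s, ((f χ0)⁻¹ * f (Pi.single s 1)) * v s = (f χ0)⁻¹ * f v := fun v => by
    conv_rhs => rw [← Finset.univ_sum_single v, map_sum, Finset.mul_sum]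
    refine Finset.sum_congr rfl fun s _ => ?_
    rw [show Pi.single s (v s) = v s • (Pi.single s 1 : F → F) by rw [← Pi.single_smul, smul_eq_mul, mul_one],
      map_smul, smul_eq_mul]
    ring
  refine ⟨fun s => (f χ0)⁻¹ * f (Pi.single s 1), (key _).trans (inv_mul_cancel₀ hf1), fun χ hχ => ?_⟩
  have : f χ ∈ (⊥ : Submodule F F) := hf2 ▸ Submodule.mem_map_of_mem (Submodule.subset_span ⟨χ, hχ, rfl⟩)
  rw [key, (Submodule.mem_bot F).1 this, mul_zero]

section Gen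

variable {G : Type*} [Group G] {K : Subgroup G} {b : G} {R : Type*} [CommRing R] {ι : Type*} [Fintype ι]
  [DecidableEq ι] {ρ : G →* Matrix ι ι R} {M : Matrix ι ι R} {τ : R} {d : ι → ℤ} {k l : ℤ}

/-- the second order operator, from a family of elements -/
theorem ld_gen (h : Ld ρ K b d k M τ) {J : Type*} [Fintype J] {g : J → G} (hg : ∀ j, g j ∈ K)
    {A Y B : Matrix ι ι R} (hl : 0 < l) (hA : Fil d l A) (hY : Fil d (l + 1) Y) (hB : Fil d (2 * l) B)
    {s u c : J → R} (h1 : ∀ j, Fil d (2 * l + 1) (ρ (g j) - 1 - s j • A - u j • Y - s j ^ 2 • B))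
    (h2 : ∀ j, Fil d (2 * l + 1) (ρ (g j)⁻¹ - 1 + s j • A + u j • Y - s j ^ 2 • B))
    (c1 : ∑ j, c j * s j = 0) (c2 : ∑ j, c j * u j = 0) (c3 : ∑ j, c j * s j ^ 2 = 1) :
    Ld ρ K b d (k + 2 * l) (B * M - A * M * A + M * B) 0 := by
  obtain ⟨h0, M', h3, h4⟩ := h
  have h5 : Fil d k M' := by simpa using (h4.mono (by omega)).add h0
  have q : ∀ {N : Matrix ι ι R} {k}, Fil d k N → Fil d (k + 2 * l) (B * N - A * N * A + N * B) := fun hN =>
    (((hB.mul hN).mono (by omega)).sub (((hA.mul hN).mul hA).mono (by omega))).add (hN.mul hB)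
  have key : ∀ j, Fil d (k + 2 * l + 1) (ρ (g j) * M' * ρ (g j)⁻¹ - M' -
      s j • (A * M' - M' * A) - u j • (Y * M' - M' * Y) - s j ^ 2 • (B * M' - A * M' * A + M' * B)) := fun j => by
    have e1 : Fil d (l + 1) (ρ (g j) - 1 - s j • A) := by
      have := (((h1 j).mono (show l + 1 ≤ _ by omega)).add ((hB.smul (s j ^ 2)).mono (by omega))).add (hY.smul (u j))
      rwa [sub_add_cancel, sub_add_cancel] at this
    have e2 : Fil d (l + 1) (ρ (g j)⁻¹ - 1 + s j • A) := by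
      have := (((h2 j).mono (show l + 1 ≤ _ by omega)).add ((hB.smul (s j ^ 2)).mono (by omega))).sub (hY.smul (u j))
      rwa [sub_add_cancel, add_sub_cancel_right] at this
    have e3 : Fil d l (ρ (g j)⁻¹ - 1) := by simpa using (e2.mono (by omega)).sub (hA.smul (s j))
    have e : ρ (g j) * M' * ρ (g j)⁻¹ - M' - s j • (A * M' - M' * A) - u j • (Y * M' - M' * Y) -
        s j ^ 2 • (B * M' - A * M' * A + M' * B) =
        (ρ (g j) - 1 - s j • A - u j • Y - s j ^ 2 • B) * M' + M' * (ρ (g j)⁻¹ - 1 + s j • A + u j • Y - s j ^ 2 • B) +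
        (ρ (g j) - 1 - s j • A) * M' * (ρ (g j)⁻¹ - 1) + (s j • A) * M' * (ρ (g j)⁻¹ - 1 + s j • A) := by
      simp only [mul_sub, sub_mul, mul_add, add_mul, smul_sub, smul_add, smul_mul_assoc, mul_smul_comm, smul_smul,
        mul_one, one_mul, pow_two]
      abel
    rw [e]
    exact (((((h1 j).mul h5).mono (by omega)).add ((h5.mul (h2 j)).mono (by omega))).add
      (((e1.mul h5).mul e3).mono (by omega))).add ((((hA.smul (s j)).mul h5).mul e2).mono (by omega))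
  refine ⟨q h0, ∑ j, c j • (ρ (g j) * M' * ρ (g j)⁻¹ - M'), fun y hy => by
    rw [Finset.sum_mul, trace_sum]
    exact Finset.sum_eq_zero fun j _ => by rw [smul_mul_assoc, trace_smul, h3.diff (hg j) y hy, smul_zero], ?_⟩
  have := (Fil.sum Finset.univ fun j _ => (key j).smul (c j)).add ((q h4).mono (show k + 2 * l + 1 ≤ _ by omega))
  convert this using 1
  simp only [smul_sub (c _), Finset.sum_sub_distrib, smul_smul, ← Finset.sum_smul, c1, c2, c3, zero_smul, one_smul,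
    mul_sub, sub_mul]
  abel

end Gen

section Md

variable {D : ChevalleyDatum} {C : Cert D} {F : Type*} [Field F] {G : Type*} [Group G] {S : Sys C F G}
  {ι : Type} [Fintype ι] [DecidableEq ι] (V : Md S ι) {K : Subgroup G} {f : (Nd D → ℤ) →ₗ[ℤ] ℤ}

theorem fil_pair {r r' : Rt D} (hr : 0 < f (C.rc r)) (hr' : f (C.rc r) < f (C.rc r')) (s u : F) :
    Fil (fun a => f (V.wt a)) (2 * f (C.rc r) + 1)
      (V.ρ (S.x r s) * V.ρ (S.x r' u) - 1 - s • V.X r 1 - u • V.X r' 1 - s ^ 2 • V.X r 2) ∧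
    Fil (fun a => f (V.wt a)) (2 * f (C.rc r) + 1)
      (V.ρ (S.x r' u) * V.ρ (S.x r s) - 1 - s • V.X r 1 - u • V.X r' 1 - s ^ 2 • V.X r 2) := by
  have e1 : Fil (fun a => f (V.wt a)) (2 * f (C.rc r) + 1) (V.ρ (S.x r s) - 1 - s • V.X r 1 - s ^ 2 • V.X r 2) := by
    have : V.ρ (S.x r s) - 1 - s • V.X r 1 - s ^ 2 • V.X r 2 = s ^ 3 • V.X r 3 := by rw [V.ρ_x]; abel
    rw [this]
    exact ((V.fil_X f r 2).mono (by push_cast; omega)).smul _
  have e2 := (V.fil_x (f := f) (r := r') (by omega) u).mono (show 2 * f (C.rc r) + 1 ≤ _ by omega)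
  have e3 := V.fil_x' hr.le s
  have e4 := V.fil_x' (f := f) (r := r') (by omega) u
  constructor
  · convert (e1.add e2).add ((e3.mul e4).mono (by omega)) using 1
    noncomm_ring
  · convert (e1.add e2).add ((e4.mul e3).mono (by omega)) using 1
    noncomm_ring

theorem av_pair [Fintype F] {r r' : Rt D} (hr : 0 < f (C.rc r)) (hr' : f (C.rc r) < f (C.rc r')) {ψ c : F → F}
    (hx : ∀ s, S.x r s * S.x r' (ψ s) ∈ K) (c1 : ∑ s, c s * s = 0) (c2 : ∑ s, c s * ψ s = 0)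
    (c3 : ∑ s, c s * s ^ 2 = 1) : V.Av K f (r, true) := fun _ _ _ _ h => by
  have := ld_gen h hx hr ((V.fil_X f r 0).mono (by simp)) ((V.fil_X f r' 0).mono (by simp; omega))
    ((V.fil_X f r 1).mono (by simp)) (s := fun s => s) (u := ψ) (fun s => by
      rw [map_mul]; exact (fil_pair V hr hr' s _).1) (fun s => by
      simpa [← S.x_neg] using (fil_pair V hr hr' (-s) (-ψ s)).2) c1 c2 c3
  simpa [Md.dg, Md.opM] using this

end Md

variable {F : Type*} [Field F] [Fintype F] [CharP F 2] {φ : F ≃+* F}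

/-- weights picking out the coefficient of `s ^ 2` -/
theorem wts (h3 : ∀ t, φ (φ t) ^ 2 = t) (hq : ∃ s : F, s ^ 2 ≠ s) : ∃ c : F → F, ∑ s, c s * s ^ 2 = 1 ∧
    ∑ s, c s = 0 ∧ ∑ s, c s * s = 0 ∧ ∑ s, c s * φ s ^ 2 = 0 ∧ ∑ s, c s * (s * φ s ^ 2) = 0 ∧
      ∑ s, c s * (φ s ^ 2) ^ 2 = 0 := by
  obtain ⟨t, ht⟩ := hq
  let ψ : F →* F := (powMonoidHom 2).comp φ.toMonoidHom
  have inj : ∀ a b : F, a ^ 2 = b ^ 2 → a = b := fun a b h => by
    rwa [sq_eq_sq_iff_eq_or_eq_neg, CharTwo.neg_eq, or_self] at h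
  have n1 : ¬ ∀ s, φ s ^ 2 = s := fun h => ht (by
    have h1 := h3 t
    have h2 := h (φ t)
    have h4 := h t
    grind)
  obtain ⟨c, h1, h2⟩ := exists_wts (powMonoidHom 2 : F →* F)
    {1, MonoidHom.id F, ψ, MonoidHom.id F * ψ, (powMonoidHom 2).comp ψ} (by
      simp only [Set.mem_insert_iff, Set.mem_singleton_iff, MonoidHom.ext_iff, not_or]
      refine ⟨fun h => by simpa using h 0, fun h => ht (h t), fun h => ht ?_, fun h => n1 fun s => ?_,
        fun h => n1 fun s => (inj _ _ (h s)).symm⟩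
      · have h1 : ∀ s, φ s = s := fun s => (inj _ _ (h s)).symm
        simpa [h1] using h3 t
      · by_cases h0 : s = 0
        · simp [h0]
        · exact (mul_left_cancel₀ h0 ((pow_two s).symm.trans (h s))).symm)
  exact ⟨c, h1, by simpa using h2 1 (by simp), h2 (MonoidHom.id F) (by simp), h2 ψ (by simp),
    h2 (MonoidHom.id F * ψ) (by simp), h2 ((powMonoidHom 2).comp ψ) (by simp)⟩

variable {K : Subgroup (chevF4.group F)}

theorem z_fix (h3 : ∀ t, φ (φ t) ^ 2 = t) {r r' : ℕ} (h1 : ∃ h : r < chevF4.nroots,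
      (isogF4.bar ⟨r, h⟩ : ℕ) = r' ∧ isogF4.lam ⟨r, h⟩ = 2)
    (h2 : ∃ h : r' < chevF4.nroots, (isogF4.bar ⟨r', h⟩ : ℕ) = r ∧ isogF4.lam ⟨r', h⟩ = 1)
    (h4 : r < chevF4.nroots ∧ r' < chevF4.nroots ∧ r' ≠ r ∧ r' + r + 1 ≠ chevF4.nroots ∧ chevF4.commTerms r r' = [])
    (s : F) : (stbF4 φ).σ (xi (certF4.sys F) r s * xi (certF4.sys F) r' (φ s ^ 2)) =
      xi (certF4.sys F) r s * xi (certF4.sys F) r' (φ s ^ 2) := by
  rw [map_mul, stbF4, isogF4.stb_xi isogF4_ok φ h1, isogF4.stb_xi isogF4_ok φ h2, pow_one, map_pow, h3]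
  simpa using xi_comm (certF4.sys F) h4 s (φ s ^ 2) 1

theorem z_up (hK : (stbF4 φ).Good K) (h3 : ∀ t, φ (φ t) ^ 2 = t) {r r' : Rt chevF4}
    (h : (chevF4.nroots ≤ 2 * r ∧ chevF4.nroots ≤ 2 * r' ∨ ¬ chevF4.nroots ≤ 2 * r ∧ ¬ chevF4.nroots ≤ 2 * r') ∧
      isogF4.bar r = r' ∧ isogF4.lam r = 2 ∧
      isogF4.bar r' = r ∧ isogF4.lam r' = 1 ∧ (r' : ℕ) ≠ r ∧ (r' : ℕ) + r + 1 ≠ chevF4.nroots ∧
      chevF4.commTerms r r' = []) (s : F) :
    (certF4.sys F).x r s * (certF4.sys F).x r' (φ s ^ 2) ∈ K := by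
  obtain ⟨h0, h1, h2, h4, h5, h6⟩ := h
  have := z_fix h3 ⟨r.2, congrArg Fin.val h1, h2⟩ ⟨r'.2, congrArg Fin.val h4, h5⟩ ⟨r.2, r'.2, h6⟩ s
  rw [xi_val, xi_val] at this
  rw [← certF4.pos_iff_val, ← certF4.pos_iff_val] at h0
  rcases h0 with h0 | h0
  · exact hK.up _ (mul_mem ((certF4.sys F).x_mem_U (by exact h0.1) _) ((certF4.sys F).x_mem_U (by exact h0.2) _)) this
  · exact hK.um _ (mul_mem ((certF4.sys F).x_mem_U (by exact h0.1) _) ((certF4.sys F).x_mem_U (by exact h0.2) _)) this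

/-- the grading -/
def fT : (Nd chevF4 → ℤ) →ₗ[ℤ] ℤ := LinearMap.proj (nF 0) + (2 : ℤ) • LinearMap.proj (nF 3)

theorem fT_apply (v : Nd chevF4 → ℤ) : fT v = v (nF 0) + 2 * v (nF 3) := rfl

variable {a b c : chevF4.group F}

theorem top (hK : (stbF4 φ).Good K) (h3 : ∀ t, φ (φ t) ^ 2 = t) (hq : ∃ s : F, s ^ 2 ≠ s) (H : HK K a b c) :
    Dm (mdF4 F) K a (Pi.single 23 1) ∨ Dm (mdF4 F) K b (Pi.single 23 1) := by
  refine or_iff_not_imp_left.2 fun h y hy => ?_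
  obtain ⟨x, hx, h⟩ : ∃ x, Cj K a x ∧ _ := by simpa only [Dm, not_forall, exists_prop] using h
  obtain ⟨w, c1, -, c2, c3, -⟩ := wts h3 hq
  have o1 : (mdF4 F).Ω *ᵥ Pi.single 23 1 = (epsF4 44 : F) • Pi.single 0 1 := mdF4_Ω_ix (s := rF 44) (by decide +kernel)
  have o2 : (mdF4 F).Ω *ᵥ Pi.single 0 1 = (epsF4 3 : F) • Pi.single 23 1 := mdF4_Ω_ix (s := rF 3) (by decide +kernel)
  have := (mdF4 F).rel H hx hy (n := 1) (p := fun _ => 23) (m := fun _ => 0) (e := 1) (one_mul 1)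
    (fun _ => by simpa [show epsF4 44 = 1 by decide +kernel] using o1)
    (fun _ => by simpa [show epsF4 3 = 1 by decide +kernel] using o2)
    (f := fT) (k := 4) (by simp only [fT_apply, mdF4_wt]; decide +kernel)
    (o := (rF 33, true)) (os := [(rF 44, true), (rF 40, true)]) (by
      simp only [List.forall_mem_cons]
      exact ⟨av_pair _ (r' := rF 24) (by decide +kernel) (by decide +kernel) (z_up hK h3 (by decide +kernel)) c2 c3 c1,
        av_pair _ (r' := rF 47) (by decide +kernel) (by decide +kernel) (z_up hK h3 (by decide +kernel)) c2 c3 c1,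
        av_pair _ (r' := rF 46) (by decide +kernel) (by decide +kernel) (z_up hK h3 (by decide +kernel)) c2 c3 c1,
        by simp⟩)
    (by decide +kernel) (q := 2) (by simpa using CharP.cast_eq_zero F 2) (R := fun _ _ => [(23, 23, 1)])
    fun _ _ => by change Same 2 (List.foldl (fun L o => opL (fun r : Rt chevF4 => colF4 r) o L) _ _) _; decide +kernel
  simpa [Md.evB, h] using this

theorem act (r : Rt chevF4) (t : F) (b : Fin 26) : (mdF4 F).ρ ((certF4.sys F).x r t) *ᵥ Pi.single b 1 =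
    Pi.single b 1 + t • ((colF4 r 1 b).map fun p => (p.2 : F) • Pi.single p.1 1).sum +
      t ^ 2 • ((colF4 r 2 b).map fun p => (p.2 : F) • Pi.single p.1 1).sum := by
  rw [Md.ρ_x, show (mdF4 F).X r 3 = 0 from vF4.md_three F r, smul_zero, add_zero, add_mulVec, add_mulVec, one_mulVec,
    smul_mulVec, smul_mulVec, (mdF4 F).col_spec r 0, (mdF4 F).col_spec r 1]
  rfl

theorem act0 {r : Rt chevF4} {b : Fin 26} (h : colF4 r 1 b = [] ∧ colF4 r 2 b = []) (t : F) :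
    (mdF4 F).ρ ((certF4.sys F).x r t) *ᵥ Pi.single b 1 = Pi.single b 1 := by
  rw [act]
  simp [h]

theorem act1 {r : Rt chevF4} {b b' : Fin 26} (h : (colF4 r 1 b = [(b', 1)] ∨ colF4 r 1 b = [(b', -1)]) ∧
    colF4 r 2 b = []) (t : F) :
    (mdF4 F).ρ ((certF4.sys F).x r t) *ᵥ Pi.single b 1 = Pi.single b 1 + t • Pi.single b' 1 := by
  rw [act]
  rcases h.1 with h1 | h1 <;> simp [h1, h.2, CharTwo.neg_eq]

theorem pol (h3 : ∀ t, φ (φ t) ^ 2 = t) (hq : ∃ s : F, s ^ 2 ≠ s) {a0 a1 a2 a3 a4 a5 : F}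
    (h : ∀ s, a0 + s * a1 + φ s ^ 2 * a2 + s ^ 2 * a3 + s * φ s ^ 2 * a4 + (φ s ^ 2) ^ 2 * a5 = 0) : a3 = 0 := by
  obtain ⟨w, c1, c2, c3, c4, c5, c6⟩ := wts h3 hq
  have := Finset.sum_eq_zero (s := Finset.univ) fun s _ => mul_eq_zero_of_right (w s) (h s)
  simp only [mul_add, Finset.sum_add_distrib, ← mul_assoc (w _) _ a1, ← mul_assoc (w _) _ a2, ← mul_assoc (w _) _ a3,
    ← mul_assoc (w _) _ a4, ← mul_assoc (w _) _ a5, ← Finset.sum_mul, c1, c2, c3, c4, c5, c6] at this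
  simpa using this

theorem dm15 (hK : (stbF4 φ).Good K) (h3 : ∀ t, φ (φ t) ^ 2 = t) (hq : ∃ s : F, s ^ 2 ≠ s)
    (h : Dm (mdF4 F) K a (Pi.single 23 1)) : Dm (mdF4 F) K a (Pi.single 15 1) := fun x hx => by
  have key := fun s => h _ (hx.conj' (z_up hK h3 (r := rF 7) (r' := rF 1) (by decide +kernel) s))
  simp only [Md.B_conj, map_mul, ← mulVec_mulVec, act1 (r := rF 1) (b := 23) (b' := 10) (by decide +kernel),
    mulVec_add, mulVec_smul, act1 (r := rF 7) (b := 23) (b' := 15) (by decide +kernel),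
    act0 (r := rF 7) (b := 10) (by decide +kernel)] at key
  simp only [Md.B, mulVec_add, mulVec_smul, Md.κ_add_left, Md.κ_add_right, Md.κ_smul_left, Md.κ_smul_right] at key ⊢
  let B := fun i j => (mdF4 F).κ (Pi.single i 1) ((mdF4 F).ρ x *ᵥ Pi.single j 1)
  exact pol h3 hq (a0 := B 23 23) (a1 := B 23 15 + B 15 23) (a2 := B 23 10 + B 10 23) (a4 := B 10 15 + B 15 10)
    (a5 := B 10 10) fun s => by linear_combination key s

theorem dm21 (hK : (stbF4 φ).Good K) (h3 : ∀ t, φ (φ t) ^ 2 = t) (hq : ∃ s : F, s ^ 2 ≠ s)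
    (h : Dm (mdF4 F) K a (Pi.single 15 1)) : Dm (mdF4 F) K a (Pi.single 21 1) := fun x hx => by
  have key := fun s => h _ (hx.conj' (z_up hK h3 (r := rF 37) (r' := rF 32) (by decide +kernel) (φ s)))
  simp only [Md.B_conj, map_mul, ← mulVec_mulVec, act1 (r := rF 32) (b := 15) (b' := 21) (by decide +kernel),
    mulVec_add, mulVec_smul, act0 (r := rF 37) (b := 15) (by decide +kernel),
    act0 (r := rF 37) (b := 21) (by decide +kernel), h3] at key
  simp only [Md.B, mulVec_add, mulVec_smul, Md.κ_add_left, Md.κ_add_right, Md.κ_smul_left, Md.κ_smul_right] at key ⊢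
  let B := fun i j => (mdF4 F).κ (Pi.single i 1) ((mdF4 F).ρ x *ᵥ Pi.single j 1)
  exact pol h3 hq (a0 := B 15 15) (a1 := B 21 15 + B 15 21) (a2 := 0) (a4 := 0)
    (a5 := 0) fun s => by linear_combination key s

theorem B_ne {m v : chevF4.group F} {w : Equiv.Perm (Rt chevF4)} (h : (certF4.sys F).Over m w)
    (hv : v ∈ (certF4.sys F).Up) {r : Rt chevF4} (hr : certF4.len r = 1) (hw : w r.rev = r) :
    (mdF4 F).B (m * v) (Pi.single (ixF4 r) 1) (Pi.single (ixF4 r) 1) ≠ 0 := by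
  obtain ⟨c, h1⟩ := mdF4_over h.inv hr
  rw [show w⁻¹ r = r.rev from Equiv.Perm.inv_eq_iff_eq.2 hw.symm] at h1
  have h2 := (mdF4 F).B_single (mdF4_Ω_ix (s := r.rev) (by rwa [certF4.len_rev])) v (ixF4 r)
  rw [Fin.rev_rev, (mdF4 F).diag_Up hv, mul_one] at h2
  rw [Md.B, map_mul, ← mulVec_mulVec, ← inv_inv m, ← Md.κ_ρ, h1, Md.κ_smul_left, ← Md.B, h2]
  exact mul_ne_zero c.ne_zero (left_ne_zero_of_mul_eq_one (vF4.eps_sq F r.rev))

theorem not_dm (hK : Ok (stbF4 φ) K) (ha : a ∈ K) (h1 : a ≠ 1) (h2 : Dm (mdF4 F) K a (Pi.single 23 1))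
    (h3 : Dm (mdF4 F) K a (Pi.single 21 1)) : False := by
  obtain ⟨g, hg, -, J, m, v, hm, e⟩ := exists_max hK.bn (stbF4 φ).stable_univ ha (mem_L_univ a)
  have key : ∀ r : Rt chevF4, certF4.len r = 1 → (∀ j ∈ J, certF4.ss j r = r) →
      ¬ Dm (mdF4 F) K a (Pi.single (ixF4 r) 1) := fun r hr h4 h5 => by
    have h6 : certF4.w0 J r = r := certF4.WJ_induction_right (P := fun w => w r = r) rfl
      (fun w _ j hj h => by rw [Equiv.Perm.mul_apply, h4 j hj, h]) (certF4.w0_mem J)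
    exact B_ne hm.ov hm.vUp hr (by rw [Equiv.Perm.mul_apply, Cert.Aut.map_rev (certF4.w0_mem_Aut J), h6, w0F4,
      Fin.rev_rev]) (e ▸ h5 _ (Cj.of hg a))
  have s1 : nF 3 ∈ J ↔ nF 0 ∈ J := hm.stab (nF 0)
  have s2 : nF 2 ∈ J ↔ nF 1 ∈ J := hm.stab (nF 1)
  by_cases h4 : nF 0 ∈ J
  · by_cases h5 : nF 1 ∈ J
    · obtain rfl : J = Set.univ := Set.eq_univ_of_forall fun j => by
        fin_cases j
        exacts [h4, h5, s2.2 h5, s1.2 h4]
      exact (Cj.of hg a).ne_one h1 (e.trans (hm.eq_one hK))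
    · refine key (rF 39) (by decide +kernel) (fun j hj => Fin.ext ((ssF4 j _).trans ?_))
        ((show ixF4 (rF 39) = 21 by decide +kernel) ▸ h3)
      fin_cases j
      exacts [by decide +kernel, absurd hj h5, absurd (s2.1 hj) h5, by decide +kernel]
  · refine key (rF 44) (by decide +kernel) (fun j hj => Fin.ext ((ssF4 j _).trans ?_))
      ((show ixF4 (rF 44) = 23 by decide +kernel) ▸ h2)
    fin_cases j
    exacts [absurd hj h4, by decide +kernel, by decide +kernel, by decide +kernel]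

end TF

open Cfsg.Lie Cfsg.Agent.Chev Cfsg.Agent.Tw

theorem mix_TF4 {G : Type*} [Group G] (h : Cfsg.Lie.Iso2F4 G) : Mix 2 G := by
  obtain ⟨F, _, _, m, hm, hF, ⟨e⟩⟩ := h
  have hF' := Nat.card_eq_fintype_card.trans hF
  have : CharP F 2 := charP_of_card_eq_prime_pow hF
  obtain ⟨φ, -, h3, hK⟩ := goodTF4 hF'
  have hq : ∃ s : F, s ^ 2 ≠ s := exists_pow_ne F one_lt_two (by
    have := Nat.pow_le_pow_right two_pos (show 3 ≤ 2 * m + 1 by omega)
    omega)
  have ok : Ok (stbF4 φ) _ := ⟨hK, certF4.sys_φ_inj F, fun i => by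
    obtain ⟨y, hy, h⟩ := (nodeF4 hK h3 (fun _ => fixF4 hK) hq i).span.1
    exact ⟨y, hy, h ▸ one_ne_zero⟩⟩
  refine (MixK.mix fun a ha b hb c _ h1 h2 _ H => False.elim ?_).congr (e.trans (eqF4 F _).symm)
  rcases TF.top hK h3 hq H with h | h
  exacts [TF.not_dm ok ha h1 h (TF.dm21 hK h3 hq (TF.dm15 hK h3 hq h)),
    TF.not_dm ok hb h2 h (TF.dm21 hK h3 hq (TF.dm15 hK h3 hq h))]

end Cfsg.Agent.AH
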