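import Cfsg.Agent.AH.Ad
import Cfsg.Agent.Tw.InvChk

/-! Domestic elements, the top relation, matrix entries, non-domesticity. -/

set_option autoImplicit false

namespace Cfsg.Agent.AH

open Cfsg.Lie Cfsg.Lie.ChevalleyDatum Cfsg.Agent.Chev Cfsg.Agent.Tw Matrix Equiv

variable {D : ChevalleyDatum} {C : Cert D} {F : Type*} [Field F] {G : Type*} [Group G] {S : Sys C F G}

namespace Md

variable {ι : Type} [Fintype ι] [DecidableEq ι] (V : Md S ι) {f : (Nd D → ℤ) →ₗ[ℤ] ℤ} {k : ℤ} {T : Set (Rt D)}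
  {v : G} {a b : ι}

theorem ent_lt (hk : 0 ≤ k) (hT : ∀ r ∈ T, k ≤ f (C.rc r)) (hv : v ∈ S.U T) (h : f (V.wt a) - f (V.wt b) < k) :
    V.ρ v a b = if a = b then 1 else 0 := by
  simpa [sub_eq_zero, one_apply] using V.fil_U hk hT hv a b h

theorem ent_sum (hk : 0 < k) (hT : ∀ r ∈ T, k ≤ f (C.rc r)) (hv : v ∈ S.U T) : ∃ t : Rt D → F,
    (∀ r, f (C.rc r) < 2 * k → S.cd r v = t r) ∧ ∀ a b, f (V.wt a) - f (V.wt b) < 2 * k →
      (V.ρ v - 1) a b = ∑ r, t r * V.X r 1 a b := by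
  obtain ⟨t, h1, rfl⟩ := S.exists_nf (Cert.closed_ge f hk.le) (Cert.nil_of_fun f fun _ h => hk.trans_le h)
    (List.nodup_finRange _) (fun r _ => List.mem_finRange r) (S.U_mono hT hv)
  exact ⟨t, fun r hr => by simpa using S.cd_nf hk.le (fun _ h => h) hr (List.nodup_finRange _) fun s _ => h1 s,
    fun a b => V.ent_lin hk fun r hr => h1 r (not_le.2 hr)⟩

theorem ent_root (hk : 0 < k) (hT : ∀ r ∈ T, k ≤ f (C.rc r)) (hv : v ∈ S.U T) {r : Rt D}
    (h : V.wt a = V.wt b + C.rc r) (hr : f (C.rc r) < 2 * k) : V.ρ v a b = S.cd r v * V.X r 1 a b := by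
  obtain ⟨t, h1, h2⟩ := V.ent_sum hk hT hv
  have := h2 a b (by rw [h, map_add]; omega)
  rwa [V.sum_X h, ← h1 r hr, Matrix.sub_apply, one_apply_ne, sub_zero] at this
  rintro rfl
  exact C.rc_ne_zero r (by simpa using h)

theorem ent_zero (hk : 0 < k) (hT : ∀ r ∈ T, k ≤ f (C.rc r)) (hv : v ∈ S.U T) (h0 : a ≠ b)
    (h : ∀ r, V.wt a ≠ V.wt b + C.rc r) (hr : f (V.wt a) - f (V.wt b) < 2 * k) : V.ρ v a b = 0 := by
  obtain ⟨t, -, h2⟩ := V.ent_sum hk hT hv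
  have := h2 a b hr
  rwa [V.sum_X_zero h, Matrix.sub_apply, one_apply_ne h0, sub_zero] at this

/-- an entry of weight twice an extremal root -/
theorem ent_sq (hT : ∀ r ∈ T, k ≤ f (C.rc r)) (hv : v ∈ S.U T) {r : Rt D} (h0 : 0 ≤ f (C.rc r))
    (h1 : f (C.rc r) < k) (h : V.wt a = V.wt b + (2 : ℤ) • C.rc r) (t : F) :
    V.ρ (S.x r t * v) a b = t ^ 2 * V.X r 2 a b := by
  have e : ∀ j : ℤ, V.wt a = V.wt b + j • C.rc r → j = 2 := fun j hj => by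
    rw [h, add_right_inj] at hj
    exact (smul_left_injective ℤ (C.rc_ne_zero r) hj).symm
  have hab : a ≠ b := by
    rintro rfl
    simpa using e 0 (by simp)
  have hd : f (V.wt a) - f (V.wt b) = 2 * f (C.rc r) := by rw [h, map_add, map_smul]; simp
  have h2 := V.ent_zero (by omega) hT hv hab (fun s hs => by
    have := C.eq_of_smul (r := r) (s := s) (m := 2) (by rw [h, add_right_inj] at hs; exact hs.symm)
    omega) (by omega)
  have h3 := ((V.fil_x' h0 t).mul (V.fil_U (by omega) hT hv)) a b (by simp only; omega)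
  have h4 : V.X r 1 a b = 0 := by_contra fun h4 => by simpa using e _ (V.X_wt r 0 a b h4)
  have h5 : V.X r 3 a b = 0 := by_contra fun h4 => by simpa using e _ (V.X_wt r 2 a b h4)
  rw [show (V.ρ (S.x r t) - 1) * (V.ρ v - 1) = V.ρ (S.x r t * v) - V.ρ (S.x r t) - V.ρ v + 1 by
    rw [map_mul]; noncomm_ring, V.ρ_x] at h3
  simpa [h2, h4, h5, one_apply_ne hab, sub_eq_zero] using h3

end Md

/-- domestic elements -/
def Dm {ι : Type} [Fintype ι] [DecidableEq ι] (V : Md S ι) (K : Subgroup G) (a : G) (e : ι → F) : Prop :=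
  ∀ x, Cj K a x → V.B x e e = 0

/-- two nontrivial elements of a root group -/
def Two (S : Sys C F G) (K : Subgroup G) (r : Rt D) : Prop :=
  ∃ s t : F, s ≠ 0 ∧ t ≠ 0 ∧ s ≠ t ∧ S.x r s ∈ K ∧ S.x r t ∈ K

theorem A_top_cases (r : Rt D) : (-2 < C.A C.top r ∨ r = C.top.rev) ∧ (C.A C.top r < 2 ∨ r = C.top) := by
  refine ⟨or_iff_not_imp_right.2 fun h => ?_, or_iff_not_imp_right.2 fun h => (C.A_top_le_one h).trans_lt one_lt_two⟩
  have := C.A_top_le_one (r := r.rev) fun e => h (by rw [← e, Fin.rev_rev])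
  rw [C.A_rev_right] at this
  omega

variable {K : Subgroup G} {a b c : G}

theorem top_ad (H : HK K a b c) {α β : Rt D} (hα : C.A C.top α = 1) (hβ : C.A C.top β = 1) (h1 : Two S K β)
    (h2 : Two S K α) (h3 : Two S K C.top) {ε : ℤ} (hε : ε = 1 ∨ ε = -1)
    (h6 : Same 0 ([(β, true), (α, true), (C.top, true)].foldl (fun L o => opL (adc D) o L)
      [(.inr C.top.rev, .inr C.top.rev, 1)]) [(.inr C.top, .inr C.top, ε)]) :
    Dm (ad S) K a (eR F C.top) ∨ Dm (ad S) K b (eR F C.top) := by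
  refine or_iff_not_imp_left.2 fun h y hy => ?_
  obtain ⟨x, hx, h⟩ : ∃ x, Cj K a x ∧ _ := by simpa [Dm] using h
  have av : ∀ r, 0 < C.A C.top r → Two S K r → (ad S).Av K (C.prL C.top) (r, true) :=
    fun r hr ⟨s, t, a1, a2, a3, a4, a5⟩ => (ad S).av_sq (by rwa [C.prL_rc]) a1 a2 a3 a4 a5
  have := (ad S).rel H hx hy (n := 1) (p := fun _ => .inr C.top) (m := fun _ => .inr C.top.rev) (e := 1) (one_mul 1)
    (fun _ => Ω_long rfl) (fun _ => by simpa using Ω_long (S := S) (C.len_rev _))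
    (f := C.prL C.top) (k := 2) ⟨Function.injective_of_subsingleton _, Function.injective_of_subsingleton _,
      fun i => by simp [ad, C.prL_rc, C.A_self, C.A_rev_right], fun a => by
        rcases a with i | r
        · simp [ad]
        · simpa [ad, C.prL_rc] using A_top_cases r⟩
    (o := (β, true)) (os := [(α, true), (C.top, true)]) (by
      simp only [List.forall_mem_cons]
      exact ⟨av _ (by omega) h1, av _ (by omega) h2, av _ (by simp [C.A_self]) h3, by simp⟩)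
    (by simp [Md.dg, C.prL_rc, hα, hβ, C.A_self]) Int.cast_zero (R := fun _ _ => [(.inr C.top, .inr C.top, ε)])
    fun _ _ => h6
  rcases hε with rfl | rfl <;> simpa [Md.evB, h] using this

/-! ### action on root vectors -/

/-- coroot vectors -/
abbrev hR (F : Type*) [Field F] (C : Cert D) (r : Rt D) : D.Idx → F := vc F (C.hv r)

theorem x_eR_fix {r s : Rt D} (hs : s ≠ r.rev) (h : ∀ u, C.rc u ≠ C.rc r + C.rc s) (t : F) :
    S.φ (S.x r t) *ᵥ eR F s = eR F s := by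
  rw [← vc_eb (C := C), S.φ_x, C.xR_eb_of_N_zero hs (C.N_eq_zero_of_not_root h)]

theorem x_eR_self (r : Rt D) (t : F) : S.φ (S.x r t) *ᵥ eR F r = eR F r := by
  rw [← vc_eb (C := C), S.φ_x, C.xR_eb_self]

theorem x_eR_add {r s u : Rt D} (h : C.rc u = C.rc r + C.rc s) (h2 : ∀ v, C.rc v ≠ C.rc r + C.rc u) (t : F) :
    S.φ (S.x r t) *ᵥ eR F s = eR F s + (C.N r s * t) • eR F u := by
  have e1 := C.ch_step le_rfl (C.ch_one_of_add h)
  have e2 : C.ch r s 2 = none := e1.1.trans ((C.N_eq_zero_iff _ _).1 (C.N_eq_zero_of_not_root h2))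
  have e3 : C.ch r s 3 = none := (C.ch_eq_none_iff r s 2).2 (((C.ch_eq_none_iff r s 1).1 e2).trans one_le_two)
  rw [← vc_eb (C := C), S.φ_x, C.xR_eb (by rintro rfl; exact C.rc_ne_zero u (by simp [h, C.rc_neg])),
    C.M_eq_zero e2, C.M_eq_zero e3, ← h, C.ev_rc, C.M_one, vc_eb, vc_eb]
  simp

theorem x_eR_rev (r : Rt D) (t : F) :
    S.φ (S.x r t) *ᵥ eR F r.rev = eR F r.rev + t • hR F C r - t ^ 2 • eR F r := by
  rw [← vc_eb (C := C), S.φ_x, C.xR_eb_rev, vc_eb, vc_eb]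

theorem x_hR (r s : Rt D) (t : F) : S.φ (S.x r t) *ᵥ hR F C s = hR F C s - (C.A s r * t) • eR F r := by
  rw [S.φ_x, C.xR_hv, vc_eb]

theorem n_eR (r s : Rt D) (t : Fˣ) :
    S.φ (S.n r t) *ᵥ eR F s = ((C.eta r s : F) * (t ^ (- C.A r s) : Fˣ)) • eR F (C.refl r s) := by
  rw [← vc_eb (C := C), S.φ_n, C.nR_eb, vc_eb]

theorem H_eR {h : G} (hh : h ∈ S.H) (r : Rt D) : S.φ h *ᵥ eR F r = (S.chi h r : F) • eR F r := by
  rw [← vc_eb (C := C), Sys.φ_eq_dg hh, C.dg_eb]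

theorem κ_ee (r s : Rt D) : (ad S).κ (eR F r) (eR F s) = if s = r.rev then (mu C r : F) else 0 := by
  rw [κ_eR]; simp [Pi.single_apply, eq_comm]

theorem κ_eh (r s : Rt D) : (ad S).κ (eR F r) (hR F C s) = 0 := by
  rw [κ_eR]; simp [vc, Cert.hv]

theorem κ_hh (r s : Rt D) : (ad S).κ (hR F C r) (hR F C s) = C.A r s * mu C s := by
  rw [Md.κ, show (ad S).Ω *ᵥ hR F C s = vc F (Om C *ᵥ C.hv s) from cst_mulVec F _ _, C.A_eq_sum]
  simp only [dotProduct, vc, Fintype.sum_sum_type, Om_hv, Om_hv']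
  simp [Cert.hv, Finset.sum_mul, mul_assoc]

theorem N_unit {r s u : Rt D} (h : C.rc u = C.rc r + C.rc s) (h2 : ∀ v, C.rc v ≠ C.rc s - C.rc r) (h3 : s ≠ r) :
    (C.N r s : F) * C.N r s = 1 := by
  have h1 := C.N_abs' (C.ch_one_of_add h)
  rw [(C.N_eq_zero_iff' _ _).1 (C.N_eq_zero_of_not_root fun v hv => h2 v (by rw [hv, C.rc_neg]; abel))] at h1
  rw [← Int.cast_mul, ← abs_mul_abs_self, h1]
  simp

theorem cd_H {h : G} (hh : h ∈ S.H) (r : Rt D) (y : G) : S.cd r (h * y * h⁻¹) = S.chi h r * S.cd r y := by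
  have h1 := (Sys.isChar_chi hh).1 r
  simp only [Sys.cd, Cert.cdM, map_mul, Sys.φ_inv_of_dg (Sys.φ_eq_dg hh), Finset.mul_sum]
  rw [Sys.φ_eq_dg hh]
  refine Finset.sum_congr rfl fun i _ => ?_
  simp [Cert.dg, h1]
  ring

/-! ### non-domesticity -/

variable {T : Stb S}

/-- the standing hypotheses -/
structure Ok (T : Stb S) (K : Subgroup G) : Prop extends T.Good K where
  inj : Function.Injective S.φ
  cd : ∀ i, ∃ y ∈ T.Xp K i, S.cd (C.sp i) y ≠ 0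

theorem Ok.bn (h : Ok T K) : T.BN K :=
  ⟨h.toGood, fun i => (h.cd i).imp fun _ hy => ⟨hy.1, fun e => hy.2 (e ▸ S.cd_one _)⟩⟩

theorem ok_one (h : Function.Injective S.φ) : Ok (Stb.one S) ⊤ :=
  ⟨Stb.good_one, h, fun i => ⟨S.x (C.sp i) 1, ⟨S.x_mem_U (by exact ⟨C.pos_sp i, C.inJ_sp.2 (Stb.mem_orb _ i)⟩) 1,
    trivial⟩, by simp [S.cd_x_self]⟩⟩

variable {M J : Set (Nd D)} {m v : G}

theorem MaxC.fix (h : MaxC T K M J m v) (hs : T.Sep K) : ∀ j ∈ J, (C.w0 M * C.w0 J) (C.sp j) = C.sp j :=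
  hs.fix h.stab h.ov (fun j hj => by
    obtain ⟨k, hk, e⟩ := Cert.exists_w0_w0_sp (C := C) h.sub hj
    have e2 : (C.w0 M * C.w0 J) (C.sp j) = C.sp k := by
      rw [← e, ← Perm.mul_apply, show C.w0 M * C.w0 J * (C.w0 J * C.w0 M) = 1 by
        rw [mul_assoc, ← mul_assoc (C.w0 J), Cert.w0_mul_self, one_mul, Cert.w0_mul_self], Perm.one_apply]
    refine ⟨k, by_contra fun hk' => ?_, e2⟩
    have e3 : (C.w0 M * C.w0 J) (C.sp k) = C.sp j := by rw [← h.inv, Perm.inv_eq_iff_eq, e2]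
    exact (Cert.pos_w0_iff ((Cert.inJ_map (C.WJ_mono h.sub (C.w0_mem J)) _).2 (C.inJ_sp.2 hk))).1
      (show C.Pos ((C.w0 M * C.w0 J) (C.sp k)) from e3 ▸ C.pos_sp j)
      (Cert.pos_map_of_not_inJ (C.w0_mem J) (C.pos_sp k) (by rwa [C.inJ_sp]))) h.neg

theorem MaxC.vUp (h : MaxC T K M J m v) : v ∈ S.Up := S.U_le_Up (fun _ h => h.1) h.vU

theorem MaxC.memW (h : MaxC T K M J m v) : C.w0 M * C.w0 J ∈ C.WJ M :=
  mul_mem (C.w0_mem M) (C.WJ_mono h.sub (C.w0_mem J))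

theorem MaxC.torus (h : MaxC T K M M m v) (hK : Ok T K) : v = 1 ∧ m ∈ S.H ∧ ∀ j ∈ M, S.chi m (C.sp j) = 1 := by
  have h1 : m ∈ S.H := (Cert.w0_mul_self M ▸ h.ov).mem_H
  refine ⟨by simpa [S.U_empty] using h.vU, h1, fun j hj => ?_⟩
  obtain ⟨y, hy, h2⟩ := hK.cd j
  have := cd_H h1 (C.sp j) y
  rw [h.pos y hy.2 (S.U_mono (fun r hr => by
    exact ⟨hr.1, hr.2.mono fun i hi => (h.stab.orb_iff hi).2 hj⟩) hy.1), mul_inv_cancel_right] at this
  exact Units.ext (mul_right_cancel₀ h2 (by rw [← this, Units.val_one, one_mul]))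

theorem MaxC.eq_one (h : MaxC T K Set.univ Set.univ m v) (hK : Ok T K) : m * v = 1 := by
  obtain ⟨rfl, h1, h2⟩ := h.torus hK
  exact hK.inj (by rw [mul_one, Sys.φ_eq_one_of_chi h1 fun i => h2 i trivial, map_one])

theorem B_ne_conj {n x : G} {w : Perm (Rt D)} (hn : S.Over n w) {r : Rt D}
    (h : (ad S).B x (eR F (w r)) (eR F (w r)) ≠ 0) : (ad S).B (n⁻¹ * x * n) (eR F r) (eR F r) ≠ 0 := by
  obtain ⟨c, h1⟩ := over_eR hn r
  rw [Md.B_conj, show (ad S).ρ = S.φ from rfl, h1, Md.B, mulVec_smul, Md.κ_smul_left, Md.κ_smul_right]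
  exact mul_ne_zero c.ne_zero (mul_ne_zero c.ne_zero h)

/-- every admissible cell negates a conjugate of `γ` -/
def ND (T : Stb S) (M : Set (Nd D)) (γ : Rt D) : Prop := ∀ J ⊆ M, T.Stable J → J ≠ M →
  (∀ j ∈ J, (C.w0 M * C.w0 J) (C.sp j) = C.sp j) → (C.w0 M * C.w0 J)⁻¹ = C.w0 M * C.w0 J →
    ∃ u ∈ C.WJ M, T.cj u = u ∧ (C.w0 M * C.w0 J) (u γ).rev = u γ

theorem ND.conj {γ : Rt D} (h : ND T M γ) (hK : Ok T K) (hs : T.Sep K) (hM : T.Stable M) (hγ : C.len γ = C.len C.top)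
    {t : G} (ht : t ∈ K) (hL : t ∈ S.L M) : ∃ g ∈ K, g ∈ S.L M ∧ ((g * t * g⁻¹ ∈ S.H ∧
      ∀ j ∈ M, S.chi (g * t * g⁻¹) (C.sp j) = 1) ∨ (ad S).B (g * t * g⁻¹) (eR F γ) (eR F γ) ≠ 0) := by
  obtain ⟨g, hg, hgL, J, m, v, hm, e⟩ := exists_max hK.bn hM ht hL
  by_cases hJ : J = M
  · subst hJ
    obtain ⟨rfl, h1⟩ := hm.torus hK
    exact ⟨g, hg, hgL, Or.inl (by rwa [e, mul_one])⟩
  obtain ⟨u, hu, h1, h2⟩ := h J hm.sub hm.stab hJ (hm.fix hs) hm.inv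
  obtain ⟨n, hnK, hn⟩ := hK.ex_over u (C.WJ_le_W _ hu) h1
  refine ⟨n⁻¹ * g, mul_mem (inv_mem hnK) hg, mul_mem (inv_mem (hn.mem_L hu)) hgL, Or.inr ?_⟩
  have := B_ne_conj hn (B_ne_zero hm.ov hm.vUp (by rw [Cert.Aut.len_map hn.mem_Aut, hγ]) h2)
  rwa [← e, show n⁻¹ * (g * t * g⁻¹) * n = n⁻¹ * g * t * (n⁻¹ * g)⁻¹ by group] at this

theorem mem_L_univ (g : G) : g ∈ S.L Set.univ := by
  rw [Sys.L, show {r | C.InJ Set.univ r} = Set.univ from Set.eq_univ_of_forall C.inJ_univ, S.U_univ]; simp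

theorem ND.not_dm (h : ND T Set.univ C.top) (hK : Ok T K) (hs : T.Sep K) (ha : a ∈ K) (h1 : a ≠ 1) :
    ¬ Dm (ad S) K a (eR F C.top) := fun hd => by
  obtain ⟨g, hg, -, ⟨h2, h3⟩ | h2⟩ := h.conj hK hs T.stable_univ rfl ha (mem_L_univ a)
  · exact (Cj.of hg a).ne_one h1 (hK.inj (by rw [Sys.φ_eq_one_of_chi h2 fun i => h3 i trivial, map_one]))
  · exact h2 (hd _ (Cj.of hg a))

/-- a nontrivial involution of `W_M` negates a root -/
theorem exists_neg_root {w : Perm (Rt D)} (hw : w ∈ C.WJ M) (h1 : w⁻¹ = w) (h2 : w ≠ 1) :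
    ∃ r, C.InJ M r ∧ w r.rev = r := by
  induction hn : C.ln w using Nat.strong_induction_on generalizing w with | _ n ih =>
  obtain ⟨j, hj, h3⟩ := Cert.exists_neg_J hw h2
  have hA := C.WJ_le_Aut M hw
  by_cases h4 : w (C.sp j) = (C.sp j).rev
  · exact ⟨C.sp j, C.inJ_sp.2 hj, by rw [Cert.Aut.map_rev hA, h4, Fin.rev_rev]⟩
  have hs := C.ss_mem_WJ hj
  have e1 := Cert.Aut.ln_mul_ss_of_neg hA h3
  have e2 := Cert.Aut.ln_ss_mul_of_neg (mul_mem hA (C.ss_mem_Aut j)) (i := j) (by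
    rw [_root_.mul_inv_rev, h1, C.ss_inv, Perm.mul_apply, C.pos_ss_iff (fun e => h3 (by rw [e]; exact C.pos_sp j)) h4]
    exact h3)
  obtain ⟨r, h5, h6⟩ := ih _ (show C.ln (C.ss j * (w * C.ss j)) < n by omega) (mul_mem hs (mul_mem hw hs))
    (by simp [h1, C.ss_inv, mul_assoc]) (fun e => h2 (by
      calc w = C.ss j * (C.ss j * (w * C.ss j)) * C.ss j := by simp [← mul_assoc, C.ss_mul_self, mul_assoc w]
        _ = 1 := by rw [e, mul_one, C.ss_mul_self])) rfl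
  refine ⟨C.ss j r, (Cert.inJ_map hs r).2 h5, ?_⟩
  rw [← Cert.Aut.map_rev (C.ss_mem_Aut j)]
  simpa [C.ss_ss] using congrArg (C.ss j) h6

theorem nd_one {γ : Rt D} (h : ∀ r, C.InJ M r → (∀ j ∈ M, 0 ≤ C.A r (C.sp j)) → r = γ) : ND (Stb.one S) M γ :=
  fun J hJ _ h1 _ h2 => by
    have hw := mul_mem (C.w0_mem M) (C.WJ_mono hJ (C.w0_mem J))
    obtain ⟨r, h3, h4⟩ := exists_neg_root hw h2 fun e => h1 (hJ.antisymm fun j hj => by_contra fun hj' => C.w0_sp hj (by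
      rw [mul_eq_one_iff_eq_inv.1 e, Cert.w0_inv]
      exact Cert.pos_map_of_not_inJ (C.w0_mem J) (C.pos_sp j) (by rwa [C.inJ_sp])))
    obtain ⟨u, hu, h5⟩ := C.exists_dom M (C.prL r)
    obtain rfl := h (u⁻¹ r) ((Cert.inJ_map (inv_mem hu) r).2 h3) fun j hj => by
      rw [← Cert.Aut.A_map (C.WJ_le_Aut M hu)]
      simpa [C.prL_rc] using h5 j hj
    exact ⟨u, hu, by simp [Stb.cj, Stb.one], by simpa using h4⟩

end Cfsg.Agent.AH
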