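import Cfsg.Agent.AH.UWt
import Cfsg.Agent.AH.POm

/-!
Products of two conjugacy classes: unitary groups over the field of four elements, preparations.
-/

set_option autoImplicit false

namespace Cfsg.Agent.AH.Cls

open Module Cfsg.Agent.Polar Cfsg.Agent.Polar.PQ Forms

section Alg

variable {F : Type*} [Field F] {V : Type*} [AddCommGroup V] [Module F V]

theorem finrank_ker_mul_le [FiniteDimensional F V] (A B : End F V) :
    finrank F (LinearMap.ker (A * B)) ≤ finrank F (LinearMap.ker A) + finrank F (LinearMap.ker B) := by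
  have h1 := LinearMap.finrank_range_add_finrank_ker (B.domRestrict (LinearMap.ker (A * B)))
  have h2 : LinearMap.range (B.domRestrict (LinearMap.ker (A * B))) ≤ LinearMap.ker A := by
    rintro _ ⟨v, rfl⟩
    exact v.2
  have h3 := Submodule.finrank_mono h2
  have h4 := Submodule.finrank_map_subtype_eq (LinearMap.ker (A * B))
    (LinearMap.ker (B.domRestrict (LinearMap.ker (A * B))))
  have h5 : (LinearMap.ker (B.domRestrict (LinearMap.ker (A * B)))).map (Submodule.subtype _) ≤ LinearMap.ker B := by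
    rintro _ ⟨v, hv, rfl⟩
    exact hv
  have h6 := Submodule.finrank_mono h5
  omega

theorem four_cube [Fintype F] (hF : Fintype.card F = 2 ^ 2) {a : F} (ha : a ≠ 0) : a ^ 3 = 1 := by
  have := FiniteField.pow_card_sub_one_eq_one a ha
  rwa [hF] at this

theorem four_two [Fintype F] (hF : Fintype.card F = 2 ^ 2) : (2 : F) = 0 := by
  have := FiniteField.cast_card_eq_zero F
  rw [hF] at this
  exact pow_eq_zero_iff (two_ne_zero (α := ℕ)) |>.1 (by exact_mod_cast this)

theorem four_form_zero [Fintype F] (hF : Fintype.card F = 2 ^ 2) (M : Fin 3 → Fin 3 → F) :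
    ∃ a : Fin 3 → F, a ≠ 0 ∧ ∑ i, ∑ j, a i * a j ^ 2 * M i j = 0 := by
  classical
  by_contra h
  push Not at h
  have deg : (∑ i, ∑ j, MvPolynomial.X i * MvPolynomial.X j ^ 2 * MvPolynomial.C (M i j) :
      MvPolynomial (Fin 3) F).totalDegree ≤ 3 := by
    refine (MvPolynomial.totalDegree_finsetSum _ _).trans (Finset.sup_le fun i _ => ?_)
    refine (MvPolynomial.totalDegree_finsetSum _ _).trans (Finset.sup_le fun j _ => ?_)
    refine (MvPolynomial.totalDegree_mul _ _).trans ?_
    have := MvPolynomial.totalDegree_mul (MvPolynomial.X i : MvPolynomial (Fin 3) F) (MvPolynomial.X j ^ 2)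
    rw [MvPolynomial.totalDegree_X, MvPolynomial.totalDegree_X_pow] at this
    rw [MvPolynomial.totalDegree_C]
    exact this
  have deg' : (∑ i, ∑ j, MvPolynomial.X i ^ 2 * MvPolynomial.X j * MvPolynomial.C (M i j ^ 2) :
      MvPolynomial (Fin 3) F).totalDegree ≤ 3 := by
    refine (MvPolynomial.totalDegree_finsetSum _ _).trans (Finset.sup_le fun i _ => ?_)
    refine (MvPolynomial.totalDegree_finsetSum _ _).trans (Finset.sup_le fun j _ => ?_)
    refine (MvPolynomial.totalDegree_mul _ _).trans ?_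
    have := MvPolynomial.totalDegree_mul (MvPolynomial.X i ^ 2 : MvPolynomial (Fin 3) F) (MvPolynomial.X j)
    rw [MvPolynomial.totalDegree_X, MvPolynomial.totalDegree_X_pow] at this
    rw [MvPolynomial.totalDegree_C]
    exact this
  have h1 := MvPolynomial.sum_eval_eq_zero _ (((MvPolynomial.totalDegree_mul _ _).trans
    (add_le_add deg deg')).trans_lt (by rw [hF]; simp))
  have h2 : ∀ a : Fin 3 → F, ∑ i, ∑ j, a i ^ 2 * a j * M i j ^ 2 = frobq hF (∑ i, ∑ j, a i * a j ^ 2 * M i j) :=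
    fun a => by
      simp only [map_sum, map_mul, map_pow, frobq_apply]
      refine Finset.sum_congr rfl fun i _ => Finset.sum_congr rfl fun j _ => ?_
      have := FiniteField.pow_card (a j)
      rw [hF] at this
      rw [← pow_mul, show 2 * 2 = 2 ^ 2 from rfl, this]
  simp only [map_mul, map_sum, map_pow, MvPolynomial.eval_X, MvPolynomial.eval_C] at h1
  simp only [h2] at h1
  simp only [frobq_apply] at h1
  have h3 : ∀ a : Fin 3 → F, (∑ i, ∑ j, a i * a j ^ 2 * M i j) * (∑ i, ∑ j, a i * a j ^ 2 * M i j) ^ 2 =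
      1 - if a = 0 then 1 else 0 := fun a => by
    split_ifs with h0
    · simp [h0]
    · rw [← pow_succ', four_cube hF (h a h0), sub_zero]
  simp only [h3, Finset.sum_sub_distrib, Finset.sum_ite_eq', Finset.mem_univ, if_true, Finset.sum_const,
    Finset.card_univ, nsmul_eq_mul] at h1
  rw [Fintype.card_fun, Nat.cast_pow, FiniteField.cast_card_eq_zero] at h1
  simp at h1

end Alg

section Gen

variable {F : Type*} [Field F] [Fintype F] {q : ℕ} {hF : Fintype.card F = q ^ 2}
variable {V : Type*} [AddCommGroup V] [Module F V] {P : PQ (uFP hF) V} [FiniteDimensional F V]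

theorem u_idx4 (h6 : 6 ≤ finrank F V) (a b c d : V) :
    ∃ z, z ≠ 0 ∧ P.Sing z ∧ P.B z a = 0 ∧ P.B z b = 0 ∧ P.B z c = 0 ∧ P.B z d = 0 := by
  obtain ⟨z, hz, h0, hs⟩ := u_iso (P := P) (P.perp {a, b, c, d}) (by have := finrank_perp₄ (P := P) a b c d; omega)
  exact ⟨z, h0, hs, mem_perp₄.1 hz⟩

theorem u_geo (hP : P.ND) (h6 : 6 ≤ finrank F V) : Geo P where
  toGeo0 := u_geo0 hP (by omega)
  vt2 _ _ h := u_vTrans (h.emb.nd hP) (by have := h.finrank_perp; omega)
  idx a b := by
    obtain ⟨z, h0, h1, h2, h3, -⟩ := u_idx4 (P := P) h6 a b a b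
    exact ⟨z, h0, h1, h2, h3⟩
  rich2 _ _ _ := u_rich
  conn2 := Or.inr (u_idx4 h6)

theorem u_two_iso (hP : P.ND) (W : Submodule F V) (h3 : 3 ≤ finrank F W) :
    ∃ a ∈ W, ∃ b ∈ W, P.Sing a ∧ P.Sing b ∧ a ≠ 0 ∧ b ∉ F ∙ a := by
  obtain ⟨a, ha, ha0, has⟩ := u_iso (P := P) W (by omega)
  obtain ⟨f, hf⟩ := hP.exists_hyp has ha0
  obtain ⟨b, hb, hb0, hbs⟩ := u_iso (P := P) (W ⊓ P.perp {f}) (by
    have h1 := Submodule.finrank_sup_add_finrank_inf_eq W (P.perp {f})
    have h2 := finrank_perp_singleton (P := P) f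
    have h4 := Submodule.finrank_le (W ⊔ P.perp {f})
    omega)
  refine ⟨a, ha, b, hb.1, has, hbs, ha0, fun h => hb0 ?_⟩
  obtain ⟨c, rfl⟩ := Submodule.mem_span_singleton.1 h
  have := mem_perp_singleton.1 hb.2
  rw [B_smul_left, hf.pair, mul_one] at this
  rw [this, zero_smul]

variable (P) in
/-- the sesquilinear determinant on the pairs `(u, w)` -/
def dd (z : End F V) (u w w' : V) : F := P.B (z u) u * P.B (z w) w' - P.B (z w) u * P.B (z u) w'

omit [FiniteDimensional F V] in
theorem bt_smul (z : End F V) (u w w' : V) (a b : F) :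
    bt P z u (a • w) (b • w') = a * frobq hF b * dd P z u w w' + b * frobq hF a * dd P z u w' w := by
  simp only [bt, dd, map_smul z, B_smul_left, B_smul_right]; ring

end Gen

variable {F : Type*} [Field F] [Fintype F] {hF : Fintype.card F = 2 ^ 2}
variable {V : Type*} [AddCommGroup V] [Module F V] {P : PQ (uFP hF) V} [FiniteDimensional F V]

theorem u_diag_zero (G : Geo P) (h6 : 6 ≤ finrank F V) (z : End F V) : ∃ w, w ≠ 0 ∧ P.Sing w ∧ P.B (z w) w = 0 := by
  obtain ⟨u, f, hf⟩ := G.hyp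
  obtain ⟨a, hua⟩ := G.exists_TS hf.left hf.left_ne_zero
  obtain ⟨b, c, hb, b1, b2, z1, z2, z3⟩ := exists_third G.nd (u_idx4 h6) hua
  obtain ⟨s, hs, h⟩ := four_form_zero hF fun i j => P.B (z (![u, a, b] i)) (![u, a, b] j)
  refine ⟨s 0 • u + s 1 • a + s 2 • b, fun h0 => hs ?_, ?_, ?_⟩
  · have h2 : s 2 = 0 := by simpa [z1, z2, z3] using congrArg (P.B · c) h0
    obtain ⟨φ, e1, e2⟩ := exists_dual₂ hua.u0 hua.li 1 0
    obtain ⟨ψ, e3, e4⟩ := exists_dual₂ hua.u0 hua.li 0 1
    have h0' : s 0 = 0 := by simpa [h2, e1, e2] using congrArg φ h0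
    have h1' : s 1 = 0 := by simpa [h2, e3, e4] using congrArg ψ h0
    ext i
    fin_cases i
    exacts [h0', h1', h2]
  · exact ((hua.su.smul _).add (hua.sv.smul _) (by simp [hua.uv])).add (hb.smul _)
      (by simp [B_swap_zero b1, B_swap_zero b2])
  · simp only [Fin.sum_univ_three, Matrix.cons_val_zero, Matrix.cons_val_one, Matrix.cons_val_two, Matrix.head_cons,
      Matrix.tail_cons] at h
    simp only [map_add, map_smul z, LinearMap.add_apply, B_smul_left, B_smul_right, frobq_apply]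
    linear_combination h

theorem u_two_dom (G : Geo P) (h6 : 6 ≤ finrank F V) {ω : F} (hω : ω ^ 2 + ω + 1 = 0) {x y : P.EG}
    {c : P.EG ⧸ Subgroup.center P.EG} (H : Hyp (pr x) (pr y) c) (h0 : tr (rho x * rho y) ≠ 0) :
    (∀ a b, TS P a b → dt P (rho x) a b = 0) ∨ ∀ a b, TS P a b → dt P (rho y) a b = 0 := by
  have h2 := four_two hF
  refine G.dichotomy fun y' c' u a hua => ?_
  obtain ⟨b, z, hb, b1, b2, z1, z2, z3⟩ := exists_third G.nd (u_idx4 h6) hua
  have rel : ∀ y'', IsConj y y'' → dd P (rho x) u a a * dd P (rho y'') u b b + dd P (rho x) u b b * dd P (rho y'') u a a +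
      dd P (rho x) u a b * dd P (rho y'') u b a + dd P (rho x) u b a * dd P (rho y'') u a b = 0 := fun y'' c'' => by
    have := T4_J rfl hua.su (S := {w | ∃ s : F, w = s • a ∨ w = s • b}) (by
        rintro _ ⟨s, rfl | rfl⟩
        · refine ⟨hua.sv.smul _, by simp [hua.vu], ?_⟩
          rintro _ ⟨t, rfl | rfl⟩ <;> simp [hua.sv.B_self, B_swap_zero b2]
        · refine ⟨hb.smul _, by simp [b1], ?_⟩
          rintro _ ⟨t, rfl | rfl⟩ <;> simp [hb.B_self, b2]) (x := x) (y := y'')
      ((AddMonoidHom.mulLeft (-(e2 (rho x * rho y) / frobq hF (tr (rho x * rho y))))).comp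
        ((frobq hF).toAddMonoidHom.comp (tr (F := F) (V := V)).toAddMonoidHom)) 0 (fun w c3 => by
        obtain ⟨t, -, -, h3, h4⟩ := G.inv H (IsConj.refl x) (c''.trans c3)
        have h5 : frobq hF (tr (rho x * rho y)) ≠ 0 := (map_ne_zero _).2 h0
        change _ + -(_ / _) * frobq hF (tr _) = 0
        rw [h3, h4, map_mul (frobq hF), frobq_apply hF t]
        field_simp
        ring) (a := (1 : F) • a) (b := ω • a) (c := (1 : F) • b) (d := ω • b) ⟨_, Or.inl rfl⟩ ⟨_, Or.inl rfl⟩
      ⟨_, Or.inr rfl⟩ ⟨_, Or.inr rfl⟩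
    simp only [bt_smul, frobq_apply, one_pow] at this
    generalize dd P (rho x) u a a = x1, dd P (rho x) u a b = x2, dd P (rho x) u b a = x3, dd P (rho x) u b b = x4,
      dd P (rho y'') u a a = y1, dd P (rho y'') u a b = y2, dd P (rho y'') u b a = y3, dd P (rho y'') u b b = y4 at this ⊢
    linear_combination this - ((ω ^ 2 + ω - 1) * (x1 * y4 + x4 * y1) + (ω ^ 2 - ω + 1) * (x2 * y3 + x3 * y2)) * hω -
      (ω ^ 3 * (x2 + x3) * (y2 + y3) + ω ^ 3 * (x2 * y2 + x3 * y3) - (x2 * y3 + x3 * y2)) * h2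
  have key : ∀ s : F, dd P (rho x) u a a * (s * dd P (rho y') u a b + s ^ 2 * dd P (rho y') u b a +
      s ^ 3 * dd P (rho y') u a a) + (s * dd P (rho x) u a b + s ^ 2 * dd P (rho x) u b a) * dd P (rho y') u a a = 0 :=
    fun s => by
    obtain ⟨h, hh⟩ := exists_shift hua.sv z2 s
    obtain ⟨y'', c'', e⟩ := exists_conj_B h y'
    have r1 := rel y' c'
    have r2 := rel y'' (c'.trans c'')
    have e1 := hh u hua.uv
    have e2 := hh a hua.sv.B_self
    have e3 := hh b b2
    rw [z1, mul_zero, zero_smul, add_zero] at e1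
    rw [z2, mul_zero, zero_smul, add_zero] at e2
    rw [z3, mul_one] at e3
    simp only [dd, e, e1, e2, e3, map_add, map_smul (rho y'), LinearMap.add_apply, B_smul_left, B_smul_right,
      frobq_apply] at r1 r2 ⊢
    linear_combination r2 - r1
  have k1 := key 1
  have k2 := key ω
  have k3 := key (ω ^ 2)
  have e : ∀ z : End F V, dt P z u a = dd P z u a a := fun z => by rw [dt, dd]; ring
  rw [e, e]
  generalize dd P (rho x) u a a = x1, dd P (rho x) u a b = x2, dd P (rho x) u b a = x3,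
    dd P (rho y') u a a = y1, dd P (rho y') u a b = y2, dd P (rho y') u b a = y3 at k1 k2 k3 ⊢
  linear_combination k1 + k2 + k3 - (x1 * y2 + x2 * y1 + (ω ^ 2 - ω + 1) * (x1 * y3 + x3 * y1) +
    (ω - 1) * (ω ^ 3 + 2) * x1 * y1) * hω - x1 * y1 * h2

theorem u_dom (G : Geo P) (h3 : 3 ∣ finrank F V) {y : P.EG} (hy : ¬ Sc (rho y))
    (h : ∀ a b, TS P a b → dt P (rho y) a b = 0) :
    ∃ (l : F) (d : V), l ≠ 0 ∧ d ≠ 0 ∧ P.Sing d ∧ rho y = l • (1 : End F V) + l • rr P d d := by
  obtain ⟨l, k, d, hl, hk, hd, e⟩ := G.domestic hy h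
  have hl0 : l ≠ 0 := left_ne_zero_of_mul_eq_one hl
  have h1 : P.B d d = 0 := by
    have := det_rho y
    obtain ⟨m, hm⟩ := h3
    rw [e, show l • (1 : End F V) + k • rr P d d = l • (1 + (k / l) • rr P d d) by
      rw [smul_add, smul_smul, mul_div_cancel₀ _ hl0], LinearMap.det_smul, det_tv, hm, pow_mul, four_cube hF hl0,
      one_pow, one_mul, add_eq_left] at this
    exact (mul_eq_zero.1 this).resolve_left (div_ne_zero hk hl0)
  obtain ⟨v, hv⟩ := G.nd.exists_eq' hd 1
  have h4 := B_rho y v v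
  simp only [e, LinearMap.add_apply, LinearMap.smul_apply, End.one_apply, rr_apply, hv, one_smul, map_add,
    B_smul_left, B_smul_right, h1, u_swap v d, map_one, frobq_apply] at h4
  rw [frobq_apply] at hl
  have h5 : k = l := mul_left_cancel₀ (mul_ne_zero hk hl0) (by
    linear_combination h4 - P.B v v * hl - k * l ^ 2 * four_two hF)
  exact ⟨l, d, hl0, hd, u_sing_iff.2 h1, by rw [e, h5]⟩

end Cfsg.Agent.AH.Cls
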