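import Cfsg.Agent.AH.JJ

/-!
Products of two conjugacy classes: the Heisenberg group of a unitary space.
-/

set_option autoImplicit false

namespace Cfsg.Agent.AH.Cls

open Module Cfsg.Agent.Polar Cfsg.Agent.Polar.PQ

section Wt

variable {F : Type*} [Field F] {τ : F →+* F}

variable (τ) in
/-- the fixed field -/
abbrev Fx : Type _ := {t : F // τ t = t}

variable (τ) in
/-- polynomial functions of bounded weight on triples from the fixed field -/
def Wt (k : ℕ) : Submodule F (Fx τ × Fx τ × Fx τ → F) :=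
  Submodule.span F {f | ∃ i j l : ℕ, 2 * i + j + l ≤ k ∧ f = fun p => p.1.1 ^ i * p.2.1.1 ^ j * p.2.2.1 ^ l}

theorem Wt_mono {k l : ℕ} (h : k ≤ l) {f : Fx τ × Fx τ × Fx τ → F} (hf : f ∈ Wt τ k) : f ∈ Wt τ l :=
  Submodule.span_mono (by rintro _ ⟨i, j, m, h1, rfl⟩; exact ⟨i, j, m, h1.trans h, rfl⟩) hf

theorem Wt_mul {k l : ℕ} {f g : Fx τ × Fx τ × Fx τ → F} (hf : f ∈ Wt τ k) (hg : g ∈ Wt τ l) :
    (fun p => f p * g p) ∈ Wt τ (k + l) := by
  have := Submodule.mul_mem_mul hf hg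
  rw [Wt, Wt, Submodule.span_mul_span] at this
  refine Submodule.span_mono ?_ this
  rintro _ ⟨_, ⟨i, j, m, h1, rfl⟩, _, ⟨i', j', m', h2, rfl⟩, rfl⟩
  exact ⟨i + i', j + j', m + m', by omega, by ext p; simp only [Pi.mul_apply]; ring⟩

theorem Wt_conj {k : ℕ} {f : Fx τ × Fx τ × Fx τ → F} (hf : f ∈ Wt τ k) : (fun p => τ (f p)) ∈ Wt τ k := by
  induction hf using Submodule.span_induction with
  | mem f hf =>
    obtain ⟨i, j, m, h1, rfl⟩ := hf
    exact Submodule.subset_span ⟨i, j, m, h1, by ext p; simp [p.1.2, p.2.1.2, p.2.2.2]⟩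
  | zero => simp only [Pi.zero_apply, map_zero]; exact zero_mem _
  | add f g _ _ h1 h2 => simp only [Pi.add_apply, map_add]; exact add_mem h1 h2
  | smul a f _ h1 => simp only [Pi.smul_apply, smul_eq_mul, map_mul]; exact Submodule.smul_mem _ (τ a) h1

theorem Wt_const (c : F) : (fun _ => c) ∈ Wt τ 0 := by
  have : (fun _ => (1 : F)) ∈ Wt τ 0 := Submodule.subset_span ⟨0, 0, 0, le_rfl, by simp⟩
  convert Submodule.smul_mem _ c this using 1
  ext; simp

theorem Wt_1 : (fun p => p.1.1) ∈ Wt τ 2 := Submodule.subset_span ⟨1, 0, 0, le_rfl, by simp⟩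

theorem Wt_2 : (fun p => p.2.1.1) ∈ Wt τ 1 := Submodule.subset_span ⟨0, 1, 0, le_rfl, by simp⟩

theorem Wt_3 : (fun p => p.2.2.1) ∈ Wt τ 1 := Submodule.subset_span ⟨0, 0, 1, le_rfl, by simp⟩

theorem Wt_add {k : ℕ} {f g : Fx τ × Fx τ × Fx τ → F} (hf : f ∈ Wt τ k) (hg : g ∈ Wt τ k) :
    (fun p => f p + g p) ∈ Wt τ k := add_mem hf hg

theorem Wt_sub {k : ℕ} {f g : Fx τ × Fx τ × Fx τ → F} (hf : f ∈ Wt τ k) (hg : g ∈ Wt τ k) :
    (fun p => f p - g p) ∈ Wt τ k := sub_mem hf hg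

theorem Wt_mul_const {k l : ℕ} (h : k ≤ l) {f : Fx τ × Fx τ × Fx τ → F} (hf : f ∈ Wt τ k) (c : F) :
    (fun p => f p * c) ∈ Wt τ l := Wt_mono (k := k + 0) h (Wt_mul hf (Wt_const c))

theorem Wt_sum {ι : Type*} [Fintype ι] (x : ι → Fx τ) (w : ι → F) (m : ℕ) (h : ∀ a < m, ∑ i, w i * (x i).1 ^ a = 0)
    {k : ℕ} (hk : k < 4 * m) {f : Fx τ × Fx τ × Fx τ → F} (hf : f ∈ Wt τ k) :
    ∑ i, ∑ j, ∑ l, w i * w j * w l * f (x i, x j, x l) = 0 := by
  induction hf using Submodule.span_induction with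
  | mem f hf =>
    obtain ⟨a, b, c, h1, rfl⟩ := hf
    have : ∑ i, ∑ j, ∑ l, w i * w j * w l * ((x i).1 ^ a * (x j).1 ^ b * (x l).1 ^ c) =
        (∑ i, w i * (x i).1 ^ a) * ((∑ i, w i * (x i).1 ^ b) * ∑ i, w i * (x i).1 ^ c) := by
      rw [Finset.sum_mul_sum _ _ (fun i => w i * (x i).1 ^ b), Finset.sum_mul]
      simp only [Finset.mul_sum]
      refine Finset.sum_congr rfl fun i _ => Finset.sum_congr rfl fun j _ => Finset.sum_congr rfl fun l _ => by ring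
    rw [this]
    by_cases ha : a < m
    · rw [h a ha, zero_mul]
    by_cases hb : b < m
    · rw [h b hb, zero_mul, mul_zero]
    · rw [h c (by omega), mul_zero, mul_zero]
  | zero => simp
  | add f g _ _ h1 h2 => simp only [Pi.add_apply, mul_add, Finset.sum_add_distrib, h1, h2, add_zero]
  | smul a f _ h1 =>
    have := congrArg (a * ·) h1
    simp only [Finset.mul_sum, mul_zero] at this
    rw [← this]
    exact Finset.sum_congr rfl fun i _ => Finset.sum_congr rfl fun j _ => Finset.sum_congr rfl fun l _ => by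
      simp only [Pi.smul_apply, smul_eq_mul]; ring

/-- the central coordinate of the Heisenberg group -/
def hc (c0 θ s : F) (p : Fx τ × Fx τ × Fx τ) : F :=
  (p.2.1.1 + p.2.2.1 * θ) * (p.2.1.1 + p.2.2.1 * τ θ) * c0 + p.1.1 * s

theorem Wt_ha (θ : F) : (fun p => p.2.1.1 + p.2.2.1 * θ) ∈ Wt τ 1 := Wt_add Wt_2 (Wt_mul_const le_rfl Wt_3 θ)

theorem Wt_hc (c0 θ s : F) : hc c0 θ s ∈ Wt τ 2 :=
  Wt_add (Wt_mul_const le_rfl (Wt_mul (Wt_ha θ) (Wt_ha (τ θ))) c0) (Wt_mul_const le_rfl Wt_1 s)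

end Wt

variable {F : Type*} [Field F] [Fintype F] {q : ℕ} {hF : Fintype.card F = q ^ 2}
variable {V : Type*} [AddCommGroup V] [Module F V] {P : PQ (uFP hF) V} [FiniteDimensional F V]

open Forms

theorem u_geo0 (hP : P.ND) (h3 : 3 ≤ finrank F V) : Geo0 P where
  nd := hP
  rich := u_rich
  hyp := by
    obtain ⟨e, he0, he⟩ := u_exists_sing P (by omega)
    exact ⟨e, hP.exists_hyp he he0⟩
  vt := u_vTrans hP h3

omit [FiniteDimensional F V] in
theorem u_sc_of_diag (G : Geo0 P) {z : End F V} (h : ∀ u, P.Sing u → P.B (z u) u = 0) : Sc z := by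
  obtain ⟨s, hs, hs0⟩ := u_exists_lam hF
  have hs' : frobq hF s = -s := eq_neg_of_add_eq_zero_right hs
  have k1 : ∀ e u, P.Hyp e u → P.B (z e) u = P.B (z u) e := fun e u heu => by
    have := h _ ((sing_iff_of_QEq (QEq.add_sing heu.left heu.right s)).2 (by simpa [heu.pair, hs'] using hs))
    simp only [map_add, map_smul, LinearMap.add_apply, LinearMap.smul_apply, B_smul_right, h e heu.left,
      h u heu.right, hs', smul_eq_mul] at this
    exact mul_left_cancel₀ hs0 (by linear_combination -this)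
  obtain ⟨e, f, hef⟩ := G.hyp
  refine sc_iff.2 (sc_of_eigen_aux hef (Or.inl ⟨s, hs, hs0⟩) LinearMap.id z Function.injective_id fun a ha => ?_)
  by_cases ha0 : a = 0
  · simp [ha0]
  obtain ⟨b, hab⟩ := G.nd.exists_hyp ha ha0
  have k2 : ∀ w ∈ P.perp {a, b}, P.B (z a) w = P.B (z w) a := fun w hw => by
    have := k1 a ((-P.Q w) • a + w + (1 : F) • b) ⟨ha, (hab.QEq_combo hw (QEq.self w) _ _).congr (by simp), by
      simp [ha.B_self, hab.pair, B_swap_zero (mem_perp_pair.1 hw).1]⟩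
    simp only [map_add, map_smul, LinearMap.add_apply, LinearMap.smul_apply, B_smul_right, h a ha, k1 a b hab,
      map_one, smul_eq_mul] at this
    linear_combination this
  refine Submodule.mem_span_singleton.2 ⟨_, (hab.eq_smul_of_perp G.nd (h a ha) fun w hw => ?_).symm⟩
  obtain ⟨θ, hθ⟩ := exists_frobq_ne hF
  have := k2 _ (Submodule.smul_mem _ θ hw)
  rw [map_smul z, B_smul_left, B_smul_right, ← k2 w hw] at this
  exact (mul_eq_zero.1 (by linear_combination this)).resolve_left (sub_ne_zero.2 hθ)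

theorem u_heis (G : Geo0 P) (h3 : 3 ≤ finrank F V) (x y : P.EG) {u : V} (hu : P.Sing u) (hu0 : u ≠ 0) (c0 θ : F)
    {s : F} (hs : s ∈ (uFP hF).Λ) : ∃ T : Fx (frobq hF) × Fx (frobq hF) × Fx (frobq hF) → F,
      (∀ p, ∃ y', IsConj y y' ∧ T p = tr (rho x * rho y')) ∧
      (fun p => T p - hc c0 θ s p * frobq hF (hc c0 θ s p) * (P.B (rho x u) u * P.B (rho y u) u)) ∈
        Wt (frobq hF) 3 := by
  obtain ⟨f, hf⟩ := G.nd.exists_hyp hu hu0
  have : Nontrivial (P.perp {u, f}) := Module.nontrivial_of_finrank_pos (R := F) (by have := hf.finrank_perp; omega)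
  obtain ⟨w, hw⟩ := u_exists_QEq (hf.emb.nd G.nd) c0
  have hok : P.EOk u w c0 := ⟨hu, (mem_perp_pair.1 w.2).1, hw⟩
  obtain ⟨A, hA⟩ : ∃ A, A = rr P w u := ⟨_, rfl⟩
  obtain ⟨B, hB⟩ : ∃ B, B = rr P u w := ⟨_, rfl⟩
  obtain ⟨C, hC⟩ : ∃ C, C = rr P u u := ⟨_, rfl⟩
  obtain ⟨t0, t1, t2, t3, t4, t5, t6, t7, t8, t9, t10, t11, ht⟩ : ∃ t0 t1 t2 t3 t4 t5 t6 t7 t8 t9 t10 t11 : F,
      ∀ a a' c c' : F, tr (rho x * ((1 + (a • A - a' • B - c • C)) * rho y * (1 + (-(a • A) + a' • B - c' • C)))) -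
        c * c' * tr (rho x * (C * (rho y * C))) = t0 + a * t1 + a' * t2 + c * t3 + c' * t4 + a * a * t5 +
          a * a' * t6 + a' * a' * t7 + a * c * t8 + a * c' * t9 + a' * c * t10 + a' * c' * t11 :=
    ⟨tr (rho x * rho y), tr (rho x * (A * rho y)) - tr (rho x * (rho y * A)),
      tr (rho x * (rho y * B)) - tr (rho x * (B * rho y)), -tr (rho x * (C * rho y)), -tr (rho x * (rho y * C)),
      -tr (rho x * (A * (rho y * A))), tr (rho x * (A * (rho y * B))) + tr (rho x * (B * (rho y * A))),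
      -tr (rho x * (B * (rho y * B))), tr (rho x * (C * (rho y * A))), -tr (rho x * (A * (rho y * C))),
      -tr (rho x * (C * (rho y * B))), tr (rho x * (B * (rho y * C))), fun a a' c c' => by
      simp only [mul_add, add_mul, mul_sub, sub_mul, mul_neg, smul_mul_assoc, mul_smul_comm, map_add, map_sub,
        map_neg, map_smul, one_mul, mul_one, mul_assoc, smul_eq_mul]
      ring⟩
  have hC' : tr (rho x * (C * (rho y * C))) = P.B (rho x u) u * P.B (rho y u) u := by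
    rw [hC, mul_rr, rr_mul_rr, mul_smul_comm, mul_rr, map_smul, tr_rr, smul_eq_mul, mul_comm]
  refine ⟨fun p => tr (rho x * ((1 + ((p.2.1.1 + p.2.2.1 * θ) • A - (p.2.1.1 + p.2.2.1 * frobq hF θ) • B -
    hc c0 θ s p • C)) * rho y * (1 + (-((p.2.1.1 + p.2.2.1 * θ) • A) + (p.2.1.1 + p.2.2.1 * frobq hF θ) • B -
      frobq hF (hc c0 θ s p) • C)))), fun p => ?_, ?_⟩
  · have e1 : frobq hF (p.2.1.1 + p.2.2.1 * θ) = p.2.1.1 + p.2.2.1 * frobq hF θ := by
      rw [map_add, map_mul, p.2.1.2, p.2.2.2]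
    have h1 := (hok.smul_right (p.2.1.1 + p.2.2.1 * θ)).add_lam (u_lam_mul hs p.1.2)
    rw [e1] at h1
    change P.EOk _ _ (hc c0 θ s p) at h1
    refine ⟨_, isConj_mk (eg u ((p.2.1.1 + p.2.2.1 * θ) • w) (hc c0 θ s p)) y, ?_⟩
    rw [map_mul rho, map_mul rho, eg_inv h1, rho_eg h1, rho_eg h1.neg, ← neg_smul, rr_smul_left, rr_smul_left, rr_smul_right,
      rr_smul_right, map_neg, e1, hA, hB, hC]
    simp only [uFP_eps, one_smul, one_mul, neg_smul, sub_neg_eq_add]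
  · simp only [← hC', ht]
    have a1 := Wt_ha (τ := frobq hF) θ
    have a2 := Wt_ha (τ := frobq hF) (frobq hF θ)
    have a3 := Wt_hc (τ := frobq hF) c0 θ s
    have a4 := Wt_conj a3
    exact Wt_add (Wt_add (Wt_add (Wt_add (Wt_add (Wt_add (Wt_add (Wt_add (Wt_add (Wt_add (Wt_add
      (Wt_mono (by omega) (Wt_const _)) (Wt_mul_const (by omega) a1 _)) (Wt_mul_const (by omega) a2 _))
      (Wt_mul_const (by omega) a3 _)) (Wt_mul_const (by omega) a4 _)) (Wt_mul_const (by omega) (Wt_mul a1 a1) _))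
      (Wt_mul_const (by omega) (Wt_mul a1 a2) _)) (Wt_mul_const (by omega) (Wt_mul a2 a2) _))
      (Wt_mul_const (by omega) (Wt_mul a1 a3) _)) (Wt_mul_const (by omega) (Wt_mul a1 a4) _))
      (Wt_mul_const (by omega) (Wt_mul a2 a3) _)) (Wt_mul_const (by omega) (Wt_mul a2 a4) _)

theorem u_absurd (G : Geo0 P) {x y : P.EG} (hx : ¬ Sc (rho x)) (hy : ¬ Sc (rho y))
    (h : ∀ y', IsConj y y' → ∀ u, P.Sing u → u ≠ 0 → P.B (rho x u) u * P.B (rho y' u) u = 0) : False := by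
  have k : ∀ z : P.EG, ¬ Sc (rho z) → ∃ u, P.Sing u ∧ u ≠ 0 ∧ P.B (rho z u) u ≠ 0 := fun z hz => by
    by_contra h1
    push Not at h1
    exact hz (u_sc_of_diag G fun u hu => by
      by_cases h0 : u = 0
      · simp [h0]
      · exact h1 u hu h0)
  obtain ⟨u, h1, h2, h3⟩ := k x hx
  obtain ⟨v, h4, h5, h6⟩ := k y hy
  obtain ⟨y', c', e⟩ := G.conj_vec h1 h4 h2 h5 y
  exact mul_ne_zero h3 h6 (e ▸ h y' c' u h1 h2)

theorem u_big (G : Geo0 P) (h3 : 3 ≤ finrank F V) (hq : q ≠ 2) {x y : P.EG} {c : P.EG ⧸ Subgroup.center P.EG}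
    (H : Hyp (pr x) (pr y) c) (hx : ¬ Sc (rho x)) (hy : ¬ Sc (rho y)) : False := by
  obtain ⟨s, hs, hs0⟩ := u_exists_lam hF
  have hs' : frobq hF s = -s := eq_neg_of_add_eq_zero_right hs
  obtain ⟨c0, θ, h1, h2⟩ : ∃ c0 θ : F, (frobq hF c0 - c0) ^ 2 - 2 * (c0 * frobq hF c0) ≠ 0 ∧
      (θ + frobq hF θ) ^ 2 + 2 * (θ * frobq hF θ) ≠ 0 := by
    by_cases h2 : (2 : F) = 0
    · obtain ⟨θ, hθ⟩ := exists_frobq_ne hF
      refine ⟨θ, θ, by simpa [h2] using sub_ne_zero.2 hθ, ?_⟩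
      rw [h2, zero_mul, add_zero]
      exact pow_ne_zero _ fun h => hθ (by linear_combination h - θ * h2)
    · exact ⟨1, s, by simpa using h2, by simpa [hs', hs0] using h2⟩
  obtain ⟨t, ht, ht0, ht1⟩ := exists_fixed_ne hF hq
  refine u_absurd G hx hy fun y' c' u hu hu0 => ?_
  obtain ⟨T, hT, hW⟩ := u_heis G h3 x y' hu hu0 c0 θ hs
  obtain ⟨Z, hZ⟩ : ∃ Z, Z = P.B (rho x u) u * P.B (rho y' u) u := ⟨_, rfl⟩
  rw [← hZ] at hW ⊢
  have a1 := Wt_mul (Wt_hc (τ := frobq hF) c0 θ s) (Wt_conj (Wt_hc (τ := frobq hF) c0 θ s))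
  have a2 := Wt_mul_const (k := 2 + 2) (l := 4) le_rfl a1 Z
  have b1 := Wt_mul a2 (Wt_conj hW)
  have b2 := Wt_mul hW (Wt_conj (Wt_add (Wt_mono (by omega : 3 ≤ 4) hW) a2))
  have b3 := Wt_const (τ := frobq hF) (tr (rho x * rho y) * frobq hF (tr (rho x * rho y)))
  have a4 := Wt_sub (Wt_sub (Wt_mono (by omega : 0 ≤ 7) b3) (Wt_mono (by omega : 3 + 4 ≤ 7) b2))
    (Wt_mono (by omega : 4 + 3 ≤ 7) b1)
  have a5 : (fun p => (hc c0 θ s p * (hc (frobq hF c0) θ (-s) p)) ^ 2 * (Z * frobq hF Z)) ∈ Wt (frobq hF) 7 := by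
    convert a4 using 2 with p
    obtain ⟨y'', c'', e⟩ := hT p
    obtain ⟨r, r1, -, r2, -⟩ := G.inv H (IsConj.refl x) (c'.trans c'')
    have e1 : frobq hF (hc c0 θ s p) = hc (frobq hF c0) θ (-s) p := by
      simp only [hc, map_add, map_mul, p.1.2, p.2.1.2, p.2.2.2, frobq_frobq, hs']; ring
    have e2 : frobq hF (hc (frobq hF c0) θ (-s) p) = hc c0 θ s p := by rw [← e1, frobq_frobq]
    simp only [sub_add_cancel, map_sub, map_mul, e, r2, e1, e2]
    linear_combination (tr (rho x * rho y) * frobq hF (tr (rho x * rho y))) * r1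
  have a6 := Wt_sum ![⟨0, map_zero _⟩, ⟨1, map_one _⟩, ⟨t, ht⟩] ![1 - t, t, -1] 2 (fun a ha => by
    interval_cases a <;> simp [Fin.sum_univ_three]) (by omega) a5
  simp only [Fin.sum_univ_three, hc, Matrix.cons_val_zero, Matrix.cons_val_one, Matrix.cons_val_two,
    Matrix.head_cons, Matrix.tail_cons] at a6
  have a7 : (t * (1 - t)) ^ 3 * s ^ 2 * ((frobq hF c0 - c0) ^ 2 - 2 * (c0 * frobq hF c0)) *
      ((θ + frobq hF θ) ^ 2 + 2 * (θ * frobq hF θ)) * (Z * frobq hF Z) = 0 := by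
    generalize frobq hF c0 = c1, frobq hF θ = θ1, Z * frobq hF Z = Z1 at a6 ⊢
    linear_combination a6
  exact (mul_eq_zero.1 ((mul_eq_zero.1 a7).resolve_left (mul_ne_zero (mul_ne_zero (mul_ne_zero
    (pow_ne_zero _ (mul_ne_zero ht0 (sub_ne_zero.2 ht1.symm))) (pow_ne_zero _ hs0)) h1) h2))).elim id
      fun h => (map_eq_zero _).1 h

theorem u_const (G : Geo0 P) (h3 : 3 ≤ finrank F V) (h2 : (2 : F) = 0) {x y : P.EG}
    (H : ∀ y', IsConj y y' → tr (rho x * rho y') = tr (rho x * rho y)) (hx : ¬ Sc (rho x)) (hy : ¬ Sc (rho y)) :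
    False := by
  obtain ⟨θ, hθ⟩ := exists_frobq_ne hF
  refine u_absurd G hx hy fun y' c' u hu hu0 => ?_
  obtain ⟨T, hT, hW⟩ := u_heis G h3 x y' hu hu0 θ θ (s := 1) (by rw [mem_uFP_lam, map_one]; linear_combination h2)
  obtain ⟨Z, hZ⟩ : ∃ Z, Z = P.B (rho x u) u * P.B (rho y' u) u := ⟨_, rfl⟩
  rw [← hZ] at hW ⊢
  have a4 := Wt_sub (Wt_mono (by omega) (Wt_const (tr (rho x * rho y)))) hW
  have a5 : (fun p => hc θ θ 1 p * (hc (frobq hF θ) θ 1 p) * Z) ∈ Wt (frobq hF) 3 := by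
    convert a4 using 2 with p
    obtain ⟨y'', c'', e⟩ := hT p
    have e1 : frobq hF (hc θ θ 1 p) = hc (frobq hF θ) θ 1 p := by
      simp only [hc, map_add, map_mul, p.1.2, p.2.1.2, p.2.2.2, frobq_frobq, map_one]; ring
    rw [e, H _ (c'.trans c''), e1]
    ring
  have a6 := Wt_sum ![⟨0, map_zero _⟩, ⟨1, map_one _⟩] ![-1, 1] 1 (fun a ha => by
    interval_cases a; simp [Fin.sum_univ_two]) (by omega) a5
  simp only [Fin.sum_univ_two, hc, Matrix.cons_val_zero, Matrix.cons_val_one] at a6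
  have a7 : (θ + frobq hF θ) ^ 2 * Z = 0 := by linear_combination a6
  exact (mul_eq_zero.1 a7).resolve_left (pow_ne_zero _ fun h => hθ (by linear_combination h - θ * h2))

end Cfsg.Agent.AH.Cls
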