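import Cfsg.Agent.AH.VF4a

/-! Commutator checks for the module of dimension 26 for type F4. -/

set_option autoImplicit false

namespace Cfsg.Agent.AH

open Cfsg.Lie Cfsg.Lie.ChevalleyDatum Cfsg.Agent.Chev Matrix

namespace VM

theorem ccF4_6 : allLt 6 (fun k => ccF4 (36 + k)) = true := by decide +kernel

theorem ccF4_7 : allLt 6 (fun k => ccF4 (42 + k)) = true := by decide +kernel

end VM

end Cfsg.Agent.AH
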