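import Cfsg.Agent.AH.VF4b
import Cfsg.Agent.AH.VF4c
import Cfsg.Agent.AH.VF4d
import Cfsg.Agent.AH.VF4e

/-! The module of dimension 26 for type F4. -/

set_option autoImplicit false

namespace Cfsg.Agent.AH

open Cfsg.Lie Cfsg.Lie.ChevalleyDatum Cfsg.Agent.Chev Matrix

namespace VM

theorem ccF4_all (r : ℕ) (h : r < 48) : ccF4 r = true := by
  obtain ⟨c, k, hc, hk, rfl⟩ : ∃ c k, c < 8 ∧ k < 6 ∧ r = 6 * c + k :=
    ⟨r / 6, r % 6, by omega, by omega, by omega⟩
  interval_cases c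
  · exact allLt_spec ccF4_0 k hk
  · exact allLt_spec ccF4_1 k hk
  · exact allLt_spec ccF4_2 k hk
  · exact allLt_spec ccF4_3 k hk
  · exact allLt_spec ccF4_4 k hk
  · exact allLt_spec ccF4_5 k hk
  · exact allLt_spec ccF4_6 k hk
  · exact allLt_spec ccF4_7 k hk

theorem nF4 : ∀ r s : Fin 48, lenF4 s = 1 → rfF4 r s < 48 ∧
    (∀ i : Fin 4, rcF4 (rfF4 r s) i = rcF4 s i - chevF4.pairing r s * rcF4 r i) ∧
    nChk colF4 r r.rev (ixF4 (rfF4 r s)) (ixF4 s) (-chevF4.pairing r s).toNat (chevF4.pairing r s).toNat = true := by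
  decide +kernel

theorem colwtF4 : ∀ (r : Fin 48) (k : Fin 2) b, ∀ p ∈ colF4 r (k + 1) b, ∀ i : Fin 4,
    wtF4 p.1 i = wtF4 b i + (k + 1) * rcF4 r i := by decide +kernel

theorem ominvF4 : ∀ (r : Fin 48) (k : Fin 2) a b, ((colF4 r (k + 1) a).map fun p => p.2 * omF4 p.1 b).sum =
    (-1) ^ (k.val + 1) * ((colF4 r (k + 1) b).map fun p => p.2 * omF4 a p.1).sum := by decide +kernel

theorem miscF4 : (∀ s : Fin 48, lenF4 s = 1 → (∀ i : Fin 4, wtF4 (ixF4 s) i = rcF4 s i) ∧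
      ∀ b, omF4 (ixF4 s) b = if b = ixF4 s.rev then epsF4 s else 0) ∧
    (∀ a, (lenF4 (rtF4 a) = 1 ∧ ixF4 (rtF4 a) = a) ∨ ∀ i : Fin 4, wtF4 a i = 0) ∧
    (∀ a b, omF4 a b = omF4 b a) ∧ ∀ s : Fin 48, epsF4 s = 1 ∨ epsF4 s = -1 := by decide +kernel

theorem len_oneF4 {s : Rt chevF4} : certF4.len s = 1 ↔ lenF4 s = 1 := by
  rw [certF4_len]; exact Nat.cast_eq_one

end VM

open VM

/-- the integral module of dimension 26 for type F4 -/
def vF4 : Vmod certF4 26 where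
  col := colF4
  wt a i := wtF4 a i
  ix s := ixF4 s
  Om := omF4
  eps s := epsF4 s
  col_three _ _ _ := rfl
  add_ok := addF4
  comm_ok r s h1 h2 := by
    have h := allLt_spec (ccF4_all r r.2) s s.2
    simp only [bor_eq, band_eq, Nat.beq_eq] at h
    rcases h with h | h | h
    · exact absurd (Fin.ext h) h1
    · exact absurd (Fin.ext (by rw [Fin.val_rev]; change s.val = 48 - (r.val + 1); omega)) h2
    · refine ⟨fun w hw => Nat.blt_eq.mp (allL_spec h.1 w hw), fun b => ?_⟩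
      have := allLt_spec h.2 b b.2
      rwa [Fin.ofNat_val_eq_self] at this
  n_ok r s hs := by
    obtain ⟨h1, h2, h3⟩ := nF4 r s (len_oneF4.1 hs)
    have : certF4.refl r s = ⟨rfF4 r s, h1⟩ := certF4.rc_inj (by
      rw [certF4.rc_refl]; exact funext fun i => (h2 i).symm)
    rw [this]
    exact ⟨_, _, h3⟩
  col_wt := colwtF4
  wt_ix s hs := funext (miscF4.1 s (len_oneF4.1 hs)).1
  ix_or a := (miscF4.2.1 a).imp (fun h => ⟨rtF4 a, len_oneF4.2 h.1, h.2⟩) funext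
  Om_symm := miscF4.2.2.1
  Om_inv := ominvF4
  Om_ix s hs := (miscF4.1 s (len_oneF4.1 hs)).2
  eps_unit := miscF4.2.2.2
  genC := RGD.genC_F4
  cdet := rfl

/-- the module of dimension 26 for type F4 over a finite field -/
noncomputable def mdF4 (F : Type*) [Field F] [Finite F] : Md (certF4.sys F) (Fin 26) := vF4.md F

theorem mdF4_col (F : Type*) [Field F] [Finite F] (r : Rt chevF4) : (mdF4 F).col r = colF4 r := rfl

theorem mdF4_wt (F : Type*) [Field F] [Finite F] (a : Fin 26) (i : Nd chevF4) : (mdF4 F).wt a i = wtF4 a i := rfl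

end Cfsg.Agent.AH
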