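import Cfsg.Agent.AH.Md
import Cfsg.Agent.RGD.Univ

/-! Modules for Chevalley groups given by integer matrices; the Steinberg relations are checked by
an evaluator on lists of terms. -/

set_option autoImplicit false

namespace Cfsg.Agent.AH.VM

open Cfsg.Lie Cfsg.Lie.ChevalleyDatum Cfsg.Agent.Chev Matrix

/-- a term `m T^i U^j e_v` -/
abbrev Tn (n : ℕ) : Type := Fin n × ℤ × ℕ × ℕ

section Ev

variable {n : ℕ} (col : ℕ → ℕ → Fin n → List (Fin n × ℤ))

/-- apply `x_γ(c T^i U^j)` to a term -/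
def app1 (w : Tm) (τ : Tn n) : List (Tn n) :=
  τ :: (((col w.1 1 τ.1).map fun p => (p.1, τ.2.1 * p.2 * w.2.1, τ.2.2.1 + w.2.2.1, τ.2.2.2 + w.2.2.2)) ++
    (col w.1 2 τ.1).map fun p =>
      (p.1, τ.2.1 * p.2 * (w.2.1 * w.2.1), τ.2.2.1 + 2 * w.2.2.1, τ.2.2.2 + 2 * w.2.2.2))

/-- apply a word -/
def appW (W : List Tm) (L : List (Tn n)) : List (Tn n) := W.foldr (fun w L => L.flatMap (app1 col w)) L

/-- equal keys -/
def keq (σ τ : Tn n) : Bool := Nat.beq σ.1.val τ.1.val && Nat.beq σ.2.2.1 τ.2.2.1 && Nat.beq σ.2.2.2 τ.2.2.2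

/-- all total coefficients vanish -/
def red : ℕ → List (Tn n) → Bool
  | _, [] => true
  | 0, _ :: _ => false
  | k + 1, τ :: L => decide (τ.2.1 + ((L.filter (keq τ)).map fun σ => σ.2.1).sum = 0) &&
      red k (L.filter fun σ => !keq τ σ)

/-- equal values -/
def same (L L' : List (Tn n)) : Bool := red 100 (L ++ L'.map fun τ => (τ.1, -τ.2.1, τ.2.2))

/-- cancel `T U = 1` -/
def nrm (L : List (Tn n)) : List (Tn n) :=
  L.map fun τ => (τ.1, τ.2.1, τ.2.2.1 - τ.2.2.2, τ.2.2.2 - τ.2.2.1)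

/-- check of additivity -/
def addChk (r : ℕ) (b : Fin n) : Bool :=
  same (appW col [(r, 1, 1, 0), (r, 1, 0, 1)] [(b, 1, 0, 0)])
    ((b, 1, 0, 0) :: (((col r 1 b).flatMap fun p => [(p.1, p.2, 1, 0), (p.1, p.2, 0, 1)]) ++
      (col r 2 b).flatMap fun p => [(p.1, p.2, 2, 0), (p.1, 2 * p.2, 1, 1), (p.1, p.2, 0, 2)]))

/-- check of a commutator relation -/
def commChk (r s : ℕ) (W : List Tm) (b : Fin n) : Bool :=
  same (appW col [(r, 1, 1, 0), (s, 1, 0, 1)] [(b, 1, 0, 0)])
    (appW col ((s, 1, 0, 1) :: W) (app1 col (r, 1, 1, 0) (b, 1, 0, 0)))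

/-- check of the action of `n_r` -/
def nChk (r r' : ℕ) (a b : Fin n) (i j : ℕ) : Bool :=
  same (nrm (appW col [(r, 1, 1, 0), (r', -1, 0, 1), (r, 1, 1, 0)] [(b, 1, 0, 0)])) [(a, 1, i, j)] ||
  same (nrm (appW col [(r, 1, 1, 0), (r', -1, 0, 1), (r, 1, 1, 0)] [(b, 1, 0, 0)])) [(a, -1, i, j)]

variable (R : Type*) [CommRing R]

/-- the matrix with the given columns -/
def vX (r k : ℕ) : Matrix (Fin n) (Fin n) R :=
  Matrix.of fun a b => ((col r k b).map fun p => if p.1 = a then (p.2 : R) else 0).sum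

/-- the root elements -/
def xV (r : ℕ) (t : R) : Matrix (Fin n) (Fin n) R := 1 + t • vX col R r 1 + t ^ 2 • vX col R r 2

variable {R}

theorem vX_col (r k : ℕ) (b : Fin n) :
    vX col R r k *ᵥ Pi.single b 1 = ((col r k b).map fun p => (p.2 : R) • Pi.single p.1 1).sum := by
  funext a
  rw [mulVec_single_one, col_apply, vX, of_apply]
  induction col r k b with
  | nil => rfl
  | cons p L ih =>
    rw [List.map_cons, List.sum_cons, ih, List.map_cons, List.sum_cons, Pi.add_apply]
    simp [Pi.single_apply, eq_comm]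

variable {col}

/-- value of a term -/
def evT (T U : R) (τ : Tn n) : Fin n → R := ((τ.2.1 : R) * T ^ τ.2.2.1 * U ^ τ.2.2.2) • Pi.single τ.1 1

/-- value of a list of terms -/
def evL (T U : R) (L : List (Tn n)) : Fin n → R := (L.map (evT T U)).sum

variable {T U : R}

theorem evL_cons (τ : Tn n) (L : List (Tn n)) : evL T U (τ :: L) = evT T U τ + evL T U L := rfl

theorem evL_append (L L' : List (Tn n)) : evL T U (L ++ L') = evL T U L + evL T U L' := by
  simp [evL]

theorem evL_map {α : Type*} (L : List α) (f : α → Tn n) (c : R) (g : α → Fin n → R)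
    (h : ∀ p, evT T U (f p) = c • g p) : evL T U (L.map f) = c • (L.map g).sum := by
  induction L with
  | nil => simp [evL]
  | cons p L ih => rw [List.map_cons, evL_cons, ih, h, List.map_cons, List.sum_cons, smul_add]

theorem evL_flatMap {α : Type*} (L : List α) (f : α → List (Tn n)) (c : R) (g : α → Fin n → R)
    (h : ∀ p, evL T U (f p) = c • g p) : evL T U (L.flatMap f) = c • (L.map g).sum := by
  induction L with
  | nil => simp [evL]
  | cons p L ih => rw [List.flatMap_cons, evL_append, ih, h, List.map_cons, List.sum_cons, smul_add]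

theorem app1_spec (w : Tm) (τ : Tn n) :
    xV col R w.1 (w.2.1 * T ^ w.2.2.1 * U ^ w.2.2.2) *ᵥ evT T U τ = evL T U (app1 col w τ) := by
  rw [app1, evL_cons, evL_append,
    evL_map _ _ ((τ.2.1 : R) * T ^ τ.2.2.1 * U ^ τ.2.2.2 * (w.2.1 * T ^ w.2.2.1 * U ^ w.2.2.2))
      (fun p => (p.2 : R) • Pi.single p.1 1) fun p => by
        simp only [evT, smul_smul, Int.cast_mul]; congr 1; ring,
    evL_map _ _ ((τ.2.1 : R) * T ^ τ.2.2.1 * U ^ τ.2.2.2 * (w.2.1 * T ^ w.2.2.1 * U ^ w.2.2.2) ^ 2)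
      (fun p => (p.2 : R) • Pi.single p.1 1) fun p => by
        simp only [evT, smul_smul, Int.cast_mul]; congr 1; ring,
    ← vX_col, ← vX_col, xV, evT]
  simp only [add_mulVec, mulVec_smul, smul_mulVec, one_mulVec, smul_add, smul_smul, add_assoc]

theorem appW_spec (W : List Tm) (L : List (Tn n)) :
    (W.map fun w => xV col R w.1 (w.2.1 * T ^ w.2.2.1 * U ^ w.2.2.2)).prod *ᵥ evL T U L =
      evL T U (appW col W L) := by
  induction W with
  | nil => simp [appW]
  | cons w W ih =>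
    rw [List.map_cons, List.prod_cons, ← mulVec_mulVec, ih]
    change _ = evL T U ((appW col W L).flatMap (app1 col w))
    induction appW col W L with
    | nil => simp [evL]
    | cons τ L ih => rw [evL_cons, mulVec_add, ih, app1_spec, List.flatMap_cons, evL_append]

theorem evL_filter (p : Tn n → Bool) (L : List (Tn n)) :
    evL T U L = evL T U (L.filter p) + evL T U (L.filter fun σ => !p σ) := by
  induction L with
  | nil => simp [evL]
  | cons τ L ih =>
    cases h : p τ <;> simp only [List.filter_cons, h, evL_cons, Bool.not_true, Bool.not_false, if_true,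
      Bool.false_eq_true, if_false] <;> rw [ih] <;> abel

theorem evL_keq (τ : Tn n) (L : List (Tn n)) (h : ∀ σ ∈ L, keq τ σ = true) :
    evL T U L = evT T U (τ.1, (L.map fun σ => σ.2.1).sum, τ.2.2) := by
  induction L with
  | nil => simp [evL, evT]
  | cons σ L ih =>
    have := h σ List.mem_cons_self
    simp only [keq, Bool.and_eq_true, Nat.beq_eq] at this
    rw [evL_cons, ih fun σ hσ => h σ (List.mem_cons_of_mem _ hσ)]
    simp only [evT, List.map_cons, List.sum_cons, Int.cast_add, add_mul, add_smul, Fin.ext this.1.1, this.1.2, this.2]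

theorem red_spec : ∀ (k : ℕ) (L : List (Tn n)), red k L = true → evL T U L = 0
  | _, [], _ => rfl
  | 0, _ :: _, h => absurd h (by simp [red])
  | k + 1, τ :: L, h => by
    simp only [red, Bool.and_eq_true, decide_eq_true_eq] at h
    rw [evL_cons, evL_filter (keq τ), red_spec k _ h.2, add_zero,
      evL_keq τ _ fun σ hσ => (List.mem_filter.1 hσ).2, evT, evT, ← add_smul, ← add_mul, ← add_mul,
      ← Int.cast_add, h.1]
    simp

theorem same_spec {L L' : List (Tn n)} (h : same L L' = true) : evL T U L = evL T U L' := by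
  have := red_spec (T := T) (U := U) _ _ h
  rw [evL_append, evL_map _ _ (-1) (evT T U) fun p => by simp [evT], neg_one_smul] at this
  exact add_neg_eq_zero.1 this

theorem nrm_spec (h : T * U = 1) (L : List (Tn n)) : evL T U (nrm L) = evL T U L := by
  rw [nrm, evL_map _ _ 1 (evT T U), one_smul, evL]
  intro τ
  rw [one_smul, evT, evT, mul_assoc, mul_assoc]
  congr 2
  rcases le_total τ.2.2.1 τ.2.2.2 with e | e <;> obtain ⟨k, e⟩ := Nat.exists_eq_add_of_le e
  · simp only [e, Nat.add_sub_cancel_left, Nat.sub_add_eq, Nat.sub_self, Nat.zero_sub, pow_add]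
    rw [← mul_assoc, ← mul_pow, h]; simp
  · simp only [e, Nat.add_sub_cancel_left, Nat.sub_add_eq, Nat.sub_self, Nat.zero_sub, pow_add]
    rw [mul_right_comm, ← mul_pow, h]; simp

theorem evL_one (b : Fin n) : evL T U [(b, 1, 0, 0)] = Pi.single b 1 := by simp [evL, evT]

theorem mat_ext {A B : Matrix (Fin n) (Fin n) R} (h : ∀ b, A *ᵥ Pi.single b 1 = B *ᵥ Pi.single b 1) : A = B := by
  ext a b
  simpa using congrFun (h b) a

theorem xV_add {r : ℕ} (h : ∀ b, addChk col r b = true) (t u : R) :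
    xV col R r (t + u) = xV col R r t * xV col R r u := mat_ext fun b => by
  have h1 := appW_spec (col := col) (T := t) (U := u) [(r, 1, 1, 0), (r, 1, 0, 1)] [(b, 1, 0, 0)]
  rw [same_spec (h b), evL_one, evL_cons, evL_append,
    evL_flatMap _ _ (t + u) (fun p => (p.2 : R) • Pi.single p.1 1) fun p => by
      simp only [evL, evT, List.map_cons, List.map_nil, List.sum_cons, List.sum_nil]; module,
    evL_flatMap _ _ ((t + u) ^ 2) (fun p => (p.2 : R) • Pi.single p.1 1) fun p => by
      simp only [evL, evT, List.map_cons, List.map_nil, List.sum_cons, List.sum_nil, Int.cast_mul]; module,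
    ← vX_col, ← vX_col] at h1
  simp only [List.map_cons, List.map_nil, List.prod_cons, List.prod_nil, Int.cast_one, pow_one, pow_zero,
    mul_one, one_mul, evT, one_smul] at h1
  rw [h1, xV]
  simp only [add_mulVec, smul_mulVec, one_mulVec, add_assoc]

theorem xV_zero (r : ℕ) : xV col R r 0 = 1 := by simp [xV]

theorem xV_comm {r s : ℕ} {W : List Tm} (h : ∀ b, commChk col r s W b = true) (t u : R) :
    xV col R r t * xV col R s u =
      xV col R s u * (W.map fun w => xV col R w.1 (w.2.1 * t ^ w.2.2.1 * u ^ w.2.2.2)).prod * xV col R r t :=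
  mat_ext fun b => by
  have h1 := appW_spec (col := col) (T := t) (U := u) [(r, 1, 1, 0), (s, 1, 0, 1)] [(b, 1, 0, 0)]
  rw [same_spec (h b), ← appW_spec, ← app1_spec, evL_one] at h1
  simpa only [evT, List.map_cons, List.map_nil, List.prod_cons, List.prod_nil, Int.cast_one, pow_one, pow_zero,
    mul_one, one_mul, one_smul, mulVec_mulVec] using h1

theorem xV_n {r r' : ℕ} {a b : Fin n} {i j : ℕ} (h : nChk col r r' a b i j = true) (t : Rˣ) :
    ∃ c : Rˣ, (xV col R r t * xV col R r' (-(t⁻¹ : Rˣ)) * xV col R r t) *ᵥ Pi.single b 1 =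
      (c : R) • Pi.single a 1 := by
  have h1 := appW_spec (col := col) (T := (t : R)) (U := (t⁻¹ : Rˣ))
    [(r, 1, 1, 0), (r', -1, 0, 1), (r, 1, 1, 0)] [(b, 1, 0, 0)]
  rw [← nrm_spec t.mul_inv (appW _ _ _), evL_one] at h1
  rcases Bool.or_eq_true_iff.1 h with h | h <;> rw [same_spec h] at h1
  · exact ⟨t ^ i * t⁻¹ ^ j, by simpa [evL, evT, mul_assoc] using h1⟩
  · exact ⟨-(t ^ i * t⁻¹ ^ j), by simpa [evL, evT, mul_assoc] using h1⟩

end Ev

end Cfsg.Agent.AH.VM

namespace Cfsg.Agent.AH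

open Cfsg.Lie Cfsg.Lie.ChevalleyDatum Cfsg.Agent.Chev Matrix VM

/-- an integral module whose nonzero weights are the short roots -/
structure Vmod {D : ChevalleyDatum} (C : Cert D) (n : ℕ) where
  /-- sparse columns of the divided powers -/
  col : ℕ → ℕ → Fin n → List (Fin n × ℤ)
  /-- weights -/
  wt : Fin n → Nd D → ℤ
  /-- basis vector of a short root -/
  ix : Rt D → Fin n
  /-- invariant form -/
  Om : Fin n → Fin n → ℤ
  /-- signs -/
  eps : Rt D → ℤ
  col_three : ∀ r k b, col r (k + 3) b = []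
  add_ok : ∀ (r : Rt D) b, addChk col r b = true
  comm_ok : ∀ r s : Rt D, s ≠ r → s ≠ r.rev → (∀ w ∈ D.commTerms r s, w.1 < D.nroots) ∧
    ∀ b, commChk col r s (D.commTerms r s) b = true
  n_ok : ∀ r s : Rt D, C.len s = 1 → ∃ i j, nChk col r r.rev (ix (C.refl r s)) (ix s) i j = true
  col_wt : ∀ (r : Rt D) (k : Fin 2) b, ∀ p ∈ col r (k + 1) b, ∀ i, wt p.1 i = wt b i + (k + 1) * C.rc r i
  wt_ix : ∀ s, C.len s = 1 → wt (ix s) = C.rc s
  ix_or : ∀ a, (∃ s, C.len s = 1 ∧ ix s = a) ∨ wt a = 0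
  Om_symm : ∀ a b, Om a b = Om b a
  Om_inv : ∀ (r : Rt D) (k : Fin 2) a b, ((col r (k + 1) a).map fun p => p.2 * Om p.1 b).sum =
    (-1) ^ (k.val + 1) * ((col r (k + 1) b).map fun p => p.2 * Om a p.1).sum
  Om_ix : ∀ s, C.len s = 1 → ∀ b, Om (ix s) b = if b = ix s.rev then eps s else 0
  eps_unit : ∀ s, eps s = 1 ∨ eps s = -1
  genC : RGD.GenC D
  cdet : C.cdet = 1

namespace Vmod

variable {D : ChevalleyDatum} {C : Cert D} {n : ℕ} (V : Vmod C n) (F : Type*) [Field F]

/-- root elements as units -/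
def xU (r : ℕ) (t : F) : (Matrix (Fin n) (Fin n) F)ˣ :=
  if h : r < D.nroots then ⟨xV V.col F r t, xV V.col F r (-t),
    by rw [← xV_add (V.add_ok ⟨r, h⟩), add_neg_cancel, xV_zero],
    by rw [← xV_add (V.add_ok ⟨r, h⟩), neg_add_cancel, xV_zero]⟩ else 1

theorem xU_val {r : ℕ} (h : r < D.nroots) (t : F) : (V.xU F r t).val = xV V.col F r t := by
  rw [xU, dif_pos h]

theorem xU_add (r : ℕ) (t u : F) : V.xU F r (t + u) = V.xU F r t * V.xU F r u := by
  by_cases h : r < D.nroots
  · exact Units.ext (by rw [Units.val_mul, V.xU_val F h, V.xU_val F h, V.xU_val F h, xV_add (V.add_ok ⟨r, h⟩)])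
  · simp [xU, h]

/-- the Steinberg system -/
def st : Stein.StSys D F (Matrix (Fin n) (Fin n) F)ˣ where
  x := V.xU F
  x_add := V.xU_add F
  x_out r t h := dif_neg h
  comm r s t u hr hs h1 h2 := by
    obtain ⟨h3, h4⟩ := V.comm_ok ⟨r, hr⟩ ⟨s, hs⟩ (fun e => h1 (congrArg Fin.val e))
      fun e => h2 ((congrArg Fin.val e).trans (C.neg_val ⟨r, hr⟩).symm)
    have h5 : V.xU F r (-t) * V.xU F s u =
        V.xU F s u * ((D.commWord F r s t u).map fun p => V.xU F p.1 p.2).prod * V.xU F r (-t) := by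
      refine Units.ext ?_
      rw [Units.val_mul, Units.val_mul, Units.val_mul, V.xU_val F hr, V.xU_val F hs, xV_comm h4,
        ← Units.coeHom_apply, map_list_prod, commWord_def, List.map_map, List.map_map]
      congr 3
      exact List.map_congr_left fun w hw => (V.xU_val F (h3 w hw) _).symm
    rw [Stein.add_hom_neg (V.xU_add F r)] at h5
    rw [mul_assoc _ _ (V.xU F s u), h5]
    group

variable [Finite F]

/-- the representation -/
noncomputable def rho : D.group F →* Matrix (Fin n) (Fin n) F :=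
  (Units.coeHom _).comp ((V.st F).lift.comp (RGD.scEquivGroup C (K := F) V.genC V.cdet).symm.toMonoidHom)

theorem rho_x (r : Rt D) (t : F) : V.rho F ((C.sys F).x r t) = xV V.col F r t := by
  have : RGD.scEquivGroup C (K := F) V.genC V.cdet (D.scGen F r t) = (C.sys F).x r t :=
    ((RGD.mSys C F).lift_x r t).trans (C.eq_sys_x (RGD.gmat_gx C r t))
  rw [← this, ← V.xU_val F r.2]
  exact congrArg Units.val ((congrArg (V.st F).lift (MulEquiv.symm_apply_apply _ _)).trans ((V.st F).lift_x r t))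

omit [Finite F] in
theorem vX_three (r k : ℕ) : vX V.col F r (k + 3) = 0 := by
  ext a b; simp [vX, V.col_three]

/-- the module over a finite field -/
noncomputable def md : Md (C.sys F) (Fin n) where
  X r k := vX V.col F r k
  ρ := V.rho F
  wt := V.wt
  Ω := Matrix.of fun a b => (V.Om a b : F)
  col r := V.col r
  ρ_x r t := by rw [rho_x, V.vX_three F r 0, smul_zero, add_zero, xV]
  X_wt r k a b h := by
    obtain ⟨p, hp, e⟩ : ∃ p ∈ V.col r (k + 1) b, p.1 = a := by
      by_contra h1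
      refine h (List.sum_eq_zero fun x hx => ?_)
      obtain ⟨p, hp, rfl⟩ := List.mem_map.1 hx
      exact if_neg fun e => h1 ⟨p, hp, e⟩
    have hk : k < 2 := by
      by_contra hk
      obtain ⟨m, rfl⟩ := Nat.exists_eq_add_of_le' (not_lt.1 hk)
      rw [show m + 2 + 1 = m + 3 from rfl, V.col_three] at hp
      cases hp
    funext i
    rw [← e, V.col_wt r ⟨k, hk⟩ b p hp i]
    simp
  Ω_symm := by ext a b; simp [V.Om_symm a b]
  Ω_X r k := by
    by_cases hk : k < 2
    · ext a b
      have h1 := congrArg (Int.cast : ℤ → F) (V.Om_inv r ⟨k, hk⟩ a b)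
      have h2 : ∀ (a : Fin n) (f : Fin n → ℤ), (((V.col r (k + 1) a).map fun p => p.2 * f p.1).sum : ℤ) =
          (fun c => (f c : F)) ⬝ᵥ vX V.col F r (k + 1) *ᵥ Pi.single a 1 := fun a f => by
        rw [vX_col]
        induction V.col r (k + 1) a with
        | nil => simp
        | cons p L ih => simp [← ih]
      rw [Int.cast_mul, h2 a fun c => V.Om c b, h2 b (V.Om a)] at h1
      simpa [mul_apply, dotProduct, mul_comm] using h1
    · obtain ⟨m, rfl⟩ := Nat.exists_eq_add_of_le' (not_lt.1 hk)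
      rw [show m + 2 + 1 = m + 3 from rfl, V.vX_three]
      simp
  col_spec r k b := vX_col _ _ _ _

theorem md_three (r : Rt D) : (V.md F).X r 3 = 0 := V.vX_three F r 0

theorem md_col (r : Rt D) : (V.md F).col r = V.col r := rfl

theorem md_wt : (V.md F).wt = V.wt := rfl

theorem md_Ω (a b : Fin n) : (V.md F).Ω a b = (V.Om a b : F) := rfl

theorem md_Ω_ix {s : Rt D} (h : C.len s = 1) :
    (V.md F).Ω *ᵥ Pi.single (V.ix s) 1 = (V.eps s : F) • Pi.single (V.ix s.rev) 1 := by
  funext b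
  rw [mulVec_single_one, col_apply, md_Ω, V.Om_symm, V.Om_ix s h]
  simp [Pi.single_apply]

omit [Finite F] in
theorem eps_rev {s : Rt D} (h : C.len s = 1) : V.eps s.rev = V.eps s := by
  have h1 := V.Om_ix s h (V.ix s.rev)
  rw [V.Om_symm, V.Om_ix s.rev (by rw [C.len_rev, h]), Fin.rev_rev, if_pos rfl, if_pos rfl] at h1
  exact h1

omit [Finite F] in
theorem eps_sq (s : Rt D) : (V.eps s : F) * V.eps s = 1 := by
  rcases V.eps_unit s with h | h <;> simp [h]

variable {F}

theorem over_ix {m : D.group F} {w : Equiv.Perm (Rt D)} (h : (C.sys F).Over m w) :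
    ∀ s, C.len s = 1 → C.len (w s) = 1 ∧
      ∃ c : Fˣ, (V.md F).ρ m *ᵥ Pi.single (V.ix s) 1 = (c : F) • Pi.single (V.ix (w s)) 1 := by
  refine h.induction (P := fun m w => ∀ s, C.len s = 1 → C.len (w s) = 1 ∧
    ∃ c : Fˣ, (V.md F).ρ m *ᵥ Pi.single (V.ix s) 1 = (c : F) • Pi.single (V.ix (w s)) 1)
    (fun s hs => ⟨hs, 1, by rw [map_one, one_mulVec, Units.val_one, one_smul]; rfl⟩)
    fun r t g w _ ih s hs => ?_
  obtain ⟨h1, c, hc⟩ := ih s hs
  obtain ⟨i, j, h2⟩ := V.n_ok r (w s) h1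
  obtain ⟨d, hd⟩ := xV_n h2 t
  refine ⟨(C.len_refl r _).trans h1, c * d, ?_⟩
  rw [map_mul, ← mulVec_mulVec, hc, mulVec_smul, Sys.n, map_mul, map_mul]
  change (c : F) • (V.rho F _ * V.rho F _ * V.rho F _) *ᵥ _ = _
  rw [rho_x, rho_x, hd, smul_smul]
  rfl

end Vmod

end Cfsg.Agent.AH
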